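import Cfsg.Agent.Lib.Blocks.BlockFusion
import Cfsg.Agent.Lib.Fusion.InnerCriteria

/-!
# Nilpotent blocks through their fusion systems
-/

namespace Cfsg.Lib.Blocks

open Cfsg.Lib.Characters Finset
open Cfsg.FusionSystem (normalizerIn centralizerIn)
open Cfsg.Lib.Fusion (Mor autFun img extN AutP)
open scoped ComplexConjugate Classical

set_option linter.unusedSectionVars false
set_option linter.style.haveILetI false
set_option linter.style.longLine false

universe u

variable {G : Type u} [Group G] [Fintype G] {M : Ideal Cfsg.AlgInt} [M.IsPrime]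
variable {p : ℕ} [Fact p.Prime]
variable {B : Set (IrrCharacter G)} {P : Subgroup G}
variable {e : Set (IrrCharacter (Subgroup.centralizer (P : Set G)))} {F : FusionSystem P}

/-- A power of an element centralizing `Q` with exponent prime to its order. -/
theorem mem_of_pow_mem_regular {H : Subgroup G} {x : G} (hx : ¬ p ∣ orderOf x) (k : ℕ)
    (h : x ^ p ^ k ∈ H) : x ∈ H := by
  obtain ⟨m, hm⟩ : ∃ m, (x ^ p ^ k) ^ m = x :=
    exists_pow_eq_self_of_coprime (Nat.Coprime.pow_left k ((Fact.out : p.Prime).coprime_iff_not_dvd.mpr hx))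
  exact hm ▸ pow_mem h m

theorem pow_pPart_regular (g : G) : ¬ p ∣ orderOf (g ^ p ^ (orderOf g).factorization p) := by
  rw [orderOf_pow' g (pow_ne_zero _ (Fact.out : p.Prime).ne_zero),
    Nat.gcd_eq_right (Nat.ordProj_dvd (orderOf g) p)]
  exact Nat.not_dvd_ordCompl Fact.out (orderOf_pos g).ne'

theorem pow_centralizes_of_nilpotent (hM : IsPModular p M) {Q : Subgroup G}
    {f : Set (IrrCharacter (Subgroup.centralizer (Q : Set G)))} (hnil : IsNilpotentBlock p M B)
    (hf : IsBrauerPairOf p M B Q f) {g : G} (hg : g ∈ pairStab M ⊤ Q f) :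
    g ^ p ^ (orderOf g).factorization p ∈ Subgroup.centralizer (Q : Set G) := by
  have h := Subgroup.pow_mem _ hg (p ^ (orderOf g).factorization p)
  exact hnil.2 Q f hf _ h.2.1 ((stabilizesBlock_iff_cjE hf.1.2 h.2.1).mpr h.2.2) (pow_pPart_regular g)

/-- The system of a nilpotent block acts by `p`-groups. -/
theorem autP_of_nilpotent (hM : IsPModular p M) (hF : IsBlockFusionSystemOn p M B P e F)
    (hnil : IsNilpotentBlock p M B) : AutP F p := by
  intro R φ hφ hi
  obtain ⟨α, hα, hαe⟩ := hφ.exists_aut hi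
  obtain ⟨f, -, hle⟩ := exists_subpair hM hF.1.1.1 hφ.le
  rw [autGroup_eq_stab hM hF hle] at hα
  obtain ⟨g, hg, hgα⟩ := Fusion.mem_autInducedBy_iff.mp hα
  refine ⟨(orderOf g).factorization p, fun x hx => ?_⟩
  have hgφ : ∀ y ∈ R, φ y = g * y * g⁻¹ := fun y hy => (hαe y hy).symm.trans (hgα y hy)
  rw [(Fusion.iterate_conj (fun y hy => (hαe y hy) ▸ Fusion.autFun_mem α hy) hgφ _ x hx).1]
  rw [← Subgroup.mem_centralizer_iff.mp
    (pow_centralizes_of_nilpotent hM hnil (pairOf_of_le hM hF hle) hg) x hx, mul_inv_cancel_right]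

theorem nilpotent_of_inner (hM : IsPModular p M) (hF : IsBlockFusionSystemOn p M B P e F)
    (hin : ∀ Q : Subgroup G, F.Hom Q = (innerFusionSystem P).Hom Q) : IsNilpotentBlock p M B := by
  refine ⟨hF.1.1.2.1, fun Q f hf x hxN hx hreg => ?_⟩
  obtain ⟨y, hy⟩ := exists_conj_le_maximal hM hF.1 hf
  set Q' := Q.map (MulAut.conj y).toMonoidHom
  have hx' : y * x * y⁻¹ ∈ pairStab M ⊤ Q' (conjBlock Q y f) := by
    refine ⟨trivial, (mem_normalizer_map_conj Q y x).mp hxN, ?_⟩
    rw [subE_conjBlock hf.1.2, cjE_cjE, show y * x * y⁻¹ * y = y * x by group, ← cjE_cjE,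
      (stabilizesBlock_iff_cjE hf.1.2 hxN).mp hx]
  have hmem : conjHom Q' (y * x * y⁻¹) ∈ F.Hom Q' :=
    (hF.2 Q' _).mpr ⟨subpairLE_le hy, y * x * y⁻¹, fun u => rfl,
      subpairLE_le (subpairLE_congr_left (conjBlock_eq_self (subpairLE_isBrauerPair hy hF.1.1.1).2 hx').symm hy),
      _, hy, subpairLE_congr_left (conjBlock_eq_self (subpairLE_isBrauerPair hy hF.1.1.1).2 hx').symm hy⟩
  rw [hin Q'] at hmem
  obtain ⟨-, a, ha, hae⟩ := hmem
  have hcen : a⁻¹ * (y * x * y⁻¹) ∈ Subgroup.centralizer (Q' : Set G) :=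
    Subgroup.mem_centralizer_iff.mpr fun u hu => by
      have h1 : y * x * y⁻¹ * u * (y * x * y⁻¹)⁻¹ = a * u * a⁻¹ := hae ⟨u, hu⟩
      calc u * (a⁻¹ * (y * x * y⁻¹)) = a⁻¹ * (a * u * a⁻¹) * (y * x * y⁻¹) := by group
        _ = a⁻¹ * (y * x * y⁻¹ * u * (y * x * y⁻¹)⁻¹) * (y * x * y⁻¹) := by rw [h1]
        _ = a⁻¹ * (y * x * y⁻¹) * u := by group
  obtain ⟨k, hk⟩ := hF.1.1.1.1 ⟨a, ha⟩
  have hk' : a ^ p ^ k = 1 := congrArg Subtype.val hk
  have haN : a ∈ Subgroup.normalizer (Subgroup.centralizer (Q' : Set G) : Set G) := by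
    have h1 := mul_mem (normalizer_le_normalizer_centralizer' Q' hx'.2.1)
      (Subgroup.le_normalizer (inv_mem hcen))
    simpa [mul_assoc] using h1
  -- powers of `a` and `x` agree modulo the centralizer
  have hpow : ∀ n : ℕ, (a ^ n)⁻¹ * (y * x * y⁻¹) ^ n ∈ Subgroup.centralizer (Q' : Set G) := by
    intro n
    induction n with
    | zero => simp
    | succ n ih =>
      have h2 := (Subgroup.mem_normalizer_iff.mp (inv_mem haN) _).mp ih
      have h3 := mul_mem h2 hcen
      simpa [pow_succ, mul_assoc] using h3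
  have h4 := hpow (p ^ k)
  rw [hk', inv_one, one_mul] at h4
  have hord : orderOf (y * x * y⁻¹) = orderOf x := by
    rw [← MulAut.conj_apply]
    exact orderOf_injective (MulAut.conj y).toMonoidHom (MulAut.conj y).injective x
  have h5 := mem_of_pow_mem_regular (p := p) (by rw [hord]; exact hreg) k h4
  exact (mem_centralizer_map_conj Q y x).mpr h5

theorem nilpotent_iff_inner (hM : IsPModular p M) (hF : IsBlockFusionSystemOn p M B P e F) :
    IsNilpotentBlock p M B ↔ ∀ Q : Subgroup G, F.Hom Q = (innerFusionSystem P).Hom Q :=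
  ⟨fun h => (Fusion.autP_iff_hom hF.1.1.1.1 (isSaturated_block hM hF)).mp (autP_of_nilpotent hM hF h),
    nilpotent_of_inner hM hF⟩

/-- With abelian top, a stabilizing element acts as one stabilizing the top pair. -/
theorem exists_extend_abelian (hM : IsPModular p M) (hF : IsBlockFusionSystemOn p M B P e F)
    (hab : ∀ x ∈ P, ∀ y ∈ P, x * y = y * x) {Q : Subgroup G}
    {f : Set (IrrCharacter (Subgroup.centralizer (Q : Set G)))} (hle : SubpairLE p M Q f P e)
    {x : G} (hx : x ∈ pairStab M ⊤ Q f) :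
    ∃ y ∈ pairStab M ⊤ P e, y⁻¹ * x ∈ Subgroup.centralizer (Q : Set G) := by
  have hQP := subpairLE_le hle
  have hPN : ∀ {R : Subgroup G}, R ≤ P → normalizerIn P R = P := fun {R} hR =>
    le_antisymm Fusion.normalizerIn_le fun c hc => Fusion.mem_normalizerIn_iff.mpr ⟨hc, fun u => by
      constructor
      · intro hu
        rwa [hab c hc u (hR hu), mul_inv_cancel_right]
      · intro hu
        have h1 := hR hu
        have huP : u ∈ P := by simpa [mul_assoc] using mul_mem (mul_mem (inv_mem hc) h1) hc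
        rwa [hab c hc u huP, mul_inv_cancel_right] at hu⟩
  have hFN : F.IsFullyNormalized Q := ⟨hQP, fun R hR => by
    rw [hPN hQP, hPN (Fusion.isConj_le_right hR)]⟩
  have hrec := receptive_of_fullyNormalized_block hM hF hFN
  have hfB := (subpairLE_isBrauerPair hle hF.1.1.1).2
  have hmor : Mor F Q (fun u => x * u * x⁻¹) := ⟨conjHom Q x, (hF.2 Q _).mpr
    ⟨hQP, x, fun u => rfl, subpairLE_le (subpairLE_congr_left (conjBlock_eq_self hfB hx).symm hle), f, hle,
      subpairLE_congr_left (conjBlock_eq_self hfB hx).symm hle⟩, fun u => rfl⟩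
  have hi : img Q (fun u => x * u * x⁻¹) = Q := by
    refine le_antisymm (Fusion.img_le fun u hu => (Subgroup.mem_normalizer_iff.mp hx.2.1 u).mp hu)
      fun u hu => ?_
    have h1 : x⁻¹ * u * x ∈ Q := by
      simpa using (Subgroup.mem_normalizer_iff.mp (inv_mem hx.2.1) u).mp hu
    simpa [mul_assoc] using Fusion.mem_img_of_mem (f := fun u => x * u * x⁻¹) h1
  obtain ⟨k, hk, hkx⟩ := (Fusion.isReceptive_iff.mp hrec).2 Q _ hmor hi
  have hN : extN P Q (fun u => x * u * x⁻¹) = P := le_antisymm Fusion.extN_le fun c hc => by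
    refine Fusion.mem_extN.mpr ⟨(hPN hQP).symm ▸ hc, 1, one_mem _, fun u hu => ?_⟩
    rw [hab c hc u (hQP hu)]
    simp
  have hk' : Mor F P k := hk.source_congr hN
  obtain ⟨α, hα, hαe⟩ := hk'.exists_aut
    (hk'.img_eq_of_card_le le_rfl (fun u hu => hk'.mem hu) le_rfl)
  rw [autGroup_eq_stab hM hF (Relation.ReflTransGen.refl : SubpairLE p M P e P e)] at hα
  obtain ⟨y, hy, hyα⟩ := Fusion.mem_autInducedBy_iff.mp hα
  refine ⟨y, hy, Subgroup.mem_centralizer_iff.mpr fun u hu => ?_⟩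
  have h1 : y * u * y⁻¹ = x * u * x⁻¹ := by rw [← hyα u (hQP hu), hαe u (hQP hu), hkx u hu]
  calc u * (y⁻¹ * x) = y⁻¹ * (y * u * y⁻¹) * x := by group
    _ = y⁻¹ * (x * u * x⁻¹) * x := by rw [h1]
    _ = y⁻¹ * x * u := by group

theorem nilpotent_abelian_iff (hM : IsPModular p M) (hmax : IsMaximalBrauerPair p M B P e)
    (hab : ∀ x ∈ P, ∀ y ∈ P, x * y = y * x) :
    IsNilpotentBlock p M B ↔ pairStab M ⊤ P e ≤ Subgroup.centralizer (P : Set G) := by
  obtain ⟨F, hF⟩ := exists_blockFusionSystem hM hmax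
  constructor
  · intro hnil x hx
    have hin := (nilpotent_iff_inner hM hF).mp hnil
    have hself := subpairLE_congr_left (conjBlock_eq_self hmax.1.1.2 hx).symm
      (Relation.ReflTransGen.refl : SubpairLE p M P e P e)
    have hmem : conjHom P x ∈ F.Hom P :=
      (hF.2 P _).mpr ⟨le_rfl, x, fun u => rfl,
        subpairLE_le hself, e, Relation.ReflTransGen.refl, hself⟩
    rw [hin P] at hmem
    obtain ⟨-, a, ha, hae⟩ := hmem
    refine Subgroup.mem_centralizer_iff.mpr fun u hu => ?_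
    have h1 : x * u * x⁻¹ = a * u * a⁻¹ := hae ⟨u, hu⟩
    rw [hab a ha u hu, mul_inv_cancel_right, mul_inv_eq_iff_eq_mul] at h1
    exact h1.symm
  · intro hT
    refine ⟨hmax.1.2.1, fun Q f hf x hxN hx hreg => ?_⟩
    obtain ⟨y, hy⟩ := exists_conj_le_maximal hM hmax hf
    have hx' : y * x * y⁻¹ ∈ pairStab M ⊤ (Q.map (MulAut.conj y).toMonoidHom) (conjBlock Q y f) := by
      refine ⟨trivial, (mem_normalizer_map_conj Q y x).mp hxN, ?_⟩
      rw [subE_conjBlock hf.1.2, cjE_cjE, show y * x * y⁻¹ * y = y * x by group, ← cjE_cjE,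
        (stabilizesBlock_iff_cjE hf.1.2 hxN).mp hx]
    obtain ⟨z, hz, hzc⟩ := exists_extend_abelian hM hF hab hy hx'
    have hzC := Subgroup.centralizer_le (SetLike.coe_subset_coe.mpr (subpairLE_le hy)) (hT hz)
    have := mul_mem hzC hzc
    rw [mul_inv_cancel_left] at this
    exact (mem_centralizer_map_conj Q y x).mpr this

end Cfsg.Lib.Blocks
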