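import Cfsg.Agent.Lib.Blocks.Heights
import Cfsg.Agent.Lib.Blocks.Principal
import Cfsg.Agent.Lib.Characters.Degree

/-!
# Blocks whose defect group is a central `p`-subgroup
-/

namespace Cfsg.Lib.Blocks

open Cfsg.Lib.Characters Finset
open scoped ComplexConjugate Classical

set_option linter.unusedSectionVars false
set_option linter.style.haveILetI false
set_option linter.style.longLine false

universe u

variable {G : Type u} [Group G] [Fintype G] {M : Ideal Cfsg.AlgInt} [M.IsPrime]
variable {p : ℕ} [Fact p.Prime]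

theorem regular_eq_of_div_mem {Z : Subgroup G} (hZc : Z ≤ Subgroup.center G) (hZp : IsPGroup p Z) {a c : G}
    (ha : ¬ p ∣ orderOf a) (hc : ¬ p ∣ orderOf c) (h : a⁻¹ * c ∈ Z) : a = c := by
  obtain ⟨k, hk⟩ := IsPGroup.iff_orderOf.mp hZp ⟨_, h⟩
  rw [Subgroup.orderOf_mk] at hk
  have hcomm : Commute a⁻¹ c := by
    have h1 : a * (a⁻¹ * c) = a⁻¹ * c * a := Subgroup.mem_center_iff.mp (hZc h) a
    rw [mul_inv_cancel_left] at h1
    show a⁻¹ * c = c * a⁻¹
    rw [eq_mul_inv_iff_mul_eq]
    exact h1.symm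
  have hdvd : orderOf (a⁻¹ * c) ∣ orderOf a * orderOf c := by
    have := hcomm.orderOf_mul_dvd_mul_orderOf
    rwa [orderOf_inv] at this
  refine (inv_mul_eq_one.mp (eq_one_of_pPow_regular (p := p) hk fun hd => ?_))
  exact ((Fact.out : p.Prime).dvd_mul.mp (hd.trans hdvd)).elim ha hc

theorem charDegree_le_center_index (χ : IrrCharacter G) {Z : Subgroup G} (hZc : Z ≤ Subgroup.center G) :
    (charDegree (χ : G → ℂ)).factorization p + (Nat.card Z).factorization p
      ≤ (Nat.card G).factorization p := by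
  have h := degree_dvd_index_of_scalar χ.2 Z (d := charDegree (χ : G → ℂ)) (coe_charDegree χ).symm
    fun z hz => norm_eq_of_mem_center χ.2 (coe_charDegree χ).symm (hZc hz)
  rw [← Subgroup.card_mul_index Z, Nat.factorization_mul Nat.card_pos.ne' Subgroup.index_ne_zero_of_finite,
    Finsupp.add_apply, add_comm]
  exact Nat.add_le_add_left
    ((Nat.factorization_le_iff_dvd (charDegree_pos χ).ne' Subgroup.index_ne_zero_of_finite).mpr h p) _

/-- The norm of a character of defect zero modulo `Z` over the regular elements. -/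
theorem sum_regular_norm (hM : IsPModular p M) {Z : Subgroup G} (hZc : Z ≤ Subgroup.center G)
    (hZp : IsPGroup p Z) (θ : IrrCharacter G) (hker : ∀ z ∈ Z, (θ : G → ℂ) z = (θ : G → ℂ) 1)
    (hdeg : (charDegree (θ : G → ℂ)).factorization p + (Nat.card Z).factorization p
      = (Nat.card G).factorization p) :
    ∑ g ∈ (univ.filter fun g : G => ¬ p ∣ orderOf g), (θ : G → ℂ) g⁻¹ * (θ : G → ℂ) g = (Z.index : ℂ) := by
  haveI : Z.Normal := ⟨fun z hz g => by
    rw [Subgroup.mem_center_iff.mp (hZc hz) g, mul_inv_cancel_right]; exact hz⟩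
  obtain ⟨ψ₀, -, hirr, hψ⟩ := exists_of_quotient θ.2.isCharacter hker
  set ψ : IrrCharacter (G ⧸ Z) := ⟨ψ₀, hirr θ.2⟩
  have hcd : charDegree (ψ : G ⧸ Z → ℂ) = charDegree (θ : G → ℂ) :=
    charDegree_eq (by show ψ₀ 1 = _; rw [← QuotientGroup.mk_one, hψ, coe_charDegree])
  have hfac : (charDegree (ψ : G ⧸ Z → ℂ)).factorization p = (Nat.card (G ⧸ Z)).factorization p := by
    rw [hcd, ← Subgroup.index_eq_card]
    rw [← Subgroup.card_mul_index Z, Nat.factorization_mul Nat.card_pos.ne' Subgroup.index_ne_zero_of_finite,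
      Finsupp.add_apply] at hdeg
    omega
  have hsing := blockOf_eq_singleton hM ψ hfac
  have hall : ∑ x : G ⧸ Z, ψ₀ x⁻¹ * ψ₀ x = (Nat.card (G ⧸ Z) : ℂ) := by
    have h3 := classInner_irr_self ψ.2
    simp only [classInner] at h3
    rw [inv_mul_eq_one₀ (Nat.cast_ne_zero.mpr Nat.card_pos.ne')] at h3
    rw [h3]
    refine Finset.sum_congr rfl fun x _ => ?_
    show ψ₀ x⁻¹ * ψ₀ x = ψ₀ x * conj (ψ₀ x)
    rw [← char_inv_eq_conj ψ.2.isCharacter x, mul_comm]
  rw [Subgroup.index_eq_card, ← hall,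
    ← Finset.sum_subset (Finset.subset_univ (univ.filter fun x : G ⧸ Z => ¬ p ∣ orderOf x))
      fun x _ hx => by
        have hx' : p ∣ orderOf x := by simpa using hx
        have := eq_zero_of_defectZero hM ψ hsing hx'
        rw [show ψ₀ x = 0 from this, mul_zero]]
  refine Finset.sum_bij (fun g _ => (g : G ⧸ Z)) (fun g hg => ?_) (fun a ha b hb hab => ?_)
    (fun x hx => ?_) fun g _ => ?_
  · refine Finset.mem_filter.mpr ⟨Finset.mem_univ _, fun hd => (Finset.mem_filter.mp hg).2 (hd.trans ?_)⟩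
    exact orderOf_map_dvd (QuotientGroup.mk' Z) g
  · exact regular_eq_of_div_mem hZc hZp (Finset.mem_filter.mp ha).2 (Finset.mem_filter.mp hb).2
      (QuotientGroup.eq.mp hab)
  · have hxr := (Finset.mem_filter.mp hx).2
    induction x using QuotientGroup.induction_on with
    | _ g =>
      obtain ⟨a, y, hay, hcomm, ⟨k, hk⟩, hy⟩ := exists_pPart_commute (p := p) g
      refine ⟨y, Finset.mem_filter.mpr ⟨Finset.mem_univ _, hy⟩, ?_⟩
      have h1 : (a : G ⧸ Z) = 1 := by
        have hak : orderOf (a : G ⧸ Z) ∣ p ^ k := hk ▸ orderOf_map_dvd (QuotientGroup.mk' Z) a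
        obtain ⟨j, -, hj⟩ := (Nat.dvd_prime_pow (Fact.out : p.Prime)).mp hak
        refine eq_one_of_pPow_regular (p := p) hj fun hd => hxr (hd.trans ?_)
        have e1 : (a : G ⧸ Z) = (g : G ⧸ Z) * (y : G ⧸ Z)⁻¹ := by
          rw [← QuotientGroup.mk_inv, ← QuotientGroup.mk_mul, ← hay, mul_inv_cancel_right]
        have hc2 : Commute (a : G ⧸ Z) (y : G ⧸ Z) := hcomm.map (QuotientGroup.mk' Z)
        have hcop : Nat.Coprime (orderOf (a : G ⧸ Z)) (orderOf (y : G ⧸ Z)) := by
          rw [hj]
          exact Nat.Coprime.pow_left _ ((Fact.out : p.Prime).coprime_iff_not_dvd.mpr fun h =>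
            hy (h.trans (orderOf_map_dvd (QuotientGroup.mk' Z) y)))
        rw [show (g : G ⧸ Z) = (a : G ⧸ Z) * (y : G ⧸ Z) by rw [← QuotientGroup.mk_mul, hay],
          hc2.orderOf_mul_eq_mul_orderOf_of_coprime hcop]
        exact Dvd.intro _ rfl
      rw [← hay, QuotientGroup.mk_mul, h1, one_mul]
  · rw [← QuotientGroup.mk_inv, hψ, hψ]

/-- A block with a character of defect zero modulo the central subgroup `Z` has defect at most `Z`. -/
theorem card_defect_le_of_central (hM : IsPModular p M) {Z : Subgroup G} (hZc : Z ≤ Subgroup.center G)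
    (hZp : IsPGroup p Z) {b : Set (IrrCharacter G)} (hb : IsPBlock M b) {θ : IrrCharacter G} (hθ : θ ∈ b)
    (hker : ∀ z ∈ Z, (θ : G → ℂ) z = (θ : G → ℂ) 1)
    (hdeg : (charDegree (θ : G → ℂ)).factorization p + (Nat.card Z).factorization p
      = (Nat.card G).factorization p)
    {D : Subgroup G} (hD : IsDefectGroup p M b D) : Nat.card D ≤ Nat.card Z := by
  have hidx : (Z.index).factorization p = (charDegree (θ : G → ℂ)).factorization p := by
    rw [← Subgroup.card_mul_index Z, Nat.factorization_mul Nat.card_pos.ne' Subgroup.index_ne_zero_of_finite,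
      Finsupp.add_apply] at hdeg
    omega
  obtain ⟨h1, h2⟩ := natDiv_mem_iff hM (charDegree_pos θ).ne' (Subgroup.index_ne_zero_of_finite (H := Z))
  have hr : ((charDegree (θ : G → ℂ) : ℕ) : ℂ) / (Z.index : ℂ) ∈ locRing M := h1.mpr hidx.le
  set w : MonoidAlgebra ℂ G := gOfFun fun g =>
    if p ∣ orderOf g then 0 else ((charDegree (θ : G → ℂ) : ℕ) : ℂ) / (Z.index : ℂ) * (θ : G → ℂ) g⁻¹ with hwdef
  have hw : w ∈ locCenter G M := by
    refine ⟨isClassElt_gOfFun fun g a => ?_, fun g => ?_⟩
    · have ho : orderOf (g * a * g⁻¹) = orderOf a := by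
        rw [← MulAut.conj_apply]; exact orderOf_injective (MulAut.conj g).toMonoidHom (MulAut.conj g).injective a
      rw [ho, show (g * a * g⁻¹)⁻¹ = g * a⁻¹ * g⁻¹ by group,
        (char_eq_of_isConj θ (isConj_iff.mpr ⟨g, rfl⟩) : (θ : G → ℂ) a⁻¹ = _)]
    · rw [hwdef, coeff_gOfFun]
      split_ifs
      · exact zero_mem _
      · exact mul_mem hr (char_mem_locRing M θ _)
  have hω : omega θ w = 1 := by
    rw [omega, div_eq_one_iff_eq θ.2.one_ne_zero]
    simp only [hwdef, coeff_gOfFun, ite_mul, zero_mul]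
    rw [← Finset.sum_filter_add_sum_filter_not univ (fun g : G => p ∣ orderOf g),
      Finset.sum_eq_zero (fun g hg => if_pos (Finset.mem_filter.mp hg).2), zero_add,
      Finset.sum_congr rfl (fun g hg => if_neg (Finset.mem_filter.mp hg).2)]
    simp only [mul_assoc]
    rw [← Finset.mul_sum, sum_regular_norm hM hZc hZp θ hker hdeg, ← coe_charDegree θ]
    exact div_mul_cancel₀ _ (Nat.cast_ne_zero.mpr Subgroup.index_ne_zero_of_finite)
  obtain ⟨c, hc, hne⟩ := brNe_of_lam_ne_zero hM hb hθ (isClassElt_redG M hw.1)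
    (by rw [lam_redG M θ hw, hω, red_one]; exact one_ne_zero) (isPGroup_defectGroup hD) (brNe_defectGroup hD)
  rw [coeff_redG, hwdef, coeff_gOfFun] at hne
  split_ifs at hne with hreg
  · exact absurd red_zero hne
  rw [red_mul hr (char_mem_locRing M θ _)] at hne
  have h3 := degree_le_of_value_ne hM θ (right_ne_zero_of_mul hne)
  rw [centralizer_inv_singleton] at h3
  have h4 := index_factorization (p := p) c
  have hDc : D ≤ Subgroup.centralizer ({c} : Set G) := mem_centralizer_iff_le.mp hc
  obtain ⟨d, hd⟩ := IsPGroup.iff_card.mp (isPGroup_defectGroup hD)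
  obtain ⟨z, hz⟩ := IsPGroup.iff_card.mp hZp
  have h5 : p ^ d ∣ Nat.card (Subgroup.centralizer ({c} : Set G)) := hd ▸ Subgroup.card_dvd_of_le hDc
  rw [(Fact.out : p.Prime).pow_dvd_iff_le_factorization Nat.card_pos.ne'] at h5
  have h6 : (Nat.card Z).factorization p = z := by
    rw [hz, (Fact.out : p.Prime).factorization_pow, Finsupp.single_eq_same]
  rw [hd, hz]
  refine Nat.pow_le_pow_right (Fact.out : p.Prime).pos ?_
  omega

/-- A block with central defect group has a character trivial on it, of defect zero modulo it. -/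
theorem exists_char_of_central_defect (hM : IsPModular p M) {Z : Subgroup G} (hZc : Z ≤ Subgroup.center G)
    {b : Set (IrrCharacter G)} (hb : IsPBlock M b) (hD : IsDefectGroup p M b Z) :
    ∃ θ ∈ b, (∀ z ∈ Z, (θ : G → ℂ) z = (θ : G → ℂ) 1) ∧
      (charDegree (θ : G → ℂ)).factorization p + (Nat.card Z).factorization p
        = (Nat.card G).factorization p := by
  haveI : Z.Normal := ⟨fun z hz g => by
    rw [Subgroup.mem_center_iff.mp (hZc hz) g, mul_inv_cancel_right]; exact hz⟩
  have hZp := isPGroup_defectGroup hD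
  obtain ⟨c, hc, -⟩ := isDefectGroup_iff.mp hD
  have hne := (exists_defectClass_data hc).2.1
  have hcreg := not_dvd_of_coeff_ne hM hb hne
  set u := blockE b * subSum ℂ Z with hu
  have hucl : IsClassElt u := (isClassElt_blockE b).mul (isClassElt_subSum ℂ Z)
  have huc : u.coeff c = blockCoeff b c := by
    rw [hu, gr_mul_apply, Finset.sum_eq_single c]
    · rw [coeff_blockE, coeff_subSum, inv_mul_cancel, if_pos Z.one_mem, mul_one]
    · intro a _ ha
      rw [coeff_blockE, coeff_subSum]
      split_ifs with h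
      · by_cases hd : p ∣ orderOf a
        · rw [blockCoeff_eq_zero_of_singular hM hb hd, zero_mul]
        · exact absurd (regular_eq_of_div_mem hZc hZp hd hcreg h) ha
      · rw [mul_zero]
    · simp
  obtain ⟨θ, hθ⟩ : ∃ θ, omega θ u ≠ 0 := by
    by_contra hh
    push Not at hh
    have h0 : u = 0 := ext_omega hucl IsClassElt.zero fun χ => by rw [hh, omega_zero]
    apply hne
    rw [← huc, h0]
    simp
  rw [hu, omega_mul θ (isClassElt_blockE b) (isClassElt_subSum ℂ Z), omega_blockE] at hθ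
  have hθb : θ ∈ b := by_contra fun h => hθ (by rw [if_neg h, zero_mul])
  refine ⟨θ, hθb, ker_of_omega_subSum_ne_zero Z (right_ne_zero_of_mul hθ),
    le_antisymm (charDegree_le_center_index θ hZc) ?_⟩
  rw [card_defectGroup hM hb hD, (Fact.out : p.Prime).factorization_pow, Finsupp.single_eq_same,
    blockDefect]
  have := inf_le_factorization p hθb
  omega

end Cfsg.Lib.Blocks
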