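import Cfsg.Agent.Lib.Blocks.InvariantOverSolvable
import Cfsg.Agent.Lib.Blocks.MajorSubsection

/-!
# Invariant characters over a central character, and descent along surjections
-/

namespace Cfsg.Lib.Blocks

open Cfsg.Lib.Characters Finset
open scoped ComplexConjugate Classical

set_option linter.unusedSectionVars false
set_option linter.style.haveILetI false
set_option linter.style.longLine false

universe u v

/-- An irreducible character trivial on the kernel of a surjection descends. -/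
theorem exists_descend_surjective {E G : Type*} [Group E] [Finite E] [Group G] {f : E →* G}
    (hf : Function.Surjective f) {χ : E → ℂ} (hχ : IsIrrCharacter E χ) (hker : ∀ k ∈ f.ker, χ k = χ 1) :
    ∃ F : IrrCharacter G, ∀ x, (F : G → ℂ) (f x) = χ x := by
  obtain ⟨ψ, -, hirr, hψ⟩ := exists_of_quotient hχ.isCharacter hker
  let e := QuotientGroup.quotientKerEquivOfSurjective f hf
  refine ⟨⟨fun g => ψ (e.symm g), isIrrCharacter_comp_surjective (hirr hχ) e.symm.toMonoidHom e.symm.surjective⟩, fun x => ?_⟩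
  show ψ (e.symm (f x)) = χ x
  rw [show f x = e (x : E ⧸ f.ker) from rfl, MulEquiv.symm_apply_apply, hψ]

/-- The product of a character with an invariant central constituent. -/
theorem apply_central_mul {A : Type*} [Group A] [Fintype A] {Z : Subgroup A} [Fintype Z]
    (hZ : Z ≤ Subgroup.center A) (β : IrrCharacter A) (ζ : Z →* ℂˣ)
    (hne : classInner (fun z : Z => (β : A → ℂ) z) (fun z => (ζ z : ℂ)) ≠ 0) (z : Z) (a : A) :
    (β : A → ℂ) ((z : A) * a) = (ζ z : ℂ) * (β : A → ℂ) a := by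
  choose ω hω hωmul using fun z : Z => exists_central_root β (hZ z.2)
  have h1 : (β : A → ℂ) 1 ≠ 0 := β.2.one_ne_zero
  have hval : ∀ z : Z, (β : A → ℂ) z = ω z * (β : A → ℂ) 1 := fun z => by
    have := hωmul z 1; rwa [mul_one] at this
  have hmul : ∀ z w : Z, ω (z * w) = ω z * ω w := fun z w => by
    apply mul_right_cancel₀ h1
    rw [← hval, Subgroup.coe_mul, hωmul, hval, mul_assoc]
  have hne0 : ∀ z : Z, ω z ≠ 0 := fun z h => by
    have := hω z
    rw [h, zero_pow (orderOf_pos (z : A)).ne'] at this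
    exact zero_ne_one this
  let Ω : Z →* ℂˣ := MonoidHom.mk' (fun z => Units.mk0 (ω z) (hne0 z))
    fun z w => Units.ext (hmul z w)
  suffices h : Ω = ζ by
    rw [hωmul, ← h]
    rfl
  by_contra hno
  apply hne
  rw [show (fun z : Z => (β : A → ℂ) z) = (β : A → ℂ) 1 • fun z : Z => (Ω z : ℂ) from
      funext fun z => by rw [hval, mul_comm]; rfl,
    classInner_smul_left, classInner_irr_ne (isIrrCharacter_linear Ω) (isIrrCharacter_linear ζ)
      fun h => hno (MonoidHom.ext fun z => Units.ext (congrFun h z)), mul_zero]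

/-- Invariant irreducible characters over a central character, for coprime actions. -/
theorem exists_invariant_central {A : Type u} [Group A] [Fintype A] {S : Type v} [Group S] [Finite S]
    (φ : S →* MulAut A) (Z : Subgroup A) (hZ : Z ≤ Subgroup.center A) (ζ : Z →* ℂˣ)
    (hfix : ∀ s, ∀ z ∈ Z, φ s z = z) (hcop : Z.index.Coprime (Nat.card S))
    (hsolv : Group.IsSolvable S ∨ ∀ [Z.Normal], Group.IsSolvable (A ⧸ Z)) :
    ∃ β : IrrCharacter A, IsInv φ (β : A → ℂ) ∧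
      ∀ (z : Z) (a : A), (β : A → ℂ) ((z : A) * a) = (ζ z : ℂ) * (β : A → ℂ) a := by
  haveI hZn : Z.Normal := ⟨fun z hz g => by
    rw [(Subgroup.mem_center_iff.mp (hZ hz) g), mul_inv_cancel_right]; exact hz⟩
  haveI := Fintype.ofFinite Z
  rcases hsolv with hS | hA
  swap
  · have hN : ∀ s, ∀ g ∈ Z, φ s g ∈ Z := fun s g hg => by rw [hfix s g hg]; exact hg
    obtain ⟨β, hβ, hne⟩ := exists_invariant_over_of_solvable _ A S φ Z hN ⟨_, isIrrCharacter_linear ζ⟩ rfl hA hcop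
      fun s z => by
        show (ζ (resAct φ Z hN s z) : ℂ) = (ζ z : ℂ)
        rw [show resAct φ Z hN s z = z from Subtype.ext (hfix s z z.2)]
    exact ⟨β, hβ, apply_central_mul hZ β ζ hne⟩
  -- split off the part of `Z` sharing primes with the operator group
  set n := Nat.card Z with hn
  set m := Nat.card S with hm
  set b := n.gcd (m ^ n) with hb
  have hn0 : 0 < n := Nat.card_pos
  have hm0 : 0 < m := Nat.card_pos
  have hbn : b ∣ n := Nat.gcd_dvd_left _ _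
  obtain ⟨a, hab⟩ := hbn
  have hb0 : 0 < b := Nat.gcd_pos_of_pos_left _ hn0
  have ham : a.Coprime m := by
    refine Nat.coprime_of_dvd fun p hp hpa hpm => ?_
    have hv : p ^ (n.factorization p) ∣ b := Nat.dvd_gcd (Nat.ordProj_dvd _ _)
      ((pow_dvd_pow p (Nat.factorization_lt p hn0.ne').le).trans (pow_dvd_pow_of_dvd hpm n))
    have h2 : p ^ (n.factorization p + 1) ∣ n := by
      rw [pow_succ]
      calc p ^ n.factorization p * p ∣ b * a := mul_dvd_mul hv hpa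
        _ = n := hab.symm
    exact Nat.pow_succ_factorization_not_dvd hn0.ne' hp h2
  have hpb : ∀ p, p.Prime → p ∣ b → p ∣ m := fun p hp h =>
    hp.dvd_of_dvd_pow (h.trans (Nat.gcd_dvd_right _ _))
  let f : Z →* A :=
    { toFun := fun z => (z : A) ^ b
      map_one' := by simp
      map_mul' := fun z w => by
        rw [Subgroup.coe_mul]
        exact Commute.mul_pow (Subgroup.mem_center_iff.mp (hZ w.2) z) b }
  set Z₂ : Subgroup A := f.ker.map Z.subtype with hZ₂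
  have hZ₂Z : Z₂ ≤ Z := Subgroup.map_subtype_le _
  haveI hZ₂n : Z₂.Normal := ⟨fun z hz g => by
    rw [(Subgroup.mem_center_iff.mp (hZ (hZ₂Z hz)) g), mul_inv_cancel_right]; exact hz⟩
  have hfa : ∀ x : f.range, (x : A) ^ a = 1 := by
    rintro ⟨_, z, rfl⟩
    show ((z : A) ^ b) ^ a = 1
    rw [← pow_mul, ← hab, ← Subgroup.coe_pow, pow_card_eq_one', Subgroup.coe_one]
  have hcopab : ∀ p, p.Prime → p ∣ m → ¬ p ∣ Nat.card f.range := by
    intro p hp hpm h
    haveI := Fact.mk hp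
    obtain ⟨x, hx⟩ := exists_prime_orderOf_dvd_card' p h
    have h1 : p ∣ a := by
      rw [← hx, ← Subgroup.orderOf_coe]
      exact orderOf_dvd_of_pow_eq_one (hfa x)
    exact hp.not_dvd_one ((Nat.dvd_gcd h1 hpm).trans ham.dvd)
  have hcard₂ : Nat.card Z₂ = Nat.card f.ker := Subgroup.card_map_of_injective Z.subtype_injective
  have hidx₂ : Z₂.index = Nat.card f.range * Z.index := by
    apply Nat.eq_of_mul_eq_mul_left (Nat.card_pos (α := Z₂))
    rw [Subgroup.card_mul_index, hcard₂, ← mul_assoc, ← Subgroup.index_ker, Subgroup.card_mul_index,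
      Subgroup.card_mul_index]
  have hP₂ : ∀ p, p.Prime → p ∣ Nat.card Z₂ → p ∣ m := by
    intro p hp h
    haveI := Fact.mk hp
    obtain ⟨x, hx⟩ := exists_prime_orderOf_dvd_card' p h
    refine hpb p hp ?_
    rw [← hx, ← Subgroup.orderOf_coe]
    obtain ⟨z, hz, hzx⟩ := x.2
    rw [← hzx]
    exact orderOf_dvd_of_pow_eq_one (MonoidHom.mem_ker.mp hz)
  have hcop₁ : (Nat.card Z₂).Coprime Z₂.index := by
    refine Nat.coprime_of_dvd fun p hp h1 h2 => ?_
    rw [hidx₂] at h2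
    rcases hp.dvd_mul.mp h2 with h | h
    · exact hcopab p hp (hP₂ p hp h1) h
    · exact hp.not_dvd_one ((Nat.dvd_gcd h (hP₂ p hp h1)).trans hcop.dvd)
  obtain ⟨A₁, hA₁⟩ := Subgroup.exists_right_complement'_of_coprime (N := Z₂) hcop₁
  have hcard₁ : Nat.card A₁ = Z₂.index := hA₁.symm.index_eq_card.symm
  have hcopA : (Nat.card A₁).Coprime m := by
    rw [hcard₁, hidx₂]
    exact Nat.Coprime.mul_left (Nat.coprime_of_dvd fun p hp h1 h2 => hcopab p hp h2 h1) hcop
  have hdec : ∀ x : A, ∃ z ∈ Z₂, ∃ y ∈ A₁, z * y = x := fun x => by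
    obtain ⟨⟨⟨z, hz⟩, ⟨y, hy⟩⟩, h⟩ := (Subgroup.isComplement'_def.mp hA₁).2 x
    exact ⟨z, hz, y, hy, h⟩
  have hchar : ∀ x : A, x ^ Nat.card A₁ = 1 → x ∈ A₁ := by
    intro x hx
    obtain ⟨z, hz, y, hy, rfl⟩ := hdec x
    rw [Commute.mul_pow (Subgroup.mem_center_iff.mp (hZ (hZ₂Z hz)) y).symm,
      show y ^ Nat.card A₁ = 1 from congrArg Subtype.val (pow_card_eq_one' (x := (⟨y, hy⟩ : A₁))), mul_one] at hx
    have h2 : z ^ Nat.card Z₂ = 1 := congrArg Subtype.val (pow_card_eq_one' (x := (⟨z, hz⟩ : Z₂)))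
    have h3 := pow_gcd_eq_one.mpr ⟨h2, hx⟩
    rw [hcard₁, hcop₁.gcd_eq_one, pow_one] at h3
    rwa [h3, one_mul]
  haveI hA₁n : A₁.Normal := ⟨fun y hy g => hchar _ (by
    rw [conj_pow, show y ^ Nat.card A₁ = 1 from congrArg Subtype.val (pow_card_eq_one' (x := (⟨y, hy⟩ : A₁))),
      mul_one, mul_inv_cancel])⟩
  have hinv₁ : ∀ s, ∀ y ∈ A₁, φ s y ∈ A₁ := fun s y hy => hchar _ (by
    rw [← map_pow, show y ^ Nat.card A₁ = 1 from congrArg Subtype.val (pow_card_eq_one' (x := (⟨y, hy⟩ : A₁))), map_one])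
  haveI := Fintype.ofFinite A₁
  set φ₁ := resAct φ A₁ hinv₁ with hφ₁
  set Z₁ : Subgroup A₁ := Z.subgroupOf A₁ with hZ₁
  haveI := Fintype.ofFinite Z₁
  have hN₁ : ∀ s, ∀ g ∈ Z₁, φ₁ s g ∈ Z₁ := fun s g hg => by
    show φ s (g : A) ∈ Z
    have h : φ s (g : A) = g := hfix s _ hg
    rw [h]
    exact hg
  let ι₁ : Z₁ →* Z := (A₁.subtype.comp Z₁.subtype).codRestrict Z fun z => z.2
  have hZ₁c : Z₁ ≤ Subgroup.center A₁ := fun z hz => Subgroup.mem_center_iff.mpr fun y =>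
    Subtype.ext (Subgroup.mem_center_iff.mp (hZ hz) y)
  obtain ⟨β₁, hβ₁, hne₁⟩ := exists_invariant_over _ A₁ S φ₁ Z₁ hN₁ ⟨_, isIrrCharacter_linear (ζ.comp ι₁)⟩ rfl hS hcopA
    fun s z => by
      show (ζ (ι₁ (resAct φ₁ Z₁ hN₁ s z)) : ℂ) = (ζ (ι₁ z) : ℂ)
      rw [show ι₁ (resAct φ₁ Z₁ hN₁ s z) = ι₁ z from Subtype.ext (hfix s _ z.2)]
  have hβ₁z := apply_central_mul hZ₁c β₁ (ζ.comp ι₁) hne₁
  -- the projections
  choose zp hzp yp hyp hxp using hdec
  have huniq : ∀ {z z' y y' : A}, z ∈ Z₂ → z' ∈ Z₂ → y ∈ A₁ → y' ∈ A₁ → z * y = z' * y' → z = z' ∧ y = y' := by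
    intro z z' y y' hz hz' hy hy' h
    have := (Subgroup.isComplement'_def.mp hA₁).1 (a₁ := (⟨z, hz⟩, ⟨y, hy⟩)) (a₂ := (⟨z', hz'⟩, ⟨y', hy'⟩)) h
    simp only [Prod.mk.injEq, Subtype.mk.injEq] at this
    exact this
  have hprod : ∀ x w, zp (x * w) = zp x * zp w ∧ yp (x * w) = yp x * yp w := fun x w =>
    huniq (hzp _) (mul_mem (hzp x) (hzp w)) (hyp _) (mul_mem (hyp x) (hyp w)) (by
      rw [hxp]
      conv_lhs => rw [← hxp x, ← hxp w]
      have hc : yp x * zp w = zp w * yp x := Subgroup.mem_center_iff.mp (hZ (hZ₂Z (hzp w))) (yp x)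
      simp only [← mul_assoc]
      rw [mul_assoc (zp x) (yp x), hc, ← mul_assoc])
  let pY : A →* A₁ := MonoidHom.mk' (fun x => ⟨yp x, hyp x⟩) fun x w => Subtype.ext (hprod x w).2
  let pZ : A →* Z := MonoidHom.mk' (fun x => ⟨zp x, hZ₂Z (hzp x)⟩) fun x w => Subtype.ext (hprod x w).1
  have hpY : ∀ y : A₁, pY y = y := fun y => Subtype.ext
    (huniq (hzp _) (one_mem Z₂) (hyp _) y.2 (by rw [hxp, one_mul])).2
  have hsur : Function.Surjective pY := fun y => ⟨y, hpY y⟩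
  refine ⟨⟨_, isIrrCharacter_linear_mul (ζ.comp pZ) (isIrrCharacter_comp_surjective β₁.2 pY hsur)⟩, ?_, ?_⟩
  · intro s x
    have h : φ s (zp x) * φ s (yp x) = φ s x := by rw [← map_mul, hxp]
    have hfz : φ s (zp x) = zp x := hfix s _ (hZ₂Z (hzp x))
    rw [hfz] at h
    obtain ⟨h1, h2⟩ := huniq (hzp (φ s x)) (hzp x) (hyp (φ s x)) (hinv₁ s _ (hyp x)) ((hxp _).trans h.symm)
    show (ζ (pZ (φ s x)) : ℂ) * (β₁ : A₁ → ℂ) (pY (φ s x)) = (ζ (pZ x) : ℂ) * (β₁ : A₁ → ℂ) (pY x)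
    rw [show pZ (φ s x) = pZ x from Subtype.ext h1, show pY (φ s x) = φ₁ s (pY x) from Subtype.ext h2, hβ₁]
  · intro z x
    show (ζ (pZ (z * x)) : ℂ) * (β₁ : A₁ → ℂ) (pY (z * x)) = (ζ z : ℂ) * ((ζ (pZ x) : ℂ) * (β₁ : A₁ → ℂ) (pY x))
    have hyz : yp (z : A) ∈ Z := by
      have : yp (z : A) = (zp z)⁻¹ * z := eq_inv_mul_of_mul_eq (hxp z)
      rw [this]
      exact mul_mem (inv_mem (hZ₂Z (hzp _))) z.2
    have hz : z = pZ z * ι₁ ⟨⟨yp (z : A), hyp _⟩, hyz⟩ := Subtype.ext (hxp z).symm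
    rw [map_mul pY, map_mul pZ, map_mul ζ, Units.val_mul,
      hβ₁z ⟨pY z, hyz⟩ (pY x)]
    conv_rhs => rw [hz, map_mul, Units.val_mul]
    show _ = _ * (ζ (ι₁ ⟨pY z, hyz⟩) : ℂ) * _
    rw [MonoidHom.comp_apply]
    ring

end Cfsg.Lib.Blocks
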