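import Mathlib
import Cfsg.Agent.Lib.Blocks.WreathMonomial
import Cfsg.Agent.Lib.Blocks.Codegree
import Cfsg.Agent.Lib.Characters.Degree

/-!
# Solvable groups inside central factor groups of groups of central type
-/

set_option autoImplicit false
set_option linter.unusedSectionVars false

namespace Cfsg.Lib.Blocks.CentralType

open Cfsg.Lib.Characters Finset Cfsg.Lib.Blocks.WreathMonomial
open scoped ComplexConjugate Classical

universe u

theorem pairing_exists {p : ℕ} [NeZero p] {Q : Type u} [CommGroup Q] [Finite Q]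
    (hc : IsCyclic Q) (hQ : Nat.card Q = p) :
    ∃ β : Q →* Q →* ℂˣ, (∀ x y, β x y = β y x) ∧ ∀ x, (∀ y, β x y = 1) → x = 1 := by
  let e := zmodCyclicMulEquiv (G := Q) hc
  subst hQ
  let k : Q → ZMod (Nat.card Q) := fun q => Multiplicative.toAdd (e.symm q)
  have hk : ∀ a b, k (a * b) = k a + k b := fun a b => by
    simp only [k, map_mul, toAdd_mul]
  let w : ZMod (Nat.card Q) → ℂˣ := fun a => (ZMod.toCircle a).toUnits
  have hw : ∀ a b, w (a + b) = w a * w b := fun a b => by
    simp only [w, AddChar.map_add_eq_mul, map_mul]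
  have hw0 : w 0 = 1 := by simp [w]
  have hk1 : k 1 = 0 := by simp [k]
  let β : Q →* Q →* ℂˣ :=
    { toFun := fun x =>
        { toFun := fun y => w (k x * k y)
          map_one' := by rw [hk1, mul_zero, hw0]
          map_mul' := fun a b => by rw [hk, mul_add, hw] }
      map_one' := by
        refine MonoidHom.ext fun y => ?_
        show w (k 1 * k y) = 1
        rw [hk1, zero_mul, hw0]
      map_mul' := fun a b => by
        refine MonoidHom.ext fun y => ?_
        show w (k (a * b) * k y) = w (k a * k y) * w (k b * k y)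
        rw [hk, add_mul, hw] }
  refine ⟨β, fun x y => congrArg w (mul_comm _ _), fun x hx => ?_⟩
  have h1 := hx (e (Multiplicative.ofAdd 1))
  have h2 : w (k x * k (e (Multiplicative.ofAdd 1))) = w 0 := by rw [hw0]; exact h1
  have h3 : k (e (Multiplicative.ofAdd 1)) = 1 := by simp [k]
  rw [h3, mul_one] at h2
  have h4 : ZMod.toCircle (k x) = ZMod.toCircle (0 : ZMod (Nat.card Q)) := by
    have := congrArg Units.val h2
    exact Circle.ext this
  have h5 : k x = 0 := ZMod.injective_toCircle h4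
  have : e.symm x = 1 := by
    have := congrArg Multiplicative.ofAdd h5
    simpa [k] using this
  simpa using congrArg e this

/-- A group of central type with squarefree centre of prescribed order. -/
structure Data (m : ℕ) (H : Type u) [Group H] [Fintype H] where
  χ : IrrCharacter H
  faithful : ∀ h, (χ : H → ℂ) h = (χ : H → ℂ) 1 → h = 1
  deg : ℕ
  deg_eq : (χ : H → ℂ) 1 = deg
  sq : deg ^ 2 = (Subgroup.center H).index
  cardZ : Nat.card (Subgroup.center H) = m
  primes : ∀ q : ℕ, q.Prime → q ∣ Nat.card H → q ∣ m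

theorem step {m p : ℕ} [Fact p.Prime] (hm : Squarefree m) (hpm : p ∣ m) {H : Type u} [Group H]
    [Fintype H] (D : Data m H) {Q : Type u} [CommGroup Q] [Fintype Q] (hQ : Nat.card Q = p)
    {G : Type u} [Group G] (π : G →* Q) {K : Type u} [Group K] (j : K →* H ⧸ Subgroup.center H)
    (hj : Function.Injective j) (c : G → Q → K)
    (hc : ∀ g h x, c (g * h) x = c g x * c h ((π g)⁻¹ * x))
    (hc1 : ∀ g, π g = 1 → c g 1 = 1 → g = 1) :
    ∃ (H' : Type u) (_ : Group H') (_ : Fintype H'), Nonempty (Data m H') ∧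
      ∃ f : G →* H' ⧸ Subgroup.center H', Function.Injective f := by
  have hp := (Fact.out : p.Prime)
  haveI : NeZero p := ⟨hp.ne_zero⟩
  have hcyc : IsCyclic Q := isCyclic_of_prime_card hQ
  obtain ⟨β, hβsymm, hβinj⟩ := pairing_exists hcyc hQ
  obtain ⟨χ, hfaith, d, hd, hsq, hZ, hprimes⟩ := D
  have hd0 : d ≠ 0 := fun h => χ.2.one_ne_zero (by rw [hd, h, Nat.cast_zero])
  set Z := Subgroup.center H with hZdef
  haveI : Fintype ((H × Q) ≀ᵣ Q) := Fintype.ofFinite ((H × Q) ≀ᵣ Q)
  set B := (RegularWreathProduct.rightHom (D := H × Q) (Q := Q)).ker with hB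
  haveI : Fintype B := Fintype.ofFinite B
  let θ : Q → H × Q → ℂ := fun x v => (χ : H → ℂ) v.1 * (β x v.2 : ℂ)
  have hθirr : ∀ x, IsIrrCharacter (H × Q) (θ x) := by
    intro x
    refine isIrrCharacter_of_comp (MonoidHom.inl H Q) (isCharacter_mul
      (isCharacter_comp χ.2.isCharacter (MonoidHom.fst H Q))
      (isIrrCharacter_linear ((β x).comp (MonoidHom.snd H Q))).isCharacter) ?_
    show IsIrrCharacter H fun h => θ x (h, 1)
    have : (fun h => θ x (h, 1)) = (χ : H → ℂ) := by funext h; simp [θ]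
    rw [this]
    exact χ.2
  let φ : (Q → H × Q) → ℂ := piFn θ
  have hφirr : IsIrrCharacter (Q → H × Q) φ := isIrrCharacter_piFn (fun x => ⟨θ x, hθirr x⟩)
  let φB : B → ℂ := fun b => φ (baseEquiv b)
  have hφBirr : IsIrrCharacter B φB := isIrrCharacter_mulEquiv hφirr baseEquiv
  set ψ := indFun B φB with hψdef
  have hBidx : B.index = p := by
    rw [hB, Subgroup.index_ker, MonoidHom.range_eq_top.mpr
      (fun q => ⟨RegularWreathProduct.inl q, rfl⟩), Subgroup.card_top, hQ]
  -- conjugation formula for the base character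
  have hconj : ∀ (b : B) (w : ((H × Q) ≀ᵣ Q)), conjFn B φB w b =
      ∏ x, ((χ : H → ℂ) ((w.left x).1 * ((b : ((H × Q) ≀ᵣ Q)).left (w.right⁻¹ * x)).1 * (w.left x).1⁻¹) *
        (β x ((b : ((H × Q) ≀ᵣ Q)).left (w.right⁻¹ * x)).2 : ℂ)) := by
    intro b w
    have hb : (b : ((H × Q) ≀ᵣ Q)).right = 1 := MonoidHom.mem_ker.mp b.2
    have hx' : ∀ x, ((w * b * w⁻¹ : ((H × Q) ≀ᵣ Q))).left x =
        w.left x * (b : ((H × Q) ≀ᵣ Q)).left (w.right⁻¹ * x) * (w.left x)⁻¹ := by
      intro x; simp [hb]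
    rw [conjFn_apply]
    refine prod_congr rfl fun x _ => ?_
    show θ x ((w * b * w⁻¹ : ((H × Q) ≀ᵣ Q)).left x) = _
    rw [hx' x]
    simp only [θ, Prod.fst_mul, Prod.snd_mul, Prod.fst_inv, Prod.snd_inv]
    rw [mul_right_comm (w.left x).2, mul_inv_cancel, one_mul]
  have hinertia : inertia B φB = B := by
    refine le_antisymm (fun w hw => ?_) (le_inertia hφBirr.isClassFunction)
    rw [hB, MonoidHom.mem_ker]
    show w.right = 1
    by_contra hne
    apply hne
    refine inv_eq_one.mp (hβinj _ fun y => ?_)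
    -- test on a base element supported at one coordinate
    let b : B := baseEquiv.symm (Pi.mulSingle 1 ((1 : H), y))
    have h := congrFun (mem_inertia.mp hw) b
    rw [hconj] at h
    have hbl : (b : ((H × Q) ≀ᵣ Q)).left = (Pi.mulSingle 1 ((1 : H), y) : Q → H × Q) := rfl
    have hl : φB b = (∏ _x : Q, (χ : H → ℂ) 1) * ((β (1 : Q) y : ℂˣ) : ℂ) := by
      show φ (baseEquiv (baseEquiv.symm (Pi.mulSingle 1 ((1 : H), y)))) = _
      rw [MulEquiv.apply_symm_apply]
      show ∏ x, (χ : H → ℂ) ((Pi.mulSingle 1 ((1 : H), y) : Q → H × Q) x).1 *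
        (β x ((Pi.mulSingle 1 ((1 : H), y) : Q → H × Q) x).2 : ℂ) = _
      rw [prod_mul_distrib]
      congr 1
      · refine prod_congr rfl fun x _ => ?_
        by_cases hx : x = 1
        · subst hx; simp
        · simp [Pi.mulSingle_eq_of_ne hx]
      · rw [prod_eq_single (1 : Q) (fun x _ hx => by simp [Pi.mulSingle_eq_of_ne hx]) (by simp)]
        simp
    rw [hl, prod_mul_distrib, hbl] at h
    have h1 : ∏ x, (χ : H → ℂ) ((w.left x).1 *
        ((Pi.mulSingle 1 ((1 : H), y) : Q → H × Q) (w.right⁻¹ * x)).1 * (w.left x).1⁻¹) =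
        ∏ _x : Q, (χ : H → ℂ) 1 := by
      refine prod_congr rfl fun x _ => ?_
      by_cases hx : w.right⁻¹ * x = 1
      · simp [hx]
      · simp [Pi.mulSingle_eq_of_ne hx]
    rw [h1] at h
    have h2 := mul_left_cancel₀ (prod_ne_zero_iff.mpr fun _ _ => χ.2.one_ne_zero) h
    rw [prod_eq_single w.right
      (fun x _ hx => by
        have : w.right⁻¹ * x ≠ 1 := fun h => hx (inv_mul_eq_one.mp h).symm
        simp [Pi.mulSingle_eq_of_ne this]) (by simp)] at h2
    simp only [inv_mul_cancel, Pi.mulSingle_eq_same, map_one, MonoidHom.one_apply] at h2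
    have h3 : β w.right y = 1 := by exact_mod_cast h2
    rw [map_inv, MonoidHom.inv_apply, h3, inv_one]
  have hψ : IsIrrCharacter ((H × Q) ≀ᵣ Q) ψ := (isIrrCharacter_indFun_iff hφBirr).mpr hinertia
  -- scalar subgroup
  let S : Subgroup ((H × Q) ≀ᵣ Q) :=
    { carrier := {w | w.right = 1 ∧ (∀ x, (w.left x).1 ∈ Z) ∧ ∏ x, (w.left x).2 = 1}
      one_mem' := ⟨rfl, fun x => Z.one_mem, prod_eq_one fun x _ => rfl⟩
      mul_mem' := by
        rintro a b ⟨ha1, ha2, ha3⟩ ⟨hb1, hb2, hb3⟩
        refine ⟨by simp [ha1, hb1], fun x => ?_, ?_⟩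
        · simpa [ha1] using Z.mul_mem (ha2 x) (hb2 x)
        · simp [ha1, prod_mul_distrib, ha3, hb3]
      inv_mem' := by
        rintro a ⟨ha1, ha2, ha3⟩
        refine ⟨by simp [ha1], fun x => ?_, ?_⟩
        · simpa [ha1] using Z.inv_mem (ha2 x)
        · simp [ha1, ha3] }
  have hψ1 : ψ 1 = ((p * d ^ p : ℕ) : ℂ) := by
    rw [hψdef, indFun_one_apply, hBidx]
    show (p : ℂ) * ∏ x : Q, (χ : H → ℂ) (1 : H) * ((β x 1 : ℂˣ) : ℂ) = _
    simp only [map_one, Units.val_one, mul_one, hd, prod_const, card_univ]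
    rw [← Nat.card_eq_fintype_card, hQ]
    push_cast
    rfl
  have hψS : ∀ s ∈ S, ψ s = (p : ℂ) * ∏ x, ((χ : H → ℂ) (s.left x).1 * (β x (s.left x).2 : ℂ)) := by
    rintro s ⟨hs1, hs2, hs3⟩
    let b : B := ⟨s, MonoidHom.mem_ker.mpr hs1⟩
    rw [hψdef, show indFun B φB s = indFun B φB (b : ((H × Q) ≀ᵣ Q)) from rfl, indFun_apply_coe]
    have hv : ∀ w : ((H × Q) ≀ᵣ Q), conjFn B φB w b = ∏ x, ((χ : H → ℂ) (s.left x).1 * (β x (s.left x).2 : ℂ)) := by
      intro w
      rw [hconj]
      show ∏ x, ((χ : H → ℂ) ((w.left x).1 * (s.left (w.right⁻¹ * x)).1 * (w.left x).1⁻¹) *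
        (β x (s.left (w.right⁻¹ * x)).2 : ℂ)) = _
      simp only [χ.2.isClassFunction _ _]
      rw [← Fintype.prod_equiv (Equiv.mulLeft w.right) (fun x => (χ : H → ℂ) (s.left x).1 *
        (β (w.right * x) (s.left x).2 : ℂ)) _ (fun x => by simp)]
      simp only [map_mul, MonoidHom.mul_apply, Units.val_mul, ← mul_assoc]
      rw [prod_mul_distrib, prod_mul_distrib, prod_mul_distrib, ← Units.coe_prod, ← map_prod, hs3,
        map_one, Units.val_one, mul_one]
    rw [sum_congr rfl (fun w _ => hv w), sum_const, card_univ, nsmul_eq_mul,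
      ← Nat.card_eq_fintype_card, ← Subgroup.card_mul_index B, Nat.cast_mul, mul_assoc,
      inv_mul_cancel_left₀ (Nat.cast_ne_zero.mpr Nat.card_pos.ne'), hBidx]
  have hψSnorm : ∀ s ∈ S, ‖ψ s‖ = ((p * d ^ p : ℕ) : ℝ) := by
    intro s hs
    rw [hψS s hs, norm_mul, norm_prod, Complex.norm_natCast]
    have h1 : ∀ x : Q, ‖(χ : H → ℂ) (s.left x).1 * (β x (s.left x).2 : ℂ)‖ = d := by
      intro x
      rw [norm_mul, norm_eq_of_mem_center χ.2 hd (hs.2.1 x),
        Complex.norm_eq_one_of_pow_eq_one (n := p) (by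
          rw [← Units.val_pow_eq_pow_val, ← map_pow, ← hQ, pow_card_eq_one', map_one, Units.val_one])
          hp.ne_zero, mul_one]
    rw [prod_congr rfl (fun x _ => h1 x), prod_const, card_univ, ← Nat.card_eq_fintype_card, hQ]
    push_cast
    rfl
  -- the quotient by the kernel
  haveI : (charKer hψ.isCharacter).Normal := charKer_normal hψ.isCharacter
  set L := charKer hψ.isCharacter with hL
  let μ := QuotientGroup.mk' L
  obtain ⟨ψ', -, hψ'irr, hψ'⟩ := exists_of_quotient hψ.isCharacter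
    (N := L) fun n hn => (mem_charKer hψ.isCharacter).mp hn
  have hψ'' := hψ'irr hψ
  haveI : Fintype (((H × Q) ≀ᵣ Q) ⧸ L) := Fintype.ofFinite _
  set Z' := Subgroup.center (((H × Q) ≀ᵣ Q) ⧸ L) with hZ'
  have hψ'1 : ψ' 1 = ((p * d ^ p : ℕ) : ℂ) := by rw [← hψ1]; exact hψ' 1
  have hSZ : ∀ s ∈ S, μ s ∈ Z' := by
    intro s hs
    rw [hZ', Subgroup.mem_center_iff]
    intro y
    obtain ⟨v, rfl⟩ := QuotientGroup.mk'_surjective L y
    rw [← map_mul, ← map_mul]
    refine QuotientGroup.eq.mpr ?_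
    rw [hL, mem_charKer]
    obtain ⟨n, ρ, -, hρ⟩ := id hψ
    have hn : n = p * d ^ p := by
      have h := congrFun hρ 1
      rw [hψ1, Representation.char_one, Module.finrank_fin_fun] at h
      exact_mod_cast h
    obtain ⟨ω, hω⟩ := exists_scalar_of_norm_eq ρ s (by
      rw [hρ, hψSnorm s hs, Module.finrank_fin_fun, hn])
    have hcomm : ρ (v * s) = ρ (s * v) := by
      rw [map_mul, map_mul, hω]
      ext x
      simp
    have h1 : ρ ((v * s)⁻¹ * (s * v)) = 1 := by
      rw [map_mul, ← hcomm, ← map_mul, inv_mul_cancel, map_one]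
    rw [← hρ]
    exact (char_eq_one_iff ρ _).mpr h1
  let T := Z'.comap μ
  have hST : S ≤ T := fun s hs => hSZ s hs
  have hidxT : T.index = Z'.index := Subgroup.index_comap_of_surjective _ (QuotientGroup.mk'_surjective L)
  have hlow : (p * d ^ p) ^ 2 ≤ Z'.index := by
    have h := degree_sq_le hψ'' hψ'1 Z' (fun z hz => norm_eq_of_mem_center hψ'' hψ'1 hz)
    rw [← Subgroup.card_mul_index Z'] at h
    exact Nat.le_of_mul_le_mul_left h Nat.card_pos
  have hcardS : Nat.card S * (p * d ^ p) ^ 2 = Nat.card ((H × Q) ≀ᵣ Q) := by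
    let P : (Q → Z × Q) →* Q :=
      { toFun := fun f => ∏ x, (f x).2
        map_one' := prod_eq_one fun x _ => rfl
        map_mul' := fun a b => by simp [prod_mul_distrib] }
    have hPs : Function.Surjective P := fun q => ⟨Pi.mulSingle 1 (1, q), by
      show ∏ x, ((Pi.mulSingle 1 ((1 : Z), q) : Q → Z × Q) x).2 = q
      rw [prod_eq_single (1 : Q) (fun x _ hx => by simp [Pi.mulSingle_eq_of_ne hx]) (by simp)]
      simp⟩
    have hS : Nat.card S = Nat.card P.ker := Nat.card_congr
      { toFun := fun s => ⟨fun x => (⟨((s : ((H × Q) ≀ᵣ Q)).left x).1, s.2.2.1 x⟩, ((s : ((H × Q) ≀ᵣ Q)).left x).2),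
          MonoidHom.mem_ker.mpr s.2.2.2⟩
        invFun := fun f => ⟨⟨fun x => (((f : Q → Z × Q) x).1, ((f : Q → Z × Q) x).2), 1⟩,
          rfl, fun x => ((f : Q → Z × Q) x).1.2, MonoidHom.mem_ker.mp f.2⟩
        left_inv := fun s => Subtype.ext (RegularWreathProduct.ext rfl s.2.1.symm)
        right_inv := fun f => rfl }
    have hk : Nat.card P.ker * p = (m * p) ^ p := by
      have h := Subgroup.card_mul_index P.ker
      rw [Subgroup.index_ker, MonoidHom.range_eq_top.mpr hPs, Subgroup.card_top, hQ, Nat.card_fun,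
        Nat.card_prod, hQ, hZ] at h
      exact h
    have hWc : Nat.card ((H × Q) ≀ᵣ Q) = (m * d ^ 2 * p) ^ p * p := by
      show Nat.card ((H × Q) ≀ᵣ Q) = _
      rw [RegularWreathProduct.card, Nat.card_prod, hQ, ← Subgroup.card_mul_index (Subgroup.center H),
        hZ, ← hsq]
    rw [hS, hWc]
    calc Nat.card P.ker * (p * d ^ p) ^ 2 = (Nat.card P.ker * p) * (p * (d ^ 2) ^ p) := by ring
      _ = _ := by rw [hk]; ring
  have hidxS : S.index = (p * d ^ p) ^ 2 := by
    have h := Subgroup.card_mul_index S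
    rw [← hcardS] at h
    exact Nat.eq_of_mul_eq_mul_left Nat.card_pos h
  have hTle : T.index ≤ S.index :=
    Nat.le_of_dvd (Nat.pos_of_ne_zero Subgroup.index_ne_zero_of_finite) (Subgroup.index_dvd_of_le hST)
  have hTeq : T.index = S.index := le_antisymm hTle (by rw [hidxS, hidxT]; exact hlow)
  have hTS : T = S := by
    refine (Subgroup.eq_of_le_of_card_ge hST (le_of_eq ?_)).symm
    have h1 := Subgroup.card_mul_index T
    rw [← Subgroup.card_mul_index S, hTeq] at h1
    exact Nat.eq_of_mul_eq_mul_right (Nat.pos_of_ne_zero Subgroup.index_ne_zero_of_finite) h1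
  have hsqZ : (p * d ^ p) ^ 2 = Z'.index := by rw [← hidxT, hTeq, hidxS]
  have hfaith' : ∀ y : ((H × Q) ≀ᵣ Q) ⧸ L, ψ' y = ψ' 1 → y = 1 := by
    intro y hy
    obtain ⟨v, rfl⟩ := QuotientGroup.mk'_surjective L y
    refine (QuotientGroup.eq_one_iff v).mpr ?_
    rw [hL, mem_charKer, ← hψ' v, ← hψ' 1]
    exact hy
  -- every element of the centre has order dividing m
  have hexp : ∀ z : Z', z ^ m = 1 := by
    rintro ⟨y, hy⟩
    obtain ⟨s, rfl⟩ := QuotientGroup.mk'_surjective L y
    have hs : s ∈ S := hTS.le (show s ∈ T from hy)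
    refine Subtype.ext ?_
    show (μ s) ^ m = 1
    rw [← map_pow]
    have hpow : ∀ k : ℕ, (s ^ k).right = 1 ∧ ∀ x, (s ^ k).left x = (s.left x) ^ k := by
      intro k
      induction k with
      | zero => exact ⟨by simp, fun x => by simp⟩
      | succ k ih =>
        refine ⟨?_, fun x => ?_⟩
        · rw [pow_succ, RegularWreathProduct.mul_right, ih.1, hs.1, mul_one]
        · rw [pow_succ, RegularWreathProduct.mul_left, Pi.mul_apply, ih.1, inv_one, one_mul, ih.2,
            pow_succ]
    have : s ^ m = 1 := by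
      refine RegularWreathProduct.ext (funext fun x => ?_) (hpow m).1
      rw [(hpow m).2]
      refine Prod.ext ?_ ?_
      · have h := congrArg Subtype.val (pow_card_eq_one' (x := (⟨(s.left x).1, hs.2.1 x⟩ : Z)))
        rw [hZ] at h
        simpa using h
      · obtain ⟨e, he⟩ := hpm
        show (s.left x).2 ^ m = 1
        rw [he, pow_mul, ← hQ, pow_card_eq_one', one_pow]
    rw [this, map_one]
  have hcycZ : IsCyclic Z' := by
    obtain ⟨n, ρ, hρirr, hρ⟩ := id hψ''
    have hn : n ≠ 0 := by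
      rintro rfl
      exact hψ''.one_ne_zero (by rw [← hρ, Representation.char_one]; simp)
    have hsc : ∀ z : Z', ∃ ω : ℂ, ρ z = ω • LinearMap.id ∧ ψ' z = n * ω := by
      intro z
      obtain ⟨ω, hω⟩ := schur_scalar ρ (ρ z) fun x => by
        rw [← map_mul, ← map_mul, (Subgroup.mem_center_iff.mp z.2 x)]
      refine ⟨ω, hω, ?_⟩
      rw [← hρ, Representation.character, hω, map_smul, LinearMap.trace_id, smul_eq_mul,
        Module.finrank_fin_fun, mul_comm]
    choose ω hω1 hω2 using hsc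
    have hn' : (n : ℂ) ≠ 0 := Nat.cast_ne_zero.mpr hn
    let f : Z' →* ℂ :=
      { toFun := fun z => ψ' z / n
        map_one' := by
          show ψ' 1 / n = 1
          rw [← hρ, Representation.char_one, Module.finrank_fin_fun, div_self hn']
        map_mul' := fun a b => by
          rw [hω2 a, hω2 b, mul_div_cancel_left₀ _ hn', mul_div_cancel_left₀ _ hn',
            Subgroup.coe_mul, ← hρ, Representation.character, map_mul, hω1 a, hω1 b,
            smul_mul_smul_comm, ← Module.End.one_eq_id, one_mul, map_smul, LinearMap.trace_one,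
            Module.finrank_fin_fun, smul_eq_mul, mul_div_cancel_right₀ _ hn'] }
    refine isCyclic_of_subgroup_isDomain f (fun a b hab => ?_)
    have hab' : ψ' a = ψ' b := (div_left_inj' hn').mp hab
    rw [hω2, hω2] at hab'
    have h1 : ρ (a : ((H × Q) ≀ᵣ Q) ⧸ L) = ρ (b : ((H × Q) ≀ᵣ Q) ⧸ L) := by rw [hω1, hω1, mul_left_cancel₀ hn' hab']
    have h2 : ρ ((a : ((H × Q) ≀ᵣ Q) ⧸ L)⁻¹ * b) = 1 := by
      rw [map_mul, ← h1, ← map_mul, inv_mul_cancel, map_one]
    have h3 := hfaith' ((a : ((H × Q) ≀ᵣ Q) ⧸ L)⁻¹ * b) (by rw [← hρ]; exact (char_eq_one_iff ρ _).mpr h2)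
    exact Subtype.ext (inv_mul_eq_one.mp h3)
  have hZdvd : Nat.card Z' ∣ m := by
    haveI := hcycZ
    rw [← IsCyclic.exponent_eq_card]
    exact Monoid.exponent_dvd_of_forall_pow_eq_one hexp
  have hmZ : m ∣ Nat.card Z' := by
    have h0 : m ≠ 0 := hm.ne_zero
    rw [← Nat.prod_primeFactors_of_squarefree hm]
    refine Finset.prod_primes_dvd _ (fun q hq => (Nat.prime_of_mem_primeFactors hq).prime)
      fun q hq => ?_
    have hqp := Nat.prime_of_mem_primeFactors hq
    haveI := Fact.mk hqp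
    obtain ⟨z, hz⟩ := exists_prime_orderOf_dvd_card' (G := Z) q
      (hZ.symm ▸ Nat.dvd_of_mem_primeFactors hq)
    let s : ((H × Q) ≀ᵣ Q) := ⟨Pi.mulSingle 1 ((z : H), (1 : Q)), 1⟩
    have hs : s ∈ S := by
      refine ⟨rfl, fun x => ?_, prod_eq_one fun x _ => ?_⟩
      · by_cases hx : x = 1
        · subst hx; simp [s]
        · simp [s, Pi.mulSingle_eq_of_ne hx]
      · by_cases hx : x = 1
        · subst hx; simp [s]
        · simp [s, Pi.mulSingle_eq_of_ne hx]
    have hzq : s ^ q = 1 := by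
      have hzq' : (z : H) ^ q = 1 := by
        rw [← hz, ← Subgroup.coe_pow, pow_orderOf_eq_one]; rfl
      have hpow : ∀ k : ℕ, s ^ k = ⟨Pi.mulSingle 1 ((z : H) ^ k, (1 : Q)), 1⟩ := by
        intro k
        induction k with
        | zero => exact RegularWreathProduct.ext (by rw [pow_zero, pow_zero]; exact (Pi.mulSingle_one _).symm) rfl
        | succ k ih =>
          rw [pow_succ, ih]
          refine RegularWreathProduct.ext ?_ (one_mul _)
          funext x
          by_cases hx : x = 1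
          · subst hx; simp [s, pow_succ]
          · simp [s, Pi.mulSingle_eq_of_ne hx]
      rw [hpow, hzq']
      exact RegularWreathProduct.ext (by simp) rfl
    have hne : μ s ≠ 1 := by
      intro h
      have hsL : s ∈ L := (QuotientGroup.eq_one_iff s).mp h
      rw [hL, mem_charKer, hψS s hs, hψ1] at hsL
      push_cast at hsL
      have hpc : (p : ℂ) ≠ 0 := Nat.cast_ne_zero.mpr hp.ne_zero
      have h1 := mul_left_cancel₀ hpc hsL
      have h2 : ∏ x : Q, ((χ : H → ℂ) (s.left x).1 * (β x (s.left x).2 : ℂ)) =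
          (χ : H → ℂ) z * (d : ℂ) ^ (p - 1) := by
        rw [← mul_prod_erase univ _ (mem_univ (1 : Q))]
        congr 1
        · simp [s]
        · rw [prod_congr rfl (g := fun _ : Q => (d : ℂ)) (fun x hx => by
            simp [s, Pi.mulSingle_eq_of_ne (ne_of_mem_erase hx), hd]), prod_const,
            card_erase_of_mem (mem_univ _), card_univ, ← Nat.card_eq_fintype_card, hQ]
      rw [h2] at h1
      have h3 : (χ : H → ℂ) z = d := by
        refine mul_right_cancel₀ (pow_ne_zero (p - 1) (Nat.cast_ne_zero.mpr hd0)) (h1.trans ?_)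
        rw [← pow_succ', Nat.sub_add_cancel hp.one_le]
      have h4 : (z : H) = 1 := hfaith _ (h3.trans hd.symm)
      have : orderOf z = 1 := orderOf_eq_one_iff.mpr (Subtype.ext h4)
      exact hqp.ne_one (hz ▸ this)
    have hord : orderOf (⟨μ s, hSZ s hs⟩ : Z') = q := by
      refine orderOf_eq_prime (Subtype.ext ?_) (fun h => hne (congrArg Subtype.val h))
      show (μ s) ^ q = 1
      rw [← map_pow, hzq, map_one]
    rw [← hord]
    exact orderOf_dvd_natCard _
  refine ⟨((H × Q) ≀ᵣ Q) ⧸ L, inferInstance, inferInstance,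
    ⟨⟨⟨ψ', hψ''⟩, hfaith', p * d ^ p, hψ'1, hsqZ, Nat.dvd_antisymm hZdvd hmZ, ?_⟩⟩, ?_⟩
  · intro q hq hdvd
    have h1 : q ∣ Nat.card ((H × Q) ≀ᵣ Q) := hdvd.trans (Subgroup.card_quotient_dvd_card L)
    rw [show Nat.card ((H × Q) ≀ᵣ Q) = Nat.card ((H × Q) ≀ᵣ Q) from rfl, RegularWreathProduct.card,
      Nat.card_prod, hQ] at h1
    rcases (Nat.Prime.dvd_mul hq).mp h1 with h | h
    · rcases (Nat.Prime.dvd_mul hq).mp (hq.dvd_of_dvd_pow h) with h' | h'
      · exact hprimes q hq h'
      · exact ((Nat.prime_dvd_prime_iff_eq hq hp).mp h') ▸ hpm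
    · exact ((Nat.prime_dvd_prime_iff_eq hq hp).mp h) ▸ hpm
  · -- embedding
    let sec : H ⧸ Z → H := fun y => y.out
    have hsec : ∀ y : H ⧸ Z, (QuotientGroup.mk (sec y) : H ⧸ Z) = y := fun y => QuotientGroup.out_eq' y
    let F : G → ((H × Q) ≀ᵣ Q) := fun g => ⟨fun x => (sec (j (c g x)), 1), π g⟩
    let ν : ((H × Q) ≀ᵣ Q) →* (((H × Q) ≀ᵣ Q) ⧸ L) ⧸ Z' := (QuotientGroup.mk' Z').comp μ
    have hν : ∀ v : ((H × Q) ≀ᵣ Q), ν v = 1 ↔ v ∈ S := fun v =>
      (QuotientGroup.eq_one_iff _).trans (SetLike.ext_iff.mp hTS v)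
    have hmul : ∀ g h, ν (F (g * h)) = ν (F g) * ν (F h) := by
      intro g h
      rw [← map_mul]
      refine inv_mul_eq_one.mp ?_
      rw [← map_inv, ← map_mul, hν]
      set e : Q → H := fun x => (sec (j (c (g * h) x)))⁻¹ *
        (sec (j (c g x)) * sec (j (c h ((π g)⁻¹ * x)))) with he
      have heZ : ∀ x, e x ∈ Z := by
        intro x
        rw [← QuotientGroup.eq_one_iff]
        simp only [he, QuotientGroup.mk_mul, QuotientGroup.mk_inv, hsec, hc, map_mul]
        group
      refine ⟨by simp [F], fun x => ?_, prod_eq_one fun x _ => by simp [F]⟩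
      have hv : (((F (g * h))⁻¹ * (F g * F h) : ((H × Q) ≀ᵣ Q)).left x).1 = e (π (g * h) * x) := by
        simp [F, he, map_mul, mul_assoc]
      rw [hv]
      exact heZ _
    refine ⟨MonoidHom.mk' (fun g => ν (F g)) hmul, (injective_iff_map_eq_one _).mpr fun g hg => ?_⟩
    obtain ⟨hg1, hg2, -⟩ := (hν (F g)).mp hg
    refine hc1 g hg1 (hj ?_)
    rw [map_one, ← hsec (j (c g 1))]
    exact (QuotientGroup.eq_one_iff _).mpr (hg2 1)

/-- The induction over solvable groups. -/
theorem exists_data : ∀ (n : ℕ) (G : Type u) [Group G] [Finite G], Nat.card G = n →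
    Group.IsSolvable G → ∀ m : ℕ, Squarefree m → (∀ q : ℕ, q.Prime → q ∣ Nat.card G → q ∣ m) →
    ∃ (H : Type u) (_ : Group H) (_ : Fintype H), Nonempty (Data m H) ∧
      ∃ f : G →* H ⧸ Subgroup.center H, Function.Injective f := by
  intro n
  induction n using Nat.strong_induction_on with
  | _ n ih =>
  intro G _ _ hn hs m hm hmG
  by_cases hG : Nontrivial G
  · obtain ⟨N, hN, hp⟩ := exists_normal_prime_index' hs
    haveI := hN
    haveI := hs
    haveI := Fact.mk hp
    obtain ⟨H, _, _, ⟨D⟩, j, hj⟩ := ih (Nat.card N) (by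
      rw [← hn, ← Subgroup.card_mul_index N]
      exact lt_mul_right Nat.card_pos hp.one_lt) N rfl inferInstance m hm
        (fun q hq h => hmG q hq (h.trans N.card_subgroup_dvd_card))
    haveI : Fintype (G ⧸ N) := Fintype.ofFinite _
    letI : CommGroup (G ⧸ N) := (isCyclic_of_prime_card (Subgroup.index_eq_card N).symm).commGroup
    let π := QuotientGroup.mk' N
    let t : G ⧸ N → G := fun x => x.out
    have ht : ∀ x, π (t x) = x := fun x => QuotientGroup.out_eq' x
    let c : G → G ⧸ N → N := fun g x =>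
      ⟨(t x)⁻¹ * g * t ((π g)⁻¹ * x), by
        rw [← QuotientGroup.eq_one_iff]
        show π _ = 1
        simp only [map_mul, map_inv, ht]
        group⟩
    refine step (p := N.index) hm (hmG _ hp N.index_dvd_card) D (Subgroup.index_eq_card N).symm π j hj c
      (fun g h x => ?_) (fun g hg h => ?_)
    · refine Subtype.ext ?_
      simp only [c, Subgroup.coe_mul, map_mul, mul_inv_rev, mul_assoc]
      group
    · have h3 := congrArg Subtype.val h
      simp only [c, hg, inv_one, one_mul, OneMemClass.coe_one] at h3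
      calc g = t 1 * ((t 1)⁻¹ * g * t 1) * (t 1)⁻¹ := by group
        _ = 1 := by rw [h3]; group
  · haveI : Subsingleton G := not_nontrivial_iff_subsingleton.mp hG
    haveI : NeZero m := ⟨hm.ne_zero⟩
    let H := ULift.{u} (Multiplicative (ZMod m))
    haveI : Fintype H := Fintype.ofFinite H
    let lam : H →* ℂˣ :=
      { toFun := fun x => (ZMod.toCircle (Multiplicative.toAdd x.down)).toUnits
        map_one' := by simp
        map_mul' := fun a b => Units.ext (by
          show ((ZMod.toCircle (Multiplicative.toAdd (a.down * b.down)) : Circle) : ℂ) = _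
          simp [toAdd_mul, AddChar.map_add_eq_mul]) }
    have htop : Subgroup.center H = ⊤ := CommGroup.center_eq_top
    refine ⟨H, inferInstance, inferInstance,
      ⟨⟨⟨_, isIrrCharacter_linear lam⟩, fun h hh => ?_, 1, by simp, ?_, ?_, ?_⟩⟩, 1,
      Function.injective_of_subsingleton _⟩
    · have h1 : ((lam h : ℂˣ) : ℂ) = ((1 : ℂˣ) : ℂ) := by simpa using hh
      have h2 : ZMod.toCircle (Multiplicative.toAdd h.down) = ZMod.toCircle (0 : ZMod m) := by
        rw [AddChar.map_zero_eq_one]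
        exact Circle.ext h1
      have h3 := ZMod.injective_toCircle h2
      exact ULift.ext _ _ (Multiplicative.toAdd.injective h3)
    · rw [htop]; simp
    · rw [htop, Subgroup.card_top, Nat.card_congr Equiv.ulift]
      simp [Nat.card_eq_fintype_card]
    · intro q hq h
      rwa [Nat.card_congr Equiv.ulift, Nat.card_congr Multiplicative.toAdd, Nat.card_zmod] at h

end Cfsg.Lib.Blocks.CentralType
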