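import Cfsg.Agent.Lib.Blocks.ExtendedFirstMain
import Cfsg.Agent.Lib.Blocks.BlockNilpotent

/-!
# Normal centric pairs
-/

namespace Cfsg.Lib.Blocks

open Cfsg.Lib.Characters Finset
open Cfsg.FusionSystem (normalizerIn centralizerIn)
open scoped ComplexConjugate Classical Pointwise

set_option linter.unusedSectionVars false
set_option linter.style.haveILetI false
set_option linter.style.longLine false

universe u

variable {G : Type u} [Group G] [Fintype G] {M : Ideal Cfsg.AlgInt} [M.IsPrime]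
variable {p : ℕ} [Fact p.Prime]

local notation "𝐂" Q:max => Subgroup.centralizer ((Q : Subgroup G) : Set G)

theorem brNe_of_pairOf (hM : IsPModular p M) {B : Set (IrrCharacter G)} {Q : Subgroup G}
    {f : Set (IrrCharacter (𝐂 Q))} (hf : IsBrauerPairOf p M B Q f) : BrNe Q (bIdem M B) := by
  obtain ⟨η, hη⟩ := IsPBlock.nonempty hf.1.2
  obtain ⟨χ, hχ⟩ := IsPBlock.nonempty hf.2.1
  refine (brNe_iff _ _).mpr fun h0 => ?_
  have h1 := lam_resSub_of_pairOf hM hf hη hχ (isClassElt_bIdem B)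
  rw [h0, lam_zero, lam_bIdem hf.2.1, if_pos hχ] at h1
  exact zero_ne_one h1

/-- A block with a `G`-stable pair at a normal subgroup has that pair's idempotent. -/
theorem bIdem_eq_subE_of_stable (hM : IsPModular p M) {B : Set (IrrCharacter G)} {Q : Subgroup G}
    [Q.Normal] {f : Set (IrrCharacter (𝐂 Q))} (hf : IsBrauerPairOf p M B Q f)
    (hG : pairStab M ⊤ Q f = ⊤) : bIdem M B = subE M Q f := by
  have hst : IsStableUnder ⊤ (subE M Q f) :=
    isStableUnder_iff_cjE.mpr fun x _ => (hG.ge (Subgroup.mem_top x) : x ∈ pairStab M ⊤ Q f).2.2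
  have hcl := isClassElt_of_stable_top hst
  have hres : resSub (𝐂 Q) (subE M Q f) = bIdem M f := by rw [subE, resSub_incSub]
  refine idem_eq_of_lam (isClassElt_bIdem B) hcl (bIdem_sq hf.2.1) (subE_sq hf.1.2) fun χ => ?_
  set B' := blockOf M (χ : G → ℂ)
  obtain ⟨f', hf'⟩ := exists_pair_of_brNe hM ⟨χ, rfl⟩ hf.1.1 (brNe_bIdem_normal (B := B') hM ⟨χ, rfl⟩ hf.1.1)
  obtain ⟨η', hη'⟩ := IsPBlock.nonempty hf'.1.2
  rw [lam_bIdem hf.2.1, ← lam_resSub_of_pairOf hM hf' hη' (mem_blockOf_self M χ) hcl, hres,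
    lam_bIdem hf.1.2]
  refine if_congr ⟨fun h => ?_, fun h => ?_⟩ rfl rfl
  · obtain ⟨η, hη⟩ := IsPBlock.nonempty hf.1.2
    have h1 := lam_resSub_of_pairOf hM hf hη h hcl
    rw [hres, lam_bIdem hf.1.2, if_pos hη,
      ← lam_resSub_of_pairOf hM hf' hη' (mem_blockOf_self M χ) hcl, hres, lam_bIdem hf.1.2] at h1
    exact by_contra fun hh => one_ne_zero (h1.trans (if_neg hh))
  · have hff : f' = f := IsPBlock.eq_of_mem hf'.1.2 hf.1.2 hη' h
    subst hff
    obtain ⟨η, hη⟩ := IsPBlock.nonempty hf.1.2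
    obtain ⟨χ', hχ'⟩ := IsPBlock.nonempty hf.2.1
    have h1 := lam_resSub_of_pairOf hM hf hη hχ' (isClassElt_bIdem B)
    rw [lam_resSub_of_pairOf hM hf' hη (mem_blockOf_self M χ) (isClassElt_bIdem B), lam_bIdem hf.2.1,
      lam_bIdem hf.2.1, if_pos hχ'] at h1
    exact by_contra fun hh => zero_ne_one ((if_neg hh).symm.trans h1)

theorem eq_sup_of_mem {Q : Subgroup G} {c : G} (hc : c ∈ Q ⊔ 𝐂 Q) :
    ∃ a ∈ Q, ∃ d ∈ 𝐂 Q, a * d = c := by
  have h' : c ∈ ((Q : Set G) * (𝐂 Q : Set G) : Set G) := by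
    rw [← Subgroup.coe_mul_of_left_le_normalizer_right Q (𝐂 Q)
      fun a ha => normalizer_le_normalizer_centralizer' Q (Subgroup.le_normalizer ha)]
    exact hc
  obtain ⟨a, ha, d, hd, h⟩ := Set.mem_mul.mp h'
  exact ⟨a, ha, d, hd, h⟩

/-- The block of `Q C(Q)` of a centric pair at a normal subgroup is nilpotent. -/
theorem isNilpotentBlock_centric_local (hM : IsPModular p M) {Q : Subgroup G} (hQ : IsPGroup p Q)
    {f : Set (IrrCharacter (𝐂 Q))} {F : Set (IrrCharacter ↥(Q ⊔ 𝐂 Q))} (hF : IsPBlock M F)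
    (hcoe : ∀ t : ↥(Q ⊔ 𝐂 Q), blockCoeff F t = subgroupBlockCoeff (𝐂 Q) f (t : G))
    (hbound : ∀ S : Subgroup G, IsPGroup p S → S ≤ 𝐂 Q → BrNe S (subE M Q f) →
      Nat.card S ≤ Nat.card (Q ⊓ 𝐂 Q : Subgroup G))
    (hf : IsPBlock M f) : IsNilpotentBlock p M F := by
  haveI : (Q.subgroupOf (Q ⊔ 𝐂 Q)).Normal :=
    (Subgroup.normal_subgroupOf_iff_le_normalizer le_sup_left).mpr (local_le_normalizer Q)
  have hmax : IsBrMax p (Q ⊔ 𝐂 Q) (subE M Q f) Q := by
    refine ⟨hQ, le_sup_left, brNe_self hf, fun S hS hSL hbr => ?_⟩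
    set R := Q ⊔ S
    have hR : IsPGroup p R := hQ.to_sup_of_normal_left' hS fun x hx => local_le_normalizer Q (hSL hx)
    have hRC : (Q ⊓ 𝐂 Q : Subgroup G) = R ⊓ 𝐂 Q :=
      Subgroup.eq_of_le_of_card_ge (inf_le_inf_right _ le_sup_left)
        (hbound _ (hR.to_le inf_le_left) inf_le_right ((brNe_sup hbr).mono inf_le_left))
    refine Subgroup.card_le_of_le fun r hr => ?_
    have hrR : r ∈ R := Subgroup.mem_sup_right hr
    obtain ⟨a, ha, d, hd, rfl⟩ := eq_sup_of_mem (hSL hr)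
    have hdR : d ∈ R := by
      simpa using mul_mem (inv_mem (Subgroup.mem_sup_left (T := S) ha : a ∈ R)) hrR
    exact mul_mem ha (hRC.ge ⟨hdR, hd⟩ : d ∈ Q ⊓ 𝐂 Q).1
  have hdef := (isDefectGroup_stab_iff hM le_sup_right hF hcoe le_sup_left).mpr hmax
  refine ⟨hF, fun R g hg x _ _ hreg => ?_⟩
  obtain ⟨y, hy⟩ := (brNe_bIdem_iff hM hF hdef hg.1.1).mp (brNe_of_pairOf hM hg)
  have hR : ∀ r ∈ R, (r : G) ∈ Q := by
    intro r hr
    have h1 : y * r * y⁻¹ ∈ Q.subgroupOf (Q ⊔ 𝐂 Q) :=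
      hy (mem_conjSub.mpr (by simpa [mul_assoc] using hr))
    have h2 := (inferInstance : (Q.subgroupOf (Q ⊔ 𝐂 Q)).Normal).conj_mem _ h1 y⁻¹
    simpa [mul_assoc, Subgroup.mem_subgroupOf] using h2
  have hxreg : ¬ p ∣ orderOf (x : G) := by rw [Subgroup.orderOf_coe]; exact hreg
  obtain ⟨a, ha, d, hd, had⟩ := eq_sup_of_mem x.2
  obtain ⟨k, hk⟩ := hQ ⟨a, ha⟩
  have hxC : (x : G) ∈ 𝐂 Q := by
    refine mem_of_pow_mem_regular hxreg k ?_
    have hcomm : Commute a d := Subgroup.mem_centralizer_iff.mp hd a ha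
    have hak : a ^ p ^ k = 1 := congrArg Subtype.val hk
    rw [← had, hcomm.mul_pow, hak, one_mul]
    exact pow_mem hd _
  refine Subgroup.mem_centralizer_iff.mpr fun r hr => Subtype.ext ?_
  exact Subgroup.mem_centralizer_iff.mp hxC (r : G) (hR r hr)

theorem centric_bound (hM : IsPModular p M) {B : Set (IrrCharacter G)} {P Q : Subgroup G} [Q.Normal]
    {e : Set (IrrCharacter (𝐂 P))} {F : FusionSystem P} (hF : IsBlockFusionSystemOn p M B P e F)
    {f : Set (IrrCharacter (𝐂 Q))} (hle : SubpairLE p M Q f P e) (hcen : F.IsCentric Q)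
    {S : Subgroup G} (hS : IsPGroup p S) (hSC : S ≤ 𝐂 Q) (hbr : BrNe S (subE M Q f)) :
    Nat.card S ≤ Nat.card (Q ⊓ 𝐂 Q : Subgroup G) := by
  obtain ⟨x, hx, -, hcard⟩ := exists_conj_brMax_centralizer hM hF.1 (pairOf_of_le hM hF hle)
  have hsub := hcen.2 _ ((isConj_iff_block hM hF hle).mpr ⟨x, rfl, hx⟩)
  obtain ⟨D, hD⟩ := exists_isBrMax_centralizer (p := p) (Q := Q) hM (subpairLE_isBrauerPair hle hF.1.1.1).2
  refine (hD.2.2.2 S hS hSC hbr).trans ?_
  rw [hcard D hD]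
  have hQx : Q.map (MulAut.conj x).toMonoidHom = Q := by
    ext a
    rw [mem_map_conj]
    exact ⟨fun h => by simpa [mul_assoc] using ‹Q.Normal›.conj_mem _ h x,
      fun h => by simpa [mul_assoc] using ‹Q.Normal›.conj_mem _ h x⁻¹⟩
  rw [hQx] at hsub ⊢
  exact Subgroup.card_le_of_le (le_inf hsub inf_le_right)

end Cfsg.Lib.Blocks
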