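import Cfsg.Agent.Lib.Blocks.Principal
import Cfsg.Agent.Lib.Characters.Induction

/-!
# Vanishing of block columns against central elements
-/

namespace Cfsg.Lib.Blocks

open Cfsg.Lib.Characters Finset
open scoped ComplexConjugate Classical

set_option linter.unusedSectionVars false
set_option linter.style.haveILetI false
set_option linter.style.longLine false

variable {G : Type*} [Group G] [Fintype G] {p : ℕ} [Fact p.Prime] {M : Ideal Cfsg.AlgInt} [M.IsPrime]

/-- A column of a block at a `p`-element is orthogonal to every central element supported away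
from the section of that element. -/
theorem sum_block_omega_mul_eq_zero (hM : IsPModular p M) {B : Set (IrrCharacter G)}
    (hB : IsPBlock M B) {u : G} (hu : ∃ k : ℕ, orderOf u = p ^ k) (z : MonoidAlgebra ℂ G)
    (hz : ∀ g : G, z.coeff g ≠ 0 → ∀ x : G, IsPPart p g⁻¹ x → ¬ IsConj u x) :
    ∑ χ : IrrCharacter G,
      (if χ ∈ B then (χ : G → ℂ) u * (omega χ z * (χ : G → ℂ) 1) else 0) = 0 := by
  have h1 : ∀ χ : IrrCharacter G,
      (if χ ∈ B then (χ : G → ℂ) u * (omega χ z * (χ : G → ℂ) 1) else 0)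
        = ∑ g, z.coeff g * (if χ ∈ B then (χ : G → ℂ) u * (χ : G → ℂ) (g⁻¹)⁻¹ else 0) := by
    intro χ
    split_ifs
    · rw [omega, div_mul_cancel₀ _ χ.2.one_ne_zero, Finset.mul_sum]
      exact Finset.sum_congr rfl fun g _ => by rw [inv_inv]; ring
    · simp
  rw [Finset.sum_congr rfl fun χ _ => h1 χ, Finset.sum_comm]
  refine Finset.sum_eq_zero fun g _ => ?_
  rw [← Finset.mul_sum]
  rcases eq_or_ne (z.coeff g) 0 with h | h
  · rw [h, zero_mul]
  obtain ⟨x, y, hxy, hc, hx, hy⟩ := exists_pPart_commute (p := p) g⁻¹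
  have h2 : kerB B u g⁻¹ = 0 :=
    kerB_eq_zero_of_not_isConj hM hB (x := u) (x' := x)
      ⟨1, mul_one u, Commute.one_right u, hu, by simpa using (Fact.out : p.Prime).ne_one⟩
      ⟨y, hxy, hc, hx, hy⟩ (hz g h x ⟨y, hxy, hc, hx, hy⟩)
  rw [show (∑ χ : IrrCharacter G,
    if χ ∈ B then (χ : G → ℂ) u * (χ : G → ℂ) (g⁻¹)⁻¹ else 0) = kerB B u g⁻¹ from rfl, h2, mul_zero]

/-- If an element inverts `g`, it inverts the `p`-part of `g`. -/
theorem conj_pPart_of_conj_eq_inv {g x a : G} (hx : IsPPart p g x) (h : a * g * a⁻¹ = g⁻¹) :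
    a * x * a⁻¹ = x⁻¹ := by
  obtain ⟨y, hxy, hc, hxo, hy⟩ := hx
  obtain ⟨k, hk⟩ := hxo
  have hcop : Nat.Coprime (orderOf x) (orderOf y) := by
    rw [hk]; exact Nat.Coprime.pow_left _ ((Nat.Prime.coprime_iff_not_dvd Fact.out).mpr hy)
  obtain ⟨E, hE1, hE0⟩ := Nat.chineseRemainder hcop 1 0
  have hgE : g ^ E = x := by
    rw [← hxy, hc.mul_pow, orderOf_dvd_iff_pow_eq_one.mp (Nat.modEq_zero_iff_dvd.mp hE0), mul_one]
    conv_rhs => rw [← pow_one x]
    exact pow_eq_pow_iff_modEq.mpr hE1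
  rw [← hgE, ← conj_pow, h, inv_pow]

/-- With at most one positive coefficient, three vanishing moments force equality. -/
theorem eq_of_moments {ι : Type*} (s : Finset ι) (a x v : ι → ℝ) (hx : ∀ i ∈ s, 0 < x i)
    (h1 : ∑ i ∈ s, a i * x i = 0) (h2 : ∑ i ∈ s, a i * v i ^ 2 / x i = 0)
    (h3 : ∑ i ∈ s, a i * v i = 0) {i₀ : ι} (hi₀ : i₀ ∈ s) (ha₀ : a i₀ ≠ 0) (hv₀ : v i₀ = x i₀)
    (hpos : (s.filter fun i => 0 < a i).card ≤ 1) : ∀ i ∈ s, a i ≠ 0 → v i = x i := by
  have hex : ∃ j ∈ s, 0 < a j := by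
    by_contra hcon
    simp only [not_exists, not_and, not_lt] at hcon
    have h := (Finset.sum_eq_zero_iff_of_nonpos fun i hi =>
      mul_nonpos_of_nonpos_of_nonneg (hcon i hi) (hx i hi).le).mp h1 i₀ hi₀
    exact ha₀ ((mul_eq_zero.mp h).resolve_right (hx i₀ hi₀).ne')
  obtain ⟨j, hj, hja⟩ := hex
  set Λ := v j / x j with hΛ
  have hsum : ∑ i ∈ s, a i * (v i - Λ * x i) ^ 2 / x i = 0 := by
    have : ∀ i ∈ s, a i * (v i - Λ * x i) ^ 2 / x i
        = a i * v i ^ 2 / x i - 2 * Λ * (a i * v i) + Λ ^ 2 * (a i * x i) := fun i hi => by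
      have := (hx i hi).ne'
      field_simp
      ring
    rw [Finset.sum_congr rfl this, Finset.sum_add_distrib, Finset.sum_sub_distrib, ← Finset.mul_sum,
      ← Finset.mul_sum, h1, h2, h3]
    ring
  have hterm : ∀ i ∈ s, a i * (v i - Λ * x i) ^ 2 / x i ≤ 0 := fun i hi => by
    by_cases hia : 0 < a i
    · have : i = j := Finset.card_le_one.mp hpos i (Finset.mem_filter.mpr ⟨hi, hia⟩) j
        (Finset.mem_filter.mpr ⟨hj, hja⟩)
      subst this
      rw [hΛ, div_mul_cancel₀ _ (hx i hi).ne', sub_self]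
      simp
    · exact div_nonpos_of_nonpos_of_nonneg
        (mul_nonpos_of_nonpos_of_nonneg (not_lt.mp hia) (sq_nonneg _)) (hx i hi).le
  have hz : ∀ i ∈ s, a i ≠ 0 → v i = Λ * x i := fun i hi hai => by
    have h := (Finset.sum_eq_zero_iff_of_nonpos hterm).mp hsum i hi
    rw [div_eq_zero_iff, mul_eq_zero, sq_eq_zero_iff, sub_eq_zero] at h
    rcases h with (h | h) | h
    · exact absurd h hai
    · exact h
    · exact absurd h (hx i hi).ne'
  have hΛ1 : Λ = 1 := by
    have h := hz i₀ hi₀ ha₀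
    rw [hv₀] at h
    exact mul_right_cancel₀ (hx i₀ hi₀).ne' (h.symm.trans (one_mul _).symm)
  intro i hi hai
  rw [hz i hi hai, hΛ1, one_mul]

end Cfsg.Lib.Blocks
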