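import Cfsg.Agent.Lib.Blocks.InvariantOverSolvable
import Cfsg.Agent.Lib.Solv.Coprime3

/-!
# Characters of degree prime to a coprime complement
-/

namespace Cfsg.Lib.Blocks

open Cfsg.Lib.Characters Finset
open scoped ComplexConjugate Classical

set_option linter.unusedSectionVars false
set_option linter.style.haveILetI false
set_option linter.style.longLine false

universe u

variable {G : Type u} [Group G] [Fintype G]

/-- Characters of degree prime to `|H|` are extensions of invariant characters times linear ones. -/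
theorem card_coprime_degree (K H : Subgroup G) [K.Normal] (hKH : Subgroup.IsComplement' K H)
    (hcop : (Nat.card K).Coprime (Nat.card H)) :
    Nat.card {χ : IrrCharacter G // (charDegree (χ : G → ℂ)).Coprime (Nat.card H)}
      = Nat.card {θ : IrrCharacter K // ∀ g : G, conjFn K (θ : K → ℂ) g = (θ : K → ℂ)} * Nat.card (H →* ℂˣ) := by
  haveI := Fintype.ofFinite K
  haveI := Fintype.ofFinite H
  have hidx : K.index = Nat.card H := hKH.symm.index_eq_card
  have hext : ∀ θ : {θ : IrrCharacter K // ∀ g : G, conjFn K (θ : K → ℂ) g = (θ : K → ℂ)},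
      ∃ χ : G → ℂ, IsIrrCharacter G χ ∧ ∀ k : K, χ k = (θ.1 : K → ℂ) k := by
    intro θ
    obtain ⟨d, hd⟩ := exists_degree θ.1.2.isCharacter
    obtain ⟨D, hD, -⟩ := exists_detHom θ.1.2.isCharacter
    refine exists_extension_of_coprime θ.1.2 θ.2 hd (m := Nat.card K) (fun k => ?_) ?_
    · rw [← hD, ← Units.val_pow_eq_pow_val, ← map_pow, pow_card_eq_one', map_one, Units.val_one]
    · rw [hidx]
      exact Nat.Coprime.mul_right (hcop.symm.coprime_dvd_right (degree_dvd_card θ.1.2 hd)) hcop.symm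
  choose E hE hEres using hext
  have hbij : Function.Bijective ((QuotientGroup.mk' K).comp H.subtype) := by
    refine ⟨(injective_iff_map_eq_one _).mpr fun h hh => ?_, fun q => ?_⟩
    · have hmem : (h : G) ∈ K ⊓ H := ⟨(QuotientGroup.eq_one_iff _).mp hh, h.2⟩
      rw [hKH.disjoint.eq_bot] at hmem
      exact Subtype.ext (Subgroup.mem_bot.mp hmem)
    · obtain ⟨g, rfl⟩ := QuotientGroup.mk_surjective q
      obtain ⟨⟨k, y⟩, rfl⟩ := (Subgroup.isComplement'_def.mp hKH).2 g
      refine ⟨y, ?_⟩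
      show ((y : G) : G ⧸ K) = (((k : G) * (y : G) : G) : G ⧸ K)
      rw [QuotientGroup.mk_mul, (QuotientGroup.eq_one_iff _).mpr k.2, one_mul]
  let π : G →* H := (MulEquiv.ofBijective _ hbij).symm.toMonoidHom.comp (QuotientGroup.mk' K)
  have hπK : ∀ k ∈ K, π k = 1 := fun k hk => by
    show (MulEquiv.ofBijective _ hbij).symm (k : G ⧸ K) = 1
    rw [(QuotientGroup.eq_one_iff k).mpr hk, map_one]
  have hπH : ∀ h : H, π h = h := fun h => (MulEquiv.ofBijective _ hbij).symm_apply_apply h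
  let F : {θ : IrrCharacter K // ∀ g : G, conjFn K (θ : K → ℂ) g = (θ : K → ℂ)} × (H →* ℂˣ) →
      {χ : IrrCharacter G // (charDegree (χ : G → ℂ)).Coprime (Nat.card H)} := fun x =>
    ⟨⟨fun g => ((x.2.comp π) g : ℂ) * E x.1 g, isIrrCharacter_linear_mul (x.2.comp π) (hE x.1)⟩, by
      obtain ⟨d, hd⟩ := exists_degree x.1.1.2.isCharacter
      rw [charDegree_eq (d := d) (by simpa [map_one, hd] using hEres x.1 1)]
      exact hcop.coprime_dvd_left (degree_dvd_card x.1.1.2 hd)⟩
  have hFres : ∀ x (k : K), ((F x).1 : G → ℂ) k = (x.1.1 : K → ℂ) k := fun x k => by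
    show ((x.2 (π k) : ℂˣ) : ℂ) * E x.1 k = _
    rw [hπK k k.2, map_one, Units.val_one, one_mul, hEres]
  have hlin : ∀ (β : G → ℂ), IsIrrCharacter G β → (∀ k : K, β k = 1) →
      classInner (indFun K (fun _ => (1 : ℂ))) β ≠ 0 := by
    intro β hβ h1
    rw [classInner_indFun K _ hβ.isClassFunction, show (fun k : K => β k) = fun _ => (1 : ℂ) from funext h1,
      classInner_irr_self isIrrCharacter_one]
    exact one_ne_zero
  have hgall := fun θ : {θ : IrrCharacter K // ∀ g : G, conjFn K (θ : K → ℂ) g = (θ : K → ℂ)} =>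
    gallagher (N := K) (φ := fun _ => (1 : ℂ)) (θ := (θ.1 : K → ℂ)) isIrrCharacter_one (fun _ => rfl) θ.2
      (by rw [show (fun _ => (1 : ℂ)) * (θ.1 : K → ℂ) = (θ.1 : K → ℂ) from funext fun x => one_mul _]; exact θ.1.2)
      (hE θ) (hEres θ)
  have hinj : Function.Injective F := by
    rintro ⟨θ, μ⟩ ⟨θ', μ'⟩ h
    have hθ : θ = θ' := by
      refine Subtype.ext (Subtype.ext (funext fun k => ?_))
      exact (hFres ⟨θ, μ⟩ k).symm.trans
        ((congrFun (congrArg (fun z => ((z.1 : IrrCharacter G) : G → ℂ)) h) k).trans (hFres ⟨θ', μ'⟩ k))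
    subst hθ
    refine Prod.ext rfl (MonoidHom.ext fun y => Units.ext ?_)
    have hb : ∀ ν : H →* ℂˣ, IsIrrCharacter G (fun g => ((ν.comp π) g : ℂ)) ∧
        classInner (indFun K (fun _ => (1 : ℂ))) (fun g => ((ν.comp π) g : ℂ)) ≠ 0 := fun ν =>
      ⟨isIrrCharacter_linear _, hlin _ (isIrrCharacter_linear _) fun k => by
        rw [MonoidHom.comp_apply, hπK k k.2, map_one, Units.val_one]⟩
    have h2 := (hgall θ).2.1 _ _ (hb μ).1 (hb μ').1 (hb μ).2 (hb μ').2
      (congrArg (fun z => ((z.1 : IrrCharacter G) : G → ℂ)) h)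
    have h3 := congrFun h2 (y : G)
    simp only [MonoidHom.comp_apply, hπH] at h3
    exact h3
  have hsurj : Function.Surjective F := by
    rintro ⟨χ, hχ⟩
    obtain ⟨θ, hθ, hne⟩ := classInner_res_ne_zero (N := K) χ.2
    obtain ⟨c, hc⟩ := exists_degree χ.2.isCharacter
    obtain ⟨d, hd⟩ := exists_degree hθ.isCharacter
    obtain ⟨hdc, hi⟩ := degree_dvd_of_normal hθ χ.2 hne hc hd
    rw [charDegree_eq hc] at hχ
    have hcd : c = d := by
      have h1 : c / d = 1 := Nat.eq_one_of_dvd_coprimes hχ (Nat.div_dvd_of_dvd hdc) (hidx ▸ hi)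
      exact Nat.eq_of_dvd_of_div_eq_one hdc h1 |>.symm
    have hres : (fun k : K => (χ : G → ℂ) k) = θ := by
      obtain ⟨m, hm⟩ := exists_decomposition (isCharacter_restrict χ.2.isCharacter K)
      have hmθ : m ⟨θ, hθ⟩ ≠ 0 := by
        rw [hm, classInner_sum_irr _ (⟨θ, hθ⟩ : IrrCharacter K), Nat.cast_ne_zero] at hne
        exact hne
      choose δ hδ using fun ψ : IrrCharacter K => exists_degree ψ.2.isCharacter
      have h1 : ∑ ψ : IrrCharacter K, m ψ * δ ψ = d := by
        apply Nat.cast_injective (R := ℂ)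
        have := congrFun hm 1
        simp only [Finset.sum_apply, Pi.smul_apply, smul_eq_mul, hδ, OneMemClass.coe_one, hc] at this
        rw [← hcd]
        push_cast
        exact this.symm
      have hδθ : δ ⟨θ, hθ⟩ = d := Nat.cast_injective (R := ℂ) ((hδ ⟨θ, hθ⟩).symm.trans hd)
      rw [← Finset.add_sum_erase _ _ (mem_univ (⟨θ, hθ⟩ : IrrCharacter K)), hδθ] at h1
      have hd0 : 0 < d := Nat.pos_of_ne_zero fun h => hθ.one_ne_zero (by rw [hd, h, Nat.cast_zero])
      have h2 : m ⟨θ, hθ⟩ = 1 := by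
        have : m ⟨θ, hθ⟩ * d ≤ 1 * d := by rw [one_mul]; omega
        have := Nat.le_of_mul_le_mul_right this hd0
        omega
      rw [h2, one_mul] at h1
      have h3 : ∀ ψ ∈ univ.erase (⟨θ, hθ⟩ : IrrCharacter K), m ψ = 0 := fun ψ hψ => by
        have := Finset.sum_eq_zero_iff.mp (show ∑ x ∈ univ.erase (⟨θ, hθ⟩ : IrrCharacter K), m x * δ x = 0 by omega) ψ hψ
        refine (Nat.mul_eq_zero.mp this).resolve_right fun h => ψ.2.one_ne_zero ?_
        rw [hδ, h, Nat.cast_zero]
      rw [hm, ← Finset.add_sum_erase _ _ (mem_univ (⟨θ, hθ⟩ : IrrCharacter K)), h2,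
        Finset.sum_eq_zero fun ψ hψ => by rw [h3 ψ hψ]; simp]
      simp
    have hinv : ∀ g, conjFn K θ g = θ := fun g => by rw [← hres]; exact res_conjFn χ.2.isClassFunction g
    obtain ⟨β, hβ, hβ1, hβE⟩ := (hgall ⟨⟨θ, hθ⟩, hinv⟩).2.2 (χ : G → ℂ) χ.2 (by
      rw [classInner_indFun K _ χ.2.isClassFunction, hres,
        show (fun _ => (1 : ℂ)) * θ = θ from funext fun x => one_mul _, classInner_irr_self hθ]
      exact one_ne_zero)
    obtain ⟨b, hb⟩ := exists_degree hβ.isCharacter
    have hb1 : β 1 = 1 := by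
      have e := congrFun hβE 1
      rw [Pi.mul_apply, hc, show E ⟨⟨θ, hθ⟩, hinv⟩ 1 = (d : ℂ) from (hEres ⟨⟨θ, hθ⟩, hinv⟩ 1).trans hd, hcd] at e
      have hd0 : (d : ℂ) ≠ 0 := fun h => hθ.one_ne_zero (hd.trans h)
      exact mul_right_cancel₀ hd0 (e.trans (one_mul _).symm)
    obtain ⟨lam, rfl⟩ := exists_hom_of_degree_one hβ.isCharacter hb1
    have hlamK : ∀ k : K, lam k = 1 := by
      intro k
      have h2 : lam.comp K.subtype = 1 := by
        by_contra hne1
        apply hβ1
        rw [classInner_indFun K _ hβ.isClassFunction]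
        exact classInner_irr_ne isIrrCharacter_one (isIrrCharacter_linear (lam.comp K.subtype)) fun h =>
          hne1 (MonoidHom.ext fun x => Units.ext (congrFun h x).symm)
      exact DFunLike.congr_fun h2 k
    refine ⟨(⟨⟨θ, hθ⟩, hinv⟩, lam.comp H.subtype), Subtype.ext (Subtype.ext ?_)⟩
    rw [← hβE]
    funext g
    obtain ⟨⟨⟨k, hk⟩, y⟩, rfl⟩ := (Subgroup.isComplement'_def.mp hKH).2 g
    show ((lam (π (k * (y : G)) : G) : ℂˣ) : ℂ) * _ = ((lam (k * (y : G)) : ℂˣ) : ℂ) * _
    rw [map_mul π, hπK k hk, one_mul, hπH, map_mul lam, hlamK ⟨k, hk⟩, one_mul]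
  rw [← Nat.card_congr (Equiv.ofBijective F ⟨hinj, hsurj⟩), Nat.card_prod]

/-- Invariant classes of `K` correspond to classes of the centralizer of a coprime complement. -/
theorem card_inv_irr_complement (K H : Subgroup G) [K.Normal] (hKH : Subgroup.IsComplement' K H)
    (hcop : (Nat.card K).Coprime (Nat.card H)) (hsolv : Group.IsSolvable H) :
    Nat.card {θ : IrrCharacter K // ∀ g : G, conjFn K (θ : K → ℂ) g = (θ : K → ℂ)}
      = Nat.card (ConjClasses (K ⊓ Subgroup.centralizer (H : Set G) : Subgroup G)) := by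
  haveI := Fintype.ofFinite K
  haveI := Fintype.ofFinite H
  set C := K ⊓ Subgroup.centralizer (H : Set G) with hC
  have hnorm : ∀ h ∈ H, ∀ k ∈ K, h * k * h⁻¹ ∈ K := fun h _ k hk =>
    (inferInstance : K.Normal).conj_mem k hk h
  have e : {θ : IrrCharacter K // ∀ g : G, conjFn K (θ : K → ℂ) g = (θ : K → ℂ)}
      ≃ {θ : IrrCharacter K // IsInv (conjAct K H hnorm) (θ : K → ℂ)} := by
    refine Equiv.subtypeEquivRight fun θ => ⟨fun h s k => congrFun (h s) k, fun h g => ?_⟩
    obtain ⟨⟨k, y⟩, rfl⟩ := (Subgroup.isComplement'_def.mp hKH).2 g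
    show conjFn K (θ : K → ℂ) ((k : G) * y) = _
    rw [conjFn_mul_mem θ.2.isClassFunction]
    exact funext (h y)
  rw [Nat.card_congr e, card_inv_irr_eq _ K H (conjAct K H hnorm) rfl hsolv hcop]
  let emb : ConjClasses C → {Q : ConjClasses K // IsInvClass (conjAct K H hnorm) Q} := fun Q =>
    ⟨ConjClasses.map (Subgroup.inclusion inf_le_left) Q, by
      induction Q using Quotient.inductionOn with
      | _ c =>
        show IsInvClass (conjAct K H hnorm) (ConjClasses.mk (Subgroup.inclusion inf_le_left c))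
        rw [isInvClass_mk]
        intro t
        have e : conjAct K H hnorm t (Subgroup.inclusion inf_le_left c) = Subgroup.inclusion inf_le_left c := by
          apply Subtype.ext
          show (t : G) * (c : G) * (t : G)⁻¹ = c
          rw [Subgroup.mem_centralizer_iff.mp c.2.2 (t : G) t.2, mul_inv_cancel_right]
        rw [e]⟩
  refine (Nat.card_eq_of_bijective emb ?_).symm
  -- fixed points in a class
  have hfix : ∀ k : K, IsInvClass (conjAct K H hnorm) (ConjClasses.mk k) →
      (∃ c : C, IsConj k (Subgroup.inclusion inf_le_left c)) ∧ ∀ c c' : C,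
        IsConj k (Subgroup.inclusion inf_le_left c) → IsConj k (Subgroup.inclusion inf_le_left c') → IsConj c c' := by
    intro k hk
    rw [isInvClass_mk] at hk
    let X := {x : K // IsConj k x}
    haveI : Nonempty X := ⟨⟨k, IsConj.refl k⟩⟩
    have hmem : ∀ (g : G) (x : X), IsConj k (MulAut.conjNormal g (x.1 : K)) := by
      intro g x
      obtain ⟨⟨a, y⟩, rfl⟩ := (Subgroup.isComplement'_def.mp hKH).2 g
      have h1 : IsConj k (conjAct K H hnorm y x.1) :=
        (hk y).trans ((conjAct K H hnorm y).toMonoidHom.map_isConj x.2)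
      refine h1.trans (isConj_iff.mpr ⟨a, Subtype.ext ?_⟩)
      show (a : G) * ((y : G) * (x.1 : G) * (y : G)⁻¹) * (a : G)⁻¹ = (a : G) * (y : G) * (x.1 : G) * ((a : G) * (y : G))⁻¹
      group
    letI : MulAction G X :=
      { smul := fun g x => ⟨MulAut.conjNormal g x.1, hmem g x⟩
        one_smul := fun x => Subtype.ext (by show MulAut.conjNormal (1 : G) x.1 = x.1; rw [map_one]; rfl)
        mul_smul := fun g h x => Subtype.ext (by
          show MulAut.conjNormal (g * h) x.1 = MulAut.conjNormal g (MulAut.conjNormal h x.1); rw [map_mul]; rfl) }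
    have hsmul : ∀ (g : G) (x : X), ((g • x).1 : G) = g * (x.1 : G) * g⁻¹ := fun g x => rfl
    have htr : MulAction.IsPretransitive K X := by
      refine ⟨fun x y => ?_⟩
      obtain ⟨a, ha⟩ := isConj_iff.mp (x.2.symm.trans y.2)
      refine ⟨a, Subtype.ext (Subtype.ext ?_)⟩
      rw [← ha]
      rfl
    obtain ⟨⟨x, hx⟩, huniq⟩ := Cfsg.Lib.Solv.coprime_action_fixed_point (X := X) K H hKH
      (by rw [hKH.symm.index_eq_card]; exact hcop) (Or.inr hsolv) htr
    have hfixC : ∀ x : X, (∀ h ∈ H, h • x = x) → (x.1 : G) ∈ C := by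
      intro x hx
      refine ⟨x.1.2, Subgroup.mem_centralizer_iff.mpr fun h hh => ?_⟩
      have := congrArg (fun z : X => (z.1 : G)) (hx h hh)
      simp only [hsmul] at this
      exact mul_inv_eq_iff_eq_mul.mp this
    refine ⟨⟨⟨x.1, hfixC x hx⟩, x.2⟩, fun c c' hc hc' => ?_⟩
    have hfx : ∀ (c : C) (hc : IsConj k (Subgroup.inclusion inf_le_left c)), ∀ h ∈ H,
        h • (⟨_, hc⟩ : X) = ⟨_, hc⟩ := fun c hc h hh => Subtype.ext (Subtype.ext (by
      rw [hsmul]
      show h * (c : G) * h⁻¹ = c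
      rw [Subgroup.mem_centralizer_iff.mp c.2.2 h hh, mul_inv_cancel_right]))
    obtain ⟨a, ha, hac⟩ := huniq ⟨_, hc⟩ ⟨_, hc'⟩ (hfx c hc) (hfx c' hc')
    refine isConj_iff.mpr ⟨⟨a, ha⟩, Subtype.ext ?_⟩
    exact congrArg (fun z : X => (z.1 : G)) hac
  refine ⟨fun Q Q' hQ => ?_, fun Q => ?_⟩
  · induction Q using Quotient.inductionOn with
    | _ c =>
      induction Q' using Quotient.inductionOn with
      | _ c' =>
        refine ConjClasses.mk_eq_mk_iff_isConj.mpr ((hfix (Subgroup.inclusion inf_le_left c) (emb (ConjClasses.mk c)).2).2 c c'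
          (IsConj.refl _) ?_)
        exact ConjClasses.mk_eq_mk_iff_isConj.mp (congrArg Subtype.val hQ)
  · obtain ⟨Q, hQ⟩ := Q
    induction Q using Quotient.inductionOn with
    | _ k =>
      obtain ⟨c, hc⟩ := (hfix k hQ).1
      exact ⟨ConjClasses.mk c, Subtype.ext (ConjClasses.mk_eq_mk_iff_isConj.mpr hc.symm)⟩

end Cfsg.Lib.Blocks
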