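import Cfsg.Agent.Lib.Blocks.Covering
import Cfsg.Agent.Lib.Blocks.RegInner
import Cfsg.Agent.Lib.Blocks.Induction

/-!
# The Fong–Reynolds correspondence
-/

namespace Cfsg.Lib.Blocks

open Cfsg.Lib.Characters Finset
open scoped ComplexConjugate Classical

set_option linter.unusedSectionVars false
set_option linter.style.haveILetI false
set_option linter.style.longLine false
set_option maxHeartbeats 800000

universe u

variable {G : Type u} [Group G] [Fintype G] {M : Ideal Cfsg.AlgInt} [M.IsPrime]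

/-- Summing an induced function against a class function. -/
theorem sum_indFun_mul (H : Subgroup G) [Fintype H] (f : H → ℂ) {F : G → ℂ} (hF : IsClassFunction G F) :
    ∑ g, indFun H f g * F g = (H.index : ℂ) * ∑ h : H, f h * F h := by
  have hx : ∀ x : G, ∑ g, extendByZero H f (x⁻¹ * g * x) * F g = ∑ h : H, f h * F h := by
    intro x
    rw [Fintype.sum_equiv (MulAut.conj x⁻¹).toEquiv _ (fun y => extendByZero H f y * F y) fun g => by
        show _ = extendByZero H f (x⁻¹ * g * x⁻¹⁻¹) * F (x⁻¹ * g * x⁻¹⁻¹)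
        rw [hF g x⁻¹, inv_inv],
      ← Finset.sum_subset (Finset.subset_univ (univ.filter (· ∈ H))) fun g _ hg => by
        rw [extendByZero_not_mem _ (by simpa using hg), zero_mul],
      Finset.sum_subtype (p := (· ∈ H)) (univ.filter (· ∈ H)) fun x => by simp]
    exact Finset.sum_congr rfl fun h _ => by rw [extendByZero_coe]
  have hi : ∀ g, indFun H f g * F g
      = (Nat.card H : ℂ)⁻¹ * ∑ x : G, extendByZero H f (x⁻¹ * g * x) * F g := fun g => by
    rw [indFun, mul_assoc, Finset.sum_mul]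
  rw [Finset.sum_congr rfl fun g _ => hi g, ← Finset.mul_sum, Finset.sum_comm,
    Finset.sum_congr rfl fun x _ => hx x, Finset.sum_const, Finset.card_univ, nsmul_eq_mul,
    ← mul_assoc, ← Nat.card_eq_fintype_card, ← Subgroup.card_mul_index H, Nat.cast_mul, ← mul_assoc,
    inv_mul_cancel₀ (Nat.cast_ne_zero.mpr Nat.card_pos.ne'), one_mul]

/-- An irreducible induced character lies in the induced block. -/
theorem isInducedBlock_of_indFun {H : Subgroup G} (ξ : IrrCharacter H) (χ : IrrCharacter G)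
    (hχ : (χ : G → ℂ) = indFun H (ξ : H → ℂ)) :
    IsInducedBlock M H (blockOf M (ξ : H → ℂ)) (blockOf M (χ : G → ℂ)) := by
  refine (isInducedBlock_iff ⟨ξ, rfl⟩ ⟨χ, rfl⟩ (mem_blockOf_self M ξ) (mem_blockOf_self M χ)).mpr fun u hu => ?_
  obtain ⟨z, hz, rfl⟩ := exists_lift M hu
  have hr : resSub H z ∈ locCenter H M := ⟨hz.1.resSub _, fun h => by rw [coeff_resSub]; exact hz.2 _⟩
  rw [resSub_redG, lam_redG M ξ hr, lam_redG M χ hz]
  congr 1
  have h1 : (χ : G → ℂ) 1 = (H.index : ℂ) * (ξ : H → ℂ) 1 := hχ ▸ indFun_one_apply H _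
  have h2 : ∑ g, z.coeff g * (χ : G → ℂ) g = (H.index : ℂ) * ∑ h : H, (ξ : H → ℂ) h * z.coeff (h : G) := by
    rw [hχ, ← sum_indFun_mul H _ (F := fun g => z.coeff g) (fun g h => hz.1 h g)]
    exact Finset.sum_congr rfl fun g _ => mul_comm _ _
  rw [omega, omega, h1, h2, mul_div_mul_left _ _ (Nat.cast_ne_zero.mpr Subgroup.index_ne_zero_of_finite)]
  congr 1
  exact Finset.sum_congr rfl fun h _ => by rw [coeff_resSub, mul_comm]

/-- The action of a block idempotent of `N` on functions on an overgroup. -/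
noncomputable def eAct {N : Subgroup G} [Fintype N] (b : Set (IrrCharacter N)) (F : G → ℂ) (g : G) : ℂ :=
  ∑ n : N, blockCoeff b n * F ((n : G) * g)

variable {N : Subgroup G} [N.Normal] [Fintype N]

theorem sum_blockCoeff_res (b : Set (IrrCharacter N)) (f : N → ℂ) (m : IrrCharacter N → ℕ)
    (hm : f = ∑ θ, (m θ : ℂ) • (θ : N → ℂ)) :
    ∑ n : N, blockCoeff b n * f n = ((∑ θ : IrrCharacter N, if θ ∈ b then m θ * charDegree (θ : N → ℂ) else 0 : ℕ) : ℂ) := by
  subst hm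
  simp only [Finset.sum_apply, Pi.smul_apply, smul_eq_mul, Finset.mul_sum, Nat.cast_sum]
  rw [Finset.sum_comm]
  refine Finset.sum_congr rfl fun θ _ => ?_
  have h := omega_blockE b θ
  rw [omega, div_eq_iff θ.2.one_ne_zero] at h
  simp only [coeff_blockE] at h
  rw [Finset.sum_congr rfl (g := fun n => (m θ : ℂ) * (blockCoeff b n * (θ : N → ℂ) n)) fun n _ => by ring,
    ← Finset.mul_sum, h]
  split_ifs <;> simp [coe_charDegree]

theorem sum_blockCoeff_eq_zero_iff (b : Set (IrrCharacter N)) {f : N → ℂ} (hf : IsCharacter N f) :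
    ∑ n : N, blockCoeff b n * f n = 0 ↔ ∀ θ ∈ b, classInner f (θ : N → ℂ) = 0 := by
  obtain ⟨m, hm⟩ := exists_decomposition hf
  rw [sum_blockCoeff_res b f m hm, Nat.cast_eq_zero, Finset.sum_eq_zero_iff]
  constructor
  · intro h θ hθ
    have h1 := h θ (Finset.mem_univ _)
    rw [if_pos hθ, Nat.mul_eq_zero] at h1
    rw [hm, classInner_sum_irr (fun φ => (m φ : ℂ)) θ, h1.resolve_right (charDegree_pos θ).ne', Nat.cast_zero]
  · intro h θ _
    split_ifs with hθ
    · have h1 := h θ hθ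
      rw [hm, classInner_sum_irr (fun φ => (m φ : ℂ)) θ] at h1
      rw [Nat.cast_eq_zero.mp h1, zero_mul]
    · rfl

theorem blockCoeff_cj (b : Set (IrrCharacter N)) (x : G) (n : N) :
    blockCoeff b (MulAut.conjNormal x n) = blockCoeff {θ | cjIrr θ x⁻¹ ∈ b} n := by
  have h : pullElt (MulAut.conjNormal x : N ≃* N) (blockE b) = blockE {θ | cjIrr θ x⁻¹ ∈ b} := by
    refine ext_omega (isClassElt_pullElt _ (isClassElt_blockE b)) (isClassElt_blockE _) fun θ => ?_
    have hθ : θ = irrPull (MulAut.conjNormal x : N ≃* N) (cjIrr θ x⁻¹) := by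
      show θ = cjIrr (cjIrr θ x⁻¹) x
      rw [cjIrr_cjIrr, inv_mul_cancel, cjIrr_one]
    conv_lhs => rw [hθ]
    rw [omega_pull, omega_blockE, omega_blockE]
    rfl
  have := congrArg (fun z : MonoidAlgebra ℂ N => z.coeff n) h
  simp only [coeff_pullElt, coeff_blockE] at this
  exact this

variable {T : Subgroup G} [Fintype T] {b : Set (IrrCharacter N)}

theorem blockCoeff_conj_stab (hT : ∀ g : G, g ∈ T ↔ ∀ θ ∈ b, cjIrr θ g ∈ b) {x : G} (hx : x ∈ T) (n : N) :
    blockCoeff b (MulAut.conjNormal x n) = blockCoeff b n := by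
  rw [blockCoeff_cj]
  congr 1
  ext θ
  refine ⟨fun h => ?_, fun h => (hT x⁻¹).mp (inv_mem hx) θ h⟩
  simpa [cjIrr_cjIrr, cjIrr_one] using (hT x).mp hx _ h

theorem eAct_eAct (b b' : Set (IrrCharacter N)) (F : G → ℂ) (g : G) :
    eAct b (eAct b' F) g = ∑ k : N, (∑ n : N, blockCoeff b' n * blockCoeff b (n⁻¹ * k)) * F ((k : G) * g) := by
  simp only [eAct, Finset.mul_sum, Finset.sum_mul]
  rw [Finset.sum_comm]
  conv_rhs => rw [Finset.sum_comm]
  refine Finset.sum_congr rfl fun n _ => ?_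
  refine Fintype.sum_equiv (Equiv.mulLeft n) _ _ fun m => ?_
  simp only [Equiv.coe_mulLeft, inv_mul_cancel_left, Subgroup.coe_mul, mul_assoc]
  ring

theorem sum_blockCoeff_mul (b b' : Set (IrrCharacter N)) (k : N) :
    ∑ n : N, blockCoeff b' n * blockCoeff b (n⁻¹ * k) = (blockE b' * blockE b).coeff k := by
  rw [gr_mul_apply]
  simp

/-- The restriction of a character of `T` to `N`. -/
def resTN (hNT : N ≤ T) (f : T → ℂ) (n : N) : ℂ := f ⟨(n : G), hNT n.2⟩

theorem isCharacter_resTN (hNT : N ≤ T) {f : T → ℂ} (hf : IsCharacter T f) : IsCharacter N (resTN hNT f) :=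
  isCharacter_comp hf (Subgroup.inclusion hNT)

/-- On a character of `T` the idempotent of `b` acts by zero or one. -/
theorem eAct_char (hT : ∀ g : G, g ∈ T ↔ ∀ θ ∈ b, cjIrr θ g ∈ b) (hNT : N ≤ T) (φ : IrrCharacter T) {t : G}
    (ht : t ∈ T) :
    eAct b (extendByZero T (φ : T → ℂ)) t
      = (if ∃ θ ∈ b, classInner (resTN hNT (φ : T → ℂ)) (θ : N → ℂ) ≠ 0 then 1 else 0) * (φ : T → ℂ) ⟨t, ht⟩ := by
  obtain ⟨d, ρ, hρ, hρφ⟩ := id φ.2
  haveI := hρ
  let ι : N → T := fun n => ⟨(n : G), hNT n.2⟩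
  set L := ∑ n : N, blockCoeff b n • ρ (ι n)
  have hL : ∀ v, L * ρ v = ρ v * L := by
    intro v
    rw [Finset.sum_mul, Finset.mul_sum]
    refine Fintype.sum_equiv (MulAut.conjNormal (v : G)⁻¹ : N ≃* N).toEquiv _ _ fun n => ?_
    rw [smul_mul_assoc, mul_smul_comm, ← map_mul, ← map_mul]
    show _ = blockCoeff b (MulAut.conjNormal (v : G)⁻¹ n) • _
    rw [blockCoeff_conj_stab hT (inv_mem v.2)]
    congr 2
    refine Subtype.ext ?_
    show (n : G) * v = v * ((MulAut.conjNormal (v : G)⁻¹ n : N) : G)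
    rw [MulAut.conjNormal_apply]
    group
  obtain ⟨c, hc⟩ := schur_scalar ρ L hL
  have hval : ∀ (s : G) (hs : s ∈ T), eAct b (extendByZero T (φ : T → ℂ)) s = c * (φ : T → ℂ) ⟨s, hs⟩ := by
    intro s hs
    have h := congrArg (fun A => LinearMap.trace ℂ _ (A * ρ ⟨s, hs⟩)) hc
    simp only [L, Finset.sum_mul, map_sum, smul_mul_assoc, map_smul, smul_eq_mul, ← Module.End.one_eq_id,
      one_mul, ← map_mul] at h
    rw [← hρφ]
    refine Eq.trans ?_ h
    refine Finset.sum_congr rfl fun n _ => ?_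
    rw [show ((n : G) * s) = ((ι n * ⟨s, hs⟩ : T) : G) from rfl, extendByZero_coe]
    rfl
  have hidem : c * c = c := by
    have h1 : eAct b (eAct b (extendByZero T (φ : T → ℂ))) 1 = eAct b (extendByZero T (φ : T → ℂ)) 1 := by
      rw [eAct_eAct]
      simp only [sum_blockCoeff_mul, blockE_sq, coeff_blockE]
      rfl
    rw [hval 1 (one_mem _)] at h1
    have h2 : eAct b (eAct b (extendByZero T (φ : T → ℂ))) 1 = c * (c * (φ : T → ℂ) ⟨1, one_mem _⟩) := by
      rw [← hval 1 (one_mem _), eAct, eAct, Finset.mul_sum]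
      refine Finset.sum_congr rfl fun n _ => ?_
      rw [mul_one, hval _ (hNT n.2),
        show extendByZero T (φ : T → ℂ) (n : G) = (φ : T → ℂ) ⟨(n : G), hNT n.2⟩ from extendByZero_coe _ (ι n)]
      ring
    rw [h2, ← mul_assoc] at h1
    exact mul_right_cancel₀ φ.2.one_ne_zero h1
  rw [hval t ht]
  congr 1
  have h0 : c = 0 ↔ ¬ ∃ θ ∈ b, classInner (resTN hNT (φ : T → ℂ)) (θ : N → ℂ) ≠ 0 := by
    push Not
    rw [← sum_blockCoeff_eq_zero_iff b (isCharacter_resTN hNT φ.2.isCharacter)]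
    have h := hval 1 (one_mem _)
    have e : eAct b (extendByZero T (φ : T → ℂ)) 1 = ∑ n : N, blockCoeff b n * resTN hNT (φ : T → ℂ) n := by
      refine Finset.sum_congr rfl fun n _ => ?_
      rw [mul_one, show (n : G) = ((ι n : T) : G) from rfl, extendByZero_coe]
      rfl
    rw [e] at h
    rw [h, mul_eq_zero]
    exact ⟨Or.inl, fun h => h.resolve_right φ.2.one_ne_zero⟩
  split_ifs with hcov
  · have hc0 : c ≠ 0 := fun h => h0.mp h hcov
    exact mul_left_cancel₀ hc0 (hidem.trans (mul_one c).symm)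
  · exact h0.mpr hcov

/-- The idempotent of `b` recovers a covering character of `T` from the induced one. -/
theorem eAct_indFun (hb : IsPBlock M b) (hT : ∀ g : G, g ∈ T ↔ ∀ θ ∈ b, cjIrr θ g ∈ b) (hNT : N ≤ T)
    (ψ : IrrCharacter T) (hψ : ∃ θ ∈ b, classInner (resTN hNT (ψ : T → ℂ)) (θ : N → ℂ) ≠ 0) {t : G}
    (ht : t ∈ T) : eAct b (indFun T (ψ : T → ℂ)) t = (ψ : T → ℂ) ⟨t, ht⟩ := by
  set ext := extendByZero T (ψ : T → ℂ) with hext
  have hone : ∀ s ∈ T, eAct b ext s = ext s := fun s hs => by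
    rw [eAct_char hT hNT ψ hs, if_pos hψ, one_mul, hext]
    exact (extendByZero_coe _ (⟨s, hs⟩ : T)).symm
  have hterm : ∀ x : G, ∑ n : N, blockCoeff b n * ext (x⁻¹ * ((n : G) * t) * x)
      = if x ∈ T then (ψ : T → ℂ) ⟨t, ht⟩ else 0 := by
    intro x
    have hre : ∑ n : N, blockCoeff b n * ext (x⁻¹ * ((n : G) * t) * x)
        = ∑ n : N, blockCoeff b (MulAut.conjNormal x n) * ext ((n : G) * (x⁻¹ * t * x)) := by
      refine (Fintype.sum_equiv (MulAut.conjNormal x : N ≃* N).toEquiv _ _ fun n => ?_).symm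
      show _ = blockCoeff b (MulAut.conjNormal x n) * ext (x⁻¹ * (((MulAut.conjNormal x n : N) : G) * t) * x)
      rw [MulAut.conjNormal_apply]
      congr 2
      group
    rw [hre]
    by_cases hx : x ∈ T
    · rw [if_pos hx]
      have hs : x⁻¹ * t * x ∈ T := mul_mem (mul_mem (inv_mem hx) ht) hx
      simp only [blockCoeff_conj_stab hT hx]
      show eAct b ext (x⁻¹ * t * x) = _
      rw [hone _ hs, hext, show x⁻¹ * t * x = ((⟨_, hs⟩ : T) : G) from rfl, extendByZero_coe]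
      rw [← ψ.2.isClassFunction ⟨t, ht⟩ ⟨x⁻¹, inv_mem hx⟩]
      exact congrArg (ψ : T → ℂ) (Subtype.ext (by simp))
    · rw [if_neg hx]
      by_cases hs : x⁻¹ * t * x ∈ T
      · simp only [blockCoeff_cj]
        set b' : Set (IrrCharacter N) := {θ | cjIrr θ x⁻¹ ∈ b}
        have hzero : blockE b' * blockE b = 0 := by
          refine ext_omega ((isClassElt_blockE _).mul (isClassElt_blockE _)) IsClassElt.zero fun θ => ?_
          rw [omega_mul θ (isClassElt_blockE _) (isClassElt_blockE _), omega_blockE, omega_blockE, omega_zero]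
          by_cases h1 : θ ∈ b
          · by_cases h2 : θ ∈ b'
            · exfalso
              refine hx (inv_mem_iff.mp ((hT x⁻¹).mpr fun φ hφ => ?_))
              exact IsPBlock.mem_of_sameBlock hb h2 (sameBlock_cjIrr (IsPBlock.sameBlock hb h1 hφ) x⁻¹)
            · rw [if_neg h2, zero_mul]
          · rw [if_neg h1, mul_zero]
        calc ∑ n : N, blockCoeff b' n * ext ((n : G) * (x⁻¹ * t * x))
            = eAct b' (eAct b ext) (x⁻¹ * t * x) := Finset.sum_congr rfl fun n _ => by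
              rw [hone _ (mul_mem (hNT n.2) hs)]
          _ = 0 := by
              rw [eAct_eAct]
              refine Finset.sum_eq_zero fun k _ => ?_
              rw [sum_blockCoeff_mul, (isClassElt_blockE b).mul_comm (blockE b'), hzero]
              simp
      · refine Finset.sum_eq_zero fun n _ => ?_
        rw [hext, extendByZero_not_mem _ fun h => hs ?_, mul_zero]
        simpa [mul_assoc] using mul_mem (inv_mem (hNT n.2)) h
  simp only [eAct, indFun, Finset.mul_sum]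
  rw [Finset.sum_comm, Finset.sum_congr rfl (g := fun x => (Nat.card T : ℂ)⁻¹ * (if x ∈ T then (ψ : T → ℂ) ⟨t, ht⟩ else 0))
    fun x _ => ?_]
  · rw [← Finset.mul_sum, ← Finset.sum_filter, Finset.sum_const, nsmul_eq_mul, ← Fintype.card_subtype,
      ← Nat.card_eq_fintype_card, ← mul_assoc, inv_mul_cancel₀ (Nat.cast_ne_zero.mpr Nat.card_pos.ne'), one_mul]
  · rw [← hterm x, Finset.mul_sum]
    exact Finset.sum_congr rfl fun n _ => by ring

theorem isIrr_indFun_covering (hb : IsPBlock M b) (hT : ∀ g : G, g ∈ T ↔ ∀ θ ∈ b, cjIrr θ g ∈ b) (hNT : N ≤ T)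
    (ψ : IrrCharacter T) (hψ : ∃ θ ∈ b, classInner (resTN hNT (ψ : T → ℂ)) (θ : N → ℂ) ≠ 0) :
    IsIrrCharacter G (indFun T (ψ : T → ℂ)) := by
  have hchar := isCharacter_indFun T ψ.2.isCharacter
  refine isIrrCharacter_of_classInner_eq_one hchar ?_
  rw [classInner_indFun_right T _ (isClassFunction_indFun T _)]
  obtain ⟨m, hm⟩ := exists_decomposition (isCharacter_restrict hchar T)
  set ε : IrrCharacter T → ℂ := fun φ =>
    if ∃ θ ∈ b, classInner (resTN hNT (φ : T → ℂ)) (θ : N → ℂ) ≠ 0 then 1 else 0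
  have he : (ψ : T → ℂ) = ∑ φ, ((m φ : ℂ) * ε φ) • (φ : T → ℂ) := by
    funext t
    rw [← eAct_indFun hb hT hNT ψ hψ t.2, Finset.sum_apply]
    have h1 : ∀ n : N, indFun T (ψ : T → ℂ) ((n : G) * t)
        = ∑ φ : IrrCharacter T, (m φ : ℂ) * extendByZero T (φ : T → ℂ) ((n : G) * t) := by
      intro n
      have h := congrFun hm (⟨(n : G) * t, mul_mem (hNT n.2) t.2⟩ : T)
      simp only [Finset.sum_apply, Pi.smul_apply, smul_eq_mul] at h
      rw [h]
      refine Finset.sum_congr rfl fun φ _ => ?_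
      rw [← extendByZero_coe (φ : T → ℂ) (⟨(n : G) * t, mul_mem (hNT n.2) t.2⟩ : T)]
    simp only [eAct, h1, Finset.mul_sum]
    rw [Finset.sum_comm]
    refine Finset.sum_congr rfl fun φ _ => ?_
    rw [Pi.smul_apply, smul_eq_mul, mul_assoc, ← eAct_char hT hNT φ t.2, eAct, Finset.mul_sum]
    exact Finset.sum_congr rfl fun n _ => by ring
  have h1 := classInner_sum_irr (fun φ => (m φ : ℂ) * ε φ) ψ
  rw [← he, classInner_irr_self ψ.2, show ε ψ = 1 from if_pos hψ, mul_one] at h1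
  rw [hm, classInner_sum_irr (fun φ => (m φ : ℂ)) ψ, ← h1]

theorem indFun_injective_covering (hb : IsPBlock M b) (hT : ∀ g : G, g ∈ T ↔ ∀ θ ∈ b, cjIrr θ g ∈ b) (hNT : N ≤ T)
    {ψ ψ' : IrrCharacter T} (hψ : ∃ θ ∈ b, classInner (resTN hNT (ψ : T → ℂ)) (θ : N → ℂ) ≠ 0)
    (hψ' : ∃ θ ∈ b, classInner (resTN hNT (ψ' : T → ℂ)) (θ : N → ℂ) ≠ 0)
    (h : indFun T (ψ : T → ℂ) = indFun T (ψ' : T → ℂ)) : ψ = ψ' := by
  refine Subtype.ext (funext fun t => ?_)
  rw [← eAct_indFun hb hT hNT ψ hψ t.2, ← eAct_indFun hb hT hNT ψ' hψ' t.2, h]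

theorem covers_indFun (hb : IsPBlock M b) (hT : ∀ g : G, g ∈ T ↔ ∀ θ ∈ b, cjIrr θ g ∈ b) (hNT : N ≤ T)
    {ψ : IrrCharacter T} (hψ : ∃ θ ∈ b, classInner (resTN hNT (ψ : T → ℂ)) (θ : N → ℂ) ≠ 0)
    {χ : IrrCharacter G} (hχ : (χ : G → ℂ) = indFun T (ψ : T → ℂ)) :
    ∃ θ ∈ b, classInner (fun n : N => (χ : G → ℂ) n) (θ : N → ℂ) ≠ 0 := by
  by_contra hh
  push Not at hh
  have h0 := (sum_blockCoeff_eq_zero_iff b (isCharacter_restrict χ.2.isCharacter N)).mpr hh
  have h1 := eAct_indFun hb hT hNT ψ hψ (one_mem T)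
  simp only [eAct, mul_one] at h1
  rw [← hχ, h0] at h1
  exact ψ.2.one_ne_zero h1.symm

/-- Every character over `b` is induced from the stabilizer. -/
theorem exists_indFun_covering (hb : IsPBlock M b) (hT : ∀ g : G, g ∈ T ↔ ∀ θ ∈ b, cjIrr θ g ∈ b) (hNT : N ≤ T)
    (χ : IrrCharacter G) (hχ : ∃ θ ∈ b, classInner (fun n : N => (χ : G → ℂ) n) (θ : N → ℂ) ≠ 0) :
    ∃ ψ : IrrCharacter T, (∃ θ ∈ b, classInner (resTN hNT (ψ : T → ℂ)) (θ : N → ℂ) ≠ 0) ∧
      (χ : G → ℂ) = indFun T (ψ : T → ℂ) := by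
  obtain ⟨θ, hθ, hne⟩ := hχ
  obtain ⟨m, hm⟩ := exists_decomposition (isCharacter_restrict χ.2.isCharacter T)
  obtain ⟨ψ, hψm, hψθ⟩ : ∃ ψ : IrrCharacter T, m ψ ≠ 0 ∧ classInner (resTN hNT (ψ : T → ℂ)) (θ : N → ℂ) ≠ 0 := by
    by_contra hh
    push Not at hh
    apply hne
    have hres : (fun n : N => (χ : G → ℂ) n) = ∑ φ : IrrCharacter T, (m φ : ℂ) • resTN hNT (φ : T → ℂ) := by
      funext n
      have h := congrFun hm (⟨(n : G), hNT n.2⟩ : T)
      simp only [Finset.sum_apply, Pi.smul_apply] at h ⊢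
      exact h
    rw [hres, classInner_sum_left]
    refine Finset.sum_eq_zero fun φ _ => ?_
    rw [classInner_smul_left]
    by_cases h0 : m φ = 0
    · rw [h0, Nat.cast_zero, zero_mul]
    · rw [hh φ h0, mul_zero]
  refine ⟨ψ, ⟨θ, hθ, hψθ⟩, ?_⟩
  have hirr := isIrr_indFun_covering hb hT hNT ψ ⟨θ, hθ, hψθ⟩
  by_contra hne'
  have h := classInner_irr_ne χ.2 hirr hne'
  rw [classInner_indFun_right T _ χ.2.isClassFunction, hm, classInner_sum_irr (fun φ => (m φ : ℂ)) ψ] at h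
  exact hψm (by exact_mod_cast h)

/-- Blocks of the stabilizer covering `b` are told apart in `G`. -/
theorem sameBlock_of_indFun (hb : IsPBlock M b) (hT : ∀ g : G, g ∈ T ↔ ∀ θ ∈ b, cjIrr θ g ∈ b) (hNT : N ≤ T)
    {ψ ψ' : IrrCharacter T} (hψ : ∃ θ ∈ b, classInner (resTN hNT (ψ : T → ℂ)) (θ : N → ℂ) ≠ 0)
    (hψ' : ∃ θ ∈ b, classInner (resTN hNT (ψ' : T → ℂ)) (θ : N → ℂ) ≠ 0) {χ χ' : IrrCharacter G}
    (hχ : (χ : G → ℂ) = indFun T (ψ : T → ℂ)) (hχ' : (χ' : G → ℂ) = indFun T (ψ' : T → ℂ))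
    (hs : SameBlock M (χ : G → ℂ) (χ' : G → ℂ)) : SameBlock M (ψ : T → ℂ) (ψ' : T → ℂ) := by
  refine sameBlock_of_lam_eq M fun u hu => ?_
  obtain ⟨v, hv, rfl⟩ := exists_lift M hu
  let ι : N → T := fun n => ⟨(n : G), hNT n.2⟩
  set w : T → ℂ := fun t => ∑ n : N, blockCoeff b n * v.coeff ((ι n)⁻¹ * t) with hw
  set z : MonoidAlgebra ℂ G := gOfFun (indFun T w)
  have hwloc : ∀ t, w t ∈ locRing M := fun t => by
    rw [hw]
    exact sum_mem fun n _ => mul_mem (blockCoeff_mem_locRing hb n) (hv.2 _)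
  have hwinv : ∀ s t : T, w (s * t * s⁻¹) = w t := by
    intro s t
    rw [hw]
    refine (Fintype.sum_equiv (MulAut.conjNormal (s : G) : N ≃* N).toEquiv _ _ fun n => ?_).symm
    show _ = blockCoeff b (MulAut.conjNormal (s : G) n) * _
    rw [blockCoeff_conj_stab hT s.2, show ι ((MulAut.conjNormal (s : G) : N ≃* N).toEquiv n) = s * ι n * s⁻¹ from
      Subtype.ext (MulAut.conjNormal_apply _ _), show (s * ι n * s⁻¹)⁻¹ * (s * t * s⁻¹) = s * ((ι n)⁻¹ * t) * s⁻¹ by group,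
      hv.1 s]
  have hzloc : z ∈ locCenter G M := by
    refine ⟨isClassElt_gOfFun fun g a => isClassFunction_indFun T w a g, fun g => ?_⟩
    rw [coeff_gOfFun]
    have hinv : ∀ (x : G) (s : T), extendByZero T w ((x * s)⁻¹ * g * (x * s)) = extendByZero T w (x⁻¹ * g * x) := by
      intro x s
      have e : (x * (s : G))⁻¹ * g * (x * s) = (s : G)⁻¹ * (x⁻¹ * g * x) * s := by group
      rw [e]
      by_cases hm : x⁻¹ * g * x ∈ T
      · rw [show (s : G)⁻¹ * (x⁻¹ * g * x) * s = ((s⁻¹ * ⟨_, hm⟩ * (s⁻¹)⁻¹ : T) : G) by simp,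
          extendByZero_coe, hwinv, ← extendByZero_coe w ⟨_, hm⟩]
      · rw [extendByZero_not_mem _ hm, extendByZero_not_mem _ fun h => hm (by
          simpa [mul_assoc] using mul_mem (mul_mem s.2 h) (inv_mem s.2))]
    have hval : indFun T w g = ∑ q : G ⧸ T, extendByZero T w (q.out⁻¹ * g * q.out) := by
      have key : ∀ x : G, extendByZero T w (x⁻¹ * g * x)
          = extendByZero T w (((x : G ⧸ T).out)⁻¹ * g * (x : G ⧸ T).out) := by
        intro x
        obtain ⟨s, hs⟩ := QuotientGroup.mk_out_eq_mul T x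
        rw [hs, hinv]
      rw [indFun, Fintype.sum_equiv (Subgroup.groupEquivQuotientProdSubgroup (s := T))
        (fun x => extendByZero T w (x⁻¹ * g * x))
        (fun q => extendByZero T w (q.1.out⁻¹ * g * q.1.out)) fun x => key x, Fintype.sum_prod_type]
      simp only [Finset.sum_const, Finset.card_univ, nsmul_eq_mul]
      rw [← Finset.mul_sum, ← mul_assoc, Nat.card_eq_fintype_card,
        inv_mul_cancel₀ (Nat.cast_ne_zero.mpr Fintype.card_ne_zero), one_mul]
    rw [hval]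
    refine sum_mem fun q _ => ?_
    by_cases hm : q.out⁻¹ * g * q.out ∈ T
    · rw [← show ((⟨_, hm⟩ : T) : G) = q.out⁻¹ * g * q.out from rfl, extendByZero_coe]
      exact hwloc _
    · rw [extendByZero_not_mem _ hm]
      exact zero_mem _
  have key : ∀ (φ : IrrCharacter T) (ξ : IrrCharacter G),
      (∃ θ ∈ b, classInner (resTN hNT (φ : T → ℂ)) (θ : N → ℂ) ≠ 0) →
      (ξ : G → ℂ) = indFun T (φ : T → ℂ) → omega ξ z = omega φ v := by
    intro φ ξ hφ hξ
    rw [omega, omega, show (ξ : G → ℂ) 1 = (T.index : ℂ) * (φ : T → ℂ) 1 from hξ ▸ indFun_one_apply T _]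
    simp only [z, coeff_gOfFun]
    rw [sum_indFun_mul T w ξ.2.isClassFunction, mul_div_mul_left _ _ (Nat.cast_ne_zero.mpr Subgroup.index_ne_zero_of_finite)]
    congr 1
    simp only [hw, Finset.sum_mul]
    rw [Finset.sum_comm]
    have hn : ∀ n : N, ∑ t : T, blockCoeff b n * v.coeff ((ι n)⁻¹ * t) * (ξ : G → ℂ) t
        = ∑ s : T, v.coeff s * (blockCoeff b n * (ξ : G → ℂ) ((n : G) * s)) := fun n =>
      (Fintype.sum_equiv (Equiv.mulLeft (ι n)) _ _ fun s => by
        simp only [Equiv.coe_mulLeft, inv_mul_cancel_left, Subgroup.coe_mul]; ring).symm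
    rw [Finset.sum_congr rfl fun n _ => hn n, Finset.sum_comm]
    refine Finset.sum_congr rfl fun s _ => ?_
    rw [← Finset.mul_sum]
    congr 1
    have h := eAct_indFun hb hT hNT φ hφ s.2
    rw [← hξ] at h
    exact h
  have h := lam_eq_of_sameBlock M hs (redG M z)
  rw [lam_redG M χ hzloc, lam_redG M χ' hzloc, key ψ χ hψ hχ, key ψ' χ' hψ' hχ'] at h
  rwa [lam_redG M ψ hv, lam_redG M ψ' hv]

/-- All members of a covering block of the stabilizer cover. -/
theorem covers_all {p : ℕ} [Fact p.Prime] (_hM : IsPModular p M) (hb : IsPBlock M b)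
    (hT : ∀ g : G, g ∈ T ↔ ∀ θ ∈ b, cjIrr θ g ∈ b) (hNT : N ≤ T) {B' : Set (IrrCharacter T)} (hB' : IsPBlock M B')
    (hcov : ∃ ψ ∈ B', ∃ θ ∈ b, classInner (resTN hNT (ψ : T → ℂ)) (θ : N → ℂ) ≠ 0) :
    ∀ ψ ∈ B', ∃ θ ∈ b, classInner (resTN hNT (ψ : T → ℂ)) (θ : N → ℂ) ≠ 0 := by
  obtain ⟨ψ₀, hψ₀, hc₀⟩ := hcov
  set z : MonoidAlgebra ℂ T := gOfFun fun t => if h : (t : G) ∈ N then blockCoeff b ⟨(t : G), h⟩ else 0 with hz
  have hzl : z ∈ locCenter T M := by
    refine ⟨isClassElt_gOfFun fun s t => ?_, fun t => ?_⟩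
    · by_cases h : (t : G) ∈ N
      · have h' : ((s * t * s⁻¹ : T) : G) ∈ N := by simpa using ‹N.Normal›.conj_mem _ h (s : G)
        rw [dif_pos h, dif_pos h', ← blockCoeff_conj_stab hT s.2 ⟨(t : G), h⟩]
        exact congrArg _ (Subtype.ext (by simp [MulAut.conjNormal_apply]))
      · rw [dif_neg h, dif_neg fun h' => h (by
          simpa [mul_assoc] using ‹N.Normal›.conj_mem _ h' (s : G)⁻¹)]
    · rw [hz, coeff_gOfFun]
      split_ifs
      · exact blockCoeff_mem_locRing hb _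
      · exact zero_mem _
  have hω : ∀ φ : IrrCharacter T, omega φ z
      = if ∃ θ ∈ b, classInner (resTN hNT (φ : T → ℂ)) (θ : N → ℂ) ≠ 0 then 1 else 0 := by
    intro φ
    rw [omega, div_eq_iff φ.2.one_ne_zero]
    have h := eAct_char hT hNT φ (one_mem T)
    rw [show (φ : T → ℂ) 1 = (φ : T → ℂ) ⟨1, one_mem T⟩ from rfl, ← h, eAct]
    let eN := Subgroup.subgroupOfEquivOfLe hNT
    haveI := Fintype.ofFinite (N.subgroupOf T)
    rw [← Finset.sum_subset (Finset.subset_univ (univ.filter fun t : T => (t : G) ∈ N)) fun t _ ht => by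
      rw [hz, coeff_gOfFun, dif_neg (by simpa using ht), zero_mul]]
    refine (Finset.sum_bij (fun (n : N) _ => (⟨(n : G), hNT n.2⟩ : T)) (fun n _ => Finset.mem_filter.mpr ⟨Finset.mem_univ _, n.2⟩)
      (fun n _ n' _ h => Subtype.ext (congrArg (fun t : T => (t : G)) h))
      (fun t ht => ⟨⟨t, (Finset.mem_filter.mp ht).2⟩, Finset.mem_univ _, rfl⟩) fun n _ => ?_).symm
    rw [hz, coeff_gOfFun, dif_pos n.2, mul_one]
    congr 1
    exact extendByZero_coe _ (⟨(n : G), hNT n.2⟩ : T)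
  intro ψ hψ
  by_contra hne
  have h := lam_eq_of_sameBlock M (IsPBlock.sameBlock hB' hψ₀ hψ) (redG M z)
  rw [lam_redG M ψ₀ hzl, lam_redG M ψ hzl, hω, hω, if_pos hc₀, if_neg hne, red_one, red_zero] at h
  exact one_ne_zero h

end Cfsg.Lib.Blocks
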