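import Cfsg.Agent.Lib.Blocks.MajorSubsection
import Cfsg.Agent.Lib.Blocks.ExtendedFirstMain
import Cfsg.Agent.Lib.Blocks.BlockFusion
import Cfsg.Agent.Lib.Blocks.Heights
import Cfsg.Agent.Lib.Blocks.Galois

/-!
# Heights and major subsections

A character of height `h` lies in at most `p ^ (d - h)` inequivalent major subsections.
-/

namespace Cfsg.Lib.Blocks

open Cfsg.Lib.Characters Finset
open scoped ComplexConjugate Classical

set_option linter.unusedSectionVars false
set_option linter.style.haveILetI false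
set_option linter.style.longLine false

/-- A scaled sum of squared absolute values stays real and nonnegative under every embedding. -/
theorem exists_real_of_sum_mul_conj {N : ℕ} (hN : 0 < N) {α : Type*} [Fintype α] (w : α → ℂ)
    (hw : ∀ a, w a ∈ rootField N) {y : ℂ} (hy : y ∈ rootField N) {q m : ℕ} (hm : 0 < m)
    (heq : (q : ℂ) * ∑ a, w a * conj (w a) = (m : ℂ) * y) (σ : rootField N →ₐ[ℚ] ℂ) :
    ∃ r : ℝ, 0 ≤ r ∧ σ ⟨y, hy⟩ = (r : ℂ) := by
  refine ⟨(q : ℝ) * (∑ a, Complex.normSq (σ ⟨w a, hw a⟩)) / m,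
    div_nonneg (mul_nonneg (Nat.cast_nonneg _) (Finset.sum_nonneg fun a _ => Complex.normSq_nonneg _))
      (Nat.cast_nonneg _), ?_⟩
  have h1 : (q : rootField N) * ∑ a, (⟨w a, hw a⟩ : rootField N) * ⟨conj (w a), conj_mem_rootField (hw a)⟩
      = (m : rootField N) * ⟨y, hy⟩ := by
    apply Subtype.ext
    push_cast
    exact heq
  have h2 := congrArg σ h1
  simp only [map_mul, map_natCast, map_sum] at h2
  rw [Finset.sum_congr rfl fun a _ => show σ ⟨w a, hw a⟩ * σ ⟨conj (w a), conj_mem_rootField (hw a)⟩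
      = (Complex.normSq (σ ⟨w a, hw a⟩) : ℂ) by
    rw [algHom_conj hN σ ⟨w a, hw a⟩, Complex.mul_conj]] at h2
  push_cast
  rw [h2, mul_div_cancel_left₀ _ (Nat.cast_ne_zero.mpr hm.ne' : (m : ℂ) ≠ 0)]

/-- A totally nonnegative nonzero algebraic integer has mean at least one over the embeddings. -/
theorem sum_re_ge {N : ℕ} (hN : 0 < N) {x : ℂ} (hx : x ∈ rootField N) (hint : IsIntegral ℤ x)
    (hne : x ≠ 0) [FiniteDimensional ℚ (rootField N)] (r : (rootField N →ₐ[ℚ] ℂ) → ℝ)
    (hr : ∀ σ, 0 ≤ r σ ∧ σ ⟨x, hx⟩ = (r σ : ℂ)) :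
    (Fintype.card (rootField N →ₐ[ℚ] ℂ) : ℝ) ≤ ∑ σ, r σ := by
  set z : rootField N := ⟨x, hx⟩
  have hz : z ≠ 0 := fun h => hne (congrArg Subtype.val h)
  have hintz : IsIntegral ℤ z :=
    (isIntegral_algHom_iff ((rootField N).val.restrictScalars ℤ) Subtype.val_injective).mp hint
  obtain ⟨m, hm⟩ := IsIntegrallyClosed.isIntegral_iff.mp (Algebra.isIntegral_norm ℚ hintz)
  have hm0 : m ≠ 0 := fun h => by
    rw [h, map_zero, eq_comm, Algebra.norm_eq_zero_iff] at hm
    exact hz hm
  have hpos : ∀ σ, 0 < r σ := fun σ => lt_of_le_of_ne (hr σ).1 fun h0 => by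
    have := (hr σ).2
    rw [← h0, Complex.ofReal_zero, map_eq_zero] at this
    exact hz this
  have hprod : ((∏ σ, r σ : ℝ) : ℂ) = (m : ℂ) := by
    rw [Complex.ofReal_prod, ← Finset.prod_congr rfl fun σ _ => (hr σ).2,
      ← Algebra.norm_eq_prod_embeddings ℚ ℂ z, ← hm]
    simp
  have hreal : (∏ σ, r σ) = (m : ℝ) := Complex.ofReal_injective (by rw [hprod]; simp)
  have hge : 1 ≤ ∏ σ, r σ := by
    have h0 : 0 < ∏ σ, r σ := Finset.prod_pos fun σ _ => hpos σ
    rw [hreal] at h0 ⊢
    exact_mod_cast (Int.cast_pos.mp h0 : 0 < m)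
  have hlog : 0 ≤ ∑ σ, Real.log (r σ) := by
    rw [← Real.log_prod fun σ _ => (hpos σ).ne']
    exact Real.log_nonneg hge
  calc (Fintype.card (rootField N →ₐ[ℚ] ℂ) : ℝ)
      ≤ ∑ _σ : rootField N →ₐ[ℚ] ℂ, (1 : ℝ) + ∑ σ, Real.log (r σ) := by simpa using hlog
    _ = ∑ σ, (1 + Real.log (r σ)) := by rw [Finset.sum_add_distrib]
    _ ≤ ∑ σ, r σ := Finset.sum_le_sum fun σ _ => by
        have := Real.log_le_sub_one_of_pos (hpos σ); linarith

section Major

variable {G : Type*} [Group G] [Fintype G] {M : Ideal Cfsg.AlgInt} [M.IsPrime]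
variable {p : ℕ} [hp : Fact p.Prime]

/-- The part of `χ` in the subsection `(x, b)`. -/
noncomputable def secPart (p : ℕ) (x : G) (H : Subgroup G) (b : Set (IrrCharacter H))
    (χ : IrrCharacter G) : G → ℂ :=
  secExt p x H (blockPart b (fun c : H => (χ : G → ℂ) (x * (c : G))))

theorem secPart_mem_rootField (x : G) (H : Subgroup G) (b : Set (IrrCharacter H))
    (χ : IrrCharacter G) (g : G) : secPart p x H b χ g ∈ rootField (Nat.card G) := by
  unfold secPart secExt
  split_ifs
  · rw [blockPart_translate]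
    exact sum_mem fun ξ _ => mul_mem (secCoeff_mem_rootField χ ξ)
      (char_mem_rootField ξ.2.isCharacter _ ((orderOf_dvd_natCard _).trans H.card_subgroup_dvd_card))
  · exact zero_mem _

theorem isClassFunction_conj_comp {θ : G → ℂ} (hθ : IsClassFunction G θ) :
    IsClassFunction G (fun g => conj (θ g)) := fun g a => congrArg conj (hθ g a)

/-- Inner product of a subsection part with the character. -/
theorem sum_secPart_mul_char (hM : IsPModular p M) {x : G} (hx : ∃ k : ℕ, orderOf x = p ^ k)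
    {H : Subgroup G} (hH : H = Subgroup.centralizer ({x} : Set G)) {b : Set (IrrCharacter H)}
    (hb : IsPBlock M b) (χ : IrrCharacter G) :
    ((p ^ blockDefect p b : ℕ) : ℂ) * ∑ g, secPart p x H b χ g * conj ((χ : G → ℂ) g)
      = (Nat.card G : ℂ) * contrib p x H b χ χ := by
  unfold secPart
  rw [sum_secExt_mul hx hH (isClassFunction_blockPart_translate x χ)
    (isClassFunction_conj_comp χ.2.isClassFunction), contrib_eq_translate hM hH hb,
    ← Subgroup.card_mul_index H, Nat.cast_mul]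
  simp only [char_inv_eq_conj χ.2.isCharacter]
  have : (Nat.card H : ℂ) ≠ 0 := Nat.cast_ne_zero.mpr Nat.card_pos.ne'
  field_simp

/-- Squared norm of a subsection part. -/
theorem sum_secPart_mul_self {x : G} (hx : ∃ k : ℕ, orderOf x = p ^ k)
    {H : Subgroup G} (hH : H = Subgroup.centralizer ({x} : Set G)) {b : Set (IrrCharacter H)}
    (χ : IrrCharacter G) :
    ((p ^ blockDefect p b : ℕ) : ℂ) * ∑ g, secPart p x H b χ g * conj (secPart p x H b χ g)
      = (Nat.card G : ℂ) * contrib p x H b χ χ := by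
  have hf := isClassFunction_blockPart_translate (b := b) x χ
  unfold secPart
  rw [sum_secExt_mul hx hH hf (isClassFunction_conj_comp (isClassFunction_secExt hx hH hf)), contrib,
    ← Subgroup.card_mul_index H, Nat.cast_mul]
  rw [Finset.sum_congr rfl (g := fun s : H => if p ∣ orderOf s then (0 : ℂ) else
    blockPart b (fun c : H => (χ : G → ℂ) (x * (c : G))) s *
      blockPart b (fun c : H => (χ : G → ℂ) (x⁻¹ * (c : G))) s⁻¹) fun s _ => ?_]
  · have : (Nat.card H : ℂ) ≠ 0 := Nat.cast_ne_zero.mpr Nat.card_pos.ne'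
    field_simp
  · split_ifs with hs
    · rfl
    · have h1 := secExt_eq hx hH hf 1 hs
      simp only [one_mul, inv_one, mul_one] at h1
      rw [h1]
      congr 1
      rw [blockPart_translate, blockPart_translate, map_sum]
      exact Finset.sum_congr rfl fun ξ _ => by
        rw [map_mul, conj_secCoeff x H χ ξ hH.le, ← char_inv_eq_conj ξ.2.isCharacter]

/-- Inequivalent subsections give orthogonal parts. -/
theorem sum_secPart_mul_eq_zero (hM : IsPModular p M) {x y : G} (hx : ∃ k : ℕ, orderOf x = p ^ k)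
    (hy : ∃ k : ℕ, orderOf y = p ^ k) {H K : Subgroup G}
    (hH : H = Subgroup.centralizer ({x} : Set G)) (hK : K = Subgroup.centralizer ({y} : Set G))
    {b : Set (IrrCharacter H)} {c : Set (IrrCharacter K)} (hb : IsPBlock M b) (hc : IsPBlock M c)
    (hne : ∀ t : G, t * x * t⁻¹ = y → ∀ h : ∀ g : G, g ∈ H ↔ t * g * t⁻¹ ∈ K,
      pullBlock (conjEquiv H K t h) c ≠ b) (χ : IrrCharacter G) :
    ∑ g, secPart p x H b χ g * conj (secPart p y K c χ g) = 0 := by
  have hf := isClassFunction_blockPart_translate (b := b) x χ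
  have hf' := isClassFunction_blockPart_translate (b := c) y χ
  unfold secPart
  rw [sum_secExt_mul hx hH hf (isClassFunction_conj_comp (isClassFunction_secExt hy hK hf'))]
  refine mul_eq_zero_of_right _ ?_
  have hcx : ∀ s : H, Commute x (s : G) := fun s =>
    (Subgroup.mem_centralizer_singleton_iff.mp (hH.le s.2)).symm
  by_cases hconj : ∃ t : G, t * x * t⁻¹ = y
  · obtain ⟨t, ht⟩ := hconj
    have h : ∀ g : G, g ∈ H ↔ t * g * t⁻¹ ∈ K := fun g => by
      rw [hH, hK, Subgroup.mem_centralizer_singleton_iff, Subgroup.mem_centralizer_singleton_iff,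
        ← ht, ← commute_iff_eq, ← commute_iff_eq]
      exact (MulAut.conj t).injective.eq_iff.symm.trans (by simp [commute_iff_eq, mul_assoc])
    set e := conjEquiv H K t h
    have hval : ∀ s : H, ¬ p ∣ orderOf s →
        secExt p y K (blockPart c (fun d : K => (χ : G → ℂ) (y * (d : G)))) (x * (s : G))
          = blockPart c (fun d : K => (χ : G → ℂ) (y * (d : G))) (e s) := by
      intro s hs
      rw [← secExt_eq hy hK hf' t⁻¹ (s := e s) (by rw [MulEquiv.orderOf_eq]; exact hs), coe_conjEquiv, ← ht]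
      congr 1
      group
    rw [Finset.sum_congr rfl (g := fun s : H => ∑ ξ ∈ univ.filter (· ∈ b), ∑ ξ' ∈ univ.filter (· ∈ c),
      secCoeff x H χ ξ * conj (secCoeff y K χ ξ') *
        (if p ∣ orderOf s then 0 else (ξ : H → ℂ) s * (irrPull e ξ' : H → ℂ) s⁻¹)) fun s _ => ?_]
    · rw [Finset.sum_comm]
      refine Finset.sum_eq_zero fun ξ hξ => ?_
      rw [Finset.sum_comm]
      refine Finset.sum_eq_zero fun ξ' hξ' => ?_
      rw [← Finset.mul_sum]
      refine mul_eq_zero_of_right _ (regInner_eq_zero hM fun hs => ?_)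
      refine hne t ht h (IsPBlock.eq_of_mem (isPBlock_pull e hc) hb
        ((mem_pullBlock e c ξ').mpr (Finset.mem_filter.mp hξ').2) ?_)
      exact IsPBlock.mem_of_sameBlock hb (Finset.mem_filter.mp hξ).2 hs
    · split_ifs with hs
      · simp
      · simp only [hval s hs]
        rw [blockPart_translate, blockPart_translate, map_sum, Finset.sum_mul_sum]
        refine Finset.sum_congr rfl fun ξ _ => Finset.sum_congr rfl fun ξ' _ => ?_
        rw [map_mul, irrPull_apply, map_inv, char_inv_eq_conj ξ'.2.isCharacter]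
        ring
  · refine Finset.sum_eq_zero fun s _ => ?_
    split_ifs with hs
    · rfl
    · rw [secExt_eq_zero, map_zero, mul_zero]
      rintro ⟨⟨t, s'⟩, hs', he⟩
      obtain ⟨k, hk⟩ := hy
      have hord : ∀ (u : G) (d : G), orderOf (u * d * u⁻¹) = orderOf d := fun u d =>
        MulEquiv.orderOf_eq (MulAut.conj u) d
      refine hconj ⟨t⁻¹, ?_⟩
      obtain ⟨h1, -⟩ := pPart_unique (q := p) (a := t * y * t⁻¹) (b := t * (s' : G) * t⁻¹)
        (a' := x) (b' := (s : G)) (by rw [← he]; group)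
        (Commute.map (show Commute y (s' : G) from
          (Subgroup.mem_centralizer_singleton_iff.mp (hK.le s'.2)).symm) (MulAut.conj t).toMonoidHom)
        (hcx s) ⟨k, by rw [hord, hk]⟩ hx
        (by rw [hord, Subgroup.orderOf_coe]; exact hs') (by rw [Subgroup.orderOf_coe]; exact hs)
      rw [← h1]
      group

theorem exists_height_zero_row (hM : IsPModular p M) {B : Set (IrrCharacter G)} {x : G}
    (hx : ∃ k : ℕ, orderOf x = p ^ k) {H : Subgroup G}
    (hH : H = Subgroup.centralizer ({x} : Set G)) {b : Set (IrrCharacter H)}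
    (hind : IsInducedBlock M H b B) (hd : blockDefect p b = blockDefect p B) {χ : IrrCharacter G}
    (hχ : χ ∈ B) : contrib p x H b χ χ ≠ 0 := by
  obtain ⟨χ₀, hχ₀, hmin⟩ := exists_height_zero p (IsPBlock.nonempty hind.2.1)
  have hne := (contrib_ne_zero_of_major hM hx hH hind hd hχ₀ hχ
    ((blockHeight_eq_zero_iff p hχ₀).mpr hmin)).2
  intro h0
  have h := sum_contrib_mul_row hM hx hH hind χ χ
  rw [h0, mul_zero, Finset.sum_congr rfl (g := fun ψ => (Complex.normSq (contrib p x H b χ ψ) : ℂ))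
    fun ψ _ => by rw [← conj_contrib hM hH.le hind.1 χ ψ, Complex.mul_conj], ← Complex.ofReal_sum,
    Complex.ofReal_eq_zero, Finset.sum_eq_zero_iff_of_nonneg fun ψ _ => Complex.normSq_nonneg _] at h
  exact hne (Complex.normSq_eq_zero.mp (h χ₀ (Finset.mem_filter.mpr ⟨Finset.mem_univ _, hχ₀⟩)))

/-- A character of height `h` meets at most `p ^ (d - h)` inequivalent major subsections. -/
theorem card_major_mul_le (hM : IsPModular p M) {B : Set (IrrCharacter G)} {χ : IrrCharacter G}
    (hχ : χ ∈ B) {ι : Type*} [Fintype ι] (z : ι → G) (hz : ∀ i, ∃ k : ℕ, orderOf (z i) = p ^ k)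
    (H : ι → Subgroup G) (hH : ∀ i, H i = Subgroup.centralizer ({z i} : Set G))
    (b : ∀ i, Set (IrrCharacter (H i))) (hind : ∀ i, IsInducedBlock M (H i) (b i) B)
    (hd : ∀ i, blockDefect p (b i) = blockDefect p B)
    (hne : ∀ i j, i ≠ j → ∀ t : G, t * z i * t⁻¹ = z j → ∀ h : ∀ g : G, g ∈ H i ↔ t * g * t⁻¹ ∈ H j,
      pullBlock (conjEquiv (H i) (H j) t h) (b j) ≠ b i) :
    Fintype.card ι * p ^ blockHeight p B (χ : G → ℂ) ≤ p ^ blockDefect p B := by
  set N := Nat.card G with hNdef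
  have hN : 0 < N := Nat.card_pos
  haveI := finiteDimensional_rootField hN
  set P := p ^ blockHeight p B (χ : G → ℂ) with hP
  set q := p ^ blockDefect p B with hq
  have hP0 : (P : ℂ) ≠ 0 := Nat.cast_ne_zero.mpr (pow_ne_zero _ hp.out.ne_zero)
  set a : ι → ℂ := fun i => contrib p (z i) (H i) (b i) χ χ / (P : ℂ) with ha
  have hint : ∀ i, IsIntegral ℤ (a i) := fun i =>
    isIntegral_contrib_div hM (hz i) (hH i) (hind i).1 (hd i) χ hχ
  have hmem : ∀ i, a i ∈ rootField N := fun i =>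
    div_mem (contrib_mem_rootField hM _ (hind i).1 χ χ) (natCast_mem _ _)
  have hne0 : ∀ i, a i ≠ 0 := fun i =>
    div_ne_zero (exists_height_zero_row hM (hz i) (hH i) (hind i) (hd i) hχ) hP0
  set φ : ι → G → ℂ := fun i => secPart p (z i) (H i) (b i) χ with hφ
  have hA : ∀ i, (q : ℂ) * ∑ g, φ i g * conj (φ i g) = ((N * P : ℕ) : ℂ) * a i := by
    intro i
    have h := sum_secPart_mul_self (hz i) (hH i) (b := b i) χ
    rw [hd i] at h
    rw [h, Nat.cast_mul, ha, mul_assoc, mul_div_cancel₀ _ hP0]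
  have hB : ∀ i, (q : ℂ) * ∑ g, φ i g * conj ((χ : G → ℂ) g) = ((N * P : ℕ) : ℂ) * a i := by
    intro i
    have h := sum_secPart_mul_char hM (hz i) (hH i) (hind i).1 χ
    rw [hd i] at h
    rw [h, Nat.cast_mul, ha, mul_assoc, mul_div_cancel₀ _ hP0]
  have hr : ∀ i, ∀ σ : rootField N →ₐ[ℚ] ℂ, ∃ r : ℝ, 0 ≤ r ∧ σ ⟨a i, hmem i⟩ = (r : ℂ) := fun i σ =>
    exists_real_of_sum_mul_conj hN (φ i) (fun g => secPart_mem_rootField _ _ _ χ g) (hmem i)
      (Nat.mul_pos hN (pow_pos hp.out.pos _)) (hA i) σ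
  choose r hr using hr
  have hreal : ∀ i, conj (a i) = a i := fun i => by
    rw [ha, map_div₀, map_natCast, conj_contrib hM (hH i).le (hind i).1]
  have horth : ∀ i, (q : ℂ) * ∑ g, φ i g * ∑ j, conj (φ j g) = ((N * P : ℕ) : ℂ) * a i := by
    intro i
    simp only [Finset.mul_sum (s := (univ : Finset ι))]
    rw [Finset.sum_comm, Finset.sum_eq_single i (fun j _ hj => ?_) (fun h => absurd (Finset.mem_univ i) h),
      hA i]
    exact sum_secPart_mul_eq_zero hM (hz i) (hz j) (hH i) (hH j) (hind i).1 (hind j).1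
      (hne i j (Ne.symm hj)) χ
  have hBconj : ∀ i, (q : ℂ) * ∑ g, (χ : G → ℂ) g * conj (φ i g) = ((N * P : ℕ) : ℂ) * a i := by
    intro i
    have h := congrArg conj (hB i)
    rw [map_mul, map_natCast, map_mul, map_natCast, hreal, map_sum] at h
    rw [← h]
    exact congrArg _ (Finset.sum_congr rfl fun g _ => by rw [map_mul, Complex.conj_conj, mul_comm])
  set w : G → ℂ := fun g => (χ : G → ℂ) g - ∑ i, φ i g with hw
  set y : ℂ := (q : ℂ) - (P : ℂ) * ∑ i, a i with hy
  have heq : (q : ℂ) * ∑ g, w g * conj (w g) = (N : ℂ) * y := by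
    have hchar : ∑ g, (χ : G → ℂ) g * conj ((χ : G → ℂ) g) = (N : ℂ) := by
      have h := classInner_irr_self χ.2
      rw [classInner, inv_mul_eq_one₀ (Nat.cast_ne_zero.mpr hN.ne')] at h
      exact h.symm
    have e1 : (q : ℂ) * ∑ g, w g * conj (w g)
        = (q : ℂ) * ∑ g, (χ : G → ℂ) g * conj ((χ : G → ℂ) g)
          - ∑ i, (q : ℂ) * ∑ g, (χ : G → ℂ) g * conj (φ i g)
          - ∑ i, (q : ℂ) * ∑ g, φ i g * conj ((χ : G → ℂ) g)
          + ∑ i, (q : ℂ) * ∑ g, φ i g * ∑ j, conj (φ j g) := by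
      simp only [← Finset.mul_sum (s := (univ : Finset ι)), ← mul_sub, ← mul_add]
      congr 1
      rw [Finset.sum_comm (f := fun i g => (χ : G → ℂ) g * conj (φ i g)),
        Finset.sum_comm (f := fun i g => φ i g * conj ((χ : G → ℂ) g)),
        Finset.sum_comm (f := fun i g => φ i g * ∑ j, conj (φ j g)), ← Finset.sum_sub_distrib,
        ← Finset.sum_sub_distrib, ← Finset.sum_add_distrib]
      refine Finset.sum_congr rfl fun g _ => ?_
      rw [hw]
      simp only [map_sub, map_sum, ← Finset.mul_sum, ← Finset.sum_mul]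
      ring
    rw [e1, hchar, Finset.sum_congr rfl fun i _ => hBconj i, Finset.sum_congr rfl fun i _ => hB i,
      Finset.sum_congr rfl fun i _ => horth i, hy, ← Finset.mul_sum]
    push_cast
    ring
  have hymem : y ∈ rootField N :=
    sub_mem (natCast_mem _ _) (mul_mem (natCast_mem _ _) (sum_mem fun i _ => hmem i))
  have hbessel : ∀ σ : rootField N →ₐ[ℚ] ℂ, (P : ℝ) * ∑ i, r i σ ≤ q := by
    intro σ
    obtain ⟨s, hs0, hs⟩ := exists_real_of_sum_mul_conj hN w
      (fun g => sub_mem (char_mem_rootField χ.2.isCharacter _ (orderOf_dvd_natCard _))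
        (sum_mem fun i _ => secPart_mem_rootField _ _ _ χ g)) hymem hN heq σ
    have h1 : (⟨y, hymem⟩ : rootField N) = (q : rootField N) - (P : rootField N) * ∑ i, ⟨a i, hmem i⟩ := by
      apply Subtype.ext
      push_cast
      exact hy
    rw [h1, map_sub, map_natCast, map_mul, map_natCast, map_sum,
      Finset.sum_congr rfl fun i _ => (hr i σ).2] at hs
    have h2 : (q : ℝ) - (P : ℝ) * ∑ i, r i σ = s := by exact_mod_cast hs
    linarith
  have hpos : 0 < Fintype.card (rootField N →ₐ[ℚ] ℂ) := Fintype.card_pos_iff.mpr ⟨(rootField N).val⟩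
  have h : ((Fintype.card ι * P : ℕ) : ℝ) * Fintype.card (rootField N →ₐ[ℚ] ℂ)
      ≤ (q : ℝ) * Fintype.card (rootField N →ₐ[ℚ] ℂ) := by
    calc ((Fintype.card ι * P : ℕ) : ℝ) * Fintype.card (rootField N →ₐ[ℚ] ℂ)
        = (P : ℝ) * ∑ _i : ι, (Fintype.card (rootField N →ₐ[ℚ] ℂ) : ℝ) := by simp; ring
      _ ≤ (P : ℝ) * ∑ i, ∑ σ, r i σ := by
          gcongr with i
          exact sum_re_ge hN (hmem i) (hint i) (hne0 i) (r i) (hr i)
      _ = ∑ σ, (P : ℝ) * ∑ i, r i σ := by rw [Finset.sum_comm, Finset.mul_sum]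
      _ ≤ ∑ _σ : rootField N →ₐ[ℚ] ℂ, (q : ℝ) := Finset.sum_le_sum fun σ _ => hbessel σ
      _ = _ := by simp [mul_comm]
  exact_mod_cast le_of_mul_le_mul_right h (by exact_mod_cast hpos)

end Major

universe u

section Centre

variable {G : Type u} [Group G] [Fintype G] {M : Ideal Cfsg.AlgInt} [M.IsPrime]
variable {p : ℕ} [hp : Fact p.Prime]

local notation "𝐂" Q:max => Subgroup.centralizer ((Q : Subgroup G) : Set G)

/-- Pairs below a maximal pair on the centre of its subgroup have full defect. -/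
theorem exists_central_subsection (hM : IsPModular p M) {B : Set (IrrCharacter G)} {D : Subgroup G}
    (hBD : IsDefectGroup p M B D) {e : Set (IrrCharacter (𝐂 D))} (he : IsBrauerPairOf p M B D e)
    {z : G} (hzD : z ∈ D) (hzc : D ≤ 𝐂 (Subgroup.zpowers z)) :
    ∃ f : Set (IrrCharacter (𝐂 (Subgroup.zpowers z))), SubpairLE p M (Subgroup.zpowers z) f D e ∧
      IsInducedBlock M (𝐂 (Subgroup.zpowers z)) f B ∧ blockDefect p f = blockDefect p B := by
  obtain ⟨f, hf, hle⟩ := exists_subpair hM he.1 (Subgroup.zpowers_le.mpr hzD)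
  have hind := ((isBrauerPairOf_iff hM).mp ((isBrauerPairOf_of_subpairLE hM he.1 hle).mpr he)).2
  refine ⟨f, hle, hind, ?_⟩
  obtain ⟨S, hS⟩ := exists_isBrMax_centralizer hM hf.2
  have hbr := brNe_centralizer_of_le hM he.1 hle
  rw [inf_eq_left.mpr hzc] at hbr
  have hlow := hS.2.2.2 D he.1.1 hzc hbr
  have hdef := (isDefectGroup_centralizer_iff hM hf.2 hS.2.1).mpr hS
  obtain ⟨E, hE, hle'⟩ := exists_defectGroup_ge hM hind hdef
  have hup := Subgroup.card_le_of_le hle'
  rw [Subgroup.card_map_of_injective (Subgroup.subtype_injective _), card_subgroupOf hS.2.1,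
    card_defectGroup_eq hM hind.2.1 hE hBD] at hup
  have h1 := card_defectGroup hM hind.1 hdef
  rw [card_subgroupOf hS.2.1, le_antisymm hup hlow, card_defectGroup hM hind.2.1 hBD] at h1
  exact (Nat.pow_right_injective hp.out.two_le h1).symm

/-- Fusion of central subsections of a maximal pair happens in the stabilizer of the pair. -/
theorem exists_mem_pairStab_of_fused (hM : IsPModular p M) {B : Set (IrrCharacter G)} {D : Subgroup G}
    (hBD : IsDefectGroup p M B D) {e : Set (IrrCharacter (𝐂 D))} (he : IsBrauerPairOf p M B D e)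
    {z z' : G} (hzc : D ≤ 𝐂 (Subgroup.zpowers z)) (hzc' : D ≤ 𝐂 (Subgroup.zpowers z'))
    {f : Set (IrrCharacter (𝐂 (Subgroup.zpowers z)))} {f' : Set (IrrCharacter (𝐂 (Subgroup.zpowers z')))}
    (hf : SubpairLE p M (Subgroup.zpowers z) f D e) (hf' : SubpairLE p M (Subgroup.zpowers z') f' D e)
    {t : G} (ht : t * z * t⁻¹ = z')
    (hsub : subE M (Subgroup.zpowers z') f' = cjE t (subE M (Subgroup.zpowers z) f)) :
    ∃ y ∈ pairStab M ⊤ D e, y * z * y⁻¹ = z' := by
  have hfp := subpairLE_isBrauerPair hf he.1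
  have hfp' := subpairLE_isBrauerPair hf' he.1
  have hQ : (Subgroup.zpowers z).map (MulAut.conj t).toMonoidHom = Subgroup.zpowers z' := by
    rw [MonoidHom.map_zpowers, ← ht]
    rfl
  have hidx := pairIdx_ext hQ (isPBlock_conjBlock hfp.2 t) hfp'.2 ((subE_conjBlock hfp.2 t).trans hsub.symm)
  have hle1 := subpairLE_congr_left hidx (subpairLE_conj hM hf t)
  have hpair1 := isBrauerPairOf_conj hM he t
  have hdef1 : IsDefectGroup p M B (D.map (MulAut.conj t).toMonoidHom) :=
    IsDefectGroup.conjSub he.2.1 hBD t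
  have hP1C : D.map (MulAut.conj t).toMonoidHom ≤ 𝐂 (Subgroup.zpowers z') := by
    rintro _ ⟨d, hd, rfl⟩
    have hc := hzc hd
    rw [centralizer_zpowers, Subgroup.mem_centralizer_singleton_iff] at hc ⊢
    show t * d * t⁻¹ * z' = z' * (t * d * t⁻¹)
    rw [← ht]
    calc t * d * t⁻¹ * (t * z * t⁻¹) = t * (d * z) * t⁻¹ := by group
      _ = t * (z * d) * t⁻¹ := by rw [hc]
      _ = _ := by group
  have agree : ∀ {P : Subgroup G} {g : Set (IrrCharacter (𝐂 P))}, IsBrauerPair p M P g →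
      SubpairLE p M (Subgroup.zpowers z') f' P g → P ≤ 𝐂 (Subgroup.zpowers z') →
      ∀ u : MonoidAlgebra (ResF M) G, IsStableUnder (𝐂 (Subgroup.zpowers z')) u →
        (∀ x, x ∉ 𝐂 (Subgroup.zpowers z') → u.coeff x = 0) →
        ∀ ξ ∈ g, ∀ η ∈ f', lam M ξ (resSub (𝐂 P) u) = lam M η (resSub (𝐂 (Subgroup.zpowers z')) u) := by
    intro P g hg hle hPC u hu hsupp ξ hξ η hη
    have hstep := isNormalSubpair_of_le hM hg hle (hPC.trans (Subgroup.centralizer_le_normalizer _))
    have hu' : incSub (𝐂 (Subgroup.zpowers z')) (resSub (𝐂 (Subgroup.zpowers z')) u) = u := by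
      refine gr_ext fun a => ?_
      by_cases ha : a ∈ 𝐂 (Subgroup.zpowers z')
      · rw [show a = ((⟨a, ha⟩ : 𝐂 (Subgroup.zpowers z')) : G) from rfl, coeff_incSub_mem, coeff_resSub]
      · rw [coeff_incSub_notMem _ _ ha, hsupp a ha]
    have h := lam_resSub_incSub hM hstep hu.isClassElt_resSub (by rw [hu']; exact hu.mono hPC) hξ hη
    rwa [hu'] at h
  have hCle : ∀ {P : Subgroup G}, Subgroup.zpowers z' ≤ P → 𝐂 P ≤ 𝐂 (Subgroup.zpowers z') := fun h =>
    centralizer_le' h
  obtain ⟨η, hη⟩ := IsPBlock.nonempty hfp'.2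
  obtain ⟨x, hxC, hxD, hxe⟩ := isMaxIn_conj hM hpair1.1.1 he.1.1 hP1C hzc'
    (hCle (subpairLE_le hle1)) (hCle (subpairLE_le hf')) hpair1.1.2 he.1.2
    (isMaxIn_of_maximal hM (maximal_of_defect hM hpair1 hdef1) _)
    (isMaxIn_of_maximal hM (maximal_of_defect hM he hBD) _)
    (fun u hu hsupp ξ hξ ξ' hξ' => by
      rw [agree hpair1.1 hle1 hP1C u hu hsupp ξ hξ η hη,
        agree he.1 hf' hzc' u hu hsupp ξ' hξ' η hη])
  rw [subE_conjBlock he.1.2, cjE_cjE] at hxe
  refine ⟨x * t, ⟨trivial, ?_, hxe.symm⟩, ?_⟩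
  · rw [Subgroup.mem_normalizer_iff]
    intro a
    have hxD' : conjSub x (conjSub t D) = D := hxD
    rw [conjSub_conjSub] at hxD'
    conv_rhs => rw [← hxD', mem_conjSub]
    simp [mul_assoc]
  · rw [centralizer_zpowers, Subgroup.mem_centralizer_singleton_iff] at hxC
    calc x * t * z * (x * t)⁻¹ = x * (t * z * t⁻¹) * x⁻¹ := by group
      _ = z' := by rw [ht, hxC, mul_inv_cancel_right]

/-- The height bound by the inertial index and the centre of the defect group. -/
theorem height_add_center_le (hM : IsPModular p M) {B : Set (IrrCharacter G)} {D : Subgroup G}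
    (hBD : IsDefectGroup p M B D) {e₀ : Set (IrrCharacter (𝐂 D))} (he : IsBrauerPairOf p M B D e₀)
    {T : Subgroup G} (hT : ∀ y ∈ pairStab M ⊤ D e₀, y ∈ T) {χ : IrrCharacter G} (hχ : χ ∈ B) :
    Nat.card (Subgroup.center D) * p ^ blockHeight p B (χ : G → ℂ)
      ≤ (D ⊔ 𝐂 D).relIndex T * p ^ blockDefect p B := by
  set Z := (Subgroup.center D).map D.subtype with hZ
  have hZD : ∀ z : Z, (z : G) ∈ D := fun z => Subgroup.map_subtype_le _ z.2
  have hZc : ∀ z : Z, ∀ d ∈ D, d * (z : G) = (z : G) * d := by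
    rintro ⟨_, w, hw, rfl⟩ d hd
    exact congrArg Subtype.val (Subgroup.mem_center_iff.mp hw ⟨d, hd⟩)
  have hDC : ∀ z : Z, D ≤ 𝐂 (Subgroup.zpowers (z : G)) := fun z d hd => by
    rw [centralizer_zpowers, Subgroup.mem_centralizer_singleton_iff]
    exact hZc z d hd
  let s : Setoid Z := ⟨fun a b => ∃ y ∈ T, y * (a : G) * y⁻¹ = b,
    ⟨fun a => ⟨1, one_mem _, by group⟩,
     fun ⟨y, hy, h⟩ => ⟨y⁻¹, inv_mem hy, by rw [← h]; group⟩,
     fun ⟨y, hy, h⟩ ⟨y', hy', h'⟩ => ⟨y' * y, mul_mem hy' hy, by rw [← h', ← h]; group⟩⟩⟩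
  letI : Fintype (Quotient s) := Fintype.ofFinite _
  choose f hf hind hd using fun i : Quotient s =>
    exists_central_subsection hM hBD he (hZD i.out) (hDC i.out)
  have hmain := card_major_mul_le hM hχ (fun i : Quotient s => ((i.out : Z) : G))
    (fun i => by
      obtain ⟨k, hk⟩ := (isPGroup_defectGroup hBD).exists_card_eq
      obtain ⟨j, -, hj⟩ := (Nat.dvd_prime_pow hp.out).mp
        (hk ▸ Subgroup.orderOf_dvd_natCard D (hZD i.out))
      exact ⟨j, hj⟩)
    (fun i => 𝐂 (Subgroup.zpowers ((i.out : Z) : G))) (fun i => centralizer_zpowers _) f hind hd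
    (fun i j hij t ht h heq => hij (by
      have hsub : subE M _ (f j) = cjE t (subE M _ (f i)) := by
        have hb := congrArg (bIdem M) heq
        rw [bIdem_pull _ (hind j).1] at hb
        refine gr_ext fun g => ?_
        rw [coeff_cjE]
        by_cases hg : t⁻¹ * g * t ∈ 𝐂 (Subgroup.zpowers ((i.out : Z) : G))
        · have h2 := congrArg (fun v => v.coeff (⟨_, hg⟩ : 𝐂 (Subgroup.zpowers ((i.out : Z) : G)))) hb
          simp only [coeff_pullElt, bIdem_eq_subE, coe_conjEquiv] at h2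
          rwa [show t * (t⁻¹ * g * t) * t⁻¹ = g by group] at h2
        · rw [coeff_subE_notMem _ _ hg, coeff_subE_notMem]
          intro hg'
          exact hg ((h _).mpr (by rwa [show t * (t⁻¹ * g * t) * t⁻¹ = g by group]))
      obtain ⟨y, hy, hyz⟩ := exists_mem_pairStab_of_fused hM hBD he (hDC i.out) (hDC j.out)
        (hf i) (hf j) ht hsub
      rw [← i.out_eq, ← j.out_eq]
      exact Quotient.sound ⟨y, hT y hy, hyz⟩))
  have hcard : Nat.card (Subgroup.center D) = Fintype.card Z := by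
    rw [← Nat.card_eq_fintype_card, hZ, Subgroup.card_map_of_injective (Subgroup.subtype_injective _)]
  have hfib : ∀ i ∈ (univ : Finset (Quotient s)),
      (univ.filter fun z : Z => Quotient.mk s z = i).card ≤ (D ⊔ 𝐂 D).relIndex T := by
    intro i _
    have hex : ∀ z : {z : Z // Quotient.mk s z = i}, ∃ q : T ⧸ (D ⊔ 𝐂 D).subgroupOf T,
        (q.out : G) * ((i.out : Z) : G) * (q.out : G)⁻¹ = (z.1 : G) := by
      intro z
      obtain ⟨y, hy, hyz⟩ := Quotient.exact (i.out_eq.trans z.2.symm)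
      refine ⟨QuotientGroup.mk (⟨y, hy⟩ : T), ?_⟩
      obtain ⟨⟨c, hc⟩, hc'⟩ := QuotientGroup.mk_out_eq_mul ((D ⊔ 𝐂 D).subgroupOf T) (⟨y, hy⟩ : T)
      rw [hc', ← hyz]
      have hcz : (c : G) * ((i.out : Z) : G) = ((i.out : Z) : G) * (c : G) := by
        have hle : D ⊔ 𝐂 D ≤ Subgroup.centralizer ({((i.out : Z) : G)} : Set G) :=
          sup_le (centralizer_zpowers ((i.out : Z) : G) ▸ hDC i.out)
            (Subgroup.centralizer_le (by simpa using hZD i.out))
        exact Subgroup.mem_centralizer_singleton_iff.mp (hle (Subgroup.mem_subgroupOf.mp hc))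
      rw [Subgroup.coe_mul]
      calc y * (c : G) * ((i.out : Z) : G) * (y * (c : G))⁻¹
          = y * ((c : G) * ((i.out : Z) : G)) * (c : G)⁻¹ * y⁻¹ := by group
        _ = _ := by rw [hcz, mul_assoc y, mul_inv_cancel_right]
    choose q hq using hex
    have hinj : Function.Injective q := fun z w hzw =>
      Subtype.ext (Subtype.ext ((hq z).symm.trans (hzw ▸ hq w)))
    rw [← Fintype.card_subtype, ← Nat.card_eq_fintype_card]
    exact Nat.card_le_card_of_injective q hinj
  rw [hcard]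
  calc Fintype.card Z * p ^ blockHeight p B (χ : G → ℂ)
      ≤ (D ⊔ 𝐂 D).relIndex T * Fintype.card (Quotient s) * p ^ blockHeight p B (χ : G → ℂ) := by
        refine Nat.mul_le_mul_right _ ?_
        exact Finset.card_le_mul_card_image_of_maps_to (fun z _ => Finset.mem_univ (Quotient.mk s z)) _ hfib
    _ ≤ _ := by rw [mul_assoc]; exact Nat.mul_le_mul_left _ hmain

end Centre

end Cfsg.Lib.Blocks
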