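import Mathlib
import Cfsg.Agent.Lib.Characters.Basic
import Cfsg.Agent.Lib.Characters.Induction
import Cfsg.Agent.Lib.Characters.FSValues

/-!
# The Frobenius–Schur indicator of an irreducible induced character
-/

set_option autoImplicit false

namespace Cfsg.Lib.Blocks

open Cfsg Cfsg.Lib.Characters Finset
open scoped Classical ComplexConjugate Kronecker

/-- Two matrix representations without common constituent (paired bilinearly) have vanishing
sum of Kronecker products. -/
theorem sum_kronecker_eq_zero {J : Type*} [Group J] [Fintype J] {n m : ℕ}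
    (A : J →* Matrix (Fin n) (Fin n) ℂ) (B : J →* Matrix (Fin m) (Fin m) ℂ)
    (h : ∑ x, (A x).trace * (B x).trace = 0) (i j : Fin n) (k l : Fin m) :
    ∑ x, A x i j * B x k l = 0 := by
  set P : Matrix (Fin n × Fin m) (Fin n × Fin m) ℂ := ∑ x, A x ⊗ₖ B x with hP
  have hPP : P * P = (Fintype.card J : ℂ) • P := by
    have h1 : ∀ x, A x ⊗ₖ B x * P = P := fun x => by
      rw [hP, Finset.mul_sum]
      refine Fintype.sum_equiv (Equiv.mulLeft x) _ _ fun y => ?_
      rw [← Matrix.mul_kronecker_mul, ← map_mul, ← map_mul]; rfl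
    conv_lhs => arg 1; rw [hP]
    rw [Finset.sum_mul, Finset.sum_congr rfl fun x _ => h1 x, Finset.sum_const, Finset.card_univ,
      ← Nat.cast_smul_eq_nsmul ℂ]
  have hc : (Fintype.card J : ℂ) ≠ 0 := Nat.cast_ne_zero.mpr Fintype.card_ne_zero
  set e := Matrix.toLin' ((Fintype.card J : ℂ)⁻¹ • P) with he
  have hidem : IsIdempotentElem e := by
    rw [IsIdempotentElem, he, Module.End.mul_eq_comp, ← Matrix.toLin'_mul, Matrix.smul_mul,
      Matrix.mul_smul, hPP, smul_smul _ (Fintype.card J : ℂ), inv_mul_cancel₀ hc, one_smul]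
  have htr : LinearMap.trace ℂ _ e = 0 := by
    rw [he, LinearMap.trace_eq_matrix_trace ℂ (Pi.basisFun ℂ (Fin n × Fin m)),
      LinearMap.toMatrix_eq_toMatrix', LinearMap.toMatrix'_toLin', Matrix.trace_smul, hP,
      Matrix.trace_sum, Finset.sum_congr rfl fun x _ => Matrix.trace_kronecker (A x) (B x), h, smul_zero]
  rw [LinearMap.IsProj.trace (LinearMap.IsProj.mk (fun x => LinearMap.mem_range_self e x)
    fun x hx => by
      obtain ⟨y, rfl⟩ := hx
      exact LinearMap.congr_fun hidem y), Nat.cast_eq_zero, Submodule.finrank_eq_zero,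
    LinearMap.range_eq_bot, he, map_eq_zero_iff _ Matrix.toLin'.injective, smul_eq_zero] at htr
  have hP0 : P = 0 := htr.resolve_left (inv_ne_zero hc)
  have h2 := congrFun (congrFun hP0 (i, k)) (j, l)
  rwa [hP, Matrix.sum_apply] at h2

variable {G : Type*} [Group G] [Fintype G]

/-- An irreducible character induced from a real one has the same indicator. -/
theorem fs_indFun (I : Subgroup G) [Fintype I] {ψ : I → ℂ} (hψ : IsIrrCharacter I ψ)
    (hreal : ∀ y, conj (ψ y) = ψ y) (hχ : IsIrrCharacter G (indFun I ψ)) :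
    (Nat.card G : ℂ)⁻¹ * ∑ g, indFun I ψ (g * g) = (Nat.card I : ℂ)⁻¹ * ∑ y, ψ (y * y) := by
  have hI : (Nat.card I : ℂ) ≠ 0 := Nat.cast_ne_zero.mpr Nat.card_pos.ne'
  have hG : (Nat.card G : ℂ) ≠ 0 := Nat.cast_ne_zero.mpr Nat.card_pos.ne'
  set f := extendByZero I ψ with hf
  have h1 : ∑ g, indFun I ψ (g * g) = (Nat.card I : ℂ)⁻¹ * ((Nat.card G : ℂ) * ∑ g, f (g * g)) := by
    simp only [indFun]
    rw [← Finset.mul_sum, Finset.sum_comm]
    congr 1
    have h : ∀ x : G, ∑ g : G, f (x⁻¹ * (g * g) * x) = ∑ g : G, f (g * g) := fun x =>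
      Fintype.sum_equiv (MulAut.conj x⁻¹).toEquiv _ _ fun g => by
        simp only [MulEquiv.toEquiv_eq_coe, MulEquiv.coe_toEquiv, MulAut.conj_apply, inv_inv]
        congr 1; group
    rw [Finset.sum_congr rfl fun x _ => h x, Finset.sum_const, Finset.card_univ, nsmul_eq_mul,
      Nat.card_eq_fintype_card]
  rw [h1, mul_left_comm _ (Nat.card I : ℂ)⁻¹, inv_mul_cancel_left₀ hG]
  congr 1
  -- only the elements outside `I` have to be removed
  have hin : ∑ g ∈ univ.filter (fun g => g ∈ I), f (g * g) = ∑ y : I, ψ (y * y) := by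
    rw [Finset.sum_subtype (p := fun g => g ∈ I) (univ.filter fun g => g ∈ I) (fun g => by simp) fun g => f (g * g)]
    exact Finset.sum_congr rfl fun y _ => extendByZero_coe ψ (y * y)
  rw [← Finset.sum_filter_add_sum_filter_not univ (fun g => g ∈ I), hin, add_eq_left]
  -- the subgroup `J t = I ∩ t⁻¹ I t` and the conjugation map into `I`
  let J : G → Subgroup I := fun t => I.comap ((MulAut.conj t).toMonoidHom.comp I.subtype)
  have hJ : ∀ t (y : I), y ∈ J t ↔ t * (y : G) * t⁻¹ ∈ I := fun t y => by rfl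
  let c : ∀ t, J t →* I := fun t =>
    { toFun := fun y => ⟨t * ((y : I) : G) * t⁻¹, (hJ t _).mp y.2⟩
      map_one' := Subtype.ext (by simp)
      map_mul' := fun a b => Subtype.ext (by simp only [Subgroup.coe_mul]; group) }
  -- orthogonality from irreducibility
  have hS : ∀ t : G, t ∉ I → ∑ y : J t, ψ (c t y) * ψ (y : I) = 0 := by
    have hcl : IsClassFunction G (indFun I ψ) := hχ.isClassFunction
    have h2 := classInner_indFun I ψ hcl
    rw [classInner_irr_self hχ] at h2
    simp only [classInner, indFun, map_mul, map_inv₀, map_natCast, map_sum] at h2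
    have hval : ∀ (x : G) (y : I), conj (extendByZero I ψ (x⁻¹ * (y : G) * x)) = f (x⁻¹ * (y : G) * x) := by
      intro x y
      by_cases hx : x⁻¹ * (y : G) * x ∈ I
      · rw [hf, extendByZero_mem _ hx, hreal]
      · rw [hf, extendByZero_not_mem _ hx, map_zero]
    simp only [hval, Finset.mul_sum] at h2
    have hS' : ∀ x : G, ∑ y : I, ψ y * f (x⁻¹ * (y : G) * x) = ∑ y : J x⁻¹, ψ (c x⁻¹ y) * ψ (y : I) := by
      intro x
      rw [← Finset.sum_subtype (univ.filter fun y : I => y ∈ J x⁻¹) (fun y => by simp)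
        (fun y => ψ y * f (x⁻¹ * (y : G) * x)) |>.trans (Finset.sum_congr rfl fun y _ => ?_),
        Finset.sum_filter_of_ne]
      · intro y _ hy
        rw [hJ, inv_inv]
        by_contra hx
        exact hy (by rw [hf, extendByZero_not_mem _ hx, mul_zero])
      · have hy := (hJ _ _).mp y.2
        rw [inv_inv] at hy
        rw [hf, extendByZero_mem _ hy, mul_comm]
        congr 1
        exact congrArg ψ (Subtype.ext (by simp [c]))
    have hnat : ∀ x : G, ∃ k : ℕ, ∑ y : I, ψ y * f (x⁻¹ * (y : G) * x) = k := by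
      intro x
      rw [hS' x]
      obtain ⟨k, hk⟩ := classInner_nat (isCharacter_comp hψ.isCharacter (c x⁻¹))
        (isCharacter_comp hψ.isCharacter (J x⁻¹).subtype)
      refine ⟨Nat.card (J x⁻¹) * k, ?_⟩
      rw [Nat.cast_mul, ← hk, classInner, ← mul_assoc,
        mul_inv_cancel₀ (Nat.cast_ne_zero.mpr Nat.card_pos.ne'), one_mul]
      simp [hreal]
    choose k hk using hnat
    have h3 : ∑ x : G, ∑ y : I, ψ y * f (x⁻¹ * (y : G) * x) = (Nat.card I : ℂ) * Nat.card I := by
      rw [Finset.sum_comm]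
      refine mul_left_cancel₀ (mul_ne_zero (inv_ne_zero hI) (inv_ne_zero hI)) ?_
      rw [show ((Nat.card I : ℂ)⁻¹ * (Nat.card I : ℂ)⁻¹) * ((Nat.card I : ℂ) * Nat.card I) = 1 by field_simp, h2,
        Finset.mul_sum]
      refine Finset.sum_congr rfl fun y _ => ?_
      rw [Finset.mul_sum]
      exact Finset.sum_congr rfl fun x _ => by ring
    have hself : ∀ x : G, x ∈ I → ∑ y : I, ψ y * f (x⁻¹ * (y : G) * x) = Nat.card I := by
      intro x hx
      have h4 := classInner_irr_self hψ
      rw [classInner] at h4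
      have h5 : ∑ y : I, ψ y * f (x⁻¹ * (y : G) * x) = ∑ y : I, ψ y * conj (ψ y) := by
        refine Finset.sum_congr rfl fun y _ => ?_
        rw [hreal, hf, extendByZero_mem _ (I.mul_mem (I.mul_mem (I.inv_mem hx) y.2) hx)]
        congr 1
        have h6 := hψ.isClassFunction y (⟨x, hx⟩ : I)⁻¹
        rw [← h6]
        exact congrArg ψ (Subtype.ext (by simp))
      rw [h5]
      field_simp at h4
      exact h4
    intro t ht
    rw [← Finset.sum_filter_add_sum_filter_not univ (fun x => x ∈ I),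
      Finset.sum_congr rfl fun x hx => hself x (Finset.mem_filter.mp hx).2,
      Finset.sum_congr rfl fun x _ => hk x, Finset.sum_const, nsmul_eq_mul,
      ← Fintype.card_subtype, ← Nat.card_eq_fintype_card, add_eq_left, ← Nat.cast_sum,
      Nat.cast_eq_zero, Finset.sum_eq_zero_iff] at h3
    have h7 := h3 t⁻¹ (Finset.mem_filter.mpr ⟨Finset.mem_univ _, fun h => ht (inv_mem_iff.mp h)⟩)
    have h8 := hk t⁻¹
    rw [h7, hS', inv_inv, Nat.cast_zero] at h8
    exact h8
  -- the twisted sums vanish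
  obtain ⟨n, ρ, -, hρ⟩ := hψ
  let A : I →* Matrix (Fin n) (Fin n) ℂ :=
    (LinearMap.toMatrixAlgEquiv' (R := ℂ) (n := Fin n)).toMulEquiv.toMonoidHom.comp ρ
  have htr : ∀ y, ψ y = (A y).trace := fun y => by
    rw [← hρ, Representation.character, LinearMap.trace_eq_matrix_trace ℂ (Pi.basisFun ℂ (Fin n))]
    rfl
  have hzero : ∀ t : G, t ∉ I → t * t ∈ I → ∑ y : J t, f (t * (y : I) * (t * (y : I))) = 0 := by
    intro t ht htt
    have h9 := sum_kronecker_eq_zero (A.comp (c t)) (A.comp (J t).subtype) (by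
      rw [← hS t ht]; simp [htr])
    have h10 : ∀ y : J t, f (t * (y : I) * (t * (y : I))) = ∑ a, ∑ b, ∑ d, A (c t y) a b * A ⟨t * t, htt⟩ b d * A (y : I) d a := by
      intro y
      have e : t * (y : I) * (t * (y : I)) = ((c t y * ⟨t * t, htt⟩ * (y : I) : I) : G) := by
        simp only [c, MonoidHom.coe_mk, OneHom.coe_mk, Subgroup.coe_mul]; group
      rw [hf, e, extendByZero_coe, htr, map_mul, map_mul, Matrix.trace]
      refine Finset.sum_congr rfl fun a _ => ?_
      rw [Matrix.diag_apply, Matrix.mul_apply, Finset.sum_comm]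
      refine Finset.sum_congr rfl fun d _ => ?_
      rw [Matrix.mul_apply, Finset.sum_mul]
    rw [Finset.sum_congr rfl fun y _ => h10 y, Finset.sum_comm]
    refine Finset.sum_eq_zero fun a _ => ?_
    rw [Finset.sum_comm]
    refine Finset.sum_eq_zero fun b _ => ?_
    rw [Finset.sum_comm]
    refine Finset.sum_eq_zero fun d _ => ?_
    have := h9 a b d a
    simp only [MonoidHom.comp_apply, Subgroup.coe_subtype] at this
    rw [Finset.sum_congr rfl fun y _ => mul_right_comm (A (c t y) a b) _ _, ← Finset.sum_mul, this, zero_mul]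
  -- averaging
  set T : Finset G := univ.filter (fun g => g ∉ I ∧ g * g ∈ I) with hT
  have hred : ∑ g ∈ univ.filter (fun g => ¬ g ∈ I), f (g * g) = ∑ g ∈ T, f (g * g) := by
    refine (Finset.sum_subset (fun g hg => ?_) fun g hg hg' => ?_).symm
    · simp only [hT, Finset.mem_filter] at hg ⊢
      exact ⟨hg.1, hg.2.1⟩
    · simp only [hT, Finset.mem_filter, Finset.mem_univ, true_and, not_and] at hg hg'
      exact hf ▸ extendByZero_not_mem _ (hg' hg)
  rw [hred]
  have hJmul : ∀ t (h : J t), J (t * (h : I)) = J t := fun t h => by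
    ext y
    rw [hJ, hJ, show t * ((h : I) : G) * y * (t * ((h : I) : G))⁻¹ =
      ((c t h : I) : G) * (t * y * t⁻¹) * ((c t h : I) : G)⁻¹ by
        simp only [c, MonoidHom.coe_mk, OneHom.coe_mk]; group]
    rw [I.mul_mem_cancel_right (I.inv_mem (c t h).2), I.mul_mem_cancel_left (c t h).2]
  have hTmul : ∀ t (h : J t), t ∈ T → t * (h : I) ∈ T := fun t h ht => by
    simp only [hT, Finset.mem_filter, Finset.mem_univ, true_and] at ht ⊢
    refine ⟨fun h' => ht.1 ((I.mul_mem_cancel_right (h : I).2).mp h'), ?_⟩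
    rw [show t * ((h : I) : G) * (t * ((h : I) : G)) = ((c t h : I) : G) * (t * t) * ((h : I) : G) by
      simp only [c, MonoidHom.coe_mk, OneHom.coe_mk]; group]
    exact I.mul_mem (I.mul_mem (c t h).2 ht.2) (h : I).2
  set w : G → ℂ := fun t => (Nat.card (J t) : ℂ)⁻¹ with hw
  have hdouble : ∑ t ∈ T, ∑ y : J t, w t * f (t * (y : I) * (t * (y : I))) = ∑ t ∈ T, ∑ _y : J t, w t * f (t * t) := by
    rw [Finset.sum_sigma', Finset.sum_sigma']
    refine Finset.sum_bij' (fun p _ => ⟨p.1 * (p.2 : I), ⟨((p.2 : I))⁻¹, ?_⟩⟩) (fun p _ => ⟨p.1 * (p.2 : I), ⟨((p.2 : I))⁻¹, ?_⟩⟩)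
      ?_ ?_ ?_ ?_ ?_
    · rw [hJmul]; exact (J p.1).inv_mem p.2.2
    · rw [hJmul]; exact (J p.1).inv_mem p.2.2
    · intro p hp
      simp only [Finset.mem_sigma, Finset.mem_univ, and_true] at hp ⊢
      exact hTmul _ _ hp
    · intro p hp
      simp only [Finset.mem_sigma, Finset.mem_univ, and_true] at hp ⊢
      exact hTmul _ _ hp
    · intro p _
      refine Sigma.subtype_ext (by simp) (by simp)
    · intro p _
      refine Sigma.subtype_ext (by simp) (by simp)
    · intro p _
      simp only [hw, hJmul]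
  have hleft : ∀ t ∈ T, ∑ y : J t, w t * f (t * (y : I) * (t * (y : I))) = 0 := fun t ht => by
    simp only [hT, Finset.mem_filter, Finset.mem_univ, true_and] at ht
    rw [← Finset.mul_sum, hzero t ht.1 ht.2, mul_zero]
  have hright : ∀ t ∈ T, ∑ _y : J t, w t * f (t * t) = f (t * t) := fun t _ => by
    rw [Finset.sum_const, Finset.card_univ, nsmul_eq_mul, ← mul_assoc, hw, ← Nat.card_eq_fintype_card,
      mul_inv_cancel₀ (Nat.cast_ne_zero.mpr Nat.card_pos.ne'), one_mul]
  rwa [Finset.sum_eq_zero hleft, Finset.sum_congr rfl hright, eq_comm] at hdouble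

end Cfsg.Lib.Blocks
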