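import Cfsg.Agent.Lib.Blocks.CentricLocal

/-!
# Exact block idempotents over a normal `p`-subgroup
-/

namespace Cfsg.Lib.Blocks

open Cfsg.Lib.Characters Finset
open scoped ComplexConjugate Classical Pointwise

set_option linter.unusedSectionVars false
set_option linter.style.haveILetI false
set_option linter.style.longLine false

universe u

variable {G : Type u} [Group G] [Fintype G] {M : Ideal Cfsg.AlgInt} [M.IsPrime]
variable {p : ℕ} [Fact p.Prime]

local notation "𝐂" Q:max => Subgroup.centralizer ((Q : Subgroup G) : Set G)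

/-- A set of characters of `C(P)` stable under pulling back along all inner automorphisms. -/
theorem isClassElt_incSub_blockE {P : Subgroup G} [P.Normal] {U : Set (IrrCharacter (𝐂 P))}
    (hU : ∀ x : G, StabilizesBlock (𝐂 P) U x) : IsClassElt (incSub (𝐂 P) (blockE U)) := by
  have hcoe : ∀ a, (incSub (𝐂 P) (blockE U)).coeff a = subgroupBlockCoeff (𝐂 P) U a := by
    intro a
    by_cases ha : a ∈ 𝐂 P
    · obtain ⟨c, rfl⟩ : ∃ c : 𝐂 P, (c : G) = a := ⟨⟨a, ha⟩, rfl⟩
      rw [coeff_incSub_mem, coeff_blockE, PrincipalPairs.coe_subgroupBlockCoeff]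
    · rw [coeff_incSub_notMem _ _ ha, subgroupBlockCoeff, dif_neg ha]
  intro g a
  rw [hcoe, hcoe]
  exact PrincipalPairs.subgroupBlockCoeff_conj (hU g) a

/-- An invariant union of pairs of `B` has the idempotent of `B`, exactly. -/
theorem blockE_eq_of_invariant (hM : IsPModular p M) {P : Subgroup G} [P.Normal] (hP : IsPGroup p P)
    {B : Set (IrrCharacter G)} (hB : IsPBlock M B) {U : Set (IrrCharacter (𝐂 P))}
    (hU : IsBlockUnion M U) (hinv : ∀ x : G, StabilizesBlock (𝐂 P) U x) (hne : U.Nonempty)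
    (hsub : ∀ η ∈ U, IsBrauerPairOf p M B P (blockOf M (η : 𝐂 P → ℂ))) :
    blockE B = incSub (𝐂 P) (blockE U) := by
  set z := incSub (𝐂 P) (blockE U) with hzdef
  have hzc : IsClassElt z := isClassElt_incSub_blockE hinv
  have hz : z ∈ locCenter G M := by
    refine ⟨hzc, fun g => ?_⟩
    by_cases hg : g ∈ 𝐂 P
    · rw [show g = ((⟨g, hg⟩ : 𝐂 P) : G) from rfl, coeff_incSub_mem]
      exact hU.blockE_mem.2 _
    · rw [coeff_incSub_notMem _ _ hg]
      exact zero_mem _
  have hzz : z * z = z := by rw [hzdef, ← map_mul, blockE_sq]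
  refine (ext_omega hzc (isClassElt_blockE B) fun χ => ?_).symm
  have hres : resSub (𝐂 P) (redG M z) = redG M (blockE U) := gr_ext fun c => by
    rw [coeff_resSub, coeff_redG, coeff_redG, coeff_incSub_mem]
  have key : ∀ {B' : Set (IrrCharacter G)} {f : Set (IrrCharacter (𝐂 P))}
      (_ : IsBrauerPairOf p M B' P f) {η : IrrCharacter (𝐂 P)} (_ : η ∈ f) {ψ : IrrCharacter G}
      (_ : ψ ∈ B'), red M (omega ψ z) = if η ∈ U then 1 else 0 := by
    intro B' f hf η hη ψ hψ
    rw [← lam_redG M ψ hz, ← lam_resSub_of_pairOf hM hf hη hψ (isClassElt_redG M hzc), hres,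
      lam_redG_blockE hU.blockE_mem]
  have hval : ∀ η : IrrCharacter (𝐂 P),
      red M (omega χ z) = (if η ∈ U then 1 else 0) → omega χ z = if η ∈ U then 1 else 0 := by
    intro η h
    have h1 := omega_mul χ hzc hzc
    rw [hzz] at h1
    by_cases h0 : omega χ z = 0
    · rw [h0, red_zero] at h
      split_ifs at h ⊢ with hη
      · exact absurd h zero_ne_one
      · exact h0
    · have h2 : omega χ z = 1 := mul_left_cancel₀ h0 (h1.symm.trans (mul_one _).symm)
      rw [h2, red_one] at h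
      split_ifs at h ⊢ with hη
      · exact h2
      · exact absurd h one_ne_zero
  rw [omega_blockE]
  by_cases hχ : χ ∈ B
  · obtain ⟨η, hη⟩ := hne
    rw [hval η (key (hsub η hη) (mem_blockOf_self M η) hχ), if_pos hη, if_pos hχ]
  · set B' := blockOf M (χ : G → ℂ)
    obtain ⟨f, hf⟩ := exists_pair_of_brNe hM ⟨χ, rfl⟩ hP (brNe_bIdem_normal (B := B') hM ⟨χ, rfl⟩ hP)
    obtain ⟨η, hη⟩ := IsPBlock.nonempty hf.1.2
    have hnU : η ∉ U := fun h => hχ (by
      have h1 := (isBrauerPairOf_iff hM).mp (hsub η h)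
      have h2 := ((isBrauerPairOf_iff hM).mp hf).2
      rw [IsPBlock.eq_blockOf hf.1.2 hη] at h2
      have := IsInducedBlock.unique h1.2 h2
      exact this ▸ mem_blockOf_self M χ)
    rw [hval η (key hf hη (mem_blockOf_self M χ)), if_neg hnU, if_neg hχ]

/-- The exact idempotent of a block is supported on the centralizer of a normal `p`-subgroup. -/
theorem blockCoeff_eq_zero_of_notMem (hM : IsPModular p M) {P : Subgroup G} [P.Normal]
    (hP : IsPGroup p P) {B : Set (IrrCharacter G)} (hB : IsPBlock M B) {g : G} (hg : g ∉ 𝐂 P) :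
    blockCoeff B g = 0 := by
  set U : Set (IrrCharacter (𝐂 P)) := {η | lam M η (resSub (𝐂 P) (bIdem M B)) = 1}
  have hU : IsBlockUnion M U := fun χ ψ h hχ => by
    show lam M ψ _ = 1
    rw [← lam_eq_of_sameBlock M h]
    exact hχ
  have hN : ∀ x : G, x ∈ Subgroup.normalizer (P : Set G) := fun x => by
    rw [Subgroup.normalizer_eq_top]
    exact Subgroup.mem_top x
  have hinv : ∀ x : G, StabilizesBlock (𝐂 P) U x := by
    intro x
    have hx := normalizer_le_normalizer_centralizer' P (hN x)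
    refine (stabilizesBlock_iff U x).mpr ⟨hx, Set.ext fun η => ?_⟩
    show lam M (irrPull (normConj _ hx).symm η) _ = 1 ↔ lam M η _ = 1
    conv_rhs => rw [← irrPull_symm (normConj _ hx) η]
    rw [show lam M (irrPull (normConj (𝐂 P) hx) (irrPull (normConj (𝐂 P) hx).symm η))
        (resSub (𝐂 P) (bIdem M B)) = lam M (irrPull (normConj _ hx).symm η) (resSub (𝐂 P) (bIdem M B)) from ?_]
    conv_lhs => rw [show resSub (𝐂 P) (bIdem M B)
      = pullElt (normConj _ hx) (resSub (𝐂 P) (bIdem M B)) from gr_ext fun c => by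
        rw [coeff_pullElt, coeff_resSub, coeff_resSub, coe_conjEquiv, isClassElt_bIdem B x]]
    exact lam_pull _ _ ((isClassElt_bIdem B).resSub _)
  have hne : U.Nonempty := exists_lam_one_of_brNe hM hP ((isClassElt_bIdem B).stable P)
    ((isClassElt_bIdem B).stable _) (bIdem_sq hB) (brNe_bIdem_normal hM hB hP)
  have h := blockE_eq_of_invariant hM hP hB hU hinv hne fun η hη =>
    (isBrauerPairOf_iff hM).mpr ⟨hP, ((exists_induced_of_mul ⟨η, rfl⟩ (mem_blockOf_self M η)
      (lam_resSub_centralizer_mul hM hP η)).2 B hB).mpr hη⟩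
  rw [← coeff_blockE, h, coeff_incSub_notMem _ _ hg]

/-- The idempotent of `B` is the sum of the conjugates of that of one of its pairs. -/
theorem blockCoeff_eq_average (hM : IsPModular p M) {P : Subgroup G} [P.Normal] (hP : IsPGroup p P)
    {B : Set (IrrCharacter G)} {e : Set (IrrCharacter (𝐂 P))} (he : IsBrauerPairOf p M B P e) (g : G) :
    blockCoeff B g = (Nat.card (pairStab M ⊤ P e) : ℂ)⁻¹ *
      ∑ x : G, subgroupBlockCoeff (𝐂 P) e (x⁻¹ * g * x) := by
  have hN : ∀ x : G, x ∈ Subgroup.normalizer (P : Set G) := fun x => by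
    rw [Subgroup.normalizer_eq_top]
    exact Subgroup.mem_top x
  have hC : ∀ x : G, x ∈ Subgroup.normalizer (𝐂 P : Set G) :=
    fun x => normalizer_le_normalizer_centralizer' P (hN x)
  let f : G → (𝐂 P ≃* 𝐂 P) := fun x => normConj (𝐂 P) (inv_mem (hC x))
  have hf : ∀ x (η : IrrCharacter (𝐂 P)), η ∈ pullBlock (f x) e ↔
      subE M P (blockOf M (η : 𝐂 P → ℂ)) = cjE x (subE M P e) := by
    intro x η
    rw [cjE_subE_normalizer he.1.2 (hN x)]
    refine ⟨fun h => ?_, fun h => ?_⟩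
    · exact congrArg (subE M P) (IsPBlock.eq_blockOf (isPBlock_pull (f x) he.1.2) h).symm
    · rw [← subE_inj ⟨η, rfl⟩ (isPBlock_pull (f x) he.1.2) h]
      exact mem_blockOf_self M η
  set U : Set (IrrCharacter (𝐂 P)) := {η | ∃ x : G, η ∈ pullBlock (f x) e}
  have hU : IsBlockUnion M U := fun χ ψ h ⟨x, hx⟩ =>
    ⟨x, IsPBlock.mem_of_sameBlock (isPBlock_pull (f x) he.1.2) hx h⟩
  have hinv : ∀ y : G, StabilizesBlock (𝐂 P) U y := by
    intro y
    refine (stabilizesBlock_iff U y).mpr ⟨hC y, Set.ext fun η => ?_⟩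
    have hsub : ∀ z : G, z = y → subE M P (blockOf M ((irrPull (normConj _ (hC z)).symm η : IrrCharacter (𝐂 P)) : 𝐂 P → ℂ))
        = cjE z (subE M P (blockOf M (η : 𝐂 P → ℂ))) := by
      intro z _
      rw [cjE_subE_normalizer ⟨η, rfl⟩ (hN z)]
      congr 1
      symm
      refine IsPBlock.eq_blockOf (isPBlock_pull _ ⟨η, rfl⟩) ?_
      rw [show (irrPull (normConj _ (hC z)).symm η : IrrCharacter (𝐂 P))
        = irrPull (normConj (𝐂 P) (inv_mem (hC z))) η from Subtype.ext (funext fun c => by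
          refine congrArg (η : 𝐂 P → ℂ) (Subtype.ext ?_)
          show z⁻¹ * (c : G) * z = z⁻¹ * (c : G) * z⁻¹⁻¹
          rw [inv_inv])]
      exact (mem_pullBlock _ _ η).mpr (mem_blockOf_self M η)
    show (∃ x, _) ↔ ∃ x, _
    constructor
    · rintro ⟨x, hx⟩
      refine ⟨y⁻¹ * x, (hf _ η).mpr ?_⟩
      rw [← cjE_cjE, ← (hf x _).mp hx, hsub y rfl, cjE_cjE, inv_mul_cancel, cjE_one]
    · rintro ⟨x, hx⟩
      refine ⟨y * x, (hf _ _).mpr ?_⟩
      rw [hsub y rfl, (hf x η).mp hx, cjE_cjE]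
  have hne : U.Nonempty := by
    obtain ⟨η, hη⟩ := IsPBlock.nonempty (isPBlock_pull (f 1) he.1.2)
    exact ⟨η, 1, hη⟩
  have h := blockE_eq_of_invariant hM hP he.2.1 hU hinv hne fun η ⟨x, hx⟩ => by
    have hb : IsPBlock M (blockOf M (η : 𝐂 P → ℂ)) := ⟨η, rfl⟩
    have hmap : P.map (MulAut.conj x).toMonoidHom = P := by
      ext a
      rw [mem_map_conj]
      exact ⟨fun h => by simpa [mul_assoc] using ‹P.Normal›.conj_mem _ h x,
        fun h => by simpa [mul_assoc] using ‹P.Normal›.conj_mem _ h x⁻¹⟩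
    have hpair := isBrauerPairOf_conj hM he x
    have heq : (⟨P, blockOf M (η : 𝐂 P → ℂ)⟩ : BrauerPairIdx G)
        = ⟨P.map (MulAut.conj x).toMonoidHom, conjBlock P x e⟩ :=
      pairIdx_ext (M := M) hmap.symm hb (isPBlock_conjBlock he.1.2 x)
        (((hf x η).mp hx).trans (subE_conjBlock he.1.2 x).symm)
    revert hpair
    have key : ∀ a b : BrauerPairIdx G, a = b → IsBrauerPairOf p M B b.1 b.2 → IsBrauerPairOf p M B a.1 a.2 :=
      fun a b hab hb => hab ▸ hb
    exact fun hpair => key _ _ heq hpair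
  have hcoe : ∀ (S : Set (IrrCharacter (𝐂 P))) (a : G),
      subgroupBlockCoeff (𝐂 P) S a = (incSub (𝐂 P) (blockE S)).coeff a := by
    intro S a
    by_cases ha : a ∈ 𝐂 P
    · obtain ⟨c, rfl⟩ : ∃ c : 𝐂 P, (c : G) = a := ⟨⟨a, ha⟩, rfl⟩
      rw [coeff_incSub_mem, coeff_blockE, PrincipalPairs.coe_subgroupBlockCoeff]
    · rw [coeff_incSub_notMem _ _ ha, subgroupBlockCoeff, dif_neg ha]
  rw [← coeff_blockE B g, h, ← hcoe]
  set T := pairStab M ⊤ P e
  by_cases hg : g ∈ 𝐂 P
  swap
  · rw [subgroupBlockCoeff, dif_neg hg, Finset.sum_eq_zero fun x _ => ?_, mul_zero]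
    rw [subgroupBlockCoeff, dif_neg]
    intro h'
    exact hg (by simpa [mul_assoc] using ((Subgroup.mem_normalizer_iff.mp (hC x)) _).mp h')
  obtain ⟨c, rfl⟩ : ∃ c : 𝐂 P, (c : G) = g := ⟨⟨g, hg⟩, rfl⟩
  have hterm : ∀ x : G, subgroupBlockCoeff (𝐂 P) e (x⁻¹ * (c : G) * x)
      = blockCoeff (pullBlock (f x) e) c := by
    intro x
    have h1 : x⁻¹ * (c : G) * x = ((f x c : 𝐂 P) : G) := by simp [f]
    rw [h1, PrincipalPairs.coe_subgroupBlockCoeff, blockCoeff_eq, blockCoeff_eq]
    congr 1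
    refine Fintype.sum_equiv ⟨irrPull (f x), irrPull (f x).symm, fun a => symm_irrPull _ a,
      fun a => irrPull_symm _ a⟩ _ _ fun χ => ?_
    show (if χ ∈ e then _ else _) = _
    simp only [Equiv.coe_fn_mk]
    rw [show ((irrPull (f x) χ : IrrCharacter (𝐂 P)) ∈ pullBlock (f x) e) = (χ ∈ e) from
      propext (mem_pullBlock _ _ _)]
    simp [irrPull]
  simp only [PrincipalPairs.coe_subgroupBlockCoeff, hterm, blockCoeff_eq]
  rw [← Finset.mul_sum, Finset.sum_comm, mul_left_comm]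
  congr 1
  rw [Finset.mul_sum]
  refine Finset.sum_congr rfl fun η _ => ?_
  rw [← Finset.sum_filter, Finset.sum_const, nsmul_eq_mul]
  by_cases hη : η ∈ U
  · obtain ⟨x₀, hx₀⟩ := hη
    have hcard : (univ.filter fun x : G => η ∈ pullBlock (f x) e).card = Nat.card T := by
      rw [Nat.card_eq_fintype_card, ← Fintype.card_subtype]
      refine Fintype.card_congr
        { toFun := fun x => ⟨x₀⁻¹ * x.1, trivial, hN _, by
            rw [← cjE_cjE, ← (hf _ η).mp x.2, (hf _ η).mp hx₀, cjE_cjE, inv_mul_cancel, cjE_one]⟩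
          invFun := fun t => ⟨x₀ * t.1, (hf _ η).mpr (by
            rw [← cjE_cjE, t.2.2.2]; exact (hf _ η).mp hx₀)⟩
          left_inv := fun x => Subtype.ext (by simp)
          right_inv := fun t => Subtype.ext (by simp) }
    rw [if_pos (show η ∈ U from ⟨x₀, hx₀⟩), hcard, ← mul_assoc,
      inv_mul_cancel₀ (Nat.cast_ne_zero.mpr Nat.card_pos.ne'), one_mul]
  · rw [if_neg hη, Finset.filter_false_of_mem fun x _ h => hη ⟨x, h⟩, Finset.card_empty]
    simp

end Cfsg.Lib.Blocks
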