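import Cfsg.Agent.Lib.Blocks.InflationBijection
import Cfsg.Agent.Lib.Blocks.NormalPSubgroup

/-!
# Inflation through an arbitrary normal `p`-subgroup
-/

set_option autoImplicit false
set_option linter.unusedSectionVars false
set_option linter.style.haveILetI false
set_option linter.style.longLine false

namespace Cfsg.Lib.Blocks

open Finset Cfsg Cfsg.Lib.Characters
open scoped ComplexConjugate

variable {G : Type*} [Group G] [Fintype G] {M : Ideal Cfsg.AlgInt} [M.IsPrime]
variable {p : ℕ} [hp : Fact p.Prime]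

/-- Blocks are separated by the regular classes centralising a normal `p`-subgroup. -/
theorem sameBlock_of_regular_centralizing (hM : IsPModular p M) (D : Subgroup G) [D.Normal] (hD : IsPGroup p D)
    {χ ψ : IrrCharacter G}
    (h : ∀ g : G, ¬ p ∣ orderOf g → g ∈ Subgroup.centralizer (D : Set G) →
      MemLocalIdeal M (centralChar (χ : G → ℂ) g - centralChar (ψ : G → ℂ) g)) :
    SameBlock M (χ : G → ℂ) (ψ : G → ℂ) := by
  classical
  set B := blockOf M (χ : G → ℂ) with hBdef
  have hB : IsPBlock M B := ⟨χ, rfl⟩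
  have he : lam M χ (bIdem M B) = lam M ψ (bIdem M B) := by
    simp only [lam]
    refine Finset.sum_congr rfl fun C _ => ?_
    by_cases hc : p ∣ orderOf (cOut C)
    · have h0 : blockCoeff B (cOut C) = 0 := blockCoeff_eq_zero_of_singular hM hB hc
      rw [coeff_bIdem, h0]
      simp
    by_cases hm : cOut C ∈ Subgroup.centralizer (D : Set G)
    · rw [(memLocalIdeal_sub_iff (centralChar_mem_locRing M χ _) (centralChar_mem_locRing M ψ _)).1 (h _ hc hm)]
    · have h0 : blockCoeff B (cOut C) = 0 := blockCoeff_eq_zero_of_notMem hM hD hB hm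
      rw [coeff_bIdem, h0]
      simp
  rw [lam_bIdem hB, lam_bIdem hB, if_pos (mem_blockOf_self M χ)] at he
  by_contra hn
  rw [if_neg (show ψ ∉ B from hn)] at he
  exact one_ne_zero he

variable {P : Subgroup G} [P.Normal]

theorem eq_of_mk_eq_of_centralizing (hP : IsPGroup p P) {x x' : G} (hx : ¬ p ∣ orderOf x)
    (hx' : ¬ p ∣ orderOf x') (hmem : x ∈ Subgroup.centralizer (P : Set G)) (h : (x : G ⧸ P) = x') :
    x = x' := by
  have hz : x⁻¹ * x' ∈ P := QuotientGroup.eq.mp h
  have hcomm : Commute x (x⁻¹ * x') :=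
    ((Subgroup.mem_centralizer_iff.mp hmem) _ hz).symm
  set m := orderOf x * orderOf x'
  have hm : ¬ p ∣ m := fun hd => (hp.out.dvd_mul.mp hd).elim hx hx'
  have h1 : (x⁻¹ * x') ^ m = 1 := by
    have e := hcomm.mul_pow m
    rw [mul_inv_cancel_left, orderOf_dvd_iff_pow_eq_one.mp (dvd_mul_left _ _),
      orderOf_dvd_iff_pow_eq_one.mp (dvd_mul_right _ _), one_mul] at e
    exact e.symm
  obtain ⟨j, hj⟩ := hP.exists_orderOf_eq_pow ⟨_, hz⟩
  have h2 : orderOf (x⁻¹ * x') = p ^ j := by rw [← hj, ← Subgroup.orderOf_coe]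
  have h3 := orderOf_dvd_of_pow_eq_one h1
  rw [h2] at h3
  rcases Nat.eq_zero_or_pos j with rfl | hj0
  · rw [pow_zero, orderOf_eq_one_iff, inv_mul_eq_one] at h2
    exact h2
  · exact absurd ((dvd_pow_self p hj0.ne').trans h3) hm

theorem comap_centralizer_mk_of_centralizing (hP : IsPGroup p P) {x : G} (hx : ¬ p ∣ orderOf x)
    (hmem : x ∈ Subgroup.centralizer (P : Set G)) :
    (Subgroup.centralizer ({(x : G ⧸ P)} : Set (G ⧸ P))).comap (QuotientGroup.mk' P)
      = Subgroup.centralizer ({x} : Set G) := by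
  ext y
  simp only [Subgroup.mem_comap, Subgroup.mem_centralizer_singleton_iff, QuotientGroup.mk'_apply,
    ← QuotientGroup.mk_mul]
  refine ⟨fun h => ?_, fun h => by rw [h]⟩
  have h' : ((y * x * y⁻¹ : G) : G ⧸ P) = (x : G ⧸ P) := by
    rw [QuotientGroup.mk_mul, h, QuotientGroup.mk_mul, QuotientGroup.mk_inv, mul_inv_cancel_right]
  have hord : orderOf (y * x * y⁻¹) = orderOf x := MulEquiv.orderOf_eq (MulAut.conj y) x
  have := eq_of_mk_eq_of_centralizing hP hx (hord ▸ hx) hmem h'.symm
  exact mul_inv_eq_iff_eq_mul.mp this.symm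

theorem centralChar_inflate_of_centralizing (hP : IsPGroup p P) (f : G ⧸ P → ℂ) {x : G}
    (hx : ¬ p ∣ orderOf x) (hmem : x ∈ Subgroup.centralizer (P : Set G)) :
    centralChar (f ∘ QuotientGroup.mk) x = centralChar f (x : G ⧸ P) := by
  simp only [centralChar, Function.comp_apply, QuotientGroup.mk_one]
  rw [← comap_centralizer_mk_of_centralizing hP hx hmem,
    Subgroup.index_comap_of_surjective _ (QuotientGroup.mk'_surjective P)]

/-- The inflation of a character. -/
noncomputable def inflIrr (P : Subgroup G) [P.Normal] (φ : IrrCharacter (G ⧸ P)) : IrrCharacter G :=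
  ⟨(φ : G ⧸ P → ℂ) ∘ QuotientGroup.mk,
    isIrrCharacter_comp_surjective φ.2 (QuotientGroup.mk' P) (QuotientGroup.mk'_surjective P)⟩

theorem coe_inflIrr (φ : IrrCharacter (G ⧸ P)) :
    (inflIrr P φ : G → ℂ) = (φ : G ⧸ P → ℂ) ∘ QuotientGroup.mk := rfl

theorem inflIrr_injective : Function.Injective (inflIrr P) := fun a b h => by
  apply Subtype.ext
  funext q
  obtain ⟨g, rfl⟩ := QuotientGroup.mk_surjective q
  exact congr_fun (congrArg Subtype.val h) g

/-- Characters of the quotient in one block inflate into one block. -/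
theorem sameBlock_inflIrr [Fintype (G ⧸ P)] (hM : IsPModular p M) (hP : IsPGroup p P) {φ ψ : IrrCharacter (G ⧸ P)}
    (h : SameBlock M (φ : G ⧸ P → ℂ) (ψ : G ⧸ P → ℂ)) :
    SameBlock M (inflIrr P φ : G → ℂ) (inflIrr P ψ : G → ℂ) := by
  refine sameBlock_of_regular_centralizing hM P hP fun g hg hm => ?_
  rw [coe_inflIrr, coe_inflIrr, centralChar_inflate_of_centralizing hP _ hg hm,
    centralChar_inflate_of_centralizing hP _ hg hm]
  exact h _

/-- The coefficient of a block at a regular centralising element, seen in the quotient. -/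
theorem blockCoeff_inflate [Fintype (G ⧸ P)] (hM : IsPModular p M) (hP : IsPGroup p P)
    {B : Set (IrrCharacter G)} (hB : IsPBlock M B) {x : G} (hx : ¬ p ∣ orderOf x)
    (hmem : x ∈ Subgroup.centralizer (P : Set G)) :
    blockCoeff {φ | inflIrr P φ ∈ B} (x : G ⧸ P) = blockCoeff B x := by
  classical
  haveI := Fintype.ofFinite P
  have h1 : ∑ z : P, blockCoeff B ((z : G) * x) = blockCoeff B x := by
    rw [Finset.sum_eq_single (1 : P)]
    · simp
    · intro z _ hz
      by_cases hzc : (z : G) * x ∈ Subgroup.centralizer (P : Set G)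
      · have hsing : p ∣ orderOf ((z : G) * x) := by
          by_contra hreg
          have := eq_of_mk_eq_of_centralizing hP hreg hx hzc (by
            rw [QuotientGroup.mk_mul, (QuotientGroup.eq_one_iff _).mpr z.2, one_mul])
          exact hz (Subtype.ext (by simpa using this))
        exact blockCoeff_eq_zero_of_singular hM hB hsing
      · exact blockCoeff_eq_zero_of_notMem hM hP hB hzc
    · simp
  have hG : (Nat.card G : ℂ) = (Nat.card P : ℂ) * (Nat.card (G ⧸ P) : ℂ) := by
    rw [← Nat.cast_mul, ← Subgroup.index_eq_card, Subgroup.card_mul_index]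
  have hP0 : (Nat.card P : ℂ) ≠ 0 := Nat.cast_ne_zero.mpr Nat.card_pos.ne'
  rw [← h1]
  simp only [blockCoeff_eq]
  rw [← Finset.mul_sum, Finset.sum_comm, hG, mul_inv, mul_comm (Nat.card P : ℂ)⁻¹, mul_assoc]
  congr 1
  rw [Finset.mul_sum]
  have key : ∀ θ : IrrCharacter G, (Nat.card P : ℂ)⁻¹ *
      ∑ z : P, (if θ ∈ B then (θ : G → ℂ) 1 * conj ((θ : G → ℂ) ((z : G) * x)) else 0) =
      if θ ∈ B then (θ : G → ℂ) 1 * conj (cosetAvg P (θ : G → ℂ) x) else 0 := by
    intro θ
    split_ifs with hθ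
    · simp only [cosetAvg, map_mul, map_inv₀, map_natCast, map_sum, ← Finset.mul_sum]
      ring
    · simp
  rw [Finset.sum_congr rfl fun θ _ => key θ]
  refine (Finset.sum_bij_ne_zero (fun φ _ _ => inflIrr P φ) (fun _ _ _ => Finset.mem_univ _)
    (fun a _ _ b _ _ h => inflIrr_injective h) (fun θ _ hθ => ?_) (fun φ _ _ => ?_))
  · by_cases hθB : θ ∈ B
    swap
    · rw [if_neg hθB] at hθ
      exact absurd rfl hθ
    rw [if_pos hθB] at hθ
    rcases cosetAvg_irr P θ with h | h
    · obtain ⟨φ, hφ⟩ := exists_descend (P := P) θ.2 fun z hz => by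
        have e1 := congrFun h z
        have e2 := congrFun h 1
        simp only [cosetAvg] at e1 e2
        rw [← e1, ← e2]
        congr 1
        exact Fintype.sum_equiv (Equiv.mulRight (⟨z, hz⟩ : P)) _ _ fun n => by simp
      have he : inflIrr P φ = θ := Subtype.ext hφ.symm
      refine ⟨φ, Finset.mem_univ _, ?_, he⟩
      rw [h, hφ] at hθ
      simp only [Function.comp_apply, QuotientGroup.mk_one] at hθ
      rwa [if_pos (show φ ∈ {φ : IrrCharacter (G ⧸ P) | inflIrr P φ ∈ B} by show inflIrr P φ ∈ B; rw [he]; exact hθB)]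
    · rw [h] at hθ
      simp at hθ
  · have hav : cosetAvg P (inflIrr P φ : G → ℂ) x = (φ : G ⧸ P → ℂ) (x : G ⧸ P) := by
      simp only [cosetAvg, coe_inflIrr, Function.comp_apply]
      rw [Finset.sum_congr rfl (g := fun _ => (φ : G ⧸ P → ℂ) (x : G ⧸ P)) fun z _ => by
        rw [QuotientGroup.mk_mul, (QuotientGroup.eq_one_iff _).mpr z.2, one_mul],
        Finset.sum_const, nsmul_eq_mul, Finset.card_univ, ← Nat.card_eq_fintype_card, ← mul_assoc,
        inv_mul_cancel₀ hP0, one_mul]
    rw [hav]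
    exact if_congr Iff.rfl (by simp [coe_inflIrr]) rfl

/-- Every block contains an inflated character. -/
theorem exists_inflIrr_mem [Fintype (G ⧸ P)] (hM : IsPModular p M) (hP : IsPGroup p P)
    {B : Set (IrrCharacter G)} (hB : IsPBlock M B) : ∃ φ, inflIrr P φ ∈ B := by
  classical
  obtain ⟨χ, hχ⟩ := IsPBlock.nonempty hB
  have h := lam_bIdem hB χ
  rw [if_pos hχ, lam] at h
  obtain ⟨C, -, hC⟩ := Finset.exists_ne_zero_of_sum_ne_zero (h.trans_ne one_ne_zero)
  have hne := left_ne_zero_of_mul hC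
  rw [coeff_bIdem] at hne
  have hx := not_dvd_of_coeff_ne hM hB hne
  have hmem : cOut C ∈ Subgroup.centralizer (P : Set G) := by
    by_contra hm
    exact hne (by rw [blockCoeff_eq_zero_of_notMem hM hP hB hm, red_zero])
  by_contra hno
  push Not at hno
  apply hne
  rw [← blockCoeff_inflate hM hP hB hx hmem, blockCoeff_eq, Finset.sum_eq_zero fun φ _ => if_neg (show ¬ φ ∈ {φ : IrrCharacter (G ⧸ P) | inflIrr P φ ∈ B} from hno φ),
    mul_zero, red_zero]

end Cfsg.Lib.Blocks
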