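import Cfsg.Agent.Lib.Blocks.Heights
import Cfsg.Agent.Lib.Blocks.Principal

/-!
# Odd degree characters with inversion invariant reduced central character
-/

namespace Cfsg.Lib.Blocks

open Cfsg.Lib.Characters Finset
open scoped ComplexConjugate Classical

set_option linter.unusedSectionVars false
set_option linter.style.haveILetI false
set_option linter.style.longLine false

variable {G : Type*} [Group G] [Fintype G] {M : Ideal Cfsg.AlgInt} [M.IsPrime]

theorem two_dvd_index_of_isConj_inv {g : G} (hne : g⁻¹ ≠ g) (hc : IsConj g g⁻¹) :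
    2 ∣ (Subgroup.centralizer ({g} : Set G)).index := by
  rw [← card_filter_isConj, ← (ZMod.natCast_eq_zero_iff_even.trans even_iff_two_dvd),
    Finset.card_eq_sum_ones, Nat.cast_sum]
  refine Finset.sum_involution (fun x _ => x⁻¹) (fun x _ => ?_) (fun x hx _ => ?_) (fun x hx => ?_)
    (fun x _ => inv_inv x)
  · push_cast; rw [CharTwo.add_self_eq_zero]
  · intro he
    obtain ⟨a, ha⟩ := isConj_iff.mp (Finset.mem_filter.mp hx).2
    apply hne
    rw [← ha, show (a * g * a⁻¹)⁻¹ = a * g⁻¹ * a⁻¹ by group] at he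
    simpa using he
  · refine Finset.mem_filter.mpr ⟨Finset.mem_univ _, hc.trans ?_⟩
    obtain ⟨a, rfl⟩ := isConj_iff.mp (Finset.mem_filter.mp hx).2
    exact isConj_iff.mpr ⟨a, by group⟩

/-- An odd degree character whose reduced central character is invariant under inversion on
elements of odd order lies in the principal `2`-block. -/
theorem mem_principal_of_inv_invariant (hM : IsPModular 2 M) (χ : IrrCharacter G)
    (hodd : Odd (charDegree (χ : G → ℂ)))
    (hinv : ∀ g : G, ¬ 2 ∣ orderOf g →
      red M (centralChar (χ : G → ℂ) g⁻¹) = red M (centralChar (χ : G → ℂ) g)) :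
    χ ∈ principalBlock M G := by
  rw [mem_principal_iff_lam_regSum (p := 2) hM]
  set f : ConjClasses G → ResF M := fun C =>
    (regSum (ResF M) 2 G).coeff (cOut C) * red M (centralChar (χ : G → ℂ) (cOut C)) with hf
  have hlam : lam M χ (regSum (ResF M) 2 G) = ∑ C, f C := rfl
  have hcl : ∀ {a b : G}, IsConj a b → centralChar (χ : G → ℂ) a = centralChar (χ : G → ℂ) b := by
    intro a b h
    have hi : (Subgroup.centralizer ({a} : Set G)).index = (Subgroup.centralizer ({b} : Set G)).index := by
      rw [← card_filter_isConj, ← card_filter_isConj]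
      exact congrArg Finset.card (Finset.filter_congr fun x _ => ⟨h.symm.trans, h.trans⟩)
    rw [centralChar, centralChar, hi, char_eq_of_isConj χ h]
  have hone : f (ConjClasses.mk (1 : G)) = 1 := by
    have h1 : cOut (ConjClasses.mk (1 : G)) = 1 := isConj_one_left.mp (out_isConj (1 : G))
    have h2 : Subgroup.centralizer ({(1 : G)} : Set G) = ⊤ :=
      eq_top_iff.mpr fun x _ => Subgroup.mem_centralizer_singleton_iff.mpr (by simp)
    simp only [hf, h1, coeff_regSum, orderOf_one, centralChar, h2, Subgroup.index_top, Nat.cast_one,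
      one_mul, div_self χ.2.one_ne_zero, red_one, mul_one]
    norm_num
  rw [hlam, ← Finset.add_sum_erase _ _ (Finset.mem_univ (ConjClasses.mk (1 : G))), hone]
  suffices h : ∑ C ∈ univ.erase (ConjClasses.mk (1 : G)), f C = 0 by
    rw [h, add_zero]; exact one_ne_zero
  haveI := charP_resF hM
  let inv : ConjClasses G → ConjClasses G := fun C => ConjClasses.mk (cOut C)⁻¹
  have hconjinv : ∀ {a b : G}, IsConj a b → IsConj a⁻¹ b⁻¹ := by
    intro a b h
    obtain ⟨c, rfl⟩ := isConj_iff.mp h
    exact isConj_iff.mpr ⟨c, by group⟩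
  have hinvout : ∀ C, IsConj (cOut (inv C)) (cOut C)⁻¹ := fun C => out_isConj _
  have hval : ∀ C, f (inv C) = f C := by
    intro C
    obtain ⟨a, ha⟩ := isConj_iff.mp (hinvout C)
    have ho : orderOf (cOut (inv C)) = orderOf (cOut C) := by
      rw [← orderOf_inv (cOut C), ← ha]
      exact (MulEquiv.orderOf_eq (MulAut.conj a) _).symm
    simp only [hf, coeff_regSum, ho]
    split_ifs with h
    · simp
    · rw [hcl (hinvout C), hinv _ h]
  refine Finset.sum_involution (fun C _ => inv C) (fun C _ => ?_) (fun C hC hne he => hne ?_)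
    (fun C hC => ?_) (fun C _ => ?_)
  · rw [hval, CharTwo.add_self_eq_zero]
  · set g := cOut C with hg
    by_cases hd : 2 ∣ orderOf g
    · simp [hf, coeff_regSum, ← hg, hd]
    have hgc : IsConj g g⁻¹ := by
      have h := hinvout C
      rwa [he] at h
    have hgne : g⁻¹ ≠ g := by
      intro h
      refine (Finset.mem_erase.mp hC).1 ?_
      have h2 : orderOf g ∣ 2 := orderOf_dvd_of_pow_eq_one (by rw [pow_two]; nth_rw 1 [← h]; exact inv_mul_cancel g)
      rcases (Nat.dvd_prime Nat.prime_two).mp h2 with h3 | h3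
      · rw [← mk_cOut C, ← hg, orderOf_eq_one_iff.mp h3]
      · exact absurd (h3 ▸ dvd_rfl) hd
    have hi := two_dvd_index_of_isConj_inv hgne hgc
    obtain ⟨m, hm⟩ := hi
    have hinvdeg := (natCast_inv_mem hM (show ¬ 2 ∣ charDegree (χ : G → ℂ) from fun h =>
      (Nat.not_even_iff_odd.mpr hodd) (even_iff_two_dvd.mpr h))).1
    rw [coe_charDegree] at hinvdeg
    have hz : red M (centralChar (χ : G → ℂ) g) = 0 := by
      rw [centralChar, hm, Nat.cast_mul, mul_assoc, mul_div_assoc, div_eq_mul_inv ((m : ℂ) * _),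
        red_mul (natCast_mem _ _) (mul_mem (mul_mem (natCast_mem _ _) (char_mem_locRing M χ g)) hinvdeg),
        red_natCast, (natCast_resF_eq_zero hM 2).mpr dvd_rfl, zero_mul]
    simp [hf, ← hg, hz]
  · refine Finset.mem_erase.mpr ⟨fun h => (Finset.mem_erase.mp hC).1 ?_, Finset.mem_univ _⟩
    have h1 : IsConj (cOut C)⁻¹ (1 : G) := ConjClasses.mk_eq_mk_iff_isConj.mp h
    rw [← mk_cOut C, inv_eq_one.mp (isConj_one_left.mp h1)]
  · show ConjClasses.mk (cOut (inv C))⁻¹ = C
    conv_rhs => rw [← mk_cOut C]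
    rw [ConjClasses.mk_eq_mk_iff_isConj]
    simpa using hconjinv (hinvout C)

end Cfsg.Lib.Blocks
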