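import Cfsg.Agent.Lib.Blocks.Modular
import Cfsg.Agent.Lib.Blocks.Exists
import Cfsg.Agent.Lib.Characters.Integrality
import Cfsg.Agent.Lib.Characters.Induction

/-!
# Characters of cyclic groups with values `0, ±1` off the identity
-/

namespace Cfsg.Lib.SignedCyclic

open Cfsg.Lib.Characters Cfsg.Lib.Blocks Finset
open scoped ComplexConjugate Classical

set_option linter.unusedSectionVars false
set_option linter.style.haveILetI false
set_option linter.style.longLine false

variable {S : Type*} [Group S] [Fintype S] [IsMulCommutative S] {ψ : S → ℂ}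

theorem card_irr_eq : Nat.card (IrrCharacter S) = Nat.card S := by
  rw [card_irr_eq_card_conjClasses]
  refine (Nat.card_eq_of_bijective ConjClasses.mk ⟨fun x y h => ?_, Quotient.mk_surjective⟩).symm
  obtain ⟨c, hc⟩ := isConj_iff.mp (ConjClasses.mk_eq_mk_iff_isConj.mp h)
  rwa [mul_comm' c, mul_inv_cancel_right] at hc

/-- A right translate by a `q`-element changes integral values by multiples of `q`. -/
theorem dvd_sub_mul (hψ : IsCharacter S ψ) {q : ℕ} (hq : q.Prime) {x u : S} {k : ℕ}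
    (hu : u ^ q ^ k = 1) {a b : ℤ} (ha : ψ (x * u) = a) (hb : ψ x = b) : (q : ℤ) ∣ a - b := by
  haveI : Fact q.Prime := ⟨hq⟩
  obtain ⟨M, hM⟩ := exists_isPModular q
  haveI := hM.2.1.isPrime
  obtain ⟨m, hm⟩ := exists_decomposition hψ
  choose lam hlam using fun ν : IrrCharacter S =>
    exists_hom_of_degree_one ν.2.isCharacter (degree_one_of_isMulCommutative ν.2)
  have hv : ∀ y, ψ y = ∑ ν : IrrCharacter S, (m ν : ℂ) * (lam ν y : ℂ) := by
    intro y
    rw [hm, Finset.sum_apply]
    exact Finset.sum_congr rfl fun ν _ => by simp [congrFun (hlam ν) y]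
  have hroot : ∀ ν y, (lam ν y : ℂ) ∈ locRing M := fun ν y =>
    root_mem_locRing Fintype.card_pos
      (by rw [← Units.val_pow_eq_pow_val, ← map_pow, pow_card_eq_one, map_one, Units.val_one])
  have hmem : ∀ ν y, (m ν : ℂ) * (lam ν y : ℂ) ∈ locRing M := fun ν y =>
    mul_mem (natCast_mem _ _) (hroot ν y)
  have hred : red M (ψ (x * u)) = red M (ψ x) := by
    rw [hv, hv, red_sum _ fun ν _ => hmem ν _, red_sum _ fun ν _ => hmem ν _]
    refine Finset.sum_congr rfl fun ν _ => ?_
    have h1 : red M (lam ν u : ℂ) = 1 :=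
      red_pPow_root hM (k := k) (by rw [← Units.val_pow_eq_pow_val, ← map_pow, hu, map_one, Units.val_one])
    rw [map_mul, Units.val_mul, red_mul (natCast_mem _ _) (mul_mem (hroot ν x) (hroot ν u)),
      red_mul (natCast_mem _ _) (hroot ν x), red_mul (hroot ν x) (hroot ν u), h1, mul_one]
  rw [ha, hb, red_intCast, red_intCast] at hred
  rw [← intCast_resF_eq_zero hM, Int.cast_sub, hred, sub_self]

/-- For values in `{0, 1, -1}` off the identity, vanishing at one generator is vanishing off the identity. -/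
theorem eq_zero_iff_generator (hψ : IsCharacter S ψ) (a : S → ℤ) (ha : ∀ x, x ≠ 1 → ψ x = a x)
    (hsmall : ∀ x, x ≠ 1 → a x = 0 ∨ a x = 1 ∨ a x = -1) {g : S} (hg : ∀ x, x ∈ Subgroup.zpowers g)
    {x : S} (hx : x ≠ 1) : a x = 0 ↔ a g = 0 := by
  set n := orderOf g with hn
  have hnpos : 0 < n := orderOf_pos g
  let bad : ℕ → Finset ℕ := fun i => n.primeFactors.filter fun q => ¬ i ≡ 1 [MOD q ^ n.factorization q]
  suffices h : ∀ d i : ℕ, (bad i).card = d → g ^ i ≠ 1 → (a (g ^ i) = 0 ↔ a g = 0) by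
    obtain ⟨i, rfl⟩ : ∃ i : ℕ, g ^ i = x := mem_powers_iff_mem_zpowers.mpr (hg x)
    exact h _ i rfl hx
  intro d
  induction d using Nat.strong_induction_on with
  | _ d ih =>
  intro i hid hi
  by_cases hempty : bad i = ∅
  · have h1 : i ≡ 1 [MOD n] := by
      refine Nat.modEq_iff_dvd.mpr (Int.natCast_dvd.mpr ?_)
      refine (Nat.dvd_iff_prime_pow_dvd_dvd _ _).mpr fun q k hq hqk => ?_
      rcases Nat.eq_zero_or_pos k with rfl | hk
      · simp
      have hqn : q ∈ n.primeFactors :=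
        Nat.mem_primeFactors.mpr ⟨hq, (dvd_pow_self q hk.ne').trans hqk, hnpos.ne'⟩
      have h2 : i ≡ 1 [MOD q ^ n.factorization q] := by
        by_contra hc
        exact Finset.notMem_empty q (hempty ▸ Finset.mem_filter.mpr ⟨hqn, hc⟩)
      exact (pow_dvd_pow q ((hq.pow_dvd_iff_le_factorization hnpos.ne').mp hqk)).trans
        (Int.natCast_dvd.mp (Nat.modEq_iff_dvd.mp h2))
    rw [show g ^ i = g from (pow_eq_pow_iff_modEq.mpr h1).trans (pow_one g)]
  obtain ⟨q, hqbad⟩ := Finset.nonempty_iff_ne_empty.mpr hempty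
  obtain ⟨hqn, hq1⟩ := Finset.mem_filter.mp hqbad
  have hq := (Nat.mem_primeFactors.mp hqn).1
  set e := n.factorization q with he
  have he0 : 0 < e := hq.factorization_pos_of_dvd hnpos.ne' (Nat.mem_primeFactors.mp hqn).2.1
  set m := n / q ^ e with hm
  have hnm : q ^ e * m = n := Nat.ordProj_mul_ordCompl_eq_self n q
  obtain ⟨j, hj1, hjm⟩ := Nat.chineseRemainder
    ((Nat.coprime_ordCompl hq hnpos.ne').pow_left e) 1 i
  have hjne : g ^ j ≠ 1 := by
    intro h
    have h1 : q ^ e ∣ j := ((Dvd.intro m hnm).trans (orderOf_dvd_of_pow_eq_one h) : q ^ e ∣ j)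
    have h2 := (Nat.ModEq.of_dvd (dvd_pow_self q he0.ne') hj1).symm.trans
      (Nat.modEq_zero_iff_dvd.mpr ((dvd_pow_self q he0.ne').trans h1))
    exact hq.one_lt.ne' (Nat.dvd_one.mp (Nat.modEq_zero_iff_dvd.mp h2))
  have hlt : (bad j).card < d := by
    rw [← hid]
    refine Finset.card_lt_card ((Finset.ssubset_iff_of_subset fun r hr => ?_).mpr
      ⟨q, hqbad, fun h => (Finset.mem_filter.mp h).2 hj1⟩)
    obtain ⟨hrn, hr1⟩ := Finset.mem_filter.mp hr
    have hrp := (Nat.mem_primeFactors.mp hrn).1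
    have hrq : r ≠ q := fun h => hr1 (h ▸ hj1)
    refine Finset.mem_filter.mpr ⟨hrn, fun h => hr1 ((hjm.of_dvd ?_).trans h)⟩
    refine (Nat.Coprime.dvd_mul_left (k := r ^ n.factorization r) (m := q ^ e) ?_).mp
      (hnm ▸ Nat.ordProj_dvd n r : r ^ n.factorization r ∣ q ^ e * m)
    exact Nat.Coprime.pow _ _ ((Nat.coprime_primes hrp hq).mpr hrq)
  have hu : ((g ^ i)⁻¹ * g ^ j) ^ q ^ e = 1 := by
    rw [Commute.mul_pow (show Commute _ _ from mul_comm' _ _), inv_pow, inv_mul_eq_one, ← pow_mul, ← pow_mul, pow_eq_pow_iff_modEq,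
      show orderOf g = q ^ e * m from hnm.symm, mul_comm i, mul_comm j]
    exact hjm.symm.mul_left' _
  have hd := dvd_sub_mul hψ hq hu (x := g ^ i) (by rw [mul_inv_cancel_left]; exact ha _ hjne) (ha _ hi)
  rw [← ih _ hlt j rfl hjne]
  have hq2 : (2 : ℤ) ≤ q := by exact_mod_cast hq.two_le
  obtain ⟨c, hc⟩ := hd
  have hsj := hsmall _ hjne
  have hsi := hsmall _ hi
  constructor
  · intro h0
    rw [h0, sub_zero] at hc
    rcases hsj with h | h | h
    · exact h
    all_goals
      have := Int.le_of_dvd one_pos (show (q : ℤ) ∣ 1 from ?_)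
      · omega
      first
        | exact ⟨c, by linarith⟩
        | exact ⟨-c, by linarith⟩
  · intro h0
    rw [h0, zero_sub] at hc
    rcases hsi with h | h | h
    · exact h
    all_goals
      have := Int.le_of_dvd one_pos (show (q : ℤ) ∣ 1 from ?_)
      · omega
      first
        | exact ⟨c, by linarith⟩
        | exact ⟨-c, by linarith⟩

/-- The degree is a multiple of the order if all other values vanish. -/
theorem card_dvd_of_vanish (hψ : IsCharacter S ψ) (h0 : ∀ x, x ≠ 1 → ψ x = 0) :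
    ∃ k : ℕ, ψ 1 = (Nat.card S : ℂ) * k := by
  obtain ⟨k, hk⟩ := classInner_nat hψ (isCharacter_one (G := S))
  refine ⟨k, ?_⟩
  have : classInner ψ (fun _ => 1) = (Nat.card S : ℂ)⁻¹ * ψ 1 := by
    rw [classInner, Finset.sum_eq_single (1 : S) (fun x _ hx => by rw [h0 x hx, zero_mul]) (by simp)]
    simp
  rw [← hk, this, ← mul_assoc, mul_inv_cancel₀ (Nat.cast_ne_zero.mpr Nat.card_pos.ne'), one_mul]

/-- A character of an abelian group taking values `±1` off the identity. -/
theorem exists_sign_linear (hψ : IsCharacter S ψ) (h2 : 1 < Nat.card S) (a : S → ℤ)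
    (ha : ∀ x, x ≠ 1 → ψ x = a x) (hpm : ∀ x, x ≠ 1 → a x = 1 ∨ a x = -1) :
    ∃ (ε : ℤ) (μ : IrrCharacter S) (k : ℕ), (ε = 1 ∨ ε = -1) ∧
      ψ 1 = (Nat.card S : ℂ) * k + ε ∧ (∀ x, x ≠ 1 → ψ x = (ε : ℂ) * (μ : S → ℂ) x) ∧
      (μ : S → ℂ) 1 = 1 ∧ ∀ x, (μ : S → ℂ) x * (μ : S → ℂ) x = 1 := by
  set n := Nat.card S with hn
  obtain ⟨a₀, ha₀⟩ := exists_degree hψ
  obtain ⟨m, hm⟩ := exists_decomposition hψ
  choose lam hlam using fun ν : IrrCharacter S =>
    exists_hom_of_degree_one ν.2.isCharacter (degree_one_of_isMulCommutative ν.2)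
  have hν1 : ∀ ν : IrrCharacter S, (ν : S → ℂ) 1 = 1 := fun ν => degree_one_of_isMulCommutative ν.2
  have hv : ∀ y, ψ y = ∑ ν : IrrCharacter S, (m ν : ℂ) * (ν : S → ℂ) y := by
    intro y
    rw [hm, Finset.sum_apply]
    rfl
  have hinner : ∀ ν : IrrCharacter S, classInner ψ (ν : S → ℂ) = m ν := by
    intro ν
    rw [hm, classInner_sum_left]
    simp [classInner_smul_left, classInner_irr (Subtype.prop _) ν.2, Subtype.coe_inj]
  have hsum1 : ∑ ν : IrrCharacter S, (m ν : ℤ) = a₀ := by
    have := hv 1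
    simp only [hν1, mul_one, ha₀] at this
    exact_mod_cast this.symm
  have hnorm : (n : ℤ) * ∑ ν : IrrCharacter S, (m ν : ℤ) * m ν = (a₀ : ℤ) * a₀ + n - 1 := by
    have h1 : classInner ψ ψ = ∑ ν : IrrCharacter S, (m ν : ℂ) * m ν := by
      nth_rewrite 1 [hm]
      rw [classInner_sum_left]
      refine Finset.sum_congr rfl fun ν _ => ?_
      rw [classInner_smul_left, ← conj_classInner, hinner, map_natCast]
    have h2' : (n : ℂ) * classInner ψ ψ = (a₀ : ℂ) * a₀ + (n - 1 : ℕ) := by
      rw [classInner, ← mul_assoc, mul_inv_cancel₀ (Nat.cast_ne_zero.mpr Nat.card_pos.ne'), one_mul,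
        ← Finset.add_sum_erase univ _ (mem_univ (1 : S)), ha₀, map_natCast,
        Finset.sum_congr rfl (g := fun _ => (1 : ℂ)) fun x hx => by
          have hx1 := (Finset.mem_erase.mp hx).1
          rcases hpm x hx1 with h | h <;> simp [ha x hx1, h]]
      rw [Finset.sum_const, Finset.card_erase_of_mem (mem_univ _), Finset.card_univ, nsmul_eq_mul,
        mul_one, ← Nat.card_eq_fintype_card]
    rw [h1, Nat.cast_sub (by omega : 1 ≤ n), Nat.cast_one] at h2'
    rw [← sub_eq_zero]
    apply Int.cast_injective (α := ℂ)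
    push_cast
    linear_combination h2'
  -- the sign
  obtain ⟨e, k, hepm, hk⟩ : ∃ e k : ℤ, (e = 1 ∨ e = -1) ∧ (a₀ : ℤ) - e = n * k := by
    by_cases hodd : ∃ q : ℕ, q.Prime ∧ q ∣ n ∧ q ≠ 2
    · obtain ⟨q, hq, hqn, hq2⟩ := hodd
      haveI : Fact q.Prime := ⟨hq⟩
      obtain ⟨u, hu⟩ := exists_prime_orderOf_dvd_card' q hqn
      have hu1 : u ≠ 1 := by intro h; rw [h, orderOf_one] at hu; exact hq.one_lt.ne hu
      have huq : u ^ q ^ 1 = 1 := by rw [pow_one, ← hu, pow_orderOf_eq_one]
      have hq3 : (3 : ℤ) ≤ q := by have := hq.two_le; omega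
      have hcongr : ∀ x, x ≠ 1 → x * u ≠ 1 → ψ (x * u) = ψ x := by
        intro x hx hxu
        have hd := dvd_sub_mul hψ hq huq (ha _ hxu) (ha _ hx)
        rw [ha _ hxu, ha _ hx, Int.cast_inj]
        obtain ⟨c, hc⟩ := hd
        rcases hpm _ hxu with h | h <;> rcases hpm _ hx with h' | h' <;> rw [h, h'] at hc ⊢
        all_goals
          exfalso
          have hd2 : (q : ℤ) ∣ 2 := by
            first
              | exact ⟨c, by linarith⟩
              | exact ⟨-c, by linarith⟩
          have := Int.le_of_dvd two_pos hd2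
          omega
      have huv : ψ u⁻¹ = ψ u := by
        have hd1 := dvd_sub_mul hψ hq huq (x := u⁻¹) (a := (a₀ : ℤ))
          (by rw [inv_mul_cancel, ha₀, Int.cast_natCast]) (ha _ (inv_ne_one.mpr hu1))
        have hd2 := dvd_sub_mul hψ hq huq (x := 1) (b := (a₀ : ℤ)) (by rw [one_mul]; exact ha _ hu1)
          (by rw [ha₀, Int.cast_natCast])
        obtain ⟨c, hc⟩ := dvd_add hd1 hd2
        rw [ha _ hu1, ha _ (inv_ne_one.mpr hu1), Int.cast_inj]
        rcases hpm _ hu1 with h | h <;> rcases hpm _ (inv_ne_one.mpr hu1) with h' | h' <;> rw [h, h'] at hc ⊢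
        all_goals
          exfalso
          have hd2 : (q : ℤ) ∣ 2 := by
            first
              | exact ⟨c, by linarith⟩
              | exact ⟨-c, by linarith⟩
          have := Int.le_of_dvd two_pos hd2
          omega
      obtain ⟨ν, hν⟩ : ∃ ν : IrrCharacter S, (ν : S → ℂ) u ≠ 1 := by
        by_contra hall
        push Not at hall
        obtain ⟨c, hc⟩ := isConj_iff.mp ((isConj_iff_forall_irr u 1).mpr fun ν => by rw [hall, hν1])
        rw [mul_comm' c, mul_inv_cancel_right] at hc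
        exact hu1 hc
      set T : ℂ := ∑ x, ψ x * conj ((ν : S → ℂ) x) with hT
      have hTn : T = (n : ℂ) * m ν := by
        rw [← hinner, classInner, ← mul_assoc, mul_inv_cancel₀ (Nat.cast_ne_zero.mpr Nat.card_pos.ne'), one_mul]
      set c := (ν : S → ℂ) u with hc
      have hroot : conj c * c = 1 := by
        rw [hc, ← char_inv_eq_conj ν.2.isCharacter, hlam ν]
        simp
      have hshift : ∑ x, ψ (x * u) * conj ((ν : S → ℂ) x) = c * T := by
        rw [hT, Finset.mul_sum]
        refine Fintype.sum_equiv (Equiv.mulRight u) _ _ fun x => ?_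
        rw [Equiv.coe_mulRight]
        rw [hc] at hroot ⊢
        simp only [congrFun (hlam ν)] at hroot ⊢
        simp only [map_mul, Units.val_mul]
        calc _ = ψ (x * u) * conj (lam ν x : ℂ) * (conj (lam ν u : ℂ) * (lam ν u : ℂ)) := by rw [hroot, mul_one]
          _ = _ := by ring
      have hdiff : ∑ x, (ψ (x * u) - ψ x) * conj ((ν : S → ℂ) x)
          = (ψ u - a₀) + ((a₀ : ℂ) - ψ u) * c := by
        rw [Finset.sum_eq_add_of_mem (1 : S) u⁻¹ (mem_univ _) (mem_univ _) (Ne.symm (inv_ne_one.mpr hu1))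
          fun x _ hx => by rw [hcongr x hx.1 (fun h => hx.2 (eq_inv_of_mul_eq_one_left h)), sub_self, zero_mul]]
        rw [one_mul, inv_mul_cancel, ha₀, huv, hν1, map_one, mul_one, char_inv_eq_conj ν.2.isCharacter,
          Complex.conj_conj]
      have hfinal : T = (a₀ : ℂ) - ψ u := by
        have h1 : (c - 1) * T = (c - 1) * ((a₀ : ℂ) - ψ u) := by
          simp only [sub_mul, Finset.sum_sub_distrib] at hdiff
          rw [hshift] at hdiff
          rw [hT] at *
          linear_combination hdiff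
        exact mul_left_cancel₀ (sub_ne_zero.mpr hν) h1
      refine ⟨a u, m ν, hpm u hu1, ?_⟩
      rw [hTn, ha u hu1] at hfinal
      apply Int.cast_injective (α := ℂ)
      push_cast
      exact hfinal.symm
    · -- a power of two
      push Not at hodd
      have hn2 : n = 2 ^ n.factorization 2 := by
        refine Nat.eq_pow_of_factorization_eq_single (by omega) ?_ |>.symm |>.symm
        ext q
        by_cases hq : q = 2
        · simp [hq]
        · rw [Finsupp.single_eq_of_ne hq]
          by_contra h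
          have := Nat.mem_primeFactors.mp (Nat.support_factorization n ▸ Finsupp.mem_support_iff.mpr h)
          exact hq (hodd q this.1 this.2.1)
      obtain ⟨K, hK⟩ : ∃ K, n.factorization 2 = K + 1 := by
        refine Nat.exists_eq_succ_of_ne_zero fun h => ?_
        rw [h, pow_zero] at hn2
        omega
      rw [hK] at hn2
      set H : ℤ := 2 ^ K with hH
      have hnH : (n : ℤ) = 2 * H := by rw [hn2, hH]; push_cast; ring
      have hsq : (n : ℤ) ∣ ((a₀ : ℤ) - 1) * ((a₀ : ℤ) + 1) :=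
        ⟨(∑ ν : IrrCharacter S, (m ν : ℤ) * m ν) - 1, by linear_combination -hnorm⟩
      obtain ⟨b, hb⟩ : ∃ b : ℤ, (a₀ : ℤ) = 2 * b + 1 := by
        obtain ⟨b, h | h⟩ := Int.even_or_odd' (a₀ : ℤ)
        · exfalso
          obtain ⟨c, hc⟩ := hsq
          rw [hnH, h] at hc
          have : (2 : ℤ) ∣ 1 := ⟨2 * b * b - H * c, by linear_combination -hc⟩
          omega
        · exact ⟨b, h⟩
      obtain ⟨e, c, hepm, hc⟩ : ∃ e c : ℤ, (e = 1 ∨ e = -1) ∧ (a₀ : ℤ) - e = H * c := by
        obtain ⟨d, hd⟩ := hsq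
        have hbb : (2 * H) ∣ 2 * (2 * (b * (b + 1))) := ⟨d, by rw [hnH, hb] at hd; linear_combination hd⟩
        have hH2 : H ∣ 2 * (b * (b + 1)) := (mul_dvd_mul_iff_left (by norm_num : (2 : ℤ) ≠ 0)).mp hbb
        have hcop : ∀ z : ℤ, ¬ (2 : ℤ) ∣ z → IsCoprime H z := fun z hz =>
          IsCoprime.pow_left ((Int.prime_two.coprime_iff_not_dvd).mpr hz)
        by_cases hb2 : (2 : ℤ) ∣ b
        · refine ⟨1, ?_⟩
          obtain ⟨r, hr⟩ := (hcop (b + 1) (by omega)).dvd_of_dvd_mul_right (mul_assoc 2 b (b + 1) ▸ hH2)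
          exact ⟨r, Or.inl rfl, by linear_combination hb + hr⟩
        · refine ⟨-1, ?_⟩
          obtain ⟨r, hr⟩ := (hcop b hb2).dvd_of_dvd_mul_right
            (show H ∣ 2 * (b + 1) * b by rwa [mul_assoc, mul_comm (b + 1)])
          exact ⟨r, Or.inr rfl, by linear_combination hb + hr⟩
      obtain ⟨t, ht | ht⟩ := Int.even_or_odd' c
      · exact ⟨e, t, hepm, by rw [hc, hnH, ht]; ring⟩
      -- the half-integral case has norm at least a quarter of the order
      have h4 : (n : ℤ) * ∑ ν : IrrCharacter S, (2 * (m ν : ℤ) - c) * (2 * (m ν : ℤ) - c) = (n : ℤ) * 4 := by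
        have : ∑ ν : IrrCharacter S, (2 * (m ν : ℤ) - c) * (2 * (m ν : ℤ) - c)
            = 4 * ∑ ν : IrrCharacter S, (m ν : ℤ) * m ν - 4 * c * a₀ + n * (c * c) := by
          rw [← hsum1, Finset.mul_sum, Finset.mul_sum, ← Finset.sum_sub_distrib]
          have hcard : (n : ℤ) * (c * c) = ∑ _ν : IrrCharacter S, c * c := by
            rw [Finset.sum_const, nsmul_eq_mul, Finset.card_univ, ← Nat.card_eq_fintype_card,
              card_irr_eq]
          rw [hcard, ← Finset.sum_add_distrib]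
          exact Finset.sum_congr rfl fun ν _ => by ring
        rw [this]
        rw [hnH] at hnorm ⊢
        have he2 : e * e = 1 := by rcases hepm with rfl | rfl <;> rfl
        linear_combination 4 * hnorm + (-(8:ℤ) * a₀ + 4 * H * c + 4 * (a₀ - e)) * (-hc) + 4 * he2
      have h4' := mul_left_cancel₀ (by omega : (n : ℤ) ≠ 0) h4
      have hge : (n : ℤ) ≤ 4 := by
        rw [← h4']
        refine le_trans ?_ (Finset.sum_le_sum (f := fun _ : IrrCharacter S => (1 : ℤ)) fun ν _ => ?_)
        · rw [Finset.sum_const, nsmul_eq_mul, mul_one, Finset.card_univ, ← Nat.card_eq_fintype_card,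
            card_irr_eq]
        · have h0 : 2 * (m ν : ℤ) - c ≠ 0 := by omega
          exact mul_self_pos.mpr h0
      have hHle : H = 1 ∨ H = 2 := by
        rcases K with _ | _ | K
        · left; rfl
        · right; rfl
        · exfalso
          have : (4 : ℤ) ≤ H := by
            rw [hH, pow_succ, pow_succ]
            nlinarith [one_le_pow₀ (M₀ := ℤ) (by norm_num : (1:ℤ) ≤ 2) (n := K)]
          omega
      rcases hHle with h | h
      · exact ⟨1, b, Or.inl rfl, by rw [hnH, h, hb]; ring⟩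
      · refine ⟨-e, (c + e) / 2, by omega, ?_⟩
        rw [h] at hc
        rw [hnH, h]
        omega
  -- norm one
  have hone : ∑ ν : IrrCharacter S, ((m ν : ℤ) - k) * ((m ν : ℤ) - k) = 1 := by
    apply mul_left_cancel₀ (by omega : (n : ℤ) ≠ 0)
    have hcard : (n : ℤ) * (k * k) = ∑ _ν : IrrCharacter S, k * k := by
      rw [Finset.sum_const, nsmul_eq_mul, Finset.card_univ, ← Nat.card_eq_fintype_card,
        card_irr_eq]
    have : ∑ ν : IrrCharacter S, ((m ν : ℤ) - k) * ((m ν : ℤ) - k)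
        = ∑ ν : IrrCharacter S, (m ν : ℤ) * m ν - 2 * k * a₀ + n * (k * k) := by
      rw [← hsum1, Finset.mul_sum, hcard, ← Finset.sum_sub_distrib, ← Finset.sum_add_distrib]
      exact Finset.sum_congr rfl fun ν _ => by ring
    rw [this]
    have he2 : e * e = 1 := by rcases hepm with rfl | rfl <;> rfl
    linear_combination hnorm + (-(2:ℤ) * a₀ + n * k + (a₀ - e)) * (-hk) + he2
  obtain ⟨ν, -, hν⟩ : ∃ ν ∈ (univ : Finset (IrrCharacter S)), (m ν : ℤ) - k ≠ 0 := by
    by_contra hno
    push Not at hno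
    rw [Finset.sum_eq_zero fun ν hν => by rw [hno ν hν, mul_zero]] at hone
    exact zero_ne_one hone
  have h1 := (Finset.add_sum_erase univ (fun ν => ((m ν : ℤ) - k) * ((m ν : ℤ) - k)) (mem_univ ν)).trans hone
  have h2' : 0 ≤ ∑ ν' ∈ univ.erase ν, ((m ν' : ℤ) - k) * ((m ν' : ℤ) - k) :=
    Finset.sum_nonneg fun _ _ => mul_self_nonneg _
  have h3 : 1 ≤ ((m ν : ℤ) - k) * ((m ν : ℤ) - k) := mul_self_pos.mpr hν
  have h4 : ∀ ν' ∈ univ.erase ν, (m ν' : ℤ) = k := fun ν' hν' => by
    have := (Finset.sum_eq_zero_iff_of_nonneg fun _ _ => mul_self_nonneg _).mp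
      (show ∑ ν' ∈ univ.erase ν, ((m ν' : ℤ) - k) * ((m ν' : ℤ) - k) = 0 by omega) ν' hν'
    simpa [sub_eq_zero] using this
  set σ := (m ν : ℤ) - k with hσ
  have hexp : ∀ x, ψ x = (σ : ℂ) * (ν : S → ℂ) x + (k : ℂ) * if x = 1 then (n : ℂ) else 0 := by
    intro x
    rw [← sum_degree_mul_irr x, hv, Finset.mul_sum,
      ← Finset.add_sum_erase univ _ (mem_univ ν), ← Finset.add_sum_erase univ _ (mem_univ ν),
      ← add_assoc, hν1, one_mul, ← add_mul, show (σ : ℂ) + (k : ℂ) = (m ν : ℂ) by rw [hσ]; push_cast; ring]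
    refine congrArg _ (Finset.sum_congr rfl fun ν' hν' => ?_)
    rw [hν1, one_mul, ← h4 ν' hν', Int.cast_natCast]
  have hσe : σ = e := by
    have := hexp 1
    rw [if_pos rfl, hν1, ha₀] at this
    have h' : (a₀ : ℤ) = σ + k * n := by
      apply Int.cast_injective (α := ℂ); push_cast; linear_combination this
    linear_combination hk - h'
  have hk0 : 0 ≤ k := by
    by_contra hc
    have : (n : ℤ) * k ≤ -(n : ℤ) := by nlinarith
    omega
  obtain ⟨k', rfl⟩ := Int.eq_ofNat_of_zero_le hk0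
  refine ⟨e, ν, k', hepm, ?_, fun x hx => ?_, hν1 ν, fun x => ?_⟩
  · rw [hexp 1, hν1, if_pos rfl, hσe]; push_cast; ring
  · rw [hexp x, if_neg hx, hσe, mul_zero, add_zero]
  · by_cases hx : x = 1
    · rw [hx, hν1, one_mul]
    · have h := hexp x
      rw [if_neg hx, mul_zero, add_zero, hσe, ha x hx] at h
      rcases hepm with rfl | rfl <;> rcases hpm x hx with h' | h' <;> rw [h'] at h <;>
        simp only [Int.cast_one, Int.cast_neg, one_mul, neg_one_mul] at h <;>
        first
          | rw [← h]; norm_num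
          | rw [neg_eq_iff_eq_neg.mp h.symm]; norm_num

end Cfsg.Lib.SignedCyclic
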