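import Mathlib
import Cfsg.Agent.Lib.Characters.Galois
import Cfsg.Agent.Lib.Blocks.SignedCyclic

/-!
# Schur's bound for p-groups with a faithful rational character
-/

set_option autoImplicit false
set_option linter.unusedSectionVars false

namespace Cfsg.Lib.Blocks.SchurBound

open Cfsg.Lib.Characters Finset
open scoped IntermediateField ComplexConjugate

/-- A value fixed field: `φ` fixes the field generated by an element it fixes. -/
theorem hom_fix_adjoin {K : IntermediateField ℚ ℂ} (φ : K →ₐ[ℚ] ℂ) {w : ℂ} (hw : w ∈ K)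
    (hφ : φ ⟨w, hw⟩ = w) {z : ℂ} (hz : z ∈ IntermediateField.adjoin ℚ ({w} : Set ℂ)) :
    ∃ h : z ∈ K, φ ⟨z, h⟩ = z := by
  induction hz using IntermediateField.adjoin_induction with
  | mem x hx =>
    rw [Set.mem_singleton_iff] at hx
    subst hx
    exact ⟨hw, hφ⟩
  | algebraMap x =>
    exact ⟨K.algebraMap_mem x, φ.commutes x⟩
  | add x y _ _ hx hy =>
    obtain ⟨h1, h2⟩ := hx
    obtain ⟨h3, h4⟩ := hy
    refine ⟨add_mem h1 h3, ?_⟩
    rw [show (⟨x + y, add_mem h1 h3⟩ : K) = ⟨x, h1⟩ + ⟨y, h3⟩ from rfl, map_add, h2, h4]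
  | inv x _ hx =>
    obtain ⟨h1, h2⟩ := hx
    refine ⟨inv_mem h1, ?_⟩
    rw [show (⟨x⁻¹, inv_mem h1⟩ : K) = (⟨x, h1⟩ : K)⁻¹ from rfl, map_inv₀, h2]
  | mul x y _ _ hx hy =>
    obtain ⟨h1, h2⟩ := hx
    obtain ⟨h3, h4⟩ := hy
    refine ⟨mul_mem h1 h3, ?_⟩
    rw [show (⟨x * y, mul_mem h1 h3⟩ : K) = ⟨x, h1⟩ * ⟨y, h3⟩ from rfl, map_mul, h2, h4]

variable {P : Type*} [Group P] [Finite P] {p : ℕ} {χ : P → ℂ}

/-- A character value at a `p`-element lying in a field of `p'`-th roots of unity is invariant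
under powering prime to `p`. -/
theorem value_pow_eq (hp : p.Prime) (hχ : IsCharacter P χ) {g : P} {b : ℕ} (hg : g ^ p ^ b = 1)
    {r : ℕ} (hr : 0 < r) (hpr : ¬ p ∣ r)
    (hval : χ g ∈ IntermediateField.adjoin ℚ
      ({Complex.exp (2 * Real.pi * Complex.I / r)} : Set ℂ))
    {k : ℕ} (hk : k.Coprime p) : χ (g ^ k) = χ g := by
  have hcop : (p ^ b).Coprime r := Nat.Coprime.pow_left _ ((hp.coprime_iff_not_dvd).mpr hpr)
  obtain ⟨k', hk1, hk2⟩ := Nat.chineseRemainder hcop k 1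
  set N := p ^ b * r with hN
  have hN0 : N ≠ 0 := mul_ne_zero (pow_ne_zero _ hp.ne_zero) hr.ne'
  haveI : NeZero N := ⟨hN0⟩
  have hcopk : k'.Coprime N := by
    refine Nat.Coprime.mul_right ?_ ?_
    · have h : k.Coprime (p ^ b) := Nat.Coprime.pow_right b hk
      unfold Nat.Coprime at h ⊢
      rw [Nat.ModEq.gcd_eq hk1, h]
    · unfold Nat.Coprime
      rw [Nat.ModEq.gcd_eq hk2, Nat.gcd_one_left]
  set ζ := Complex.exp (2 * Real.pi * Complex.I / N) with hζdef
  have hζ : IsPrimitiveRoot ζ N := Complex.isPrimitiveRoot_exp N hN0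
  set w := Complex.exp (2 * Real.pi * Complex.I / r) with hw
  have hwr : w ^ r = 1 := (Complex.isPrimitiveRoot_exp r hr.ne').pow_eq_one
  obtain ⟨φ, hφ⟩ := exists_galois_hom hζ hcopk
  have hwN : w ^ N = 1 := by rw [hN, mul_comm, pow_mul, hwr, one_pow]
  obtain ⟨i, -, hi⟩ := hζ.eq_pow_of_pow_eq_one hwN
  have hwmem : w ∈ ℚ⟮ζ⟯ := hi ▸ pow_mem_adjoin_root ζ i
  have hwfix : φ ⟨w, hwmem⟩ = w := by
    have h1 : (⟨w, hwmem⟩ : ℚ⟮ζ⟯) = IntermediateField.AdjoinSimple.gen ℚ ζ ^ i :=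
      Subtype.ext (by simp [hi])
    rw [h1, map_pow, hφ, ← pow_mul, mul_comm, pow_mul, hi]
    conv_rhs => rw [← pow_one w]
    rw [← orderOf_dvd_iff_pow_eq_one] at hwr
    rw [← pow_mod_orderOf w k', (hk2.of_dvd hwr : k' % orderOf w = 1 % orderOf w), pow_mod_orderOf]
  obtain ⟨z, hz, hzφ⟩ := char_galois hζ hχ (g := g) (by rw [hN, pow_mul, hg, one_pow])
  obtain ⟨hmem, hfix⟩ := hom_fix_adjoin φ hwmem hwfix hval
  have hzz : z = ⟨χ g, hmem⟩ := Subtype.ext hz
  have h2 := hzφ φ k' hφ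
  rw [hzz, hfix] at h2
  have hgk : g ^ k' = g ^ k := by
    rw [← orderOf_dvd_iff_pow_eq_one] at hg
    exact (pow_eq_pow_iff_modEq).mpr (hk1.of_dvd hg)
  rw [← hgk, ← h2]

/-- An integral rational value of a character on a `p`-element. -/
theorem value_int (hp : p.Prime) (hP : IsPGroup p P) (hχ : IsCharacter P χ)
    (hinv : ∀ (g : P) (k : ℕ), k.Coprime p → χ (g ^ k) = χ g) (g : P) :
    ∃ c : ℤ, χ g = c := by
  obtain ⟨q, hq⟩ := char_rat_of_pow hχ g fun k hk => by
    haveI := Fact.mk hp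
    obtain ⟨a, ha⟩ := IsPGroup.iff_card.mp hP
    rcases Nat.eq_zero_or_pos a with rfl | ha0
    · haveI : Subsingleton P := (Nat.card_eq_one_iff_unique.mp (by simpa using ha)).1
      rw [Subsingleton.elim (g ^ k) g]
    · refine hinv g k ?_
      rw [ha] at hk
      exact (Nat.coprime_pow_right_iff ha0 _ _).mp hk
  obtain ⟨c, hc⟩ := exists_int_of_isIntegral (hq ▸ char_isIntegral hχ g)
  exact ⟨c, hq ▸ hc⟩

/-- The lower bound `χ g ≥ -n/(p-1)`. -/
theorem value_lower (hp : p.Prime) (hP : IsPGroup p P) (hχ : IsCharacter P χ) {n : ℕ}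
    (hn : χ 1 = n) (c : P → ℤ) (hc : ∀ x, χ x = c x)
    (hpow : ∀ (g : P) (k : ℕ), k.Coprime p → c (g ^ k) = c g) (g : P) :
    0 ≤ (n : ℤ) + (p - 1 : ℤ) * c g := by
  obtain ⟨b, hb⟩ := hP g
  have hup : ∀ x, c x ≤ n := by
    intro x
    have h := char_norm_le_degree hχ x
    rw [hc, hn, Complex.norm_intCast] at h
    have h' : |((c x : ℤ) : ℝ)| ≤ ((n : ℤ) : ℝ) := by simpa using h
    exact_mod_cast le_trans (le_abs_self _) h'
  set o := p ^ (b + 1) with ho
  have hgo : g ^ o = 1 := by rw [ho, pow_succ, pow_mul, hb, one_pow]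
  obtain ⟨m, ρ, rfl⟩ := hχ
  obtain ⟨μ, hμ, -, hk, -⟩ := exists_eigenvalues ρ g
  have hμo : ∀ i, μ i ^ o = 1 := fun i => by
    obtain ⟨e, he⟩ := orderOf_dvd_of_pow_eq_one hgo
    rw [he, pow_mul, hμ i, one_pow]
  classical
  have hsum : ((∑ j ∈ range o, c (g ^ j) : ℤ) : ℂ) = ((o * (univ.filter fun i => μ i = 1).card : ℕ) : ℂ) := by
    push_cast
    calc (∑ j ∈ range o, (c (g ^ j) : ℂ)) = ∑ j ∈ range o, ∑ i, μ i ^ j :=
          sum_congr rfl fun j _ => by rw [← hc, hk j]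
      _ = ∑ i, ∑ j ∈ range o, μ i ^ j := sum_comm
      _ = ∑ i, if μ i = 1 then (o : ℂ) else 0 := by
          refine sum_congr rfl fun i _ => ?_
          split_ifs with h
          · simp [h]
          · rw [geom_sum_eq h, hμo i, sub_self, zero_div]
      _ = _ := by rw [← Finset.sum_filter, sum_const, nsmul_eq_mul, mul_comm]
  have hnn : 0 ≤ ∑ j ∈ range o, c (g ^ j) := by
    have : (∑ j ∈ range o, c (g ^ j)) = ((o * (univ.filter fun i => μ i = 1).card : ℕ) : ℤ) := by
      exact_mod_cast hsum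
    rw [this]
    positivity
  have hcount : ((range o).filter fun j => p ∣ j).card = p ^ b := by
    have himg : ((range o).filter fun j => p ∣ j) = (range (p ^ b)).image fun j => p * j := by
      ext j
      simp only [mem_filter, mem_range, mem_image, ho, pow_succ]
      constructor
      · rintro ⟨h1, e, rfl⟩
        exact ⟨e, Nat.lt_of_mul_lt_mul_left (a := p) (by rwa [mul_comm (p ^ b) p] at h1), rfl⟩
      · rintro ⟨e, h1, rfl⟩
        exact ⟨by rw [mul_comm (p ^ b) p]; exact Nat.mul_lt_mul_of_pos_left h1 hp.pos, dvd_mul_right _ _⟩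
    rw [himg, card_image_of_injective _ (fun a b h => Nat.eq_of_mul_eq_mul_left hp.pos h), card_range]
  have hcount' : (((range o).filter fun j => ¬ p ∣ j).card : ℤ) = (p ^ b : ℤ) * (p - 1) := by
    have h := card_filter_add_card_filter_not (s := range o) (fun j => p ∣ j)
    rw [hcount, card_range, ho, pow_succ] at h
    have : ((p ^ b : ℕ) : ℤ) + (((range o).filter fun j => ¬ p ∣ j).card : ℤ) = (p ^ b : ℕ) * p := by
      exact_mod_cast h
    push_cast at this
    linear_combination this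
  rw [← sum_filter_add_sum_filter_not (range o) (fun j => p ∣ j)] at hnn
  have h1 : ∑ j ∈ (range o).filter (fun j => p ∣ j), c (g ^ j) ≤ (p ^ b : ℤ) * n := by
    refine (sum_le_card_nsmul _ _ _ fun j _ => hup _).trans ?_
    rw [hcount, nsmul_eq_mul]
    push_cast
    exact le_rfl
  have h2 : ∑ j ∈ (range o).filter (fun j => ¬ p ∣ j), c (g ^ j) = (p ^ b : ℤ) * (p - 1) * c g := by
    rw [sum_congr rfl (g := fun _ => c g) (fun j hj => hpow g j
      ((hp.coprime_iff_not_dvd.mpr (mem_filter.mp hj).2).symm)), sum_const, nsmul_eq_mul,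
      hcount']
  rw [h2] at hnn
  have hpb : (0 : ℤ) < (p ^ b : ℤ) := by
    have := hp.pos
    positivity
  nlinarith

/-- Averages of products `∏ (χ - a)` are integers. -/
theorem sum_prod_dvd [Fintype P] (hχ : IsCharacter P χ) {ι : Type*} (s : Finset ι) (a : ι → ℤ) :
    ∀ ψ : P → ℂ, IsCharacter P ψ →
      ∃ z : ℤ, ∑ g, ψ g * ∏ i ∈ s, (χ g - a i) = (z : ℂ) * (Nat.card P : ℂ) := by
  classical
  induction s using Finset.induction_on with
  | empty =>
    intro ψ hψ
    obtain ⟨z, hz⟩ := classInner_nat hψ (isCharacter_one (G := P))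
    refine ⟨z, ?_⟩
    rw [classInner] at hz
    have h0 : (Nat.card P : ℂ) ≠ 0 := Nat.cast_ne_zero.mpr Nat.card_pos.ne'
    push_cast
    rw [← hz]
    simp only [prod_empty, mul_one, map_one]
    field_simp
  | insert i s hi ih =>
    intro ψ hψ
    obtain ⟨z1, hz1⟩ := ih _ (isCharacter_mul hψ hχ)
    obtain ⟨z2, hz2⟩ := ih ψ hψ
    refine ⟨z1 - a i * z2, ?_⟩
    rw [show (∑ g, ψ g * ∏ j ∈ insert i s, (χ g - a j)) =
      (∑ g, ψ g * χ g * ∏ j ∈ s, (χ g - a j)) - a i * ∑ g, ψ g * ∏ j ∈ s, (χ g - a j) by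
        rw [mul_sum, ← sum_sub_distrib]
        refine sum_congr rfl fun g _ => ?_
        rw [prod_insert hi]
        ring]
    rw [show (∑ g, ψ g * χ g * ∏ j ∈ s, (χ g - a j)) = (z1 : ℂ) * (Nat.card P : ℂ) by
      simpa only [Pi.mul_apply] using hz1, hz2]
    push_cast
    ring

/-- Schur's bound for a `p`-group, invariance form. -/
theorem card_factorization_le_of_invariant (hp : p.Prime) (hP : IsPGroup p P) (hχ : IsCharacter P χ)
    (hf : ∀ g, χ g = χ 1 → g = 1) {n : ℕ} (hn : χ 1 = n)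
    (hinv : ∀ (g : P) (k : ℕ), k.Coprime p → χ (g ^ k) = χ g) :
    (Nat.card P).factorization p ≤ ∑ i ∈ range (n + 1), n / ((p - 1) * p ^ i) := by
  haveI : Fintype P := Fintype.ofFinite P
  haveI := Fact.mk hp
  choose c hc using value_int hp hP hχ hinv
  have hpow : ∀ (g : P) (k : ℕ), k.Coprime p → c (g ^ k) = c g := by
    intro g k hk
    have := hinv g k hk
    rw [hc, hc] at this
    exact_mod_cast this
  have hc1 : c 1 = n := by
    have : ((c 1 : ℤ) : ℂ) = ((n : ℤ) : ℂ) := by rw [← hc, hn]; push_cast; rfl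
    exact_mod_cast this
  have hp1 : (1 : ℤ) ≤ (p : ℤ) - 1 := by have := hp.two_le; omega
  have hk : ∀ g : P, g ≠ 1 → ∃ k ∈ Icc 1 (n / (p - 1)), c g = n - (p : ℤ) * k := by
    intro g hg
    obtain ⟨b, hb⟩ := hP g
    have hres := isCharacter_restrict hχ (Subgroup.zpowers g)
    haveI : Fintype (Subgroup.zpowers g) := Fintype.ofFinite _
    have hdvd : (p : ℤ) ∣ c g - n := by
      refine Cfsg.Lib.SignedCyclic.dvd_sub_mul hres hp
        (x := (1 : Subgroup.zpowers g)) (u := ⟨g, Subgroup.mem_zpowers g⟩) (k := b)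
        (Subtype.ext (by simpa using hb)) ?_ ?_
      · simpa using hc g
      · simpa using hn
    obtain ⟨e, he⟩ := hdvd
    have hlow := value_lower hp hP hχ hn c hc hpow g
    have hup : c g < n := by
      rcases lt_trichotomy (c g) n with h | h | h
      · exact h
      · exact absurd (hf g (by rw [hc, hn, h]; push_cast; rfl)) hg
      · exfalso
        have h' := char_norm_le_degree hχ g
        rw [hc, hn, Complex.norm_intCast] at h'
        have h'' : |((c g : ℤ) : ℝ)| ≤ ((n : ℤ) : ℝ) := by simpa using h'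
        have : |c g| ≤ n := by exact_mod_cast h''
        exact absurd (le_trans (le_abs_self _) this) (not_le.mpr h)
    have hp0 : (0 : ℤ) < p := by exact_mod_cast hp.pos
    have hepos : 0 < -e := by nlinarith
    obtain ⟨k, hkk⟩ := Int.eq_ofNat_of_zero_le hepos.le
    refine ⟨k, mem_Icc.mpr ⟨?_, ?_⟩, ?_⟩
    · omega
    · rw [Nat.le_div_iff_mul_le (by have := hp.two_le; omega)]
      have hle : (k : ℤ) * ((p : ℤ) - 1) ≤ n := by
        have hcg : c g = n - (p : ℤ) * k := by rw [← hkk]; linear_combination he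
        rw [hcg] at hlow
        exact le_of_mul_le_mul_left (a := (p : ℤ)) (by linarith) hp0
      have h2 := hp.two_le
      rw [← Nat.cast_le (α := ℤ)]
      push_cast [Nat.cast_sub (by omega : 1 ≤ p)]
      exact hle
    · rw [← hkk]
      linear_combination he
  set N := n / (p - 1) with hN
  obtain ⟨z, hz⟩ := sum_prod_dvd hχ (Icc 1 N) (fun k => (n : ℤ) - (p : ℤ) * k) (fun _ => 1)
    isCharacter_one
  have hprod : ((∏ k ∈ Icc 1 N, p * k : ℕ) : ℂ) = (z : ℂ) * (Nat.card P : ℂ) := by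
    rw [← hz, sum_eq_single (1 : P)]
    · push_cast
      rw [one_mul]
      refine prod_congr rfl fun k _ => ?_
      rw [hn]
      ring
    · intro g _ hg
      obtain ⟨k, hk1, hk2⟩ := hk g hg
      rw [one_mul]
      exact prod_eq_zero hk1 (by rw [hc, hk2]; push_cast; ring)
    · exact fun h => absurd (mem_univ _) h
  have hdvd : Nat.card P ∣ p ^ N * N.factorial := by
    have h1 : ((∏ k ∈ Icc 1 N, p * k : ℕ) : ℤ) = z * (Nat.card P : ℤ) := by exact_mod_cast hprod
    have h2 : (Nat.card P : ℤ) ∣ ((∏ k ∈ Icc 1 N, p * k : ℕ) : ℤ) := ⟨z, by rw [h1, mul_comm]⟩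
    have h3 := Int.natCast_dvd_natCast.mp h2
    rwa [prod_mul_distrib, prod_const, Nat.card_Icc, Nat.add_sub_cancel, ← Finset.Ico_add_one_right_eq_Icc, Finset.prod_Ico_id_eq_factorial] at h3
  have hle := (Nat.factorization_le_iff_dvd Nat.card_pos.ne'
    (mul_ne_zero (pow_ne_zero _ hp.ne_zero) (Nat.factorial_ne_zero _))).mpr hdvd p
  refine hle.trans (le_of_eq ?_)
  rw [Nat.factorization_mul (pow_ne_zero _ hp.ne_zero) (Nat.factorial_ne_zero _),
    Finsupp.coe_add, Pi.add_apply, hp.factorization_pow, Finsupp.single_eq_same,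
    Nat.factorization_factorial hp (b := n + 1)
      ((Nat.log_le_self p N).trans_lt (Nat.lt_succ_of_le (Nat.div_le_self _ _))),
    Finset.range_eq_Ico, Finset.sum_eq_sum_Ico_succ_bot (Nat.succ_pos n)]
  simp [hN, Nat.div_div_eq_div_mul]

/-- Schur's bound for a `p`-group. -/
theorem card_factorization_le (hp : p.Prime) (hP : IsPGroup p P) (hχ : IsCharacter P χ)
    (hf : ∀ g, χ g = χ 1 → g = 1) {n : ℕ} (hn : χ 1 = n) {r : ℕ} (hr : 0 < r) (hpr : ¬ p ∣ r)
    (hval : ∀ g, χ g ∈ IntermediateField.adjoin ℚ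
      ({Complex.exp (2 * Real.pi * Complex.I / r)} : Set ℂ)) :
    (Nat.card P).factorization p ≤ ∑ i ∈ range (n + 1), n / ((p - 1) * p ^ i) := by
  refine card_factorization_le_of_invariant hp hP hχ hf hn fun g k hk => ?_
  obtain ⟨b, hb⟩ := hP g
  exact value_pow_eq hp hχ hb hr hpr (hval g) hk

end Cfsg.Lib.Blocks.SchurBound
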