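import Mathlib
import Cfsg.Agent.Lib.Blocks.SchurBound
import Cfsg.Agent.Lib.Characters.Extension
import Cfsg.Agent.Lib.Characters.PowerConj
import Cfsg.Agent.Lib.Characters.Det
import Cfsg.Agent.Lib.Characters.TISylow
import Cfsg.Agent.Lib.Solv.SchurZassenhaus
import Cfsg.Agent.Lib.Solv.Cores

/-!
# Canonical extensions and Schur's bound for p-solvable groups
-/

set_option autoImplicit false
set_option linter.unusedSectionVars false

namespace Cfsg.Lib.Blocks.SchurBound

open Cfsg.Lib.Characters Finset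
open scoped ComplexConjugate Classical

variable {I : Type*} [Group I] [Fintype I]

theorem detChar_comp_pow {χ : I → ℂ} (hχ : IsCharacter I χ) {m : ℕ}
    (hm : (Nat.card I).Coprime m) (g : I) :
    detChar (fun x => χ (x ^ m)) g = detChar χ g ^ m := by
  obtain ⟨n, ρ, hρ⟩ := id hχ
  obtain ⟨n', σ, hσ⟩ := isCharacter_comp_pow hχ hm
  rw [detChar_eq σ hσ g, detChar_eq ρ hρ g]
  obtain ⟨b, μ, hb, -⟩ := exists_eigenbasis ρ g
  obtain ⟨b', ν, hb', -⟩ := exists_eigenbasis σ g
  rw [det_eq_prod_of_eigenbasis _ b' ν hb', det_eq_prod_of_eigenbasis _ b μ hb, ← prod_pow]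
  refine prod_eq_of_pow_sums _ _ fun k => ?_
  calc ∑ i, ν i ^ k = σ.character (g ^ k) := (character_pow_eq σ g b' ν hb' k).symm
    _ = χ ((g ^ k) ^ m) := by rw [hσ]
    _ = ρ.character (g ^ (k * m)) := by rw [hρ, ← pow_mul]
    _ = ∑ i, (μ i ^ m) ^ k := by
        rw [character_pow_eq ρ g b μ hb]
        exact sum_congr rfl fun i _ => by rw [← pow_mul, mul_comm]

/-- An invariant irreducible character of a normal `p'`-subgroup of `p`-power index has an
extension fixed by all powerings congruent to `1` modulo the order of the subgroup. -/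
theorem exists_canonical_extension {p : ℕ} (hp : p.Prime) {H : Subgroup I} [H.Normal]
    (hH : (Nat.card H).Coprime p) {b : ℕ} (hidx : H.index = p ^ b)
    {θ : H → ℂ} (hθ : IsIrrCharacter H θ) (hinv : ∀ g, conjFn H θ g = θ) :
    ∃ η : I → ℂ, IsIrrCharacter I η ∧ (∀ h : H, η h = θ h) ∧
      ∀ m : ℕ, (Nat.card I).Coprime m → m % Nat.card H = 1 % Nat.card H →
        ∀ g, η (g ^ m) = η g := by
  haveI : Fintype H := Fintype.ofFinite H
  obtain ⟨d, hd0, hd⟩ := hθ.exists_degree_pos
  obtain ⟨D₀, hD₀, -⟩ := exists_detHom hθ.isCharacter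
  have hDh : ∀ h : H, detChar θ h ^ Nat.card H = 1 := fun h => by
    rw [← hD₀, ← Units.val_pow_eq_pow_val, ← map_pow, pow_card_eq_one', map_one, Units.val_one]
  have hdH : d ∣ Nat.card H := degree_dvd_card hθ hd
  have hcopd : d.Coprime p := hH.coprime_dvd_left hdH
  have hcop' : Nat.Coprime (p ^ b) (d * Nat.card H) :=
    Nat.Coprime.pow_left _ (Nat.Coprime.mul_right hcopd.symm hH.symm)
  obtain ⟨η₀, hη₀, hres₀⟩ := exists_extension_of_coprime hθ hinv hd hDh (hidx ▸ hcop')
  obtain ⟨D, hD, -⟩ := exists_detHom hη₀.isCharacter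
  set mH := Nat.card H with hmH
  have hdres : ∀ h : H, detChar η₀ (h : I) = detChar θ h := by
    intro h
    refine (detChar_comp hη₀.isCharacter H.subtype h).symm.trans ?_
    congr 1
    funext y
    exact hres₀ y
  -- choose `a` with `1 + a d mH ≡ 0 mod p^b`
  obtain ⟨a, ha⟩ : ∃ a : ℕ, p ^ b ∣ 1 + a * (d * mH) := by
    have h1 : IsUnit ((d * mH : ℕ) : ZMod (p ^ b)) := (ZMod.isUnit_iff_coprime _ _).mpr hcop'.symm
    obtain ⟨u, hu⟩ := h1
    haveI : NeZero (p ^ b) := ⟨pow_ne_zero _ hp.ne_zero⟩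
    refine ⟨(-(↑u⁻¹ : ZMod (p ^ b))).val, ?_⟩
    rw [← ZMod.natCast_eq_zero_iff]
    rw [Nat.cast_add, Nat.cast_mul, ZMod.natCast_zmod_val, Nat.cast_one, ← hu, neg_mul,
      Units.inv_mul, add_neg_cancel]
  set lam : I →* ℂˣ := D ^ (mH * a) with hlam
  have hcardI : Nat.card I = mH * p ^ b := by
    rw [← hidx, hmH, Subgroup.card_mul_index]
  have hlamH : ∀ h ∈ H, lam h = 1 := by
    intro h hh
    apply Units.ext
    rw [hlam, MonoidHom.pow_apply, pow_mul, Units.val_pow_eq_pow_val, Units.val_pow_eq_pow_val,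
      hD, hdres ⟨h, hh⟩, hDh, one_pow, Units.val_one]
  have hη : IsIrrCharacter I fun g => (lam g : ℂ) * η₀ g := by
    refine isIrrCharacter_of_classInner_eq_one
      (isCharacter_mul (isIrrCharacter_linear lam).isCharacter hη₀.isCharacter) ?_
    rw [← classInner_irr_self hη₀]
    simp only [classInner]
    congr 1
    refine sum_congr rfl fun g _ => ?_
    simp only [map_mul]
    have hn : ((lam g : ℂ)) * conj (lam g : ℂ) = 1 := by
      rw [Complex.mul_conj', Complex.norm_eq_one_of_pow_eq_one (n := Nat.card I)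
        (by rw [← Units.val_pow_eq_pow_val, ← map_pow, pow_card_eq_one', map_one, Units.val_one])
        Nat.card_pos.ne']
      simp
    calc _ = ((lam g : ℂ) * conj (lam g : ℂ)) * (η₀ g * conj (η₀ g)) := by ring
      _ = _ := by rw [hn, one_mul]
  set η := fun g => (lam g : ℂ) * η₀ g with hηdef
  have hres : ∀ h : H, η h = θ h := fun h => by
    rw [hηdef]; simp [hlamH _ h.2, hres₀]
  have hd1 : η₀ 1 = d := by rw [← hd, ← hres₀ 1]; rfl
  have hd1' : η 1 = d := by rw [← hd, ← hres 1]; rfl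
  have hdetη : ∀ g, detChar η g ^ mH = 1 := by
    intro g
    rw [hηdef, detChar_linear_mul hη₀.isCharacter hd1, ← hD, ← Units.val_pow_eq_pow_val,
      ← Units.val_mul, ← Units.val_pow_eq_pow_val, ← Units.val_one]
    congr 1
    rw [hlam, MonoidHom.pow_apply, ← pow_mul, ← pow_succ, ← pow_mul, ← map_pow]
    obtain ⟨e, he⟩ : Nat.card I ∣ (mH * a * d + 1) * mH := by
      obtain ⟨e, he⟩ := ha
      exact ⟨e, by rw [hcardI]; linear_combination mH * he⟩
    rw [he, pow_mul, pow_card_eq_one', one_pow, map_one]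
  refine ⟨η, hη, hres, fun m hm hm1 g => ?_⟩
  obtain ⟨μ, hμH, hμ⟩ := exists_linear_of_extensions (M := H) hη (isIrrCharacter_comp_pow hη hm)
    (fun h => by
      congr 1
      have hoh : orderOf (h : I) ∣ Nat.card H := by
        rw [Subgroup.orderOf_coe]; exact orderOf_dvd_natCard h
      calc (h : I) ^ m = (h : I) ^ (m % Nat.card H) := by
            rw [← pow_mod_orderOf _ m, ← pow_mod_orderOf _ (m % Nat.card H),
              Nat.mod_mod_of_dvd _ hoh]
        _ = (h : I) ^ (1 % Nat.card H) := by rw [hm1]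
        _ = h := by
            rw [← pow_mod_orderOf, Nat.mod_mod_of_dvd _ hoh, pow_mod_orderOf, pow_one])
    (by
      have : (fun h : H => η h) = θ := funext hres
      rw [this]; exact hθ)
  have hμ1 : μ g = 1 := by
    have hdet : detChar (fun x => η (x ^ m)) g = detChar η g ^ m := detChar_comp_pow hη.isCharacter hm g
    have hfun : (fun x => η (x ^ m)) = fun x => (μ x : ℂ) * η x := funext fun x => (hμ x).symm
    rw [hfun, detChar_linear_mul hη.isCharacter hd1'] at hdet
    have h1 := congrArg (fun z : ℂ => z ^ mH) hdet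
    simp only [mul_pow, hdetη, mul_one] at h1
    rw [← pow_mul, ← pow_mul, mul_comm m, pow_mul, pow_mul, hdetη, one_pow] at h1
    have h2 : μ g ^ (d * mH) = 1 := by
      apply Units.ext
      rw [Units.val_pow_eq_pow_val, pow_mul]; simpa using h1
    have h3 : μ g ^ (p ^ b) = 1 := by
      rw [← map_pow]
      refine hμH _ ?_
      rw [← hidx]
      exact H.pow_index_mem g
    have h4 := Nat.dvd_gcd (orderOf_dvd_of_pow_eq_one h2) (orderOf_dvd_of_pow_eq_one h3)
    rw [Nat.coprime_comm.mp hcop' |>.gcd_eq_one] at h4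
    exact orderOf_eq_one_iff.mp (Nat.dvd_one.mp h4)
  rw [← hμ g, hμ1]
  simp

variable {X : Type*} [Group X] [Fintype X]

theorem indFun_pow {E : Subgroup X} {φ : E → ℂ} {m : ℕ} (hm : (Nat.card X).Coprime m)
    (hφ : ∀ e : E, φ (e ^ m) = φ e) (g : X) : indFun E φ (g ^ m) = indFun E φ g := by
  simp only [indFun]
  congr 1
  refine sum_congr rfl fun x _ => ?_
  have hx : x⁻¹ * g ^ m * x = (x⁻¹ * g * x) ^ m := by
    have h := conj_pow (i := m) (a := x⁻¹) (b := g)
    rw [inv_inv] at h
    exact h.symm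
  rw [hx]
  by_cases hy : x⁻¹ * g * x ∈ E
  · rw [extendByZero_mem _ hy, extendByZero_mem _ (E.pow_mem hy m)]
    exact hφ ⟨_, hy⟩
  · rw [extendByZero_not_mem _ hy,
      extendByZero_not_mem _ (fun h => hy ((pow_mem_iff_of_coprime hm E _).mp h))]

/-- For each irreducible constituent, a `p`-rational character with proportional restriction. -/
theorem exists_rational_constituent {p : ℕ} (hp : p.Prime) {H : Subgroup X} [H.Normal]
    (hH : (Nat.card H).Coprime p) {b : ℕ} (hidx : H.index = p ^ b) {ξ : X → ℂ}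
    (hξ : IsIrrCharacter X ξ) :
    ∃ Φ : X → ℂ, IsCharacter X Φ ∧ (∀ m : ℕ, (Nat.card X).Coprime m →
        m % Nat.card H = 1 % Nat.card H → ∀ g, Φ (g ^ m) = Φ g) ∧
      ∃ c : ℕ, 0 < c ∧ ∀ h : H, ξ h = c * Φ h := by
  haveI : Fintype H := Fintype.ofFinite H
  obtain ⟨m₀, hm₀⟩ := exists_decomposition (isCharacter_restrict hξ.isCharacter H)
  have hne : ∃ θ : IrrCharacter H, m₀ θ ≠ 0 := by
    by_contra hall
    push Not at hall
    have h1 := congrFun hm₀ 1
    simp only [hall, Nat.cast_zero, zero_smul, sum_const_zero, Pi.zero_apply] at h1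
    exact hξ.one_ne_zero (by simpa using h1)
  obtain ⟨θ, hθ0⟩ := hne
  have hc : classInner (fun n : H => ξ n) (θ : H → ℂ) = (m₀ θ : ℂ) := by
    rw [hm₀]; exact classInner_sum_irr _ θ
  have hcl := clifford hξ θ.2 (by rw [hc]; exact_mod_cast hθ0)
  rw [hc] at hcl
  set I := inertia H (θ : H → ℂ) with hI
  have hHI : H ≤ I := le_inertia θ.2.isClassFunction
  haveI : Fintype I := Fintype.ofFinite I
  haveI : (H.subgroupOf I).Normal := inferInstance
  let e := Subgroup.subgroupOfEquivOfLe hHI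
  let θ' : H.subgroupOf I → ℂ := fun x => (θ : H → ℂ) (e x)
  have hθ' : IsIrrCharacter (H.subgroupOf I) θ' :=
    isIrrCharacter_comp_surjective θ.2 e.toMonoidHom e.surjective
  have hinv : ∀ g : I, conjFn (H.subgroupOf I) θ' g = θ' := by
    intro g
    funext x
    have h := congrFun (g.2 : conjFn H (θ : H → ℂ) (g : X) = θ) (e x)
    rw [conjFn_apply] at h ⊢
    refine Eq.trans ?_ h
    exact congrArg (θ : H → ℂ) (Subtype.ext rfl)
  have hcardH : Nat.card (H.subgroupOf I) = Nat.card H := Nat.card_congr e.toEquiv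
  obtain ⟨b', -, hb'⟩ : ∃ b' ≤ b, (H.subgroupOf I).index = p ^ b' := by
    refine (Nat.dvd_prime_pow hp).mp ?_
    rw [← hidx]
    exact H.relIndex_dvd_index_of_normal I
  obtain ⟨η, hη, hres, hηinv⟩ :=
    exists_canonical_extension hp (hcardH ▸ hH) hb' hθ' hinv
  refine ⟨indFun I η, isCharacter_indFun I hη.isCharacter, fun m hm hm1 g => ?_, m₀ θ,
    Nat.pos_of_ne_zero hθ0, fun h => ?_⟩
  · refine indFun_pow hm (fun e' => hηinv m ?_ (by rw [hcardH]; exact hm1) e') g
    exact hm.coprime_dvd_left I.card_subgroup_dvd_card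
  · have hval : indFun I η (h : X) =
        (Nat.card I : ℂ)⁻¹ * (∑ x : X, conjFn H (θ : H → ℂ) x h) := by
      simp only [indFun]
      congr 1
      refine Fintype.sum_equiv (Equiv.inv X) _ _ fun x => ?_
      have hy : x⁻¹ * (h : X) * x ∈ H := by
        have := (inferInstance : H.Normal).conj_mem _ h.2 x⁻¹
        rwa [inv_inv] at this
      rw [extendByZero_mem _ (hHI hy)]
      have h1 := hres ⟨⟨_, hHI hy⟩, hy⟩
      rw [h1, conjFn_apply]
      refine congrArg (θ : H → ℂ) (Subtype.ext ?_)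
      simp [e]
    have hs := congrFun (sum_conjFn (N := H) (θ : H → ℂ)) h
    rw [Finset.sum_apply, ← card_inertia] at hs
    rw [congrFun hcl h, hval, hs, Pi.smul_apply, Pi.smul_apply, smul_eq_mul, smul_eq_mul,
      inv_mul_cancel_left₀ (Nat.cast_ne_zero.mpr Nat.card_pos.ne')]

/-- A `p`-rational character replacing a faithful one. -/
theorem exists_rational_char {p : ℕ} (hp : p.Prime) {H : Subgroup X} [H.Normal]
    (hH : (Nat.card H).Coprime p) {b : ℕ} (hidx : H.index = p ^ b) {χ : X → ℂ}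
    (hχ : IsCharacter X χ) {n : ℕ} (hn : χ 1 = n) :
    ∃ (Φ : X → ℂ) (n' : ℕ), IsCharacter X Φ ∧ (∀ m : ℕ, (Nat.card X).Coprime m →
        m % Nat.card H = 1 % Nat.card H → ∀ g, Φ (g ^ m) = Φ g) ∧ Φ 1 = n' ∧ n' ≤ n ∧
      ∀ h : H, Φ h = Φ 1 → χ h = χ 1 := by
  obtain ⟨k, hk⟩ := exists_decomposition hχ
  choose F hF hFinv c hc0 hFc using fun ξ : IrrCharacter X =>
    exists_rational_constituent hp hH hidx ξ.2
  choose dF hdF using fun ξ => exists_degree (hF ξ)
  refine ⟨∑ ξ, (k ξ : ℂ) • F ξ, ∑ ξ, k ξ * dF ξ,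
    isCharacter_sum _ _ fun ξ _ => isCharacter_nsmul (hF ξ) _, fun m hm hm1 g => ?_, ?_, ?_,
    fun h hh => ?_⟩
  · simp only [Finset.sum_apply, Pi.smul_apply]
    exact sum_congr rfl fun ξ _ => by rw [hFinv ξ m hm hm1 g]
  · simp only [Finset.sum_apply, Pi.smul_apply, hdF, smul_eq_mul]
    push_cast
    rfl
  · have h1 : (n : ℂ) = ((∑ ξ, k ξ * (c ξ * dF ξ) : ℕ) : ℂ) := by
      rw [← hn, hk]
      simp only [Finset.sum_apply, Pi.smul_apply, smul_eq_mul]
      push_cast
      refine sum_congr rfl fun ξ _ => ?_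
      rw [show ((ξ : X → ℂ) 1) = (c ξ : ℂ) * F ξ 1 from hFc ξ 1, hdF]
    rw [Nat.cast_inj] at h1
    rw [h1]
    exact sum_le_sum fun ξ _ =>
      Nat.mul_le_mul_left _ (Nat.le_mul_of_pos_left _ (hc0 ξ))
  · simp only [Finset.sum_apply, Pi.smul_apply, smul_eq_mul] at hh
    have hterm : ∀ ξ ∈ univ, (k ξ : ℂ) * F ξ h = (k ξ : ℂ) * F ξ 1 := by
      have hre : ∀ ξ ∈ univ, ((k ξ : ℂ) * F ξ h).re ≤ ((k ξ : ℂ) * F ξ 1).re := by
        intro ξ _
        simp only [Complex.mul_re, Complex.natCast_re, Complex.natCast_im, zero_mul, sub_zero]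
        exact mul_le_mul_of_nonneg_left ((Complex.re_le_norm _).trans (char_norm_le_degree (hF ξ) _))
          (Nat.cast_nonneg _)
      have heq := (sum_eq_sum_iff_of_le hre).mp (by rw [← Complex.re_sum, hh, Complex.re_sum])
      intro ξ hξ
      have h1 := heq ξ hξ
      simp only [Complex.mul_re, Complex.natCast_re, Complex.natCast_im, zero_mul, sub_zero] at h1
      rcases Nat.eq_zero_or_pos (k ξ) with h0 | h0
      · simp [h0]
      · congr 1
        have h2 : (F ξ h).re = (F ξ 1).re := mul_left_cancel₀ (Nat.cast_ne_zero.mpr h0.ne') h1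
        have h3 := char_norm_le_degree (hF ξ) (h : X)
        rw [hdF] at h2 h3 ⊢
        simp only [Complex.natCast_re] at h2 h3
        have h4 : (F ξ h).re ^ 2 + (F ξ h).im ^ 2 = ‖F ξ h‖ ^ 2 := by
          rw [Complex.sq_norm, Complex.normSq_apply]; ring
        have h5 : ‖F ξ h‖ ^ 2 ≤ (dF ξ : ℝ) ^ 2 := pow_le_pow_left₀ (norm_nonneg _) h3 2
        have h6 : (F ξ h).im = 0 := by
          rw [h2] at h4
          nlinarith [sq_nonneg (F ξ h).im]
        exact Complex.ext (by simp [h2]) (by simp [h6])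
    rw [hk]
    simp only [Finset.sum_apply, Pi.smul_apply, smul_eq_mul]
    refine sum_congr rfl fun ξ hξ => ?_
    have h1 : (ξ : X → ℂ) h = (c ξ : ℂ) * F ξ h := hFc ξ h
    have h2 : (ξ : X → ℂ) 1 = (c ξ : ℂ) * F ξ 1 := hFc ξ 1
    rw [h1, h2, mul_left_comm, hterm ξ hξ, mul_left_comm]

/-- The bound on a Sylow subgroup modulo a subgroup centralising the normal `p'`-subgroup. -/
theorem exists_centralizing_bound {p : ℕ} (hp : p.Prime) {H : Subgroup X} [H.Normal]
    (hH : (Nat.card H).Coprime p) {b : ℕ} (hidx : H.index = p ^ b) {χ : X → ℂ}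
    (hχ : IsCharacter X χ) (hf : ∀ g, χ g = χ 1 → g = 1) {n : ℕ} (hn : χ 1 = n)
    (S : Subgroup X) (hS : IsPGroup p S) :
    ∃ D : Subgroup S, (∀ d ∈ D, ∀ h ∈ H, (d : X) * h = h * (d : X)) ∧
      D.index.factorization p ≤ ∑ i ∈ range (n + 1), n / ((p - 1) * p ^ i) := by
  haveI := Fact.mk hp
  obtain ⟨Φ, n', hΦ, hΦinv, hΦ1, hn', hker⟩ := exists_rational_char hp hH hidx hχ hn
  have hres : IsCharacter S (fun x : S => Φ x) := isCharacter_restrict hΦ S
  haveI : (charKer hres).Normal := charKer_normal hres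
  refine ⟨charKer hres, fun d hd h hh => ?_, ?_⟩
  · rw [mem_charKer] at hd
    have hd' : (d : X) ∈ charKer hΦ := (mem_charKer hΦ).mpr (by simpa using hd)
    haveI := charKer_normal hΦ
    set z := (d : X) * h * (d : X)⁻¹ * h⁻¹ with hz
    have hz1 : z ∈ charKer hΦ := by
      have : z = (d : X) * (h * (d : X)⁻¹ * h⁻¹) := by rw [hz]; group
      rw [this]
      exact mul_mem hd' ((inferInstance : (charKer hΦ).Normal).conj_mem _ (inv_mem hd') h)
    have hz2 : z ∈ H := mul_mem ((inferInstance : H.Normal).conj_mem _ hh _) (inv_mem hh)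
    have hz3 := hf z (hker ⟨z, hz2⟩ ((mem_charKer hΦ).mp hz1))
    rw [hz] at hz3
    exact mul_inv_eq_iff_eq_mul.mp (mul_inv_eq_one.mp hz3)
  · obtain ⟨Q, ρ, hρ⟩ := id hres
    set D := charKer hres with hD
    let φ : (S ⧸ D) → ℂ := Quotient.lift (fun x : S => Φ x) (fun x y hxy => by
      have h1 := char_mul_ker hres ((mem_charKer hres).mp (QuotientGroup.leftRel_apply.mp hxy)) x
      have h2 := isClassFunction_of_isCharacter hres (x⁻¹ * y * x) x
      rw [show x * (x⁻¹ * y * x) * x⁻¹ = y by group] at h2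
      exact h1.symm.trans h2.symm)
    have hφchar : IsCharacter (S ⧸ D) φ := by
      have hker' : ∀ d ∈ D, ρ d = 1 := fun d hd => by
        have := (mem_charKer hres).mp hd
        exact (char_eq_one_iff ρ d).mp (by rw [hρ]; exact this)
      refine ⟨Q, QuotientGroup.lift D ρ hker', ?_⟩
      funext x
      induction x using QuotientGroup.induction_on with
      | _ x => exact congrFun hρ x
    have hbound := card_factorization_le_of_invariant hp (hS.to_quotient D) hφchar
      (fun q hq => by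
        induction q using QuotientGroup.induction_on with
        | _ x => exact (QuotientGroup.eq_one_iff x).mpr ((mem_charKer hres).mpr hq))
      (n := n') (by exact hΦ1)
      (fun q k hk => by
        induction q using QuotientGroup.induction_on with
        | _ x =>
          obtain ⟨j, hj⟩ := hS x
          have hcop : (p ^ (j + 1)).Coprime (Nat.card H) := Nat.Coprime.pow_left _ hH.symm
          obtain ⟨k', hk1, hk2⟩ := Nat.chineseRemainder hcop k 1
          have hk'X : (Nat.card X).Coprime k' := by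
            rw [← H.card_mul_index, hidx]
            refine Nat.Coprime.mul_left ?_ (Nat.Coprime.pow_left _ ?_)
            · unfold Nat.Coprime
              rw [Nat.gcd_comm, Nat.ModEq.gcd_eq hk2, Nat.gcd_one_left]
            · have h1 : k' ≡ k [MOD p] := hk1.of_dvd (dvd_pow_self p (Nat.succ_ne_zero j))
              rw [Nat.coprime_comm] at hk
              unfold Nat.Coprime at hk ⊢
              rw [Nat.gcd_comm, Nat.ModEq.gcd_eq h1, Nat.gcd_comm, hk]
          have hxk : x ^ k' = x ^ k := by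
            have ho : orderOf x ∣ p ^ (j + 1) :=
              orderOf_dvd_of_pow_eq_one (by rw [pow_succ, pow_mul, hj, one_pow])
            exact pow_eq_pow_iff_modEq.mpr (hk1.of_dvd ho)
          show Φ ((x ^ k : S) : X) = Φ (x : X)
          rw [← hxk, Subgroup.coe_pow]
          exact hΦinv k' hk'X hk2 _)
    rw [Subgroup.index_eq_card]
    exact hbound.trans ((sum_le_sum_of_subset (range_subset_range.mpr (by omega))).trans
      (sum_le_sum fun i _ => Nat.div_le_div_right hn'))

/-- Schur's bound for `p`-solvable groups. -/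
theorem pSolvable_bound {G : Type*} [Group G] [Finite G] {p : ℕ} (hp : p.Prime)
    (hsol : IsPSolvable p G) {χ : G → ℂ} (hχ : IsCharacter G χ)
    (hf : ∀ g, χ g = χ 1 → g = 1) {n : ℕ} (hn : χ 1 = n) :
    (pCore p G).index.factorization p ≤ ∑ i ∈ range (n + 1), n / ((p - 1) * p ^ i) := by
  haveI := Fact.mk hp
  haveI : Fintype G := Fintype.ofFinite G
  set U := pCore p G with hU
  have hUp : IsPGroup p U := Cfsg.Lib.Solv.isPGroup_pCore p
  set π := QuotientGroup.mk' U with hπ
  have hπs : Function.Surjective π := QuotientGroup.mk'_surjective U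
  set Kb := pPrimeCore p (G ⧸ U) with hKb
  have hcent : Subgroup.centralizer (Kb : Set (G ⧸ U)) ≤ Kb :=
    centralizer_pPrimeCore_le (Cfsg.Lib.PLocal.IsPSolvable.of_surjective π hπs hsol)
      (Cfsg.Lib.Solv.pCore_quotient_eq_bot p)
  have hKbcop : (Nat.card Kb).Coprime p := Cfsg.Lib.Solv.coprime_pPrimeCore p
  set K := Kb.comap π with hK
  have hUK : U ≤ K := fun x hx => by
    rw [hK, Subgroup.mem_comap, hπ, QuotientGroup.mk'_apply, (QuotientGroup.eq_one_iff x).mpr hx]
    exact one_mem _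
  have hidxU : (U.subgroupOf K).index = Nat.card Kb := by
    have h1 : U.relIndex K = Nat.card Kb := by
      have h := Subgroup.relIndex_ker π (K := K)
      rw [hπ, QuotientGroup.ker_mk'] at h
      rw [h, hK, hπ, Subgroup.map_comap_eq_self_of_surjective hπs]
    exact h1
  obtain ⟨a, hUa⟩ := IsPGroup.iff_card.mp hUp
  have hcardU : Nat.card (U.subgroupOf K) = p ^ a := by
    rw [Nat.card_congr (Subgroup.subgroupOfEquivOfLe hUK).toEquiv, hUa]
  have hcopK : (Nat.card (U.subgroupOf K)).Coprime (U.subgroupOf K).index := by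
    rw [hcardU, hidxU]
    exact Nat.Coprime.pow_left _ hKbcop.symm
  obtain ⟨H₀, hH₀⟩ := Subgroup.exists_right_complement'_of_coprime hcopK
  have hH₀card : Nat.card H₀ = (U.subgroupOf K).index := by
    rw [hH₀.symm.index_eq_card]
  set H := H₀.map K.subtype with hHdef
  have hHcard : Nat.card H = Nat.card Kb := by
    rw [hHdef, Subgroup.card_subtype, hH₀card, hidxU]
  have hHK : H ≤ K := Subgroup.map_subtype_le H₀
  haveI : Group.IsSolvable (U.subgroupOf K) :=
    haveI : Group.IsNilpotent (U.subgroupOf K) :=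
      (IsPGroup.of_card hcardU).isNilpotent
    inferInstance
  set N := Subgroup.normalizer (H : Set G) with hN
  -- Frattini argument
  have hfr : ∀ g : G, ∃ u ∈ U, u⁻¹ * g ∈ N := by
    intro g
    set H' := H.map (MulAut.conj g).toMonoidHom with hH'
    have hH'K : H' ≤ K := by
      rintro _ ⟨h, hh, rfl⟩
      exact (inferInstance : K.Normal).conj_mem h (hHK hh) g
    have hcard' : Nat.card (H'.subgroupOf K) = (U.subgroupOf K).index := by
      rw [Nat.card_congr (Subgroup.subgroupOfEquivOfLe hH'K).toEquiv, hH',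
        Nat.card_congr (H.equivMapOfInjective _ (MulAut.conj g).injective).toEquiv.symm, hHcard,
        hidxU]
    obtain ⟨u, hu, hu'⟩ := Cfsg.Lib.Solv.sz_conj (U.subgroupOf K) hcopK H₀ (H'.subgroupOf K)
      (Or.inl inferInstance) hH₀card hcard'
    refine ⟨(u : G), hu, ?_⟩
    have hcoe : H.map (MulAut.conj (u : G)).toMonoidHom = H' := by
      have h1 := congrArg (Subgroup.map K.subtype) hu'
      rw [Subgroup.subgroupOf_map_subtype, inf_of_le_left hH'K] at h1
      rw [← h1, hHdef]
      ext z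
      constructor
      · rintro ⟨_, ⟨h, hh, rfl⟩, rfl⟩
        exact ⟨_, Subgroup.smul_mem_pointwise_smul h (MulAut.conj u) H₀ hh, rfl⟩
      · rintro ⟨_, ⟨h, hh, rfl⟩, rfl⟩
        exact ⟨_, ⟨h, hh, rfl⟩, rfl⟩
    rw [hN, Subgroup.mem_normalizer_iff]
    intro x
    constructor
    · intro hx
      have : g * x * g⁻¹ ∈ H' := ⟨x, hx, rfl⟩
      rw [← hcoe] at this
      obtain ⟨y, hy, hy'⟩ := this
      have hy2 : (u : G) * y * (u : G)⁻¹ = g * x * g⁻¹ := hy'
      have : (u : G)⁻¹ * g * x * ((u : G)⁻¹ * g)⁻¹ = y := by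
        calc _ = (u : G)⁻¹ * (g * x * g⁻¹) * (u : G) := by group
          _ = y := by rw [← hy2]; group
      rwa [this]
    · intro hx
      set y := (u : G)⁻¹ * g * x * ((u : G)⁻¹ * g)⁻¹ with hy
      have : (u : G) * y * (u : G)⁻¹ ∈ H' := by rw [← hcoe]; exact ⟨y, hx, rfl⟩
      obtain ⟨z, hz, hz'⟩ := this
      have hz2 : g * z * g⁻¹ = (u : G) * y * (u : G)⁻¹ := hz'
      have : z = x := by
        rw [hy] at hz2
        have h3 : g * z * g⁻¹ = g * x * g⁻¹ := by rw [hz2]; group
        exact mul_left_cancel (mul_right_cancel h3)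
      rwa [← this]
  obtain ⟨S₀⟩ : Nonempty (Sylow p N) := inferInstance
  set S := (S₀ : Subgroup N).map N.subtype with hSdef
  have hSp : IsPGroup p S := S₀.isPGroup'.map _
  have hSN : S ≤ N := Subgroup.map_subtype_le _
  set X := H ⊔ S with hX
  have hXN : X ≤ N := sup_le Subgroup.le_normalizer hSN
  haveI : (H.subgroupOf X).Normal := ⟨fun h hh x => by
      have := hXN x.2
      rw [hN, Subgroup.mem_normalizer_iff] at this
      rw [Subgroup.mem_subgroupOf] at hh ⊢
      exact (this (h : G)).mp hh⟩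
  obtain ⟨s, hs⟩ := IsPGroup.iff_card.mp hSp
  have hrel : (H.subgroupOf X).index ∣ p ^ s := by
    have htop : (S.subgroupOf X).map (QuotientGroup.mk' (H.subgroupOf X)) = ⊤ := by
      have hsup : (S.subgroupOf X) ⊔ (H.subgroupOf X) = ⊤ := by
        rw [← Subgroup.subgroupOf_sup le_sup_right le_sup_left]
        exact Subgroup.subgroupOf_eq_top.mpr (sup_le le_sup_right le_sup_left)
      have h1 := congrArg (Subgroup.map (QuotientGroup.mk' (H.subgroupOf X))) hsup
      rw [Subgroup.map_sup, QuotientGroup.map_mk'_self, sup_bot_eq,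
        Subgroup.map_top_of_surjective _ (QuotientGroup.mk'_surjective _)] at h1
      exact h1
    rw [Subgroup.index_eq_card, ← Subgroup.card_top (G := X ⧸ H.subgroupOf X), ← htop, ← hs,
      ← Nat.card_congr (Subgroup.subgroupOfEquivOfLe (le_sup_right : S ≤ X)).toEquiv]
    exact Subgroup.card_map_dvd _ _
  obtain ⟨b, -, hb⟩ := (Nat.dvd_prime_pow hp).mp hrel
  haveI : Fintype X := Fintype.ofFinite X
  have hχX : IsCharacter X (fun x : X => χ x) := isCharacter_restrict hχ X
  obtain ⟨D, hDc, hDb⟩ := exists_centralizing_bound hp (H := H.subgroupOf X)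
    (by rw [Nat.card_congr (Subgroup.subgroupOfEquivOfLe (le_sup_left : H ≤ X)).toEquiv, hHcard]
        exact hKbcop)
    hb hχX (fun g hg => Subtype.ext (hf g (by simpa using hg))) (n := n) (by simpa using hn)
    (S.subgroupOf X) (hSp.of_equiv (Subgroup.subgroupOfEquivOfLe le_sup_right).symm)
  refine le_trans ?_ hDb
  let f : (S.subgroupOf X) →* G ⧸ U := π.comp (X.subtype.comp (S.subgroupOf X).subtype)
  have hHmap : H.map π = Kb := by
    refine Subgroup.eq_of_le_of_card_ge ?_ ?_
    · rintro _ ⟨h, hh, rfl⟩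
      exact hHK hh
    · have hinj : Function.Injective (π.comp H.subtype) := by
        rw [← MonoidHom.ker_eq_bot_iff, eq_bot_iff]
        intro h hh
        have hhU : (h : G) ∈ U := (QuotientGroup.eq_one_iff _).mp hh
        obtain ⟨h₀, hh₀, hh₀'⟩ := h.2
        have : h₀ ∈ U.subgroupOf K ⊓ H₀ := by
          refine ⟨?_, hh₀⟩
          show K.subtype h₀ ∈ U
          rw [hh₀']; exact hhU
        rw [disjoint_iff.mp hH₀.disjoint, Subgroup.mem_bot] at this
        rw [Subgroup.mem_bot]
        exact Subtype.ext (by rw [← hh₀', this]; simp)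
      rw [← hHcard]
      exact Nat.card_le_card_of_injective (fun h : H => (⟨π h, ⟨h, h.2, rfl⟩⟩ : H.map π))
        fun a b hab => hinj (congrArg Subtype.val hab)
  have hDker : D ≤ f.ker := by
    intro d hd
    rw [MonoidHom.mem_ker]
    have h1 : f d ∈ Subgroup.centralizer (Kb : Set (G ⧸ U)) := by
      rw [Subgroup.mem_centralizer_iff]
      intro y hy
      rw [SetLike.mem_coe, ← hHmap] at hy
      obtain ⟨h, hh, rfl⟩ := hy
      have h3 := congrArg (fun z : X => π (z : G))
        (hDc d hd ⟨h, (le_sup_left : H ≤ X) hh⟩ hh)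
      simp only [Subgroup.coe_mul, map_mul] at h3
      exact h3.symm
    have h2 := hcent h1
    obtain ⟨j, hj⟩ := (hSp.of_equiv (Subgroup.subgroupOfEquivOfLe (le_sup_right : S ≤ X)).symm) d
    have h3 : orderOf (f d) ∣ p ^ j := orderOf_dvd_of_pow_eq_one (by rw [← map_pow, hj, map_one])
    have h4 : orderOf (f d) ∣ Nat.card Kb := Subgroup.orderOf_dvd_natCard Kb h2
    have h5 := Nat.dvd_gcd h3 h4
    rw [(Nat.Coprime.pow_left j hKbcop.symm).gcd_eq_one] at h5
    exact orderOf_eq_one_iff.mp (Nat.dvd_one.mp h5)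
  have h6 : Nat.card f.range ∣ D.index := by
    rw [← Subgroup.index_ker]; exact Subgroup.index_dvd_of_le hDker
  have hrange : f.range = S.map π := by
    ext y
    constructor
    · rintro ⟨x, rfl⟩; exact ⟨_, x.2, rfl⟩
    · rintro ⟨x, hx, rfl⟩; exact ⟨⟨⟨x, (le_sup_right : S ≤ X) hx⟩, hx⟩, rfl⟩
  -- `S` covers a Sylow subgroup of `G ⧸ U`
  have hsurjN : Function.Surjective (π.comp N.subtype) := by
    intro y
    obtain ⟨g, rfl⟩ := hπs y
    obtain ⟨u, hu, hug⟩ := hfr g
    refine ⟨⟨_, hug⟩, ?_⟩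
    rw [MonoidHom.comp_apply, Subgroup.coe_subtype, map_mul, map_inv,
      show π u = 1 from (QuotientGroup.eq_one_iff u).mpr hu, inv_one, one_mul]
  set T := (S₀.mapSurjective hsurjN) with hT
  have hTeq : (T : Subgroup (G ⧸ U)) = S.map π := by
    rw [hT, Sylow.coe_mapSurjective, hSdef, Subgroup.map_map]
  rw [Subgroup.index_eq_card]
  have h7 : (Nat.card f.range).factorization p = (Nat.card (G ⧸ U)).factorization p := by
    rw [hrange, ← hTeq, T.card_eq_multiplicity, hp.factorization_pow, Finsupp.single_eq_same]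
  rw [← h7]
  exact (Nat.factorization_le_iff_dvd Nat.card_pos.ne' Subgroup.index_ne_zero_of_finite).mpr h6 p

end Cfsg.Lib.Blocks.SchurBound
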