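import Cfsg.Agent.Lib.Blocks.PrincipalSums
import Cfsg.Agent.Lib.Blocks.SchurBound
import Cfsg.Agent.Lib.Blocks.SchurBoundPSolvable
import Cfsg.Agent.Lib.Characters.Extension
import Cfsg.Agent.Lib.Characters.Brauer
import Cfsg.Agent.Lib.Characters.PiSection

/-!
# Principal, p-rational extensions of invariant characters of normal subgroups
-/

set_option autoImplicit false
set_option linter.style.longLine false
set_option linter.style.haveILetI false
set_option linter.unusedSectionVars false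
set_option maxHeartbeats 1000000

namespace Cfsg.Lib.Blocks.PExt

open Finset
open scoped ComplexConjugate Classical IntermediateField
open Cfsg.Lib.Characters

universe u

section fields

variable {G : Type*} [Group G] [Finite G]

/-- A character value fixed by all powerings trivial on `r`-th roots lies in that cyclotomic field. -/
theorem mem_adjoin_of_fixed {χ : G → ℂ} (hχ : IsCharacter G χ) (g : G) {r : ℕ} (hr : r ∣ Nat.card G)
    (h : ∀ k : ℕ, k.Coprime (Nat.card G) → k % r = 1 % r → χ (g ^ k) = χ g) :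
    χ g ∈ IntermediateField.adjoin ℚ ({Complex.exp (2 * Real.pi * Complex.I / r)} : Set ℂ) := by
  set n := Nat.card G with hn
  haveI : NeZero n := ⟨Nat.card_pos.ne'⟩
  have hr0 : r ≠ 0 := (Nat.pos_of_dvd_of_pos hr Nat.card_pos).ne'
  set w := Complex.exp (2 * Real.pi * Complex.I / r) with hw
  have hw' : IsPrimitiveRoot w r := Complex.isPrimitiveRoot_exp r hr0
  set ζ := Complex.exp (2 * Real.pi * Complex.I / n) with hζdef
  have hζ : IsPrimitiveRoot ζ n := Complex.isPrimitiveRoot_exp n (NeZero.ne n)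
  set L := IntermediateField.adjoin ℚ ({w} : Set ℂ) with hL
  obtain ⟨m, ρ, rfl⟩ := hχ
  obtain ⟨μ, hμ, -, hk, -⟩ := exists_eigenvalues ρ g
  have hμn : ∀ i, μ i ^ n = 1 := fun i => by
    obtain ⟨c, hc⟩ := orderOf_dvd_natCard g
    rw [hn, hc, pow_mul, hμ i, one_pow]
  choose e he he' using fun i => hζ.eq_pow_of_pow_eq_one (hμn i)
  have hint : ∀ s ∈ ({ζ} : Set ℂ), IsIntegral L s ∧
      ((minpoly L s).map (algebraMap L ℂ)).Splits := by
    rintro s rfl
    exact ⟨(hζ.isIntegral (NeZero.pos n)).tower_top, IsAlgClosed.splits _⟩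
  set K := IntermediateField.adjoin L ({ζ} : Set ℂ) with hK
  have hz : ρ.character g ∈ K := by
    rw [← pow_one g, hk 1]
    refine sum_mem fun i _ => ?_
    rw [pow_one, ← he' i]
    exact pow_mem (IntermediateField.mem_adjoin_simple_self L ζ) _
  haveI : FiniteDimensional L K :=
    IntermediateField.adjoin.finiteDimensional (hint ζ rfl).1
  have hzi : IsIntegral L (ρ.character g) := (IsIntegral.of_finite L (⟨_, hz⟩ : K)).map K.val
  set P := (minpoly L (ρ.character g)).map (algebraMap L ℂ) with hP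
  have hmon : P.Monic := (minpoly.monic hzi).map _
  have hroot : ∀ x ∈ P.roots, x = ρ.character g := by
    intro x hx
    have hx' : Polynomial.aeval x (minpoly L (ρ.character g)) = 0 := by
      rw [Polynomial.mem_roots hmon.ne_zero, Polynomial.IsRoot, hP, Polynomial.eval_map] at hx
      exact hx
    obtain ⟨φ, hφ⟩ := IntermediateField.exists_algHom_adjoin_of_splits_of_aeval hint hz hx'
    rw [← hφ]
    set ge : K := IntermediateField.AdjoinSimple.gen L ζ with hge
    have hgp : IsPrimitiveRoot ge n := IsPrimitiveRoot.of_map_of_injective (f := K.val) hζ K.val.injective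
    obtain ⟨k, -, hkc, hk'⟩ := (hζ.isPrimitiveRoot_iff).mp (hgp.map_of_injective φ.injective)
    have hwmem : w ∈ L := IntermediateField.mem_adjoin_simple_self ℚ w
    have hwn : w ^ n = 1 := by
      obtain ⟨c, hc⟩ := hr
      rw [hc, pow_mul, hw'.pow_eq_one, one_pow]
    obtain ⟨i, -, hi⟩ := hζ.eq_pow_of_pow_eq_one hwn
    have h1 : algebraMap L K ⟨w, hwmem⟩ = ge ^ i := Subtype.ext (by
      rw [SubmonoidClass.coe_pow, hge, IntermediateField.AdjoinSimple.coe_gen, hi]; rfl)
    have h2 : w ^ k = w := by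
      have h3 := congrArg φ h1
      rw [φ.commutes, map_pow, show φ ge = ζ ^ k from hk'.symm] at h3
      have h4 : w = (ζ ^ k) ^ i := h3
      conv_rhs => rw [h4]
      rw [← pow_mul, mul_comm, pow_mul, hi]
    have hkr : k % r = 1 % r := by
      have hrpos : 0 < r := Nat.pos_of_ne_zero hr0
      refine hw'.pow_inj (Nat.mod_lt _ hrpos) (Nat.mod_lt _ hrpos) ?_
      rw [← pow_mod_orderOf w k, ← hw'.eq_orderOf] at h2
      conv_rhs => rw [hw'.eq_orderOf, pow_mod_orderOf, pow_one]
      exact h2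
    have hzK : (⟨_, hz⟩ : K) = ∑ i, ge ^ e i := Subtype.ext (by
      simp only [hge, IntermediateField.coe_sum, SubmonoidClass.coe_pow, IntermediateField.AdjoinSimple.coe_gen]
      rw [← pow_one g, hk 1]
      exact Finset.sum_congr rfl fun i _ => by rw [pow_one, he'])
    rw [hzK, map_sum, ← h k hkc hkr, hk k]
    refine Finset.sum_congr rfl fun i _ => ?_
    rw [map_pow, show φ ge = ζ ^ k from hk'.symm, ← pow_mul, mul_comm, pow_mul, he']
  have hnd : P.roots.Nodup := Polynomial.nodup_roots (minpoly.irreducible hzi).separable.map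
  have hcard : P.roots.card ≤ 1 := by
    rw [← Multiset.toFinset_card_of_nodup hnd, Finset.card_le_one]
    intro a ha b hb
    rw [hroot a (Multiset.mem_toFinset.mp ha), hroot b (Multiset.mem_toFinset.mp hb)]
  have hdeg : (minpoly L (ρ.character g)).degree = 1 := by
    have h1 : P.roots.card = P.natDegree := IsAlgClosed.card_roots_eq_natDegree
    rw [hP, Polynomial.natDegree_map] at h1
    rw [← hP] at h1
    rw [Polynomial.degree_eq_natDegree (minpoly.ne_zero hzi)]
    have := minpoly.natDegree_pos hzi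
    norm_cast; omega
  obtain ⟨q, hq⟩ := minpoly.degree_eq_one_iff.mp hdeg
  rw [← hq]
  exact q.2

/-- Values in a field of roots of unity of order prime to `p` are fixed by suitable powerings. -/
theorem pow_fixed_of_adjoin {p : ℕ} (hp : p.Prime) {χ : G → ℂ} (hχ : IsCharacter G χ) (g : G)
    {N₀ m : ℕ} (hN₀ : N₀ ≠ 0) (hg : g ^ N₀ = 1) (hm : ¬ p ∣ m)
    (hval : χ g ∈ IntermediateField.adjoin ℚ ({Complex.exp (2 * Real.pi * Complex.I / m)} : Set ℂ))
    {k : ℕ} (hk : k.Coprime N₀) (hk1 : k ≡ 1 [MOD ordCompl[p] N₀]) : χ (g ^ k) = χ g := by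
  have hm0 : m ≠ 0 := fun h => hm (h ▸ dvd_zero p)
  set a := N₀.factorization p
  set n' := ordCompl[p] N₀ with hn'
  have hn'0 : n' ≠ 0 := (Nat.ordCompl_pos p hN₀).ne'
  have hnn : p ^ a * n' = N₀ := Nat.ordProj_mul_ordCompl_eq_self N₀ p
  have hcop : (p ^ a).Coprime (n' * m) := Nat.Coprime.pow_left _
    (Nat.Coprime.mul_right ((hp.coprime_iff_not_dvd).mpr (Nat.not_dvd_ordCompl hp hN₀))
      ((hp.coprime_iff_not_dvd).mpr hm))
  obtain ⟨k', hka, hkb⟩ := Nat.chineseRemainder hcop k 1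
  set N := p ^ a * (n' * m) with hN
  have hN0 : N ≠ 0 := mul_ne_zero (pow_ne_zero _ hp.ne_zero) (mul_ne_zero hn'0 hm0)
  haveI : NeZero N := ⟨hN0⟩
  have hcopk : k'.Coprime N := by
    refine Nat.Coprime.mul_right ?_ ?_
    · have h : k.Coprime (p ^ a) := Nat.Coprime.coprime_dvd_right ⟨n', hnn.symm⟩ hk
      unfold Nat.Coprime at h ⊢
      rw [Nat.ModEq.gcd_eq hka, h]
    · unfold Nat.Coprime
      rw [Nat.ModEq.gcd_eq hkb, Nat.gcd_one_left]
  have hζ := Complex.isPrimitiveRoot_exp N hN0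
  set ζ := Complex.exp (2 * Real.pi * Complex.I / N)
  set w := Complex.exp (2 * Real.pi * Complex.I / m) with hw
  have hwm : w ^ m = 1 := (Complex.isPrimitiveRoot_exp m hm0).pow_eq_one
  obtain ⟨φ, hφ⟩ := exists_galois_hom hζ hcopk
  have hwN : w ^ N = 1 := by rw [hN, ← mul_assoc, mul_comm, pow_mul, hwm, one_pow]
  obtain ⟨i, -, hi⟩ := hζ.eq_pow_of_pow_eq_one hwN
  have hwmem : w ∈ ℚ⟮ζ⟯ := hi ▸ pow_mem_adjoin_root ζ i
  have hwfix : φ ⟨w, hwmem⟩ = w := by
    have h1 : (⟨w, hwmem⟩ : ℚ⟮ζ⟯) = IntermediateField.AdjoinSimple.gen ℚ ζ ^ i :=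
      Subtype.ext (by simp [hi])
    rw [h1, map_pow, hφ, ← pow_mul, mul_comm, pow_mul, hi]
    conv_rhs => rw [← pow_one w]
    rw [← pow_mod_orderOf w k', ((hkb.of_dvd (dvd_mul_left m n')).of_dvd (orderOf_dvd_of_pow_eq_one hwm) :
      k' % orderOf w = 1 % orderOf w), pow_mod_orderOf]
  obtain ⟨z, hz, hzφ⟩ := char_galois hζ hχ (g := g)
    (by rw [hN, ← mul_assoc, hnn, pow_mul, hg, one_pow])
  obtain ⟨hmem, hfix⟩ := SchurBound.hom_fix_adjoin φ hwmem hwfix hval
  have hzz : z = ⟨χ g, hmem⟩ := Subtype.ext hz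
  have h2 := hzφ φ k' hφ
  rw [hzz, hfix] at h2
  have hmod : k' ≡ k [MOD N₀] := by
    rw [← hnn]
    exact (Nat.modEq_and_modEq_iff_modEq_mul
      (Nat.Coprime.pow_left _ ((hp.coprime_iff_not_dvd).mpr (Nat.not_dvd_ordCompl hp hN₀)))).mp
      ⟨hka, (hkb.of_dvd (dvd_mul_right n' m)).trans hk1.symm⟩
  have hgk : g ^ k' = g ^ k :=
    pow_eq_pow_iff_modEq.mpr (hmod.of_dvd (orderOf_dvd_of_pow_eq_one hg))
  rw [← hgk, ← h2]

end fields

variable {G : Type u} [Group G] [Fintype G] {M : Ideal Cfsg.AlgInt} [M.IsPrime]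
  {p : ℕ} [Fact p.Prime]

theorem cosetSum_congr (N : Subgroup G) (f : G → ℂ) {g g' : G} (h : g⁻¹ * g' ∈ N) :
    cosetSum p N f g' = cosetSum p N f g := by
  refine Finset.sum_congr rfl fun x _ => if_congr (and_congr_left' ⟨fun hx => ?_, fun hx => ?_⟩) rfl rfl
  · have := N.mul_mem h hx
    simpa [mul_assoc] using this
  · have := N.mul_mem (N.inv_mem h) hx
    simpa [mul_assoc] using this

theorem cosetSum_conj (N : Subgroup G) [hN : N.Normal] {f : G → ℂ} (hf : IsClassFunction G f) (g x : G) :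
    cosetSum p N f (x * g * x⁻¹) = cosetSum p N f g := by
  refine (Fintype.sum_equiv (MulAut.conj x).toEquiv _ _ fun h => ?_).symm
  show _ = ite ((x * g * x⁻¹)⁻¹ * (x * h * x⁻¹) ∈ N ∧ ¬ p ∣ orderOf (x * h * x⁻¹)) (f (x * h * x⁻¹)) 0
  rw [show orderOf (x * h * x⁻¹) = orderOf h from MulEquiv.orderOf_eq (MulAut.conj x) h, hf h x]
  refine if_congr (and_congr_left' ?_) rfl rfl
  rw [show (x * g * x⁻¹)⁻¹ * (x * h * x⁻¹) = x * (g⁻¹ * h) * x⁻¹ by group]
  exact ⟨fun hx => hN.conj_mem _ hx x, fun hx => by simpa [mul_assoc] using hN.conj_mem _ hx x⁻¹⟩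

theorem cosetSum_subgroupOf {N U : Subgroup G} (hNU : N ≤ U) (f : G → ℂ) (u : U) :
    cosetSum p (N.subgroupOf U) (fun x : U => f x) u = cosetSum p N f u := by
  unfold cosetSum
  rw [show (fun h : U => if u⁻¹ * h ∈ N.subgroupOf U ∧ ¬ p ∣ orderOf h then f h else 0)
    = fun h : U => (fun x : G => if (u : G)⁻¹ * x ∈ N ∧ ¬ p ∣ orderOf x then f x else 0) h from
      funext fun h => if_congr (by rw [Subgroup.mem_subgroupOf, ← Subgroup.orderOf_coe h]; rfl) rfl rfl]
  rw [sum_subgroup_eq U fun x : G => if (u : G)⁻¹ * x ∈ N ∧ ¬ p ∣ orderOf x then f x else 0]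
  refine Finset.sum_congr rfl fun h _ => ?_
  by_cases hh : (u : G)⁻¹ * h ∈ N
  · rw [if_pos (c := h ∈ U) (by simpa using U.mul_mem u.2 (hNU hh))]
  · simp [hh]

/-- The regular sum of a character of `N`. -/
noncomputable def regS (p : ℕ) {N : Subgroup G} (θ : N → ℂ) : ℂ :=
  ∑ n : N, if p ∣ orderOf n then 0 else θ n

theorem cosetSum_one {N : Subgroup G} {f : G → ℂ} {θ : N → ℂ} (hres : ∀ n : N, f n = θ n) :
    cosetSum p N f 1 = regS p θ := by
  unfold cosetSum regS
  rw [show (fun n : N => if p ∣ orderOf n then 0 else θ n)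
    = fun n : N => (fun g : G => if p ∣ orderOf g then 0 else f g) n from
      funext fun n => by simp only [Subgroup.orderOf_coe, hres],
    sum_subgroup_eq N fun g : G => if p ∣ orderOf g then 0 else f g]
  refine Finset.sum_congr rfl fun h _ => ?_
  simp only [inv_one, one_mul]
  split_ifs <;> first | rfl | tauto

/-- For an overgroup of index prime to `p` there is a principal extension with constant coset sums. -/
theorem exists_local_extension (hM : IsPModular p M) (N : Subgroup G) [N.Normal] (θ : IrrCharacter N)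
    (hB : θ ∈ principalBlock M N) (hinv : ∀ g, conjFn N (θ : N → ℂ) g = θ) (Q : Sylow p N)
    {U : Subgroup G} (hNU : N ≤ U) (hidx : ¬ p ∣ N.relIndex U)
    (hUL : U ≤ N ⊔ Subgroup.centralizer (((Q : Subgroup N).map N.subtype : Subgroup G) : Set G)) :
    ∃ η : U → ℂ, IsIrrCharacter U η ∧ (∀ n : N, η ⟨n, hNU n.2⟩ = (θ : N → ℂ) n) ∧
      ∀ u : U, cosetSum p (N.subgroupOf U) η u = regS p (θ : N → ℂ) := by
  set QG := (Q : Subgroup N).map N.subtype with hQG
  set N' := N.subgroupOf U with hN'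
  set QU := QG.subgroupOf U with hQU
  have hQN : QG ≤ N := Subgroup.map_subtype_le _
  let e : N' ≃* N := Subgroup.subgroupOfEquivOfLe hNU
  set θ' : IrrCharacter N' := ⟨_, isIrrCharacter_mulEquiv θ.2 e⟩ with hθ'def
  have hs : ∑ x : N', (if p ∣ orderOf x then 0 else (θ' : N' → ℂ) x) = regS p (θ : N → ℂ) :=
    Fintype.sum_equiv e.toEquiv _ _ fun x => by
      show ite (p ∣ orderOf x) 0 ((θ : N → ℂ) (e x)) = _
      rw [← e.orderOf_eq x]; rfl
  have hθ' : θ' ∈ principalBlock M N' := by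
    refine mem_principal_of_sum_ne hM ?_
    rw [hs]
    exact sum_regular_ne_zero hM hB
  have hQp : IsPGroup p QU := (Q.2.map N.subtype).comap_of_injective U.subtype U.subtype_injective
  have hQidx : ¬ p ∣ QU.index := by
    intro hd
    have h1 : QU.index = QG.relIndex N * N.relIndex U := (Subgroup.relIndex_mul_relIndex QG N U hQN hNU).symm
    have h2 : QG.relIndex N = (Q : Subgroup N).index := by
      rw [hQG, show (Q : Subgroup N).index = (Q : Subgroup N).relIndex ⊤ from (Subgroup.relIndex_top_right _).symm]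
      have := Subgroup.relIndex_map_map_of_injective (Q : Subgroup N) ⊤ N.subtype_injective
      rwa [← MonoidHom.range_eq_map, Subgroup.range_subtype] at this
    rw [h1, h2] at hd
    rcases (Fact.out : p.Prime).dvd_mul.mp hd with h | h
    · exact Q.not_dvd_index h
    · exact hidx h
  set P : Sylow p U := hQp.toSylow hQidx with hPdef
  have hsup : N' ⊔ Subgroup.centralizer ((P : Subgroup U) : Set U) = ⊤ := top_unique fun u _ => by
    obtain ⟨n, hn, c, hc, huc⟩ := Subgroup.mem_sup_of_normal_left.mp (hUL u.2)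
    have hcU : c ∈ U := by
      rw [show c = n⁻¹ * (u : G) by rw [← huc]; group]
      exact U.mul_mem (U.inv_mem (hNU hn)) u.2
    rw [show u = ⟨n, hNU hn⟩ * ⟨c, hcU⟩ from Subtype.ext huc.symm]
    exact mul_mem (Subgroup.mem_sup_left (show (⟨n, hNU hn⟩ : U) ∈ N' from hn))
      (Subgroup.mem_sup_right (Subgroup.mem_centralizer_iff.mpr fun q hq =>
        Subtype.ext (Subgroup.mem_centralizer_iff.mp hc (q : G) hq)))
  obtain ⟨χ, hχ, hne⟩ := exists_principal_over hM N' hθ'
  have hnorm := classInner_res_principal hM N' hidx P hsup hχ hχ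
  rw [classInner_irr_self χ.2] at hnorm
  have hirr := isIrrCharacter_of_classInner_eq_one (isCharacter_restrict χ.2.isCharacter N') hnorm
  have hres : (fun x : N' => (χ : U → ℂ) x) = (θ' : N' → ℂ) := by
    by_contra hd
    exact hne (classInner_irr_ne hirr θ'.2 hd)
  refine ⟨χ, χ.2, fun n => congrFun hres ⟨⟨n, hNU n.2⟩, n.2⟩, fun u => ?_⟩
  rw [cosetSum_const hM N' hidx (cosetRep_of_sup N' hidx P hsup) hχ u,
    cosetSum_one (f := (χ : U → ℂ)) (θ := (θ' : N' → ℂ)) (fun x => congrFun hres x)]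
  exact hs

theorem relIndex_sup_dvd (N R : Subgroup G) [N.Normal] : N.relIndex (N ⊔ R) ∣ Nat.card R := by
  rw [sup_comm, Subgroup.relIndex_sup_right]
  exact Subgroup.index_dvd_card _

theorem le_of_index_coprime (L : Subgroup G) [L.Normal] {x : G} (h : (orderOf x).Coprime L.index) : x ∈ L := by
  rw [← QuotientGroup.eq_one_iff, ← orderOf_eq_one_iff]
  exact Nat.eq_one_of_dvd_coprimes h (orderOf_map_dvd (QuotientGroup.mk' L) x)
    (by rw [Subgroup.index_eq_card]; exact orderOf_dvd_natCard _)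

/-- The main theorem. -/
theorem exists_extension (hp2 : p ≠ 2) (hM : IsPModular p M) (N : Subgroup G) [N.Normal] (θ : IrrCharacter N)
    (hB : θ ∈ principalBlock M N) (hinv : ∀ g, conjFn N (θ : N → ℂ) g = θ)
    (hdeg : ¬ p ∣ charDegree (θ : N → ℂ))
    (hrat : ∃ m : ℕ, ¬ p ∣ m ∧ ∀ n : N, (θ : N → ℂ) n ∈
      IntermediateField.adjoin ℚ ({Complex.exp (2 * Real.pi * Complex.I / m)} : Set ℂ))
    (Q : Sylow p N) {a : ℕ}
    (hidx : (N ⊔ Subgroup.centralizer (((Q : Subgroup N).map N.subtype : Subgroup G) : Set G)).index = p ^ a) :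
    ∃ χ : IrrCharacter G, χ ∈ principalBlock M G ∧
      (∃ n : ℕ, ¬ p ∣ n ∧ ∀ g : G, (χ : G → ℂ) g ∈
        IntermediateField.adjoin ℚ ({Complex.exp (2 * Real.pi * Complex.I / n)} : Set ℂ)) ∧
      ∀ n : N, (χ : G → ℂ) n = (θ : N → ℂ) n := by
  have hp : p.Prime := Fact.out
  set QG := (Q : Subgroup N).map N.subtype with hQG
  set L := N ⊔ Subgroup.centralizer (QG : Set G) with hL
  haveI hLn : L.Normal := by
    rw [← Subgroup.normalizer_eq_top_iff, ← top_le_iff, ← Sylow.normalizer_sup_eq_top Q]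
    refine sup_le ?_ (le_trans le_sup_left Subgroup.le_normalizer)
    have hL' : ∀ x ∈ Subgroup.normalizer (QG : Set G), ∀ y ∈ L, x * y * x⁻¹ ∈ L := by
      intro x hx y hy
      obtain ⟨n, hn, c, hc, rfl⟩ := Subgroup.mem_sup_of_normal_left.mp hy
      rw [show x * (n * c) * x⁻¹ = (x * n * x⁻¹) * (x * c * x⁻¹) by group]
      refine mul_mem (Subgroup.mem_sup_left ((inferInstance : N.Normal).conj_mem n hn x))
        (Subgroup.mem_sup_right (Subgroup.mem_centralizer_iff.mpr fun q hq => ?_))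
      have h1 : x⁻¹ * q * x ∈ QG := by
        have := (Subgroup.mem_normalizer_iff.mp (Subgroup.inv_mem _ hx) q).mp hq
        rwa [inv_inv] at this
      have h2 := Subgroup.mem_centralizer_iff.mp hc _ h1
      calc q * (x * c * x⁻¹) = x * ((x⁻¹ * q * x) * c) * x⁻¹ := by group
        _ = x * (c * (x⁻¹ * q * x)) * x⁻¹ := by rw [h2]
        _ = x * c * x⁻¹ * q := by group
    intro x hx
    refine Subgroup.mem_normalizer_iff.mpr fun y => ⟨hL' x hx y, fun h => ?_⟩
    have := hL' x⁻¹ (Subgroup.inv_mem _ hx) _ h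
    simpa [mul_assoc] using this
  have hregL : ∀ x : G, ¬ p ∣ orderOf x → x ∈ L := fun x hx => le_of_index_coprime L (by
    rw [hidx]; exact Nat.Coprime.pow_right _ ((hp.coprime_iff_not_dvd).mpr hx).symm)
  set s := regS p (θ : N → ℂ) with hsdef
  have hs0 : s ≠ 0 := sum_regular_ne_zero hM hB
  set b := (Nat.card G).factorization p with hb
  set m := ordCompl[p] (Nat.card G) with hm
  have hG0 : Nat.card G ≠ 0 := Nat.card_pos.ne'
  have hmb : p ^ b * m = Nat.card G := Nat.ordProj_mul_ordCompl_eq_self _ p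
  have hpm : ¬ p ∣ m := Nat.not_dvd_ordCompl hp hG0
  have hcop : m.Coprime (p ^ b) := Nat.Coprime.pow_right _ ((hp.coprime_iff_not_dvd).mpr hpm).symm
  obtain ⟨e, he1, he0⟩ := exists_piExp hcop
  have hexp : ∀ g : G, g ^ (m * p ^ b) = 1 := fun g => by rw [mul_comm, hmb, pow_card_eq_one']
  have hereg : ∀ g : G, ¬ p ∣ orderOf (g ^ e) := fun g hd =>
    hpm (hd.trans (orderOf_dvd_of_pow_eq_one (piExp_pow_left he0 (hexp g))))
  have hefix : ∀ g : G, ¬ p ∣ orderOf g → g ^ m = 1 := by
    intro g hg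
    refine orderOf_dvd_iff_pow_eq_one.mp ?_
    have h1 : orderOf g ∣ m * p ^ b := orderOf_dvd_of_pow_eq_one (hexp g)
    exact (Nat.Coprime.pow_right _ ((hp.coprime_iff_not_dvd).mpr hg).symm).dvd_of_dvd_mul_right h1
  obtain ⟨d, hd0, hd⟩ := θ.2.exists_degree_pos
  have hdθ : charDegree (θ : N → ℂ) = d := by
    have := coe_charDegree θ
    rw [hd] at this; exact_mod_cast this
  rw [hdθ] at hdeg
  -- determinant of `θ`
  obtain ⟨m₀, hm₀, hval⟩ := hrat
  have hθpow : ∀ k : ℕ, k.Coprime (Nat.card G) → k ≡ 1 [MOD m] → ∀ n : N, (θ : N → ℂ) (n ^ k) = (θ : N → ℂ) n :=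
    fun k hk hk1 n => pow_fixed_of_adjoin hp θ.2.isCharacter n hG0
      (Subtype.ext (by simp [pow_card_eq_one'])) hm₀ (hval n) hk hk1
  obtain ⟨k₂, hk₂a, hk₂b⟩ := Nat.chineseRemainder hcop.symm 2 1
  have hk₂ : k₂.Coprime (Nat.card G) := by
    rw [← hmb]
    refine Nat.Coprime.mul_right ?_ ?_
    · have h : (2 : ℕ).Coprime (p ^ b) := Nat.Coprime.pow_right _ ((Nat.coprime_primes Nat.prime_two hp).mpr hp2.symm)
      unfold Nat.Coprime at h ⊢
      rw [Nat.ModEq.gcd_eq hk₂a, h]
    · unfold Nat.Coprime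
      rw [Nat.ModEq.gcd_eq hk₂b, Nat.gcd_one_left]
  have hdet : ∀ n : N, detChar (θ : N → ℂ) n ^ m = 1 := by
    intro n
    obtain ⟨D₀, hD₀, -⟩ := exists_detHom θ.2.isCharacter
    rw [← hD₀, ← Units.val_pow_eq_pow_val, ← map_pow]
    have h1 : detChar (θ : N → ℂ) (n ^ m) ^ k₂ = detChar (θ : N → ℂ) (n ^ m) := by
      rw [← SchurBound.detChar_comp_pow θ.2.isCharacter (hk₂.coprime_dvd_right N.card_subgroup_dvd_card).symm]
      congr 1
      exact funext (hθpow k₂ hk₂ hk₂b)
    have h2 : D₀ (n ^ m) ^ k₂ = D₀ (n ^ m) := Units.ext (by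
      rw [Units.val_pow_eq_pow_val, hD₀]; exact h1)
    have h3 : D₀ (n ^ m) ^ (p ^ b) = 1 := by
      rw [← map_pow, ← pow_mul, mul_comm, hmb]
      rw [show n ^ Nat.card G = 1 from Subtype.ext (by simp [pow_card_eq_one']), map_one]
    have h4 : D₀ (n ^ m) ^ k₂ = D₀ (n ^ m) ^ 2 :=
      pow_eq_pow_iff_modEq.mpr (hk₂a.of_dvd (orderOf_dvd_of_pow_eq_one h3))
    rw [h4, pow_two, mul_eq_left] at h2
    rw [h2, Units.val_one]
  -- some extension
  obtain ⟨χ₀, hχ₀, hres₀⟩ := exists_extension_of_local θ.2 hinv (by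
    intro q hq
    haveI := Fact.mk hq
    by_cases hqp : q = p
    · subst hqp
      refine ⟨N, le_rfl, θ, Or.inr ⟨d, m, 1, hd, fun h => ?_, fun n => by simp [hdet n]⟩⟩
      rcases hq.dvd_mul.mp h with h | h
      · exact hdeg h
      · exact hpm h
    · obtain R : Sylow q G := default
      have hRL : (R : Subgroup G) ≤ L := fun x hx => hregL x fun hd' => by
        obtain ⟨j, hj⟩ := R.2.exists_orderOf_eq_pow ⟨x, hx⟩
        rw [← Subgroup.orderOf_coe] at hj
        exact hqp ((Nat.prime_dvd_prime_iff_eq hp hq).mp (hp.dvd_of_dvd_pow (hj ▸ hd'))).symm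
      obtain ⟨η, hη, hηres, -⟩ := exists_local_extension hM N θ hB hinv Q (U := N ⊔ (R : Subgroup G)) le_sup_left
        (fun hd' => by
          obtain ⟨j, hj⟩ := IsPGroup.iff_card.mp R.2
          have h1 : p ∣ q ^ j := hj ▸ hd'.trans (relIndex_sup_dvd N (R : Subgroup G))
          exact hqp ((Nat.prime_dvd_prime_iff_eq hp hq).mp (hp.dvd_of_dvd_pow h1)).symm)
        (sup_le le_sup_left hRL)
      exact ⟨_, le_sup_left, η, Or.inl ⟨((hq.coprime_iff_not_dvd).mpr fun h => R.not_dvd_index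
        (h.trans (Subgroup.index_dvd_of_le le_sup_right))).symm, hη, hηres⟩⟩)
  set c : G → ℂ := cosetSum p N χ₀ with hc
  -- on subgroups of index prime to `p` over `N` the coset sums are multiplicative
  have hU : ∀ (U : Subgroup G) (hNU : N ≤ U), ¬ p ∣ N.relIndex U → U ≤ L →
      ∃ μ : U →* ℂˣ, ∀ u : U, c u = (μ u : ℂ) * s := by
    intro U hNU hUi hUL
    obtain ⟨η, hη, hηres, hηs⟩ := exists_local_extension hM N θ hB hinv Q hNU hUi hUL
    have hχU : IsCharacter U fun u : U => χ₀ u := isCharacter_restrict hχ₀.isCharacter U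
    let j : N →* U := Subgroup.inclusion hNU
    have hχUi : IsIrrCharacter U fun u : U => χ₀ u :=
      isIrrCharacter_of_comp j hχU (by
        rw [show (fun n : N => χ₀ (j n : U)) = (θ : N → ℂ) from funext hres₀]
        exact θ.2)
    obtain ⟨μ, hμN, hμ⟩ := exists_linear_of_extensions (M := N.subgroupOf U) hη hχUi
      (fun x => by
        show χ₀ ((x : U) : G) = η x
        rw [show χ₀ ((x : U) : G) = (θ : N → ℂ) ⟨_, x.2⟩ from hres₀ ⟨_, x.2⟩, ← hηres ⟨_, x.2⟩]
        rfl)
      (by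
        have := isIrrCharacter_mulEquiv θ.2 (Subgroup.subgroupOfEquivOfLe hNU)
        convert this using 1
        funext x
        exact hηres ⟨_, x.2⟩)
    refine ⟨μ, fun u => ?_⟩
    rw [hc, ← cosetSum_subgroupOf hNU, hsdef, ← hηs u, cosetSum, cosetSum, Finset.mul_sum]
    refine Finset.sum_congr rfl fun h _ => ?_
    by_cases hh : u⁻¹ * h ∈ N.subgroupOf U ∧ ¬ p ∣ orderOf h
    · rw [if_pos hh, if_pos hh, ← hμ h]
      have : μ h = μ u := by
        rw [show h = u * (u⁻¹ * h) by group, map_mul, hμN _ hh.1, mul_one]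
      rw [this]
    · rw [if_neg hh, if_neg hh, mul_zero]
  -- the linear character
  set F : G → ℂ := fun g => c (g ^ e) / s with hF
  have hFcl : IsClassFunction G F := fun g x => by
    simp only [hF, hc]
    rw [conj_pow, cosetSum_conj N hχ₀.isClassFunction]
  have hFN : ∀ (g : G) (n : G), n ∈ N → F (g * n) = F g := by
    intro g n hn
    simp only [hF, hc]
    rw [cosetSum_congr N χ₀ (g := g ^ e) (g' := (g * n) ^ e)]
    rw [← QuotientGroup.eq, QuotientGroup.mk_pow, QuotientGroup.mk_pow, QuotientGroup.mk_mul,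
      (QuotientGroup.eq_one_iff n).mpr hn, mul_one]
  have hFelem : ∀ (E : Subgroup G) (q : ℕ), q.Prime → IsElementary q E →
      ∃ lam : E →* ℂˣ, ∀ x : E, F x = (lam x : ℂ) := by
    intro E q hq hE
    obtain ⟨f, hf⟩ := exists_piHom hcop he1 he0 hq hE (fun g : E => Subtype.ext (by simpa using hexp (g : G)))
    set R : Subgroup G := f.range.map E.subtype with hR
    have hRreg : ∀ x ∈ R, ¬ p ∣ orderOf x := by
      rintro x ⟨y, ⟨z, rfl⟩, rfl⟩
      rw [show E.subtype (f z) = (z : G) ^ e by rw [hf]; rfl]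
      exact hereg _
    have hRcard : ¬ p ∣ Nat.card R := fun hd' => by
      obtain ⟨x, hx⟩ := exists_prime_orderOf_dvd_card' p hd'
      exact hRreg (x : G) x.2 (by rw [Subgroup.orderOf_coe, hx])
    obtain ⟨μ, hμ⟩ := hU (N ⊔ R) le_sup_left (fun hd' => hRcard (hd'.trans (relIndex_sup_dvd N R)))
      (sup_le le_sup_left fun x hx => hregL x (hRreg x hx))
    let i : E →* ↥(N ⊔ R) := (E.subtype.comp f).codRestrict _ fun x =>
      Subgroup.mem_sup_right ⟨f x, ⟨x, rfl⟩, rfl⟩
    refine ⟨μ.comp i, fun x => ?_⟩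
    show c ((x : G) ^ e) / s = _
    have := hμ (i x)
    rw [show ((i x : ↥(N ⊔ R)) : G) = (x : G) ^ e by show E.subtype (f x) = _; rw [hf]; rfl] at this
    rw [this, mul_div_assoc, div_self hs0, mul_one]
    rfl
  have hFgen : IsGeneralizedCharacter G F := isGeneralized_of_elementary hFcl fun E q hq hE => by
    obtain ⟨lam, hlam⟩ := hFelem E q hq hE
    rw [show (fun x : E => F x) = fun x : E => (lam x : ℂ) from funext hlam]
    exact isGeneralized_of_isCharacter (isIrrCharacter_linear lam).isCharacter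
  have hF1 : F 1 = 1 := by
    simp only [hF, hc, one_pow]
    rw [cosetSum_one hres₀, ← hsdef, div_self hs0]
  have hFunit : ∀ g : G, F g * conj (F g) = 1 := by
    intro g
    have h1 : IsElementary p (Subgroup.zpowers (g ^ e)) := by
      refine ⟨⟨g ^ e, Subgroup.mem_zpowers _⟩, ?_, ?_, 0, ?_⟩
      · rw [Subgroup.mem_center_iff]
        intro y
        obtain ⟨i, hi⟩ := Subgroup.mem_zpowers_iff.mp y.2
        exact Subtype.ext (by rw [Subgroup.coe_mul, Subgroup.coe_mul, ← hi]; exact ((Commute.refl _).zpow_left i).eq)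
      · rw [← Subgroup.orderOf_coe]
        exact ((hp.coprime_iff_not_dvd).mpr (hereg g)).symm
      · rw [pow_zero, Subgroup.index_eq_one]
        exact top_unique fun y _ => by
          obtain ⟨i, hi⟩ := Subgroup.mem_zpowers_iff.mp y.2
          exact Subgroup.mem_zpowers_iff.mpr ⟨i, Subtype.ext (by simpa using hi)⟩
    obtain ⟨lam, hlam⟩ := hFelem _ p hp h1
    have h2 : F g = F (g ^ e) := by
      simp only [hF]
      rw [pow_piExp_of_left he1 (piExp_pow_left he0 (hexp g))]
    rw [h2, hlam ⟨_, Subgroup.mem_zpowers _⟩, Complex.mul_conj', Complex.norm_eq_one_of_pow_eq_one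
      (n := Nat.card (Subgroup.zpowers (g ^ e)))
      (by rw [← Units.val_pow_eq_pow_val, ← map_pow, pow_card_eq_one', map_one, Units.val_one])
      Nat.card_pos.ne']
    simp
  have hFirr : IsIrrCharacter G F := by
    refine (isGeneralized_norm_one hFgen ?_).resolve_right fun h => ?_
    · simp only [classInner, hFunit]
      rw [Finset.sum_const, Finset.card_univ, nsmul_eq_mul, mul_one, ← Nat.card_eq_fintype_card,
        inv_mul_cancel₀ (Nat.cast_ne_zero.mpr hG0)]
    · obtain ⟨k, hk0, hk⟩ := h.exists_degree_pos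
      rw [Pi.neg_apply, hF1] at hk
      have h1 : (((k + 1 : ℕ)) : ℂ) = 0 := by push_cast; rw [← hk]; ring
      exact Nat.succ_ne_zero k (by exact_mod_cast h1)
  obtain ⟨lam, hlamF⟩ := exists_hom_of_degree_one hFirr.isCharacter hF1
  have hlam : ∀ g : G, (lam g : ℂ) = F g := fun g => (congrFun hlamF g).symm
  have hlamN : ∀ n ∈ N, lam n = 1 := fun n hn => Units.ext (by
    rw [hlam, show n = 1 * n by rw [one_mul], hFN 1 n hn, hF1, Units.val_one])
  -- the twisted extension
  set χ₁ : G → ℂ := fun g => ((lam⁻¹) g : ℂ) * χ₀ g with hχ₁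
  have hχ₁i : IsIrrCharacter G χ₁ := isIrrCharacter_linear_mul _ hχ₀
  have hres₁ : ∀ n : N, χ₁ n = (θ : N → ℂ) n := fun n => by
    simp [hχ₁, hlamN _ n.2, hres₀]
  have hd1 : χ₁ 1 = d := by rw [← hd, ← hres₁ 1]; rfl
  obtain ⟨D, hD, -⟩ := exists_detHom hχ₁i.isCharacter
  have hdN : ∀ n : N, detChar χ₁ n = detChar (θ : N → ℂ) n := fun n => by
    refine (detChar_comp hχ₁i.isCharacter N.subtype n).symm.trans ?_
    congr 1
    funext y
    exact hres₁ y
  have hDN : ∀ n ∈ N, D n ^ m = 1 := fun n hn => Units.ext (by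
    rw [Units.val_pow_eq_pow_val, hD, hdN ⟨n, hn⟩, hdet, Units.val_one])
  have hcopd : (d * m).Coprime (p ^ b) := Nat.Coprime.pow_right _
    (Nat.Coprime.mul_left ((hp.coprime_iff_not_dvd).mpr hdeg).symm ((hp.coprime_iff_not_dvd).mpr hpm).symm)
  obtain ⟨t, ht⟩ : ∃ t : ℕ, p ^ b ∣ 1 + t * (d * m) := by
    obtain ⟨u, hu⟩ := (ZMod.isUnit_iff_coprime (d * m) (p ^ b)).mpr hcopd
    haveI : NeZero (p ^ b) := ⟨pow_ne_zero _ hp.ne_zero⟩
    refine ⟨(-(↑u⁻¹ : ZMod (p ^ b))).val, ?_⟩
    rw [← ZMod.natCast_eq_zero_iff]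
    rw [Nat.cast_add, Nat.cast_mul, ZMod.natCast_zmod_val, Nat.cast_one, ← hu, neg_mul,
      Units.inv_mul, add_neg_cancel]
  set ν : G →* ℂˣ := D ^ (m * t) with hν
  have hνN : ∀ n ∈ N, ν n = 1 := fun n hn => by
    rw [hν, MonoidHom.pow_apply, pow_mul, hDN n hn, one_pow]
  have hνreg : ∀ g : G, ¬ p ∣ orderOf g → ν g = 1 := fun g hg => by
    rw [hν, MonoidHom.pow_apply, pow_mul, ← map_pow, hefix g hg, map_one, one_pow]
  set η : G → ℂ := fun g => (ν g : ℂ) * χ₁ g with hη
  have hηi : IsIrrCharacter G η := isIrrCharacter_linear_mul _ hχ₁i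
  have hηres : ∀ n : N, η n = (θ : N → ℂ) n := fun n => by simp [hη, hνN _ n.2, hres₁]
  have hηd : η 1 = d := by simp [hη, hd1]
  have hdetη : ∀ g, detChar η g ^ m = 1 := by
    intro g
    rw [hη, detChar_linear_mul hχ₁i.isCharacter hd1, ← hD, ← Units.val_pow_eq_pow_val,
      ← Units.val_mul, ← Units.val_pow_eq_pow_val, ← Units.val_one]
    congr 1
    rw [hν, MonoidHom.pow_apply, ← pow_mul, ← pow_succ, ← pow_mul, ← map_pow]
    obtain ⟨j, hj⟩ : Nat.card G ∣ (m * t * d + 1) * m := by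
      obtain ⟨j, hj⟩ := ht
      exact ⟨j, by rw [← hmb]; linear_combination m * hj⟩
    rw [hj, pow_mul, pow_card_eq_one', one_pow, map_one]
  -- coset sums of the normalized extension
  have hηc : ∀ g : G, ¬ p ∣ orderOf g → cosetSum p N η g = s := by
    intro g hg
    obtain ⟨μ, hμ⟩ := hU (N ⊔ Subgroup.zpowers g) le_sup_left
      (fun hd' => hg (Nat.card_zpowers g ▸ hd'.trans (relIndex_sup_dvd N _)))
      (sup_le le_sup_left ((Subgroup.zpowers_le).mpr (hregL g hg)))
    have hcg : c g = (μ ⟨g, Subgroup.mem_sup_right (Subgroup.mem_zpowers g)⟩ : ℂ) * s := hμ ⟨g, _⟩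
    have hl : (lam g : ℂ) = c g / s := by
      rw [hlam, hF]
      show c (g ^ e) / s = _
      rw [pow_piExp_of_left he1 (hefix g hg)]
    have hfun : ∀ h : G, (if g⁻¹ * h ∈ N ∧ ¬ p ∣ orderOf h then η h else 0)
        = ((lam g)⁻¹ : ℂˣ) * (if g⁻¹ * h ∈ N ∧ ¬ p ∣ orderOf h then χ₀ h else 0) := by
      intro h
      by_cases hh : g⁻¹ * h ∈ N ∧ ¬ p ∣ orderOf h
      · rw [if_pos hh, if_pos hh]
        have : lam h = lam g := by rw [show h = g * (g⁻¹ * h) by group, map_mul, hlamN _ hh.1, mul_one]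
        simp [hη, hχ₁, hνreg h hh.2, this]
      · rw [if_neg hh, if_neg hh, mul_zero]
    rw [cosetSum, Finset.sum_congr rfl fun h _ => hfun h, ← Finset.mul_sum, ← cosetSum, ← hc]
    rw [Units.val_inv_eq_inv_val, hl, inv_div, div_mul_cancel₀]
    rw [hcg]
    exact mul_ne_zero (Units.ne_zero _) hs0
  refine ⟨⟨η, hηi⟩, mem_principal_of_sum_ne hM ?_, ⟨m, hpm, fun g => ?_⟩, hηres⟩
  · -- sum over all regular elements
    show ∑ x, (if p ∣ orderOf x then 0 else η x) ≠ 0
    have key : (Nat.card N : ℂ) * ∑ x, (if p ∣ orderOf x then 0 else η x)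
        = ∑ k : G, cosetSum p N η k := by
      have h2 := sum_coset_double N ⊤ le_top (fun h : G => if p ∣ orderOf h then 0 else η h)
      simp only [Subgroup.mem_top, if_true] at h2
      rw [← h2]
      refine Finset.sum_congr rfl fun k _ => Finset.sum_congr rfl fun h _ => ?_
      split_ifs <;> first | rfl | tauto
    intro h0
    rw [h0, mul_zero] at key
    have hval : ∀ k : G, cosetSum p N η k = if ∃ g, ¬ p ∣ orderOf g ∧ k⁻¹ * g ∈ N then s else 0 := by
      intro k
      split_ifs with hk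
      · obtain ⟨g, hg, hkg⟩ := hk
        rw [← hηc g hg, cosetSum_congr N η hkg]
      · refine Finset.sum_eq_zero fun h _ => if_neg fun hh => hk ⟨h, hh.2, hh.1⟩
    simp only [hval] at key
    rw [← Finset.sum_filter, Finset.sum_const, nsmul_eq_mul, eq_comm, mul_eq_zero, or_iff_left hs0,
      Nat.cast_eq_zero, Finset.card_eq_zero] at key
    have h1 : (1 : G) ∈ (Finset.univ.filter fun k : G => ∃ g, ¬ p ∣ orderOf g ∧ k⁻¹ * g ∈ N) :=
      Finset.mem_filter.mpr ⟨Finset.mem_univ _, 1, by simp [hp.ne_one], by simp⟩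
    rw [key] at h1
    simp at h1
  · show η g ∈ _
    refine mem_adjoin_of_fixed hηi.isCharacter g (Nat.ordCompl_dvd _ _) fun k hk hk1 => ?_
    obtain ⟨μ, hμN, hμ⟩ := exists_linear_of_extensions (M := N) hηi (isIrrCharacter_comp_pow hηi hk.symm)
      (fun n => by
        show η ((n : G) ^ k) = η n
        rw [← Subgroup.coe_pow, hηres, hηres, hθpow k hk hk1])
      (by rw [show (fun n : N => η n) = (θ : N → ℂ) from funext hηres]; exact θ.2)
    have hμreg : ∀ x : G, ¬ p ∣ orderOf x → μ x = 1 := by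
      intro x hx
      have hfun : ∀ h : G, (if x⁻¹ * h ∈ N ∧ ¬ p ∣ orderOf h then η h else 0)
          = (μ x : ℂ) * (if x⁻¹ * h ∈ N ∧ ¬ p ∣ orderOf h then η h else 0) := by
        intro h
        by_cases hh : x⁻¹ * h ∈ N ∧ ¬ p ∣ orderOf h
        · rw [if_pos hh]
          have : μ h = μ x := by rw [show h = x * (x⁻¹ * h) by group, map_mul, hμN _ hh.1, mul_one]
          rw [← this, hμ h, show h ^ k = h from pow_piExp_of_left hk1 (hefix h hh.2)]
        · rw [if_neg hh, mul_zero]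
      have := hηc x hx
      rw [cosetSum, Finset.sum_congr rfl fun h _ => hfun h, ← Finset.mul_sum, ← cosetSum, hηc x hx] at this
      exact Units.ext (by rw [Units.val_one]; exact (mul_eq_right₀ hs0).mp this)
    have hdμ : μ g ^ d = 1 := by
      have hdet1 : detChar (fun x => η (x ^ k)) g = detChar η g ^ k := SchurBound.detChar_comp_pow hηi.isCharacter hk.symm g
      have hfun : (fun x => η (x ^ k)) = fun x => (μ x : ℂ) * η x := funext fun x => (hμ x).symm
      rw [hfun, detChar_linear_mul hηi.isCharacter hηd] at hdet1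
      have h1 : detChar η g ^ k = detChar η g := by
        have ho := orderOf_dvd_of_pow_eq_one (hdetη g)
        rw [← pow_mod_orderOf, ((show k ≡ 1 [MOD m] from hk1).of_dvd ho : k % orderOf (detChar η g) = 1 % orderOf (detChar η g)),
          pow_mod_orderOf, pow_one]
      rw [h1] at hdet1
      have h0 : detChar η g ≠ 0 := fun h => by
        have := hdetη g
        rw [h, zero_pow (fun hm0 => hpm (by rw [hm0]; exact dvd_zero p))] at this
        exact zero_ne_one this
      exact Units.ext (by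
        rw [Units.val_pow_eq_pow_val, Units.val_one]; exact (mul_eq_right₀ h0).mp hdet1)
    have hμp : μ g ^ (p ^ b) = 1 := by
      rw [← map_pow]
      refine hμreg _ fun hd' => hpm (hd'.trans (orderOf_dvd_of_pow_eq_one ?_))
      rw [← pow_mul, hmb, pow_card_eq_one']
    have h4 := Nat.dvd_gcd (orderOf_dvd_of_pow_eq_one hdμ) (orderOf_dvd_of_pow_eq_one hμp)
    rw [(Nat.Coprime.pow_right b ((hp.coprime_iff_not_dvd).mpr hdeg).symm).gcd_eq_one] at h4
    rw [← hμ g, orderOf_eq_one_iff.mp (Nat.dvd_one.mp h4), Units.val_one, one_mul]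

end Cfsg.Lib.Blocks.PExt
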