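import Cfsg.Agent.Lib.Blocks.PrincipalRestriction
import Cfsg.Agent.Lib.Blocks.Covering
import Cfsg.Agent.Lib.Characters.Galois
import Cfsg.Agent.Lib.Characters.PowerConj

/-!
# Sums over the principal block
-/

set_option autoImplicit false
set_option linter.style.longLine false

namespace Cfsg.Lib.Blocks

open Finset
open scoped ComplexConjugate Classical
open Cfsg.Lib.Characters

universe u

variable {G : Type u} [Group G] [Fintype G] {M : Ideal Cfsg.AlgInt} [M.IsPrime]
  {p : ℕ} [Fact p.Prime]

/-- The indicator function of the regular elements. -/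
noncomputable def regInd (p : ℕ) (G : Type*) [Group G] : G → ℂ := fun g => if p ∣ orderOf g then 0 else 1

theorem isClassFunction_regInd : IsClassFunction G (regInd p G) :=
  isClassFunction_iff_isConj.mpr fun a b hab => by
    obtain ⟨c, rfl⟩ := isConj_iff.mp hab
    simp only [regInd]
    rw [show orderOf (c * a * c⁻¹) = orderOf a from
      orderOf_injective (MulAut.conj c).toMonoidHom (MulAut.conj c).injective a]

theorem conj_regInd (g : G) : conj (regInd p G g) = regInd p G g := by
  by_cases h : p ∣ orderOf g <;> simp [regInd, h]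

/-- An irreducible character of a normal subgroup in its principal block lies under a principal character. -/
theorem exists_principal_over (hM : IsPModular p M) (H : Subgroup G) [H.Normal] [Fintype H]
    {θ : IrrCharacter H} (hθ : θ ∈ principalBlock M H) :
    ∃ χ ∈ principalBlock M G, classInner (fun n : H => (χ : G → ℂ) n) (θ : H → ℂ) ≠ 0 := by
  by_contra hh
  push Not at hh
  obtain ⟨m, hm⟩ := exists_decomposition (isCharacter_indFun H θ.2.isCharacter)
  have hzero : classInner (indFun H (θ : H → ℂ)) (regInd p G) = 0 := by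
    rw [hm, classInner_sum_left]
    refine Finset.sum_eq_zero fun χ _ => ?_
    rw [classInner_smul_left]
    by_cases hχ : χ ∈ principalBlock M G
    · have hmχ : (m χ : ℂ) = 0 := by
        have h1 : classInner (indFun H (θ : H → ℂ)) (χ : G → ℂ) = m χ := by
          rw [hm]; exact classInner_sum_irr (fun φ => (m φ : ℂ)) χ
        rw [← h1, classInner_indFun H _ χ.2.isClassFunction, ← conj_classInner, hh χ hχ, map_zero]
      rw [hmχ, zero_mul]
    · refine mul_eq_zero_of_right _ ?_
      rw [classInner, mul_eq_zero]
      right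
      by_contra hne
      apply hχ
      refine mem_principal_of_sum_ne hM ?_
      intro h0
      apply hne
      rw [← h0]
      refine Finset.sum_congr rfl fun g _ => ?_
      by_cases hg : p ∣ orderOf g <;> simp [regInd, hg]
  rw [classInner_indFun H _ isClassFunction_regInd, classInner, mul_eq_zero, inv_eq_zero,
    or_iff_right (Nat.cast_ne_zero.mpr Nat.card_pos.ne')] at hzero
  apply sum_regular_ne_zero hM hθ
  refine Eq.trans (Finset.sum_congr rfl fun h _ => ?_) hzero
  rw [conj_regInd]
  by_cases hh' : p ∣ orderOf h <;> simp [regInd, hh', Subgroup.orderOf_coe]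

/-- Constituents of principal characters are principal. -/
theorem constituent_mem_principal (H : Subgroup G) [H.Normal] [Fintype H]
    {χ : IrrCharacter G} (hχ : χ ∈ principalBlock M G) {ψ : IrrCharacter H}
    (hψ : classInner (fun n : H => (χ : G → ℂ) n) (ψ : H → ℂ) ≠ 0) : ψ ∈ principalBlock M H := by
  have h1 : classInner (fun n : H => (trivChar G : G → ℂ) n) (trivChar H : H → ℂ) ≠ 0 := by
    have e : (fun n : H => (trivChar G : G → ℂ) n) = (trivChar H : H → ℂ) := rfl
    rw [e, classInner_irr_self (trivChar H).2]
    exact one_ne_zero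
  have hb : IsPBlock M (principalBlock M H) := ⟨trivChar H, principalBlock_eq⟩
  have hs : SameBlock M (trivChar G : G → ℂ) (χ : G → ℂ) := hχ
  have ht : trivChar H ∈ principalBlock M H := trivChar_mem_principal
  obtain ⟨g, hg⟩ := covered_mem_cjUnion hb hs ht h1 hψ
  have h2 : SameBlock M (trivChar H : H → ℂ) (cjIrr ψ g : H → ℂ) := hg
  have h3 := sameBlock_cjIrr h2 g⁻¹
  rw [cjIrr_cjIrr, mul_inv_cancel, cjIrr_one] at h3
  have h4 : cjIrr (trivChar H) g⁻¹ = trivChar H := Subtype.ext (by rw [coe_cjIrr]; rfl)
  rw [h4] at h3
  exact h3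

/-- Galois conjugates of principal characters are principal. -/
theorem comp_pow_mem_principal (hM : IsPModular p M) {k : ℕ} (hk : (Nat.card G).Coprime k)
    {χ : IrrCharacter G} (hχ : χ ∈ principalBlock M G) :
    (⟨_, isIrrCharacter_comp_pow χ.2 hk⟩ : IrrCharacter G) ∈ principalBlock M G := by
  refine mem_principal_of_sum_ne hM ?_
  have h := sum_regular_ne_zero hM hχ
  have e : ∑ x : G, (if p ∣ orderOf x then 0 else (χ : G → ℂ) (x ^ k)) =
      ∑ x : G, (if p ∣ orderOf x then 0 else (χ : G → ℂ) x) := by
    refine Fintype.sum_equiv (powCoprime hk) _ _ fun x => ?_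
    have ho : orderOf (x ^ k) = orderOf x :=
      Nat.Coprime.orderOf_pow (Nat.Coprime.coprime_dvd_left (orderOf_dvd_natCard x) hk)
    simp only [powCoprime_apply, ho]
  rwa [← e] at h

end Cfsg.Lib.Blocks
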