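import Cfsg.Agent.Lib.Blocks.HeightBound
import Cfsg.Agent.Lib.Blocks.Rank

/-!
# Major subsections of rank at most two

The integral matrix of a block of regular rank two is a reduced binary form, and every diagonal
contribution of such a major subsection has mean at least two.
-/

namespace Cfsg.Lib.Blocks

open Cfsg.Lib.Characters Finset
open scoped ComplexConjugate Classical

set_option linter.unusedSectionVars false
set_option linter.style.haveILetI false
set_option linter.style.longLine false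

set_option maxHeartbeats 1000000 in
/-- An integral matrix of rank two with `K² = q K` is an integral binary form in two integral
linear forms, reduced and with determinant detected by the `2 × 2` minors. -/
theorem exists_binary_form {β : Type*} [Fintype β] (K : β → β → ℤ) (hsymm : ∀ a b, K a b = K b a)
    {q : ℤ} (hq : 0 < q) (hKK : ∀ a b, ∑ c, K a c * K b c = q * K a b) (htr : ∑ a, K a a = 2 * q)
    {p : ℤ} (hminor : ∀ a b c d, p ∣ K a c * K b d - K a d * K b c) :
    ∃ (α β₀ γ : ℤ) (l w : β → ℤ), 1 ≤ α ∧ 2 * |β₀| ≤ α ∧ α ≤ γ ∧ p ∣ α * γ - β₀ ^ 2 ∧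
      (∀ a b, K a b = α * (l a * l b) + β₀ * (l a * w b + w a * l b) + γ * (w a * w b)) ∧
      ∃ v : β → ℤ, ∀ a, ∑ b, K a b * v b = α * l a + β₀ * w a ∧
        ∑ a, (∑ b, K a b * v b) * (∑ b, K a b * v b) = q * α := by
  set K' : (β → ℤ) → β → ℤ := fun v a => ∑ b, K a b * v b with hK'
  set Q : (β → ℤ) → (β → ℤ) → ℤ := fun v y => ∑ a, v a * K' y a with hQ
  have hQsymm : ∀ v y, Q v y = Q y v := by
    intro v y
    simp only [hQ, hK', Finset.mul_sum]
    rw [Finset.sum_comm]
    exact Finset.sum_congr rfl fun a _ => Finset.sum_congr rfl fun b _ => by rw [hsymm b a]; ring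
  have hKK' : ∀ y a, ∑ c, K a c * K' y c = q * K' y a := by
    intro y a
    simp only [hK', Finset.mul_sum]
    rw [Finset.sum_comm]
    refine Finset.sum_congr rfl fun b _ => ?_
    rw [← mul_assoc, ← hKK, Finset.sum_mul]
    exact Finset.sum_congr rfl fun c _ => by rw [hsymm c b]; ring
  have hinner : ∀ v y, ∑ a, K' v a * K' y a = q * Q v y := by
    intro v y
    calc ∑ a, K' v a * K' y a = ∑ a, ∑ b, v b * (K b a * K' y a) := by
          refine Finset.sum_congr rfl fun a _ => ?_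
          rw [hK', Finset.sum_mul]
          exact Finset.sum_congr rfl fun b _ => by rw [hsymm a b]; ring
      _ = ∑ b, v b * (q * K' y b) := by
          rw [Finset.sum_comm]
          exact Finset.sum_congr rfl fun b _ => by rw [← Finset.mul_sum, hKK']
      _ = _ := by
          rw [hQ, Finset.mul_sum]
          exact Finset.sum_congr rfl fun b _ => by ring
  have hnonneg : ∀ v, 0 ≤ Q v v := fun v => by
    have h := hinner v v
    have h0 : 0 ≤ q * Q v v := h ▸ Finset.sum_nonneg fun a _ => mul_self_nonneg (K' v a)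
    nlinarith
  have hzero : ∀ v, Q v v = 0 → ∀ a, K' v a = 0 := fun v hv a => by
    have h := hinner v v
    rw [hv, mul_zero, Finset.sum_eq_zero_iff_of_nonneg fun a _ => mul_self_nonneg _] at h
    exact mul_self_eq_zero.mp (h a (Finset.mem_univ a))
  have hex : ∃ n : ℕ, 0 < n ∧ ∃ v, Q v v = (n : ℤ) := by
    obtain ⟨a, -, ha⟩ := Finset.exists_ne_zero_of_sum_ne_zero (htr.symm ▸ (by positivity) : (∑ a, K a a) ≠ 0)
    have h1 : Q (Pi.single a 1) (Pi.single a 1) = K a a := by
      simp [hQ, hK', Pi.single_apply]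
    have h2 := hnonneg (Pi.single a 1)
    rw [h1] at h2
    refine ⟨(K a a).toNat, ?_, Pi.single a 1, by rw [h1, Int.toNat_of_nonneg h2]⟩
    omega
  obtain ⟨hn0, v, hv⟩ := Nat.find_spec hex
  set α : ℤ := Q v v with hα
  have hα0 : 1 ≤ α := by rw [hv]; exact_mod_cast hn0
  have hmin : ∀ z, Q z z < α → ∀ a, K' z a = 0 := by
    intro z hz
    refine hzero z (le_antisymm (not_lt.mp fun hpos => ?_) (hnonneg z))
    have h := Nat.find_min' hex ⟨(show 0 < (Q z z).toNat by omega), z, (Int.toNat_of_nonneg (hnonneg z)).symm⟩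
    omega
  set u : β → ℤ := K' v with hu
  set N : β → β → ℤ := fun a b => α * K a b - u a * u b with hN
  have hu2 : ∑ a, u a * u a = q * α := hinner v v
  have hNN : ∀ a b, ∑ c, N a c * N b c = α * q * N a b := by
    intro a b
    calc ∑ c, N a c * N b c
        = α * α * ∑ c, K a c * K b c - α * u b * ∑ c, K a c * u c - α * u a * ∑ c, K b c * u c
          + u a * u b * ∑ c, u c * u c := by
          simp only [hN, Finset.mul_sum, ← Finset.sum_sub_distrib, ← Finset.sum_add_distrib]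
          exact Finset.sum_congr rfl fun c _ => by ring
      _ = _ := by rw [hKK, hu, hKK', hKK', ← hu, hu2, hN]; ring
  have hNsymm : ∀ a b, N a b = N b a := fun a b => by simp only [hN, hsymm a b]; ring
  have hNtr : ∑ a, N a a = α * q := by
    simp only [hN]
    rw [Finset.sum_sub_distrib, ← Finset.mul_sum, htr, hu2]
    ring
  have hrank : ∀ a b c d, N a b * N c d = N a d * N c b := by
    have hsq : ∑ a, ∑ b, N a b * N a b = α * q * (α * q) := by
      rw [Finset.sum_congr rfl fun a _ => hNN a a, ← Finset.mul_sum, hNtr]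
    have hfour : ∑ a, ∑ b, ∑ c, ∑ d, (N a b * N c d) * (N a d * N c b)
        = (α * q) * (α * q) * (α * q * (α * q)) := by
      calc ∑ a, ∑ b, ∑ c, ∑ d, (N a b * N c d) * (N a d * N c b)
          = ∑ a, ∑ c, (∑ b, N a b * N c b) * (∑ d, N c d * N a d) := by
            refine Finset.sum_congr rfl fun a _ => ?_
            rw [Finset.sum_comm]
            refine Finset.sum_congr rfl fun c _ => ?_
            rw [Finset.sum_mul_sum]
            exact Finset.sum_congr rfl fun b _ => Finset.sum_congr rfl fun d _ => by ring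
        _ = ∑ a, ∑ c, (α * q) * (α * q) * (N a c * N a c) := by
            refine Finset.sum_congr rfl fun a _ => Finset.sum_congr rfl fun c _ => ?_
            rw [hNN, hNN, hNsymm c a]; ring
        _ = _ := by simp only [← Finset.mul_sum, hsq]
    have htot : ∑ a, ∑ b, ∑ c, ∑ d, (N a b * N c d - N a d * N c b) ^ 2 = 0 := by
      have h1 : ∑ a, ∑ b, ∑ c, ∑ d, (N a b * N c d) * (N a b * N c d)
          = (α * q * (α * q)) * (α * q * (α * q)) := by
        calc ∑ a, ∑ b, ∑ c, ∑ d, (N a b * N c d) * (N a b * N c d)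
            = ∑ a, ∑ b, ∑ c, ∑ d, (N a b * N a b) * (N c d * N c d) :=
              Finset.sum_congr rfl fun a _ => Finset.sum_congr rfl fun b _ =>
                Finset.sum_congr rfl fun c _ => Finset.sum_congr rfl fun d _ => by ring
          _ = _ := by simp only [← Finset.mul_sum, ← Finset.sum_mul, hsq]
      have h2 : ∑ a, ∑ b, ∑ c, ∑ d, (N a d * N c b) * (N a d * N c b)
          = (α * q * (α * q)) * (α * q * (α * q)) := by
        rw [← h1]
        refine Finset.sum_congr rfl fun a _ => ?_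
        rw [Finset.sum_comm]
        conv_rhs => rw [Finset.sum_comm]
        exact Finset.sum_congr rfl fun c _ => Finset.sum_comm
      calc ∑ a, ∑ b, ∑ c, ∑ d, (N a b * N c d - N a d * N c b) ^ 2
          = ∑ a, ∑ b, ∑ c, ∑ d, (N a b * N c d) * (N a b * N c d)
            + ∑ a, ∑ b, ∑ c, ∑ d, (N a d * N c b) * (N a d * N c b)
            - 2 * ∑ a, ∑ b, ∑ c, ∑ d, (N a b * N c d) * (N a d * N c b) := by
            simp only [Finset.mul_sum, ← Finset.sum_add_distrib, ← Finset.sum_sub_distrib]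
            exact Finset.sum_congr rfl fun a _ => Finset.sum_congr rfl fun b _ =>
              Finset.sum_congr rfl fun c _ => Finset.sum_congr rfl fun d _ => by ring
        _ = 0 := by rw [h1, h2, hfour]; ring
    intro a b c d
    have hle : (N a b * N c d - N a d * N c b) ^ 2 ≤ 0 := by
      rw [← htot]
      refine le_trans ?_ (Finset.single_le_sum (fun a _ => Finset.sum_nonneg fun b _ => Finset.sum_nonneg
        fun c _ => Finset.sum_nonneg fun d _ => sq_nonneg _) (Finset.mem_univ a))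
      refine le_trans ?_ (Finset.single_le_sum (fun b _ => Finset.sum_nonneg
        fun c _ => Finset.sum_nonneg fun d _ => sq_nonneg _) (Finset.mem_univ b))
      refine le_trans ?_ (Finset.single_le_sum (fun c _ => Finset.sum_nonneg fun d _ => sq_nonneg _)
        (Finset.mem_univ c))
      exact Finset.single_le_sum (fun d _ => sq_nonneg (N a b * N c d - N a d * N c b)) (Finset.mem_univ d)
    nlinarith [sq_nonneg (N a b * N c d - N a d * N c b)]
  obtain ⟨a₀, -, ha₀⟩ := Finset.exists_ne_zero_of_sum_ne_zero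
    (hNtr.symm ▸ (mul_pos (by omega) hq).ne' : (∑ a, N a a) ≠ 0)
  obtain ⟨w, hw, hw1⟩ := Finset.extract_gcd (fun b => N a₀ b) ⟨a₀, Finset.mem_univ a₀⟩
  set g₁ := Finset.univ.gcd fun b => N a₀ b
  have hg₁ : g₁ ≠ 0 := fun h => ha₀ (by rw [hw a₀ (Finset.mem_univ _), h, zero_mul])
  obtain ⟨y₀, hy₀⟩ := Finset.gcd_eq_sum_mul Finset.univ w
  rw [hw1] at hy₀
  have hNv : ∀ a, ∑ b, N a b * v b = 0 := fun a => by
    simp only [hN, sub_mul, Finset.sum_sub_distrib, mul_assoc, ← Finset.mul_sum]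
    rw [show (∑ b, K a b * v b) = u a from rfl, show (∑ b, u b * v b) = α by
      rw [hα, hQ]; exact Finset.sum_congr rfl fun b _ => mul_comm _ _]
    ring
  have hwv : ∑ b, w b * v b = 0 := by
    have h := hNv a₀
    rw [Finset.sum_congr rfl fun b hb => by rw [hw b hb, mul_assoc], ← Finset.mul_sum, mul_eq_zero] at h
    exact h.resolve_left hg₁
  set k : ℤ := (Q v y₀ * 2 + α) / (2 * α) with hk
  set y : β → ℤ := fun b => y₀ b - k * v b with hy
  have hwy : ∑ b, w b * y b = 1 := by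
    simp only [hy, mul_sub, Finset.sum_sub_distrib]
    rw [show ∑ b, w b * (k * v b) = k * ∑ b, w b * v b by
      rw [Finset.mul_sum]; exact Finset.sum_congr rfl fun b _ => by ring, hwv, mul_zero, sub_zero, hy₀]
  set β₀ : ℤ := Q v y with hβ
  have hβle : 2 * |β₀| ≤ α := by
    have h1 : β₀ = Q v y₀ - k * α := by
      simp only [hβ, hy, hQ, hα, hK', mul_sub, Finset.sum_sub_distrib, Finset.mul_sum]
      congr 1
      exact Finset.sum_congr rfl fun a _ => Finset.sum_congr rfl fun b _ => by ring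
    have h2 := Int.emod_nonneg (Q v y₀ * 2 + α) (show 2 * α ≠ 0 by omega)
    have h3 := Int.emod_lt_of_pos (Q v y₀ * 2 + α) (show 0 < 2 * α by omega)
    rw [Int.emod_def, ← hk] at h2 h3
    rw [h1]
    cases abs_cases (Q v y₀ - k * α) <;> nlinarith
  set γ : ℤ := Q y y with hγ
  have huy : ∑ b, u b * y b = β₀ := by
    rw [hβ, hQsymm, hQ]; exact Finset.sum_congr rfl fun b _ => mul_comm _ _
  have hNy : ∑ a, ∑ b, y a * (N a b * y b) = α * γ - β₀ ^ 2 := by
    have e1 : α * γ = ∑ a, ∑ b, α * (y a * (K a b * y b)) := by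
      rw [hγ]
      simp only [hQ, hK', Finset.mul_sum]
    have e2 : β₀ ^ 2 = ∑ a, ∑ b, (u a * y a) * (u b * y b) := by
      rw [sq, ← huy]
      exact Finset.sum_mul_sum _ _ _ _
    rw [e1, e2, ← Finset.sum_sub_distrib]
    refine Finset.sum_congr rfl fun a _ => ?_
    rw [← Finset.sum_sub_distrib]
    exact Finset.sum_congr rfl fun b _ => by simp only [hN]; ring
  have hNw : ∀ a b, N a b = (α * γ - β₀ ^ 2) * (w a * w b) := by
    intro a b
    apply mul_left_cancel₀ ha₀
    have h1 : ∀ a b, N a₀ a₀ * N a b = g₁ * g₁ * (w a * w b) := fun a b => by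
      rw [mul_comm (N a₀ a₀), hrank a b a₀ a₀, hw b (Finset.mem_univ _), hNsymm a a₀, hw a (Finset.mem_univ _)]
      ring
    have h2 : N a₀ a₀ * (α * γ - β₀ ^ 2) = g₁ * g₁ := by
      rw [← hNy]
      simp only [Finset.mul_sum]
      calc ∑ a, ∑ b, N a₀ a₀ * (y a * (N a b * y b))
          = ∑ a, ∑ b, g₁ * g₁ * ((w a * y a) * (w b * y b)) :=
            Finset.sum_congr rfl fun a _ => Finset.sum_congr rfl fun b _ => by
              rw [show N a₀ a₀ * (y a * (N a b * y b)) = N a₀ a₀ * N a b * (y a * y b) by ring, h1]; ring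
        _ = _ := by simp only [← Finset.mul_sum, ← Finset.sum_mul, hwy]; ring
    rw [h1, ← mul_assoc (N a₀ a₀), h2]
  have hg0 : α * γ - β₀ ^ 2 ≠ 0 := fun h => ha₀ (by rw [hNw, h, zero_mul])
  have hγle : α ≤ γ := by
    by_contra hlt
    have h0 := hmin y (not_le.mp hlt)
    refine hg0 ?_
    have hγ0 : γ = 0 := by simp [hγ, hQ, h0]
    have hβ0 : β₀ = 0 := by simp [hβ, hQ, h0]
    rw [hγ0, hβ0]; ring
  have hdvd : ∀ a, α ∣ u a - β₀ * w a := by
    intro a
    set c := u a - β₀ * w a with hc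
    set k' := c / α with hk'
    set z : β → ℤ := fun b => (Pi.single a 1 : β → ℤ) b - w a * y b - k' * v b with hz
    have hKz : ∀ b, α * K' z b = u b * (c - k' * α) := by
      intro b
      have he : K' z b = K b a - w a * K' y b - k' * u b := by
        simp only [hK', hz, hu, mul_sub, Finset.sum_sub_distrib, Finset.mul_sum]
        congr 1
        · congr 1
          · simp [Pi.single_apply]
          · exact Finset.sum_congr rfl fun _ _ => by ring
        · exact Finset.sum_congr rfl fun _ _ => by ring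
      have hNyb : α * K' y b - u b * β₀ = (α * γ - β₀ ^ 2) * w b := by
        calc α * K' y b - u b * β₀ = ∑ d, N b d * y d := by
              simp only [← huy, hK', Finset.mul_sum, ← Finset.sum_sub_distrib, hN]
              exact Finset.sum_congr rfl fun d _ => by ring
          _ = (α * γ - β₀ ^ 2) * w b * ∑ d, w d * y d := by
              rw [Finset.mul_sum]
              exact Finset.sum_congr rfl fun d _ => by rw [hNw]; ring
          _ = _ := by rw [hwy, mul_one]
      have hNba : α * K b a - u b * u a = (α * γ - β₀ ^ 2) * (w b * w a) := hNw b a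
      rw [he, hc]
      linear_combination hNba - w a * hNyb
    have hQz : α * Q z z = (c - k' * α) * (c - k' * α) := by
      have h1 : ∑ b, z b * u b = c - k' * α := by
        simp only [hz, sub_mul, Finset.sum_sub_distrib, mul_assoc, ← Finset.mul_sum]
        rw [show ∑ b, y b * u b = β₀ by rw [← huy]; exact Finset.sum_congr rfl fun b _ => mul_comm _ _,
          show ∑ b, v b * u b = α from rfl, hc]
        simp [Pi.single_apply, mul_comm]
      calc α * Q z z = ∑ b, z b * (α * K' z b) := by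
            rw [hQ, Finset.mul_sum]; exact Finset.sum_congr rfl fun b _ => by ring
        _ = (∑ b, z b * u b) * (c - k' * α) := by
            rw [Finset.sum_mul]; exact Finset.sum_congr rfl fun b _ => by rw [hKz]; ring
        _ = _ := by rw [h1]
    have h2 := Int.emod_nonneg c (show α ≠ 0 by omega)
    have h3 := Int.emod_lt_of_pos c (show 0 < α by omega)
    have hr : c % α = c - k' * α := by rw [Int.emod_def, hk']; ring
    have h0 := hmin z (by nlinarith)
    have hex : ∃ b, u b ≠ 0 := by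
      by_contra hh
      push Not at hh
      simp [hh] at hu2
      omega
    obtain ⟨b, hb⟩ := hex
    have h4 := hKz b
    rw [h0 b, mul_zero, eq_comm, mul_eq_zero] at h4
    exact ⟨k', by linarith [h4.resolve_left hb]⟩
  choose l hl using hdvd
  have hul : ∀ a, u a = α * l a + β₀ * w a := fun a => by linarith [hl a]
  refine ⟨α, β₀, γ, l, w, hα0, hβle, hγle, ?_, fun a b => ?_, v, fun a => ⟨hul a, hu2⟩⟩
  · have he : α * γ - β₀ ^ 2
        = ∑ a, ∑ b, ∑ c, ∑ d, v a * y b * v c * y d * (K a c * K b d - K a d * K b c) := by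
      have e0 : ∀ v₁ v₂ y₁ y₂ : β → ℤ, Q v₁ v₂ * Q y₁ y₂
          = ∑ a, ∑ b, ∑ c, ∑ d, v₁ a * y₁ b * v₂ c * y₂ d * (K a c * K b d) := by
        intro v₁ v₂ y₁ y₂
        rw [hQ]
        show (∑ a, v₁ a * K' v₂ a) * (∑ b, y₁ b * K' y₂ b) = _
        rw [Finset.sum_mul_sum]
        refine Finset.sum_congr rfl fun a _ => Finset.sum_congr rfl fun b _ => ?_
        rw [hK']
        show (v₁ a * ∑ c, K a c * v₂ c) * (y₁ b * ∑ d, K b d * y₂ d) = _
        rw [Finset.mul_sum, Finset.mul_sum, Finset.sum_mul_sum]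
        exact Finset.sum_congr rfl fun c _ => Finset.sum_congr rfl fun d _ => by ring
      have e1 := e0 v v y y
      have e2 : Q v y * Q y v = ∑ a, ∑ b, ∑ c, ∑ d, v a * y b * v c * y d * (K a d * K b c) := by
        rw [e0 v y y v]
        refine Finset.sum_congr rfl fun a _ => Finset.sum_congr rfl fun b _ => ?_
        rw [Finset.sum_comm]
        exact Finset.sum_congr rfl fun c _ => Finset.sum_congr rfl fun d _ => by ring
      rw [sq, show β₀ * β₀ = Q v y * Q y v by rw [hQsymm y v, hβ], hα, hγ, e1, e2]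
      simp only [← Finset.sum_sub_distrib]
      exact Finset.sum_congr rfl fun a _ => Finset.sum_congr rfl fun b _ =>
        Finset.sum_congr rfl fun c _ => Finset.sum_congr rfl fun d _ => by ring
    rw [he]
    exact Finset.dvd_sum fun a _ => Finset.dvd_sum fun b _ => Finset.dvd_sum fun c _ =>
      Finset.dvd_sum fun d _ => (hminor a b c d).mul_left _
  · apply mul_left_cancel₀ (show α ≠ 0 by omega)
    have h := hNw a b
    simp only [hN] at h
    rw [hul, hul] at h
    linear_combination h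

section BlockMatrix

variable {H : Type*} [Group H] [Fintype H] {M : Ideal Cfsg.AlgInt} [M.IsPrime]
variable {p : ℕ} [hp : Fact p.Prime]

theorem blockC_eq_regInner (hM : IsPModular p M) {b : Set (IrrCharacter H)} (hb : IsPBlock M b)
    {ξ : IrrCharacter H} (hξ : ξ ∈ b) (ξ' : IrrCharacter H) :
    (blockC p b ξ ξ' : ℂ)
      = ((p ^ blockDefect p b : ℕ) : ℂ) / (Nat.card H : ℂ) * regInner p (ξ : H → ℂ) (ξ' : H → ℂ) := by
  have hle := (inf_le_factorization p hξ).trans (charDegree_factorization_le ξ)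
  rw [regN_spec, ← pPow_mul_ordCompl (G := H) (p := p), blockC_spec hM hb hξ ξ', blockDefect]
  have := ordCompl_ne_zero (G := H) (p := p)
  have hA : ((p ^ (Nat.card H).factorization p : ℕ) : ℂ) ≠ 0 :=
    Nat.cast_ne_zero.mpr (pow_ne_zero _ hp.out.ne_zero)
  field_simp
  push_cast
  rw [mul_comm (blockC p b ξ ξ' : ℂ), ← mul_assoc, ← pow_add, Nat.sub_add_cancel hle]

/-- The trace of the block matrix. -/
theorem sum_blockC_self (hM : IsPModular p M) {b : Set (IrrCharacter H)} (hb : IsPBlock M b) :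
    ∑ ξ : b, blockC p b ξ.1 ξ.1 = ((p ^ blockDefect p b : ℕ) : ℤ) * (blockRank p b : ℤ) := by
  have h : ((∑ ξ : b, blockC p b ξ.1 ξ.1 : ℤ) : ℂ)
      = (((p ^ blockDefect p b : ℕ) : ℤ) * (blockRank p b : ℤ) : ℤ) := by
    rw [Int.cast_sum, Finset.sum_congr rfl fun ξ _ => blockC_eq_regInner hM hb ξ.2 ξ.1,
      ← Finset.mul_sum,
      ← Finset.sum_subtype (univ.filter (· ∈ b)) (fun ξ => by simp)
        (fun ξ : IrrCharacter H => regInner p (ξ : H → ℂ) (ξ : H → ℂ))]
    simp only [regInner]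
    rw [Finset.sum_comm, Finset.sum_congr rfl (g := fun s : H => if p ∣ orderOf s then 0 else kerB b s s)
      fun s _ => ?_, ← card_mul_blockRank hM hb]
    · have hN : (Nat.card H : ℂ) ≠ 0 := Nat.cast_ne_zero.mpr Nat.card_pos.ne'
      push_cast
      field_simp
    · split_ifs
      · simp
      · rw [kerB_eq_filter]
  exact_mod_cast h

/-- Modulo `p` the block matrix is the product of a function of the row and one of the column. -/
theorem exists_red_blockC (hM : IsPModular p M) {b : Set (IrrCharacter H)} (hb : IsPBlock M b) :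
    ∃ f c : IrrCharacter H → ResF M, ∀ ξ ∈ b, ∀ ψ ∈ b, red M ((blockC p b ξ ψ : ℤ) : ℂ) = f ξ * c ψ := by
  obtain ⟨ψ₀, hψ₀⟩ := IsPBlock.nonempty hb
  refine ⟨fun ξ => lam M ψ₀ (redG M (zc p (ξ : H → ℂ))), fun ψ =>
    if blockHeight p b (ψ : H → ℂ) = 0 then
      red M ((charDegree (ψ : H → ℂ) / p ^ (charDegree (ψ : H → ℂ)).factorization p : ℕ) : ℂ)
        / red M ((Nat.card H / p ^ (Nat.card H).factorization p : ℕ) : ℂ)
    else 0, fun ξ hξ ψ hψ => ?_⟩
  obtain ⟨hdvd, -, -⟩ := blockC_dvd hM hb hξ hψ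
  dsimp only
  split_ifs with h0
  · have hm : (charDegree (ψ : H → ℂ)).factorization p
        = sInf ((fun χ : IrrCharacter H => (charDegree (χ : H → ℂ)).factorization p) '' b) := by
      have := inf_le_factorization p hψ
      rw [blockHeight] at h0
      omega
    have h1 : (regInner p (ξ : H → ℂ) (ψ : H → ℂ) / (ψ : H → ℂ) 1)
        * ((charDegree (ψ : H → ℂ) / p ^ (charDegree (ψ : H → ℂ)).factorization p : ℕ) : ℂ)
        = ((Nat.card H / p ^ (Nat.card H).factorization p : ℕ) : ℂ) * (blockC p b ξ ψ : ℂ) := by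
      rw [regN_spec, blockC_spec hM hb hξ ψ, ← hm, ← coe_charDegree]
      conv_lhs => arg 1; arg 2; rw [← Nat.mul_div_cancel' (Nat.ordProj_dvd (charDegree (ψ : H → ℂ)) p)]
      have ha : ((p ^ (charDegree (ψ : H → ℂ)).factorization p : ℕ) : ℂ) ≠ 0 :=
        Nat.cast_ne_zero.mpr (pow_ne_zero _ hp.out.ne_zero)
      have hc : ((charDegree (ψ : H → ℂ) / p ^ (charDegree (ψ : H → ℂ)).factorization p : ℕ) : ℂ) ≠ 0 :=
        Nat.cast_ne_zero.mpr fun h => by
          have := Nat.mul_div_cancel' (Nat.ordProj_dvd (charDegree (ψ : H → ℂ)) p)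
          rw [h, mul_zero] at this
          exact (charDegree_pos ψ).ne this
      rw [Int.cast_mul, Int.cast_natCast]
      simp only [Nat.cast_mul]
      field_simp
    have h2 := congrArg (red M) h1
    rw [red_mul (regInner_div_mem p ξ.2.isCharacter ψ) (natCast_mem _ _),
      red_mul (natCast_mem _ _) (intCast_mem _ _), ← lam_zc p ξ.2.isCharacter,
      lam_eq_of_sameBlock M (IsPBlock.sameBlock hb hψ hψ₀)] at h2
    rw [← mul_div_assoc, h2, mul_div_cancel_left₀ _ (red_ordCompl_ne hM)]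
  · rw [mul_zero]
    obtain ⟨t, ht⟩ := (dvd_trans (by exact_mod_cast dvd_pow_self p h0) hdvd : (p : ℤ) ∣ blockC p b ξ ψ)
    rw [ht, Int.cast_mul, Int.cast_natCast, red_mul (natCast_mem _ _) (intCast_mem _ _), red_natCast, red_p hM, zero_mul]

/-- The `2 × 2` minors of the block matrix are divisible by `p`. -/
theorem dvd_blockC_minor (hM : IsPModular p M) {b : Set (IrrCharacter H)} (hb : IsPBlock M b)
    (a a' c c' : b) : (p : ℤ) ∣
      blockC p b a.1 c.1 * blockC p b a'.1 c'.1 - blockC p b a.1 c'.1 * blockC p b a'.1 c.1 := by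
  obtain ⟨f, g, h⟩ := exists_red_blockC hM hb
  set z : ℤ := blockC p b a.1 c.1 * blockC p b a'.1 c'.1 - blockC p b a.1 c'.1 * blockC p b a'.1 c.1
  have hz : red M ((z : ℤ) : ℂ) = 0 := by
    simp only [z, Int.cast_sub, Int.cast_mul]
    rw [red_sub (mul_mem (intCast_mem _ _) (intCast_mem _ _)) (mul_mem (intCast_mem _ _) (intCast_mem _ _)),
      red_mul (intCast_mem _ _) (intCast_mem _ _), red_mul (intCast_mem _ _) (intCast_mem _ _),
      h _ a.2 _ c.2, h _ a'.2 _ c'.2, h _ a.2 _ c'.2, h _ a'.2 _ c.2]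
    ring
  rw [← Int.dvd_natAbs, Int.natCast_dvd_natCast, ← natCast_resF_eq_zero hM, ← red_natCast]
  rcases Int.natAbs_eq z with he | he
  · rw [← Int.cast_natCast, ← he]; exact hz
  · rw [← Int.cast_natCast, show ((z.natAbs : ℕ) : ℤ) = -z by omega, Int.cast_neg,
      red_neg (intCast_mem _ _), hz, neg_zero]

end BlockMatrix

section RankTwoBound

variable {G : Type*} [Group G] [Fintype G] {M : Ideal Cfsg.AlgInt} [M.IsPrime]
variable {p : ℕ} [hp : Fact p.Prime] {x : G} {H : Subgroup G} {b : Set (IrrCharacter H)}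

/-- The subsection coefficients of a block, multiplied by the block matrix, are orthogonal. -/
theorem sum_secCoeff_blockC (hM : IsPModular p M) {B : Set (IrrCharacter G)}
    (hx : ∃ k : ℕ, orderOf x = p ^ k) (hH : H = Subgroup.centralizer ({x} : Set G))
    (hind : IsInducedBlock M H b B) (a c : b) :
    ∑ χ ∈ univ.filter (· ∈ B), (∑ ξ : b, secCoeff x H χ ξ.1 * (blockC p b ξ.1 a.1 : ℂ)) *
        (∑ ξ : b, secCoeff x⁻¹ H χ ξ.1 * (blockC p b ξ.1 c.1 : ℂ))
      = ((p ^ blockDefect p b : ℕ) : ℂ) * (blockC p b a.1 c.1 : ℂ) := by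
  set t : ℂ := ((p ^ blockDefect p b : ℕ) : ℂ) / (Nat.card H : ℂ) with ht
  set R := univ.filter fun s : H => ¬ p ∣ orderOf s with hR
  have hreg : ∀ θ θ' : H → ℂ, regInner p θ θ' = ∑ s ∈ R, θ s * θ' s⁻¹ := fun θ θ' => by
    rw [regInner, hR, Finset.sum_filter]
    exact Finset.sum_congr rfl fun s _ => by split_ifs <;> rfl
  have hexp : ∀ (z : G) (χ : IrrCharacter G) (a : b),
      ∑ ξ : b, secCoeff z H χ ξ.1 * (blockC p b ξ.1 a.1 : ℂ)
        = t * ∑ s ∈ R, blockPart b (fun d : H => (χ : G → ℂ) (z * (d : G))) s * (a.1 : H → ℂ) s⁻¹ := by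
    intro z χ a
    simp only [blockC_eq_regInner hM hind.1 (Subtype.prop _), blockPart_translate, Finset.sum_mul,
      Finset.mul_sum, hreg, ← ht]
    rw [← Finset.sum_subtype (univ.filter (· ∈ b)) (fun ξ => by simp)
      (fun ξ : IrrCharacter H => ∑ s ∈ R, secCoeff z H χ ξ * (t * ((ξ : H → ℂ) s * (a.1 : H → ℂ) s⁻¹))),
      Finset.sum_comm]
    exact Finset.sum_congr rfl fun s _ => Finset.sum_congr rfl fun ξ _ => by ring
  simp only [hexp]
  calc ∑ χ ∈ univ.filter (· ∈ B),
        (t * ∑ s ∈ R, blockPart b (fun d : H => (χ : G → ℂ) (x * (d : G))) s * (a.1 : H → ℂ) s⁻¹) *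
        (t * ∑ s ∈ R, blockPart b (fun d : H => (χ : G → ℂ) (x⁻¹ * (d : G))) s * (c.1 : H → ℂ) s⁻¹)
      = t * t * ∑ s ∈ R, ∑ u ∈ R, ((a.1 : H → ℂ) s⁻¹ * (c.1 : H → ℂ) u⁻¹) *
          kerB b s u⁻¹ := by
        simp only [mul_mul_mul_comm t, ← Finset.mul_sum]
        congr 1
        simp only [Finset.sum_mul_sum]
        rw [Finset.sum_comm]
        refine Finset.sum_congr rfl fun s hs => ?_
        rw [Finset.sum_comm]
        refine Finset.sum_congr rfl fun u hu => ?_
        rw [← sum_blockPart_mul hM hx hH hind (Finset.mem_filter.mp hs).2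
          (t := u⁻¹) (by rw [orderOf_inv]; exact (Finset.mem_filter.mp hu).2), Finset.mul_sum]
        exact Finset.sum_congr rfl fun χ _ => by rw [inv_inv]; ring
    _ = t * t * ∑ ξ ∈ univ.filter (· ∈ b), regInner p (ξ : H → ℂ) (a.1 : H → ℂ) *
          regInner p (ξ : H → ℂ) (c.1 : H → ℂ) := by
        congr 1
        rw [Finset.sum_congr rfl fun (ξ : IrrCharacter H) (_ : ξ ∈ univ.filter (· ∈ b)) => show
          regInner p (ξ : H → ℂ) (a.1 : H → ℂ) * regInner p (ξ : H → ℂ) (c.1 : H → ℂ)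
            = ∑ s ∈ R, ∑ u ∈ R, ((ξ : H → ℂ) s * (a.1 : H → ℂ) s⁻¹) * ((ξ : H → ℂ) u * (c.1 : H → ℂ) u⁻¹)
          by rw [hreg, hreg, Finset.sum_mul_sum]]
        simp only [kerB_eq_filter, Finset.mul_sum]
        rw [Finset.sum_comm (s := univ.filter (· ∈ b))]
        refine Finset.sum_congr rfl fun s _ => ?_
        rw [Finset.sum_comm (s := univ.filter (· ∈ b))]
        exact Finset.sum_congr rfl fun u _ => Finset.sum_congr rfl fun ξ _ => by rw [inv_inv]; ring
    _ = ∑ ξ ∈ univ.filter (· ∈ b), (blockC p b a.1 ξ : ℂ) * (blockC p b c.1 ξ : ℂ) := by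
        rw [Finset.mul_sum]
        refine Finset.sum_congr rfl fun ξ hξ => ?_
        rw [blockC_comm b a.1, blockC_comm b c.1, blockC_eq_regInner hM hind.1 (Finset.mem_filter.mp hξ).2,
          blockC_eq_regInner hM hind.1 (Finset.mem_filter.mp hξ).2, ht]
        ring
    _ = _ := by exact_mod_cast sum_blockC_mul hM hind.1 a.2 c.2

/-- The mean of a reduced binary form at a nonzero integral vector is at least two. -/
theorem binary_mean_ge {N : ℕ} (hN : 0 < N) [FiniteDimensional ℚ (rootField N)] {x₁ x₂ : ℂ}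
    (h1 : x₁ ∈ rootField N) (h2 : x₂ ∈ rootField N) (i1 : IsIntegral ℤ x₁) (i2 : IsIntegral ℤ x₂)
    (hne : x₁ ≠ 0 ∨ x₂ ≠ 0) {α β₀ γ : ℤ} (hβ : 2 * |β₀| ≤ α) (hαγ : α ≤ γ) (hγ : 2 ≤ γ)
    (hsum : 2 ≤ α + γ - 2 * |β₀|) (hx : x₂ = 0 → 2 ≤ α) (r : (rootField N →ₐ[ℚ] ℂ) → ℝ)
    (hr : ∀ σ : rootField N →ₐ[ℚ] ℂ, r σ = α * Complex.normSq (σ ⟨x₁, h1⟩)
      + 2 * β₀ * (σ ⟨x₁, h1⟩ * conj (σ ⟨x₂, h2⟩)).re + γ * Complex.normSq (σ ⟨x₂, h2⟩)) :
    2 * (Fintype.card (rootField N →ₐ[ℚ] ℂ) : ℝ) ≤ ∑ σ, r σ := by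
  set n : ℝ := (Fintype.card (rootField N →ₐ[ℚ] ℂ) : ℝ) with hn
  have hn0 : 0 ≤ n := Nat.cast_nonneg _
  simp only [hr]
  by_cases hx2 : x₂ = 0
  · have hx1 : x₁ ≠ 0 := hne.resolve_right (fun h => h hx2)
    have hS := sum_normSq_ge hN h1 i1 hx1
    have hz : ∀ σ : rootField N →ₐ[ℚ] ℂ, σ ⟨x₂, h2⟩ = 0 := fun σ => by
      rw [show (⟨x₂, h2⟩ : rootField N) = 0 from Subtype.ext hx2, map_zero]
    simp only [hz, map_zero, mul_zero, Complex.zero_re, add_zero, ← Finset.mul_sum]
    have : (2 : ℝ) ≤ α := by exact_mod_cast hx hx2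
    nlinarith
  have hS2 := sum_normSq_ge hN h2 i2 hx2
  by_cases hx1 : x₁ = 0
  · have hz : ∀ σ : rootField N →ₐ[ℚ] ℂ, σ ⟨x₁, h1⟩ = 0 := fun σ => by
      rw [show (⟨x₁, h1⟩ : rootField N) = 0 from Subtype.ext hx1, map_zero]
    simp only [hz, map_zero, mul_zero, zero_mul, Complex.zero_re, zero_add, ← Finset.mul_sum]
    have : (2 : ℝ) ≤ γ := by exact_mod_cast hγ
    nlinarith
  have hS1 := sum_normSq_ge hN h1 i1 hx1
  have hB1 : (0 : ℝ) ≤ (α : ℝ) - |(β₀ : ℝ)| := by
    have : 0 ≤ α - |β₀| := by have := abs_nonneg β₀; omega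
    exact_mod_cast this
  have hB2 : (0 : ℝ) ≤ (γ : ℝ) - |(β₀ : ℝ)| := by
    have : 0 ≤ γ - |β₀| := by have := abs_nonneg β₀; omega
    exact_mod_cast this
  have hs : (2 : ℝ) ≤ ((α : ℝ) - |(β₀ : ℝ)|) + ((γ : ℝ) - |(β₀ : ℝ)|) := by
    have h' : (2 : ℤ) ≤ (α - |β₀|) + (γ - |β₀|) := by omega
    exact_mod_cast h'
  have hpt : ∀ z w : ℂ, ((α : ℝ) - |(β₀ : ℝ)|) * Complex.normSq z + ((γ : ℝ) - |(β₀ : ℝ)|) * Complex.normSq w
      ≤ α * Complex.normSq z + 2 * β₀ * (z * conj w).re + γ * Complex.normSq w := by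
    intro z w
    have hp' := Complex.normSq_nonneg (z + w)
    have hm' := Complex.normSq_nonneg (z - w)
    rw [Complex.normSq_add] at hp'
    rw [Complex.normSq_sub] at hm'
    cases abs_cases (β₀ : ℝ) <;> nlinarith
  refine le_trans ?_ (Finset.sum_le_sum fun σ _ => hpt _ _)
  rw [Finset.sum_add_distrib, ← Finset.mul_sum, ← Finset.mul_sum]
  nlinarith

/-- A major subsection of regular rank at most two bounds the block by `p ^ d`. -/
theorem card_le_of_rank_two (hM : IsPModular p M) {B : Set (IrrCharacter G)}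
    (hx : ∃ k : ℕ, orderOf x = p ^ k) (hH : H = Subgroup.centralizer ({x} : Set G))
    (hind : IsInducedBlock M H b B) (hd : blockDefect p b = blockDefect p B)
    (hl : blockRank p b ≤ 2) : Nat.card B ≤ p ^ blockDefect p B := by
  set N := Nat.card G with hNdef
  have hN : 0 < N := Nat.card_pos
  haveI := finiteDimensional_rootField hN
  set q := p ^ blockDefect p B with hq
  set n : ℝ := (Fintype.card (rootField N →ₐ[ℚ] ℂ) : ℝ) with hn
  have hmem : ∀ χ : IrrCharacter G, contrib p x H b χ χ ∈ rootField N := fun χ =>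
    contrib_mem_rootField hM _ hind.1 χ χ
  have hr : ∀ (χ : IrrCharacter G) (σ : rootField N →ₐ[ℚ] ℂ),
      ∃ r : ℝ, 0 ≤ r ∧ σ ⟨contrib p x H b χ χ, hmem χ⟩ = (r : ℂ) := fun χ σ =>
    exists_real_of_sum_mul_conj hN (secPart p x H b χ) (fun g => secPart_mem_rootField _ _ _ χ g) (hmem χ)
      hN (sum_secPart_mul_self hx hH χ) σ
  choose r hr using hr
  have htot : ∀ σ, ∑ χ ∈ univ.filter (· ∈ B), r χ σ = (q : ℝ) * (blockRank p b : ℝ) := by
    intro σ
    apply Complex.ofReal_injective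
    rw [Complex.ofReal_sum, Finset.sum_congr rfl fun χ _ => ((hr χ σ).2).symm, ← map_sum,
      show (∑ χ ∈ univ.filter (· ∈ B), (⟨contrib p x H b χ χ, hmem χ⟩ : rootField N))
        = ((q * blockRank p b : ℕ) : rootField N) from Subtype.ext (by
          push_cast
          rw [sum_contrib_self hM hx hH hind, hd, ← hq]), map_natCast]
    push_cast
    rfl
  have key : ∀ m : ℕ, 0 < m → blockRank p b ≤ m →
      (∀ χ ∈ B, (m : ℝ) * n ≤ ∑ σ, r χ σ) → Nat.card B ≤ q := by
    intro m hm hlm hge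
    have hpos : 0 < n := by
      rw [hn]; exact_mod_cast Fintype.card_pos_iff.mpr ⟨(rootField N).val⟩
    have hcard : (univ.filter (· ∈ B)).card = Nat.card B := by
      rw [← Fintype.card_subtype, Nat.card_eq_fintype_card]
    have h : ((Nat.card B * m : ℕ) : ℝ) * n ≤ ((q * m : ℕ) : ℝ) * n := by
      calc ((Nat.card B * m : ℕ) : ℝ) * n = ∑ _χ ∈ univ.filter (· ∈ B), (m : ℝ) * n := by
            rw [Finset.sum_const, hcard, nsmul_eq_mul, Nat.cast_mul, mul_assoc]
        _ ≤ ∑ χ ∈ univ.filter (· ∈ B), ∑ σ, r χ σ :=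
            Finset.sum_le_sum fun χ hχ => hge χ (Finset.mem_filter.mp hχ).2
        _ = ∑ _σ : rootField N →ₐ[ℚ] ℂ, (q : ℝ) * (blockRank p b : ℝ) := by
            rw [Finset.sum_comm]; exact Finset.sum_congr rfl fun σ _ => htot σ
        _ ≤ _ := by
            rw [Finset.sum_const, nsmul_eq_mul, Finset.card_univ, ← hn, mul_comm]
            have : (blockRank p b : ℝ) ≤ m := by exact_mod_cast hlm
            push_cast
            gcongr
    have h' : Nat.card B * m ≤ q * m := by exact_mod_cast le_of_mul_le_mul_right h hpos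
    exact Nat.le_of_mul_le_mul_right h' hm
  rcases Nat.lt_or_ge (blockRank p b) 2 with hl1 | hl2
  · refine key 1 one_pos (by omega) fun χ hχ => ?_
    rw [Nat.cast_one, one_mul]
    exact sum_re_ge hN (hmem χ) (isIntegral_contrib hM hH hind.1 χ χ)
      (exists_height_zero_row hM hx hH hind hd hχ) (r χ) (hr χ)
  have hl' : blockRank p b = 2 := le_antisymm hl hl2
  obtain ⟨α, β₀, γ, l, w, hα, hβ, hαγ, hdet, hK, v, hv⟩ :=
    exists_binary_form (β := b) (fun a c => blockC p b a.1 c.1) (fun a c => blockC_comm _ _ _)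
      (q := (q : ℤ)) (by rw [hq]; exact_mod_cast pow_pos hp.out.pos _)
      (fun a c => by
        rw [← Finset.sum_subtype (univ.filter (· ∈ b)) (fun ξ => by simp)
          (fun ξ : IrrCharacter H => blockC p b a.1 ξ * blockC p b c.1 ξ),
          sum_blockC_mul hM hind.1 a.2 c.2, hd])
      (by rw [sum_blockC_self hM hind.1, hd, hl', ← hq]; push_cast; ring)
      (p := (p : ℤ)) (fun a c d e => dvd_blockC_minor hM hind.1 a c d e)
  have hxH : x ∈ H := hH ▸ Subgroup.mem_centralizer_singleton_iff.mpr rfl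
  set x₁ : IrrCharacter G → ℂ := fun χ => ∑ ξ : b, secCoeff x H χ ξ.1 * (l ξ : ℂ) with hx₁
  set x₂ : IrrCharacter G → ℂ := fun χ => ∑ ξ : b, secCoeff x H χ ξ.1 * (w ξ : ℂ) with hx₂
  have hm1 : ∀ χ, x₁ χ ∈ rootField N := fun χ =>
    sum_mem fun ξ _ => mul_mem (secCoeff_mem_rootField χ ξ.1) (intCast_mem _ _)
  have hm2 : ∀ χ, x₂ χ ∈ rootField N := fun χ =>
    sum_mem fun ξ _ => mul_mem (secCoeff_mem_rootField χ ξ.1) (intCast_mem _ _)
  have hi1 : ∀ χ, IsIntegral ℤ (x₁ χ) := fun χ => IsIntegral.sum _ fun ξ _ =>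
    (isIntegral_secCoeff hxH hH.le χ ξ.1).mul (isIntegral_algebraMap (R := ℤ) (x := l ξ))
  have hi2 : ∀ χ, IsIntegral ℤ (x₂ χ) := fun χ => IsIntegral.sum _ fun ξ _ =>
    (isIntegral_secCoeff hxH hH.le χ ξ.1).mul (isIntegral_algebraMap (R := ℤ) (x := w ξ))
  have hconj : ∀ (m : b → ℤ) χ, conj (∑ ξ : b, secCoeff x H χ ξ.1 * (m ξ : ℂ))
      = ∑ ξ : b, secCoeff x⁻¹ H χ ξ.1 * (m ξ : ℂ) := fun m χ => by
    rw [map_sum]
    exact Finset.sum_congr rfl fun ξ _ => by rw [map_mul, conj_secCoeff x H χ ξ.1 hH.le, map_intCast]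
  have hc : ∀ χ ψ, contrib p x H b χ ψ = (α : ℂ) * (x₁ χ * conj (x₁ ψ))
      + (β₀ : ℂ) * (x₁ χ * conj (x₂ ψ) + x₂ χ * conj (x₁ ψ)) + (γ : ℂ) * (x₂ χ * conj (x₂ ψ)) := by
    intro χ ψ
    have hE : ∀ f : IrrCharacter H → ℂ, ∑ ξ ∈ univ.filter (· ∈ b), f ξ = ∑ ξ : b, f ξ.1 := fun f =>
      Finset.sum_subtype _ (fun ξ => by simp) f
    simp only [hx₁, hx₂, hconj]
    rw [contrib_eq hM x hind.1]
    simp only [hE]
    rw [Finset.sum_mul_sum, Finset.sum_mul_sum, Finset.sum_mul_sum, Finset.sum_mul_sum]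
    simp only [Finset.mul_sum, ← Finset.sum_add_distrib]
    refine Finset.sum_congr rfl fun ξ _ => Finset.sum_congr rfl fun ξ' _ => ?_
    rw [hK ξ ξ']
    push_cast
    ring
  have hne : ∀ χ ∈ B, x₁ χ ≠ 0 ∨ x₂ χ ≠ 0 := fun χ hχ => by
    by_contra hh
    push Not at hh
    refine exists_height_zero_row hM hx hH hind hd hχ ?_
    rw [hc, hh.1, hh.2]; simp
  have hγ2 : 2 ≤ γ := by
    by_cases hα2 : 2 ≤ α
    · omega
    have hα1 : α = 1 := by omega
    have hβ0 : β₀ = 0 := abs_eq_zero.mp (by have := abs_nonneg β₀; omega)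
    rw [hα1, hβ0, one_mul, zero_pow two_ne_zero, sub_zero] at hdet
    exact le_trans (by exact_mod_cast hp.out.two_le) (Int.le_of_dvd (by omega) hdet)
  have hform : ∀ χ ∈ B, (x₂ χ = 0 → 2 ≤ α) → (2 : ℝ) * n ≤ ∑ σ, r χ σ := by
    intro χ hχ hx2
    refine binary_mean_ge hN (hm1 χ) (hm2 χ) (hi1 χ) (hi2 χ) (hne χ hχ) hβ hαγ hγ2 ?_ hx2 (r χ) fun σ => ?_
    · by_cases hα2 : 2 ≤ α
      · omega
      · have := abs_nonneg β₀; omega
    apply Complex.ofReal_injective
    rw [← (hr χ σ).2, show (⟨contrib p x H b χ χ, hmem χ⟩ : rootField N)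
        = (α : rootField N) * (⟨x₁ χ, hm1 χ⟩ * ⟨conj (x₁ χ), conj_mem_rootField (hm1 χ)⟩)
          + (β₀ : rootField N) * (⟨x₁ χ, hm1 χ⟩ * ⟨conj (x₂ χ), conj_mem_rootField (hm2 χ)⟩
            + ⟨x₂ χ, hm2 χ⟩ * ⟨conj (x₁ χ), conj_mem_rootField (hm1 χ)⟩)
          + (γ : rootField N) * (⟨x₂ χ, hm2 χ⟩ * ⟨conj (x₂ χ), conj_mem_rootField (hm2 χ)⟩)
        from Subtype.ext (by push_cast; exact hc χ χ)]
    simp only [map_add, map_mul, map_intCast, algHom_conj hN σ ⟨x₁ χ, hm1 χ⟩,
      algHom_conj hN σ ⟨x₂ χ, hm2 χ⟩, Complex.mul_conj]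
    apply Complex.ext
    · simp only [Complex.add_re, Complex.mul_re, Complex.mul_im, Complex.intCast_re, Complex.intCast_im,
        Complex.ofReal_re, Complex.ofReal_im, Complex.add_im, Complex.conj_re, Complex.conj_im]
      ring
    · simp only [Complex.add_re, Complex.mul_re, Complex.mul_im, Complex.intCast_re, Complex.intCast_im,
        Complex.ofReal_re, Complex.ofReal_im, Complex.add_im, Complex.conj_re, Complex.conj_im]
      ring
  by_cases hA : (∀ χ ∈ B, x₁ χ ≠ 0) ∧ α = 1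
  · obtain ⟨hA, hα1⟩ := hA
    have hβ0 : β₀ = 0 := abs_eq_zero.mp (by have := abs_nonneg β₀; omega)
    have hsum : ∑ χ : B, x₁ χ.1 * conj (x₁ χ.1) = (q : ℂ) := by
      rw [← Finset.sum_subtype (univ.filter (· ∈ B)) (fun χ => by simp) (fun χ => x₁ χ * conj (x₁ χ))]
      have hu : ∀ ξ : b, (l ξ : ℂ) = ∑ a : b, (blockC p b ξ.1 a.1 : ℂ) * (v a : ℂ) := fun ξ => by
        have := (hv ξ).1
        rw [hα1, hβ0, one_mul, zero_mul, add_zero] at this
        rw [← this]; push_cast; rfl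
      simp only [hx₁, hconj]
      have hE : ∀ z χ, ∑ ξ : b, secCoeff z H χ ξ.1 * (l ξ : ℂ)
          = ∑ a : b, (v a : ℂ) * ∑ ξ : b, secCoeff z H χ ξ.1 * (blockC p b ξ.1 a.1 : ℂ) := fun z χ => by
        simp only [hu, Finset.mul_sum]
        rw [Finset.sum_comm]
        exact Finset.sum_congr rfl fun a _ => Finset.sum_congr rfl fun ξ _ => by ring
      simp only [hE, Finset.sum_mul_sum]
      rw [Finset.sum_comm, Finset.sum_congr rfl fun a _ => Finset.sum_comm]
      have hq' : ∑ a : b, (∑ c : b, blockC p b a.1 c.1 * v c) * (∑ c : b, blockC p b a.1 c.1 * v c)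
          = (q : ℤ) := by
        obtain ⟨ξ₀, hξ₀⟩ := IsPBlock.nonempty hind.1
        rw [(hv ⟨ξ₀, hξ₀⟩).2, hα1, mul_one]
      have hfin : ∀ a c : b, ∑ χ ∈ univ.filter (· ∈ B),
          ((v a : ℂ) * ∑ ξ : b, secCoeff x H χ ξ.1 * (blockC p b ξ.1 a.1 : ℂ)) *
            ((v c : ℂ) * ∑ ξ : b, secCoeff x⁻¹ H χ ξ.1 * (blockC p b ξ.1 c.1 : ℂ))
          = (((v a * v c) * ∑ e : b, blockC p b a.1 e.1 * blockC p b c.1 e.1 : ℤ) : ℂ) := fun a c => by
        simp only [mul_mul_mul_comm (v a : ℂ), ← Finset.mul_sum]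
        rw [sum_secCoeff_blockC hM hx hH hind a c, ← Finset.sum_subtype (univ.filter (· ∈ b))
          (fun ξ => by simp) (fun ξ : IrrCharacter H => blockC p b a.1 ξ * blockC p b c.1 ξ),
          sum_blockC_mul hM hind.1 a.2 c.2]
        push_cast; ring
      simp only [hfin]
      rw [← Int.cast_natCast (R := ℂ) q, ← hq']
      simp only [← Int.cast_sum]
      congr 1
      simp only [Finset.mul_sum, Finset.sum_mul]
      rw [Finset.sum_congr rfl fun a _ => Finset.sum_comm, Finset.sum_comm]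
      refine Finset.sum_congr rfl fun e _ => ?_
      rw [Finset.sum_comm]
      exact Finset.sum_congr rfl fun a _ => Finset.sum_congr rfl fun c _ => by
        rw [blockC_comm b a.1 e.1, blockC_comm b c.1 e.1]; ring
    have h := card_le_of_sum_mul_conj hN (fun χ : B => x₁ χ.1) (fun χ => hm1 _) (fun χ => hi1 _)
      (fun χ => hA _ χ.2) q hsum
    rwa [← Nat.card_eq_fintype_card] at h
  refine key 2 two_pos hl fun χ hχ => ?_
  push_cast
  by_cases hα2 : 2 ≤ α
  · exact hform χ hχ fun _ => hα2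
  have hα1 : α = 1 := by omega
  have hβ0 : β₀ = 0 := abs_eq_zero.mp (by have := abs_nonneg β₀; omega)
  obtain ⟨χ₁, hχ₁, hχ₁x⟩ : ∃ χ₁ ∈ B, x₁ χ₁ = 0 := by
    by_contra hh
    push Not at hh
    exact hA ⟨hh, hα1⟩
  by_cases h0 : blockHeight p B (χ : G → ℂ) = 0
  · refine hform χ hχ fun hx2 => ?_
    refine absurd ?_ (contrib_ne_zero_of_major hM hx hH hind hd hχ hχ₁ h0).1
    rw [hc, hx2, hχ₁x, hβ0]; simp
  set P : ℕ := p ^ blockHeight p B (χ : G → ℂ) with hP
  have hP2 : (2 : ℝ) ≤ P := by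
    exact_mod_cast hp.out.two_le.trans (Nat.le_self_pow h0 p)
  have hP0 : (P : ℂ) ≠ 0 := Nat.cast_ne_zero.mpr (pow_ne_zero _ hp.out.ne_zero)
  have hmemP : contrib p x H b χ χ / (P : ℂ) ∈ rootField N := div_mem (hmem χ) (natCast_mem _ _)
  have h := sum_re_ge hN hmemP (isIntegral_contrib_div hM hx hH hind.1 hd χ hχ)
    (div_ne_zero (exists_height_zero_row hM hx hH hind hd hχ) hP0) (fun σ => r χ σ / P) fun σ => by
      refine ⟨div_nonneg (hr χ σ).1 (Nat.cast_nonneg _), ?_⟩
      rw [show (⟨contrib p x H b χ χ / (P : ℂ), hmemP⟩ : rootField N)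
          = ⟨contrib p x H b χ χ, hmem χ⟩ / (P : rootField N) from Subtype.ext (by push_cast; rfl),
        map_div₀, map_natCast, (hr χ σ).2]
      push_cast
      rfl
  rw [← Finset.sum_div, le_div_iff₀ (by linarith)] at h
  have hn0 : 0 ≤ n := Nat.cast_nonneg _
  nlinarith

end RankTwoBound

end Cfsg.Lib.Blocks
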