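import Mathlib
import Cfsg.Agent.Lib.Blocks.SchurBoundPSolvable
import Cfsg.Agent.Lib.Characters.Gallagher
import Cfsg.Agent.Lib.PLocal.QuadraticSection

/-!
# Faithful characters of degree at most `p - 1` of `p`-solvable groups
-/

set_option autoImplicit false
set_option linter.unusedSectionVars false

namespace Cfsg.Lib.Blocks.SchurBound

open Cfsg.Lib.Characters Finset
open scoped ComplexConjugate Classical Pointwise

universe u

variable {G : Type u} [Group G] [Finite G] {p : ℕ} [hp : Fact p.Prime]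

theorem sylow_eq_pCore (h : (pCore p G).index.factorization p = 0) (P : Sylow p G) :
    (P : Subgroup G) = pCore p G := by
  have hU := Cfsg.Lib.Solv.isPGroup_pCore (G := G) p
  obtain ⟨a, ha⟩ := IsPGroup.iff_card.mp hU
  refine (Subgroup.eq_of_le_of_card_ge (Cfsg.Lib.Solv.pCore_le_sylow p P) (le_of_eq ?_)).symm
  rw [P.card_eq_multiplicity, ha]
  congr 1
  rw [← Subgroup.card_mul_index (pCore p G), Nat.factorization_mul Nat.card_pos.ne'
    Subgroup.index_ne_zero_of_finite, Finsupp.coe_add, Pi.add_apply, h, add_zero, ha,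
    hp.out.factorization_pow, Finsupp.single_eq_same]

theorem normal_of_small (hsol : IsPSolvable p G) {χ : G → ℂ} (hχ : IsCharacter G χ)
    (hf : ∀ g, χ g = χ 1 → g = 1) {n : ℕ} (hn : χ 1 = n) (hlt : n + 1 < p) (P : Sylow p G) :
    (P : Subgroup G).Normal := by
  have h := pSolvable_bound hp.out hsol hχ hf hn
  have h0 : ∑ i ∈ range (n + 1), n / ((p - 1) * p ^ i) = 0 := sum_eq_zero fun i _ => by
    refine Nat.div_eq_of_lt (lt_of_lt_of_le (by omega : n < p - 1) ?_)
    exact Nat.le_mul_of_pos_right _ (pow_pos hp.out.pos i)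
  rw [h0] at h
  rw [sylow_eq_pCore (Nat.le_zero.mp h) P]
  infer_instance

/-- A `p`-element normalising but not centralising a `q`-group, when the Sylow is not normal. -/
theorem exists_noncentralising (hsol : IsPSolvable p G) (P : Sylow p G)
    (hP : ¬ (P : Subgroup G).Normal) :
    ∃ (q : ℕ) (_ : q.Prime) (R : Subgroup G) (x : G), q ≠ p ∧ IsPGroup q R ∧
      (∃ k : ℕ, orderOf x = p ^ k) ∧ x ∈ Subgroup.normalizer (R : Set G) ∧
      x ∉ Subgroup.centralizer (R : Set G) := by
  by_contra hcon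
  push Not at hcon
  set U := pCore p G with hU
  have hUp : IsPGroup p U := Cfsg.Lib.Solv.isPGroup_pCore p
  set π := QuotientGroup.mk' U with hπ
  have hπs : Function.Surjective π := QuotientGroup.mk'_surjective U
  -- lift to the quotient
  have hlift : ∀ (q : ℕ), q.Prime → q ≠ p → ∀ (Rb : Subgroup (G ⧸ U)), IsPGroup q Rb →
      ∀ y ∈ Subgroup.normalizer (Rb : Set (G ⧸ U)), ∀ k : ℕ, orderOf y = p ^ k →
      y ∈ Subgroup.centralizer (Rb : Set (G ⧸ U)) := by
    intro q hq hqp Rb hRb y hy k hk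
    haveI := Fact.mk hq
    set M := Rb.comap π with hM
    haveI : Fintype M := Fintype.ofFinite M
    obtain ⟨R⟩ : Nonempty (Sylow q M) := inferInstance
    set R' := (R : Subgroup M).map M.subtype with hR'
    have hRmap : R'.map π = Rb := by
      refine le_antisymm ?_ ?_
      · rintro _ ⟨r, ⟨r', -, rfl⟩, rfl⟩; exact r'.2
      · -- the image of a Sylow subgroup is a Sylow subgroup of a q-group
        let f : M →* Rb := (π.comp M.subtype).codRestrict Rb fun m => m.2
        have hf : Function.Surjective f := by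
          rintro ⟨b, hb⟩
          obtain ⟨g, rfl⟩ := hπs b
          exact ⟨⟨g, hb⟩, rfl⟩
        set T := R.mapSurjective hf
        have hT : (T : Subgroup Rb) = ⊤ := (T.3 (IsPGroup.to_subgroup hRb ⊤) le_top).symm
        intro b hb
        have hb' : (⟨b, hb⟩ : Rb) ∈ (T : Subgroup Rb) := hT ▸ Subgroup.mem_top _
        rw [Sylow.coe_mapSurjective] at hb'
        obtain ⟨m, hm, hmb⟩ := hb'
        exact ⟨m, ⟨m, hm, rfl⟩, congrArg Subtype.val hmb⟩
    obtain ⟨g, rfl⟩ := hπs y
    have hgM : g ∈ Subgroup.normalizer (M : Set G) := by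
      rw [Subgroup.mem_normalizer_iff]
      intro z
      rw [hM, Subgroup.mem_comap, Subgroup.mem_comap, map_mul, map_mul, map_inv]
      exact (Subgroup.mem_normalizer_iff.mp hy (π z))
    -- Frattini inside the normaliser of M
    set NM := Subgroup.normalizer (M : Set G)
    have hMle : M ≤ NM := Subgroup.le_normalizer
    haveI : (M.subgroupOf NM).Normal := Subgroup.normal_in_normalizer
    let eM := Subgroup.subgroupOfEquivOfLe hMle
    let RM : Sylow q (M.subgroupOf NM) := R.mapSurjective (f := eM.symm.toMonoidHom) eM.symm.surjective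
    have hfr := RM.normalizer_sup_eq_top
    have hmem : (⟨g, hgM⟩ : NM) ∈ (⊤ : Subgroup NM) := Subgroup.mem_top _
    rw [← hfr, Subgroup.mem_sup_of_normal_right] at hmem
    obtain ⟨a, ha, b, hb, hab⟩ := hmem
    have haN : (a : G) ∈ Subgroup.normalizer (R' : Set G) := by
      rw [Subgroup.mem_normalizer_iff]
      intro z
      have key : ∀ w : NM, w ∈ (RM : Subgroup (M.subgroupOf NM)).map (M.subgroupOf NM).subtype ↔
          (w : G) ∈ R' := by
        intro w
        constructor
        · rintro ⟨v, hv, rfl⟩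
          have hv' : v ∈ (R : Subgroup M).map eM.symm.toMonoidHom := hv
          obtain ⟨r, hr, rfl⟩ := hv'
          exact ⟨r, hr, rfl⟩
        · rintro ⟨r, hr, hrw⟩
          refine ⟨eM.symm r, ?_, Subtype.ext hrw⟩
          show eM.symm r ∈ (R : Subgroup M).map eM.symm.toMonoidHom
          exact ⟨r, hr, rfl⟩
      rw [Subgroup.mem_normalizer_iff] at ha
      constructor
      · intro hz
        have hzN : z ∈ NM := hMle (by obtain ⟨r, -, rfl⟩ := hz; exact r.2)
        have := (key _).mp ((ha ⟨z, hzN⟩).mp ((key _).mpr hz))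
        simpa using this
      · intro hz
        have hzN : (a : G) * z * (a : G)⁻¹ ∈ NM := hMle (by obtain ⟨r, -, hr⟩ := hz; rw [← hr]; exact r.2)
        have hzN' : z ∈ NM := by
          have := NM.mul_mem (NM.mul_mem (NM.inv_mem a.2) hzN) a.2
          simpa [mul_assoc] using this
        exact (key ⟨z, hzN'⟩).mp ((ha ⟨z, hzN'⟩).mpr ((key _).mpr (by simpa using hz)))
    have hbM : (b : G) ∈ M := hb
    have hab' : (a : G) * b = g := congrArg Subtype.val hab
    obtain ⟨r, hr, hrb⟩ : π (b : G) ∈ R'.map π := hRmap.symm ▸ hbM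
    have hrN : r ∈ Subgroup.normalizer (R' : Set G) := Subgroup.le_normalizer hr
    set x := (a : G) * r with hx
    have hπx : π x = π g := by rw [hx, map_mul, hrb, ← map_mul, hab']
    have hxN : x ∈ Subgroup.normalizer (R' : Set G) := mul_mem haN hrN
    have hxord : ∃ k' : ℕ, orderOf x = p ^ k' := by
      have h1 : x ^ p ^ k ∈ U := by
        rw [← QuotientGroup.eq_one_iff]
        show π (x ^ p ^ k) = 1
        rw [map_pow, hπx, ← hk, pow_orderOf_eq_one]
      obtain ⟨j, hj⟩ := hUp ⟨_, h1⟩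
      have h2 : x ^ p ^ (k + j) = 1 := by
        rw [pow_add, pow_mul]
        exact congrArg Subtype.val hj
      obtain ⟨k', -, hk'⟩ := (Nat.dvd_prime_pow hp.out).mp (orderOf_dvd_of_pow_eq_one h2)
      exact ⟨k', hk'⟩
    have hcomm := hcon q hq R' x hqp (R.isPGroup'.map _) hxord hxN
    rw [Subgroup.mem_centralizer_iff] at hcomm ⊢
    intro b hb
    rw [SetLike.mem_coe, ← hRmap] at hb
    obtain ⟨z, hz, rfl⟩ := hb
    rw [← hπx, ← map_mul, ← map_mul, hcomm z hz]
  set K := pPrimeCore p (G ⧸ U) with hK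
  have hcent : Subgroup.centralizer (K : Set (G ⧸ U)) ≤ K :=
    centralizer_pPrimeCore_le (Cfsg.Lib.PLocal.IsPSolvable.of_surjective π hπs hsol)
      (Cfsg.Lib.Solv.pCore_quotient_eq_bot p)
  have hKcop : (Nat.card K).Coprime p := Cfsg.Lib.Solv.coprime_pPrimeCore p
  obtain ⟨T⟩ : Nonempty (Sylow p (G ⧸ U)) := inferInstance
  have hTK : (T : Subgroup (G ⧸ U)) ≤ Subgroup.centralizer (K : Set (G ⧸ U)) := by
    rw [Subgroup.le_centralizer_iff]
    set C := Subgroup.centralizer ((T : Subgroup (G ⧸ U)) : Set (G ⧸ U)) ⊓ K with hC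
    suffices h : C = K by rw [← h]; exact inf_le_left
    refine Subgroup.eq_of_le_of_card_ge inf_le_right (Nat.le_of_dvd Nat.card_pos ?_)
    refine (Nat.factorization_le_iff_dvd Nat.card_pos.ne' Nat.card_pos.ne').mp fun q => ?_
    by_cases hq : q.Prime
    swap
    · simp [Nat.factorization_eq_zero_of_not_prime _ hq]
    haveI := Fact.mk hq
    by_cases hqK : q ∣ Nat.card K
    swap
    · simp [Nat.factorization_eq_zero_of_not_dvd hqK]
    have hqp : q ≠ p := by
      rintro rfl
      exact hq.ne_one (Nat.dvd_one.mp (hKcop ▸ Nat.dvd_gcd hqK dvd_rfl))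
    obtain ⟨R⟩ : Nonempty (Sylow q K) := inferInstance
    set R' := (R : Subgroup K).map K.subtype with hR'
    set N := Subgroup.normalizer (R' : Set (G ⧸ U)) with hN
    have hfr : N ⊔ K = ⊤ := R.normalizer_sup_eq_top
    obtain ⟨T'⟩ : Nonempty (Sylow p N) := inferInstance
    have hsurj : Function.Surjective ((QuotientGroup.mk' K).comp N.subtype) := by
      intro z
      obtain ⟨g, rfl⟩ := QuotientGroup.mk'_surjective K z
      have hg : g ∈ N ⊔ K := by rw [hfr]; exact Subgroup.mem_top _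
      rw [Subgroup.mem_sup_of_normal_right] at hg
      obtain ⟨a, ha, b, hb, rfl⟩ := hg
      refine ⟨⟨a, ha⟩, ?_⟩
      show QuotientGroup.mk' K a = QuotientGroup.mk' K (a * b)
      rw [map_mul, show QuotientGroup.mk' K b = 1 from (QuotientGroup.eq_one_iff b).mpr hb, mul_one]
    set T'' := (T' : Subgroup N).map N.subtype with hT''
    have hcardT : p ^ (Nat.card (G ⧸ U)).factorization p ≤ Nat.card T'' := by
      have h1 := (T'.mapSurjective hsurj).card_eq_multiplicity
      have h2 : (Nat.card ((G ⧸ U) ⧸ K)).factorization p = (Nat.card (G ⧸ U)).factorization p := by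
        rw [← Subgroup.index_eq_card, ← Subgroup.card_mul_index K,
          Nat.factorization_mul Nat.card_pos.ne' Subgroup.index_ne_zero_of_finite,
          Finsupp.coe_add, Pi.add_apply, Nat.factorization_eq_zero_of_not_dvd
            ((hp.out.coprime_iff_not_dvd).mp hKcop.symm), zero_add]
      rw [← h2, ← h1, Sylow.coe_mapSurjective, hT'', Subgroup.card_subtype]
      exact Nat.le_of_dvd Nat.card_pos (Subgroup.card_map_dvd _ _)
    obtain ⟨T₀, hT₀⟩ := (T'.isPGroup'.map N.subtype).exists_le_sylow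
    have hTeq : T'' = (T₀ : Subgroup (G ⧸ U)) :=
      Subgroup.eq_of_le_of_card_ge hT₀ (T₀.card_eq_multiplicity ▸ hcardT)
    obtain ⟨c, hc⟩ := MulAction.exists_smul_eq (G ⧸ U) T₀ T
    -- conjugate the Sylow subgroup of K
    have hle : R'.map (MulAut.conj c).toMonoidHom ≤ C := by
      rintro _ ⟨r, hr, rfl⟩
      refine ⟨?_, ?_⟩
      · refine Subgroup.mem_centralizer_iff.mpr ?_
        intro t ht
        rw [SetLike.mem_coe, ← hc] at ht
        obtain ⟨t₀, ht₀, rfl⟩ := ht
        have ht₀' : t₀ ∈ T'' := hTeq ▸ ht₀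
        obtain ⟨t₁, ht₁, rfl⟩ := ht₀'
        obtain ⟨j, hj⟩ := T'.isPGroup' ⟨t₁, ht₁⟩
        obtain ⟨k, -, hk⟩ := (Nat.dvd_prime_pow hp.out).mp (orderOf_dvd_of_pow_eq_one
          (show (t₁ : G ⧸ U) ^ p ^ j = 1 from
            congrArg (fun z : (T' : Subgroup N) => ((z : N) : G ⧸ U)) hj))
        have := Subgroup.mem_centralizer_iff.mp
          (hlift q hq hqp R' (R.isPGroup'.map _) _ t₁.2 k hk) r hr
        show c * t₁ * c⁻¹ * (c * r * c⁻¹) = c * r * c⁻¹ * (c * t₁ * c⁻¹)
        calc _ = c * (t₁ * r) * c⁻¹ := by group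
          _ = c * (r * t₁) * c⁻¹ := by rw [this]
          _ = _ := by group
      · obtain ⟨r₀, -, rfl⟩ := hr
        exact (inferInstance : K.Normal).conj_mem _ r₀.2 c
    have hdvd := Subgroup.card_dvd_of_le hle
    rw [← Nat.card_congr (R'.equivMapOfInjective _ (MulAut.conj c).injective).toEquiv, hR',
      Subgroup.card_subtype, R.card_eq_multiplicity] at hdvd
    exact (hq.pow_dvd_iff_le_factorization Nat.card_pos.ne').mp hdvd
  have hTbot : (T : Subgroup (G ⧸ U)) = ⊥ := by
    have h1 : (T : Subgroup (G ⧸ U)) ≤ K := hTK.trans hcent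
    obtain ⟨a, ha⟩ := IsPGroup.iff_card.mp T.isPGroup'
    have h2 := Subgroup.card_dvd_of_le h1
    rw [ha] at h2
    have h3 := Nat.dvd_gcd h2 (dvd_refl (p ^ a))
    rw [(Nat.Coprime.pow_right a hKcop).gcd_eq_one, Nat.dvd_one] at h3
    exact Subgroup.card_eq_one.mp (ha.trans h3)
  apply hP
  have h0 : (pCore p G).index.factorization p = 0 := by
    have := T.card_eq_multiplicity
    rw [hTbot, Subgroup.card_bot, ← Subgroup.index_eq_card] at this
    exact (Nat.pow_eq_one.mp this.symm).resolve_left hp.out.ne_one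
  rw [sylow_eq_pCore h0 P]
  infer_instance

/-- Normality passes to a faithful subdirect product. -/
theorem isIrr_of_small (hsol : IsPSolvable p G) {χ : G → ℂ} (hχ : IsCharacter G χ)
    (hf : ∀ g, χ g = χ 1 → g = 1) {n : ℕ} (hn : χ 1 = n) (hle : n + 1 ≤ p) (P : Sylow p G)
    (hP : ¬ (P : Subgroup G).Normal) : IsIrrCharacter G χ := by
  haveI : Fintype G := Fintype.ofFinite G
  obtain ⟨m, hm⟩ := exists_decomposition hχ
  choose d hd0 hd using fun ξ : IrrCharacter G => ξ.2.exists_degree_pos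
  have hsum : n = ∑ ξ, m ξ * d ξ := by
    have h := congrFun hm 1
    simp only [hn, Finset.sum_apply, Pi.smul_apply, smul_eq_mul, hd] at h
    exact_mod_cast h
  by_cases hsingle : ∀ ξ, m ξ ≠ 0 → d ξ = n
  · -- one constituent with multiplicity one
    by_cases hall : ∀ ξ, m ξ = 0
    · exfalso
      have h0 : χ = 0 := by rw [hm]; simp [hall]
      haveI : Subsingleton G := ⟨fun a b => by
        rw [hf a (by simp [h0]), hf b (by simp [h0])]⟩
      exact hP ⟨fun a ha g => by rw [Subsingleton.elim (g * a * g⁻¹) a]; exact ha⟩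
    · push Not at hall
      obtain ⟨ξ₀, hξ₀⟩ := hall
      rw [← Finset.add_sum_erase univ _ (mem_univ ξ₀), hsingle ξ₀ hξ₀] at hsum
      have hn0 : 0 < n := hsingle ξ₀ hξ₀ ▸ hd0 ξ₀
      have h1 : m ξ₀ = 1 := by
        have : m ξ₀ * n ≤ 1 * n := by omega
        have := Nat.le_of_mul_le_mul_right this hn0
        omega
      rw [h1, one_mul, left_eq_add, sum_eq_zero_iff] at hsum
      rw [hm, sum_eq_single ξ₀ (fun ξ _ hξ => by
        have := hsum ξ (mem_erase.mpr ⟨hξ, mem_univ _⟩)
        rcases Nat.mul_eq_zero.mp this with h | h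
        · simp [h]
        · exact absurd h (hd0 ξ).ne') (fun h => absurd (mem_univ _) h), h1]
      simpa using ξ₀.2
  · exfalso
    push Not at hsingle
    obtain ⟨ξ₁, hξ₁, hξ₁'⟩ := hsingle
    have hlt : ∀ ξ, m ξ ≠ 0 → d ξ < n := by
      intro ξ hξ
      have hone : ∀ ζ, m ζ ≠ 0 → d ζ ≤ m ζ * d ζ := fun ζ hζ =>
        Nat.le_mul_of_pos_left _ (Nat.pos_of_ne_zero hζ)
      have hle' : m ξ * d ξ ≤ n :=
        hsum ▸ single_le_sum (f := fun ζ => m ζ * d ζ) (fun _ _ => Nat.zero_le _) (mem_univ ξ)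
      rcases eq_or_ne ξ ξ₁ with rfl | hne
      · exact lt_of_le_of_ne ((hone ξ hξ).trans hle') hξ₁'
      · have h2 : ∑ ζ ∈ ({ξ, ξ₁} : Finset _), m ζ * d ζ ≤ n :=
          hsum ▸ sum_le_sum_of_subset (subset_univ _)
        rw [sum_pair hne] at h2
        have := hone ξ hξ
        have := hone ξ₁ hξ₁
        have := hd0 ξ₁
        omega
    let ι := {ξ : IrrCharacter G // m ξ ≠ 0}
    let Kξ : ι → Subgroup G := fun ξ => charKer ξ.1.2.isCharacter
    haveI : ∀ ξ, (Kξ ξ).Normal := fun ξ => charKer_normal _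
    let N : Subgroup G := ⨅ ξ : ι, (pCore p (G ⧸ Kξ ξ)).comap (QuotientGroup.mk' (Kξ ξ))
    have hPN : (P : Subgroup G) ≤ N := by
      refine le_iInf fun ξ => ?_
      obtain ⟨ψ, hψc, -, hψ⟩ := exists_of_quotient (N := Kξ ξ) ξ.1.2.isCharacter
        fun g hg => (mem_charKer _).mp hg
      haveI : Fintype (G ⧸ Kξ ξ) := Fintype.ofFinite _
      have hψ1 : ψ 1 = (d ξ.1 : ℂ) := by rw [← hd ξ.1]; exact hψ 1
      have hψf : ∀ y, ψ y = ψ 1 → y = 1 := by
        intro y hy
        obtain ⟨g, rfl⟩ := QuotientGroup.mk'_surjective (Kξ ξ) y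
        refine (QuotientGroup.eq_one_iff g).mpr ((mem_charKer _).mpr ?_)
        rw [← hψ g, ← hψ 1]; exact hy
      have hsurj := QuotientGroup.mk'_surjective (Kξ ξ)
      set P' := P.mapSurjective hsurj
      have hN := normal_of_small (Cfsg.Lib.PLocal.IsPSolvable.of_surjective _ hsurj hsol) hψc hψf
        hψ1 (by have := hlt ξ.1 ξ.2; omega) P'
      have hle2 := Cfsg.Lib.Solv.le_pCore hN P'.isPGroup'
      intro g hg
      exact hle2 (by rw [Sylow.coe_mapSurjective]; exact ⟨g, hg, rfl⟩)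
    have hNn : N.Normal := Subgroup.normal_iInf_normal fun ξ => inferInstance
    have hNp : IsPGroup p N := by
      intro g
      have hg : ∀ ξ : ι, ∃ j : ℕ, (g : G) ^ p ^ j ∈ Kξ ξ := by
        intro ξ
        have h1 : QuotientGroup.mk' (Kξ ξ) g ∈ pCore p (G ⧸ Kξ ξ) := (Subgroup.mem_iInf.mp g.2 ξ)
        obtain ⟨j, hj⟩ := Cfsg.Lib.Solv.isPGroup_pCore p ⟨_, h1⟩
        refine ⟨j, (QuotientGroup.eq_one_iff _).mp ?_⟩
        have h2 := congrArg Subtype.val hj
        rw [Subgroup.coe_pow, ← map_pow] at h2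
        exact h2
      choose j hj using hg
      refine ⟨∑ ξ, j ξ, Subtype.ext (hf _ ?_)⟩
      rw [Subgroup.coe_pow, hm]
      simp only [Finset.sum_apply, Pi.smul_apply, smul_eq_mul]
      refine sum_congr rfl fun ξ _ => ?_
      by_cases hξ : m ξ = 0
      · simp [hξ]
      · congr 1
        have hdv : p ^ j ⟨ξ, hξ⟩ ∣ p ^ ∑ η, j η :=
          pow_dvd_pow p (single_le_sum (f := j) (fun _ _ => Nat.zero_le _) (mem_univ _))
        obtain ⟨e, he⟩ := hdv
        have hmem : (g : G) ^ (p ^ ∑ η, j η) ∈ Kξ ⟨ξ, hξ⟩ := by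
          rw [he, pow_mul]; exact pow_mem (hj ⟨ξ, hξ⟩) e
        exact (mem_charKer _).mp hmem
    apply hP
    rw [← P.3 hNp hPN]
    exact hNn

theorem small_degree (hsol : IsPSolvable p G) {χ : G → ℂ} (hχ : IsCharacter G χ)
    (hf : ∀ g, χ g = χ 1 → g = 1) {n : ℕ} (hn : χ 1 = n) (hle : n + 1 ≤ p) (P : Sylow p G)
    (hP : ¬ (P : Subgroup G).Normal) :
    n + 1 = p ∧ (∃ k : ℕ, n = 2 ^ k) ∧ IsIrrCharacter G χ := by
  have hnp : n + 1 = p := le_antisymm hle (not_lt.mp fun h => hP (normal_of_small hsol hχ hf hn h P))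
  refine ⟨hnp, ?_, isIrr_of_small hsol hχ hf hn hle P hP⟩
  obtain ⟨q, hq, R, x, hqp, hR, ⟨k, hk⟩, hxN, hxC⟩ := exists_noncentralising hsol P hP
  haveI := Fact.mk hq
  set X := R ⊔ Subgroup.zpowers x with hXdef
  haveI : Fintype X := Fintype.ofFinite X
  have hχX : IsCharacter X fun y : X => χ y := isCharacter_restrict hχ X
  have hfX : ∀ y : X, (fun y : X => χ y) y = (fun y : X => χ y) 1 → y = 1 :=
    fun y hy => Subtype.ext (hf y (by simpa using hy))
  obtain ⟨PX, hPX⟩ : ∃ PX : Sylow p X, (Subgroup.zpowers x).subgroupOf X ≤ (PX : Subgroup X) := by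
    refine IsPGroup.exists_le_sylow (IsPGroup.of_card (n := k) ?_)
    rw [Nat.card_congr (Subgroup.subgroupOfEquivOfLe (le_sup_right : _ ≤ X)).toEquiv,
      Nat.card_zpowers, hk]
  have hPXn : ¬ (PX : Subgroup X).Normal := by
    intro hn'
    apply hxC
    rw [Subgroup.mem_centralizer_iff]
    intro r hr
    let r' : X := ⟨r, (le_sup_left : R ≤ X) hr⟩
    let x' : X := ⟨x, (le_sup_right : _ ≤ X) (Subgroup.mem_zpowers x)⟩
    have hx' : x' ∈ (PX : Subgroup X) := hPX (Subgroup.mem_zpowers x)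
    set c := r' * x' * r'⁻¹ * x'⁻¹ with hc
    have hc1 : c ∈ (PX : Subgroup X) := mul_mem (hn'.conj_mem _ hx' r') (inv_mem hx')
    have hc2 : (c : G) ∈ R := by
      have h1 : (c : G) = r * (x * r⁻¹ * x⁻¹) := by simp [c, r', x', mul_assoc]
      rw [h1]
      exact R.mul_mem hr ((Subgroup.mem_normalizer_iff.mp hxN r⁻¹).mp (R.inv_mem hr))
    obtain ⟨i, hi⟩ := PX.isPGroup' ⟨c, hc1⟩
    obtain ⟨i', hi'⟩ := hR ⟨(c : G), hc2⟩
    have h3 : orderOf (c : G) ∣ p ^ i := orderOf_dvd_of_pow_eq_one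
      (congrArg (fun z : (PX : Subgroup X) => ((z : X) : G)) hi)
    have h4 : orderOf (c : G) ∣ q ^ i' := orderOf_dvd_of_pow_eq_one (congrArg Subtype.val hi')
    have h5 := Nat.dvd_gcd h3 h4
    rw [(Nat.Coprime.pow i i' ((Nat.coprime_primes hp.out hq).mpr hqp.symm)).gcd_eq_one,
      Nat.dvd_one, orderOf_eq_one_iff] at h5
    have h6 : r * x * r⁻¹ * x⁻¹ = 1 := by rw [← h5]; simp [c, r', x']
    exact mul_inv_eq_iff_eq_mul.mp (mul_inv_eq_one.mp h6)
  have hirr := isIrr_of_small (Cfsg.Lib.PLocal.QuadSection.pSolvable_subgroup hsol X) hχX hfX (n := n)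
    (by simpa using hn) hle PX hPXn
  -- restriction to R is irreducible
  haveI : Fintype (R.subgroupOf X) := Fintype.ofFinite _
  haveI hRn : (R.subgroupOf X).Normal := by
    have hXN : X ≤ Subgroup.normalizer (R : Set G) :=
      sup_le Subgroup.le_normalizer (Subgroup.zpowers_le.mpr hxN)
    refine ⟨fun r hr y => ?_⟩
    rw [Subgroup.mem_subgroupOf] at hr ⊢
    exact (Subgroup.mem_normalizer_iff.mp (hXN y.2) (r : G)).mp hr
  have hcyc : IsCyclic (X ⧸ R.subgroupOf X) := by
    let g : Subgroup.zpowers x →* X ⧸ R.subgroupOf X :=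
      (QuotientGroup.mk' _).comp (Subgroup.inclusion (le_sup_right : _ ≤ X))
    refine isCyclic_of_surjective g fun y => ?_
    obtain ⟨⟨z, hz⟩, rfl⟩ := QuotientGroup.mk'_surjective _ y
    have hz' : z ∈ ((Subgroup.zpowers x ⊔ R : Subgroup G) : Set G) := by rw [sup_comm]; exact hz
    rw [Subgroup.coe_mul_of_left_le_normalizer_right _ _ (Subgroup.zpowers_le.mpr hxN)] at hz'
    obtain ⟨a, ha, b, hb, rfl⟩ := hz'
    refine ⟨⟨a, ha⟩, ?_⟩
    refine QuotientGroup.eq.mpr ?_
    show a⁻¹ * (a * b) ∈ R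
    simpa using hb
  obtain ⟨m₀, hm₀⟩ := exists_decomposition (isCharacter_restrict hχX (R.subgroupOf X))
  obtain ⟨θ, hθ0⟩ : ∃ θ : IrrCharacter (R.subgroupOf X), m₀ θ ≠ 0 := by
    by_contra hall
    push Not at hall
    have h1 := congrFun hm₀ 1
    simp only [hall, Nat.cast_zero, zero_smul, sum_const_zero, Pi.zero_apply] at h1
    exact hirr.one_ne_zero (by simpa using h1)
  have hne : classInner (fun r : R.subgroupOf X => χ ((r : X) : G)) (θ : R.subgroupOf X → ℂ) ≠ 0 := by
    have h := classInner_sum_irr (fun ν => (m₀ ν : ℂ)) θ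
    rw [← hm₀] at h
    exact h.trans_ne (Nat.cast_ne_zero.mpr hθ0)
  obtain ⟨dθ, hdθ0, hdθ⟩ := θ.2.exists_degree_pos
  set O := orbitFinset (R.subgroupOf X) (θ : R.subgroupOf X → ℂ) with hO
  have hcl := congrFun (clifford hirr θ.2 hne) 1
  simp only [Pi.smul_apply, Finset.sum_apply, smul_eq_mul] at hcl
  have hinv : ∀ y, conjFn (R.subgroupOf X) (θ : R.subgroupOf X → ℂ) y = θ := by
    have hstab := card_stabilizer_mul_card_orbit (N := R.subgroupOf X) (θ : R.subgroupOf X → ℂ)
    have hle' : R.subgroupOf X ≤ inertia (R.subgroupOf X) (θ : R.subgroupOf X → ℂ) :=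
      le_inertia θ.2.isClassFunction
    rw [← card_inertia, ← Subgroup.card_mul_index (inertia (R.subgroupOf X) (θ : R.subgroupOf X → ℂ))]
      at hstab
    have hidx : (inertia (R.subgroupOf X) (θ : R.subgroupOf X → ℂ)).index = O.card :=
      (Nat.eq_of_mul_eq_mul_left Nat.card_pos hstab).symm
    have hpow : ∃ j, O.card = p ^ j := by
      have h1 : O.card ∣ p ^ k := by
        rw [← hidx]
        refine (Subgroup.index_dvd_of_le hle').trans ?_
        rw [Subgroup.index_eq_card, ← hk, ← Nat.card_zpowers]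
        have hsurj : Function.Surjective ((QuotientGroup.mk' (R.subgroupOf X)).comp
            (Subgroup.inclusion (le_sup_right : Subgroup.zpowers x ≤ X))) := by
          intro y
          obtain ⟨⟨z, hz⟩, rfl⟩ := QuotientGroup.mk'_surjective _ y
          have hz' : z ∈ ((Subgroup.zpowers x ⊔ R : Subgroup G) : Set G) := by rw [sup_comm]; exact hz
          rw [Subgroup.coe_mul_of_left_le_normalizer_right _ _ (Subgroup.zpowers_le.mpr hxN)] at hz'
          obtain ⟨a, ha, b, hb, rfl⟩ := hz'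
          refine ⟨⟨a, ha⟩, ?_⟩
          refine QuotientGroup.eq.mpr ?_
          show a⁻¹ * (a * b) ∈ R
          simpa using hb
        exact Subgroup.card_dvd_of_surjective _ hsurj
      obtain ⟨j, -, hj⟩ := (Nat.dvd_prime_pow hp.out).mp h1
      exact ⟨j, hj⟩
    obtain ⟨j, hj⟩ := hpow
    have hj0 : O.card = 1 := by
      have hterm : ∀ ψ ∈ O, ψ 1 = (dθ : ℂ) := by
        intro ψ hψ
        obtain ⟨y, rfl⟩ := mem_orbitFinset.mp hψ
        rw [conjFn_apply, ← hdθ]
        refine congrArg (θ : R.subgroupOf X → ℂ) ?_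
        apply Subtype.ext
        show (y : X) * ((1 : R.subgroupOf X) : X) * (y : X)⁻¹ = ((1 : R.subgroupOf X) : X)
        simp
      have h2 : n = m₀ θ * (O.card * dθ) := by
        have h3 : χ 1 = (m₀ θ : ℂ) * ((O.card : ℂ) * dθ) := by
          rw [← show (fun r : R.subgroupOf X => χ ((r : X) : G)) 1 = χ 1 from rfl]
          refine hcl.trans ?_
          rw [sum_congr rfl hterm, sum_const, nsmul_eq_mul]
          congr 1
          rw [← hm₀.symm] at hne
          have := classInner_sum_irr (fun ν => (m₀ ν : ℂ)) θ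
          rw [← hm₀] at this
          exact this
        rw [hn] at h3
        exact_mod_cast h3
      rcases Nat.eq_zero_or_pos j with rfl | hjpos
      · simpa using hj
      · exfalso
        have h4 : p ≤ O.card := hj ▸ Nat.le_self_pow hjpos.ne' p
        have h5 : O.card ≤ n := by
          rw [h2]
          calc O.card = 1 * (O.card * 1) := by ring
            _ ≤ _ := Nat.mul_le_mul (Nat.pos_of_ne_zero hθ0) (Nat.mul_le_mul_left _ hdθ0)
        omega
    intro y
    obtain ⟨a, ha⟩ := card_eq_one.mp hj0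
    have h1 : conjFn (R.subgroupOf X) (θ : R.subgroupOf X → ℂ) y ∈ O := mem_orbitFinset.mpr ⟨y, rfl⟩
    have h2 : (θ : R.subgroupOf X → ℂ) ∈ O := mem_orbitFinset.mpr ⟨1, (conjFn_one _).symm⟩
    rw [ha, mem_singleton] at h1 h2
    rw [h1, h2]
  obtain ⟨e, he, -, he1⟩ := multiplicity_dvd_index θ.2 hinv hirr hne
  have hdn : dθ = n := by
    have h := congrFun he 1
    simp only [he1 hcyc, Nat.cast_one, one_smul] at h
    rw [hdθ] at h
    have h' : (n : ℂ) = dθ := by rw [← hn]; exact h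
    exact_mod_cast h'.symm
  have hdvd : n ∣ Nat.card R := by
    rw [← hdn, ← Nat.card_congr (Subgroup.subgroupOfEquivOfLe (le_sup_left : R ≤ X)).toEquiv]
    exact degree_dvd_card θ.2 hdθ
  obtain ⟨a, ha⟩ := IsPGroup.iff_card.mp hR
  rw [ha] at hdvd
  obtain ⟨b, -, hb⟩ := (Nat.dvd_prime_pow hq).mp hdvd
  rcases Nat.eq_zero_or_pos b with rfl | hb0
  · exact ⟨0, by simpa using hb⟩
  · have hp2 : p ≠ 2 := by
      intro h
      have := Nat.le_self_pow hb0.ne' q
      have := hq.two_le
      omega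
    have hodd := hp.out.odd_of_ne_two hp2
    have h2 : 2 ∣ n := by
      obtain ⟨c, hc⟩ := hodd
      exact ⟨c, by omega⟩
    rw [hb] at h2
    have := (Nat.prime_dvd_prime_iff_eq Nat.prime_two hq).mp (Nat.prime_two.dvd_of_dvd_pow h2)
    exact ⟨b, this.symm ▸ hb⟩

end Cfsg.Lib.Blocks.SchurBound
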