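import Mathlib
import Cfsg.Prelude.Def_Local
import Cfsg.Agent.Lib.Solv.MinNormal

/-!
# Solvable groups are p-solvable
-/

set_option autoImplicit false

namespace Cfsg.Lib.Blocks

universe u

theorem isPSolvable_of_isSolvable_aux (p : ℕ) [hp : Fact p.Prime] : ∀ (k : ℕ) (G : Type u) [Group G] [Finite G],
    Nat.card G = k → Group.IsSolvable G → Cfsg.IsPSolvable p G := by
  intro k
  induction k using Nat.strong_induction_on with
  | _ k ih =>
  intro G _ _ hk hs
  by_cases hG : Nontrivial G
  · obtain ⟨N, hN, -, hNne, hmin⟩ := Cfsg.Lib.Solv.exists_minimal_normal_le (G := G) (N := ⊤) top_ne_bot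
    haveI := hN
    haveI := hs
    obtain ⟨-, q, hq, hqN, -⟩ := Cfsg.Lib.Solv.minimal_normal_elementary hNne inferInstance hmin
    haveI := Fact.mk hq
    obtain ⟨a, ha⟩ := IsPGroup.iff_card.mp hqN
    have hlt : Nat.card (G ⧸ N) < k := by
      rw [← hk, ← Subgroup.index_eq_card, ← Subgroup.card_mul_index N]
      exact lt_mul_left (Nat.pos_of_ne_zero Subgroup.index_ne_zero_of_finite)
        (Finite.one_lt_card_iff_nontrivial.mpr ((Subgroup.nontrivial_iff_ne_bot N).mpr hNne))
    obtain ⟨n, H, h0, hlast, hmono, hnorm, hfac⟩ := ih _ hlt (G ⧸ N) rfl inferInstance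
    let π := QuotientGroup.mk' N
    let H' : Fin (n + 2) → Subgroup G := Fin.cons ⊥ (fun i => (H i).comap π)
    refine ⟨n + 1, H', rfl, ?_, ?_, fun i => ?_, fun i => ?_⟩
    · rw [← Fin.succ_last]
      simp only [H', Fin.cons_succ, hlast, Subgroup.comap_top]
    · refine Fin.monotone_iff_le_succ.mpr fun i => ?_
      induction i using Fin.cases with
      | zero => exact bot_le
      | succ j =>
        simp only [H', ← Fin.succ_castSucc, Fin.cons_succ]
        exact Subgroup.comap_mono (hmono (Fin.castSucc_le_succ j))
    · induction i using Fin.cases with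
      | zero => simp only [H', Fin.cons_zero]; infer_instance
      | succ j => simp only [H', Fin.cons_succ]; haveI := hnorm j; infer_instance
    · induction i using Fin.cases with
      | zero =>
        have h : (H' 0).relIndex (H' (Fin.succ 0)) = q ^ a := by
          simp only [H', Fin.cons_zero, Fin.cons_succ, h0, Subgroup.relIndex_bot_left]
          rw [MonoidHom.comap_bot, QuotientGroup.ker_mk', ha]
        show (∃ m, (H' (Fin.castSucc 0)).relIndex (H' (Fin.succ 0)) = p ^ m) ∨ _
        rw [Fin.castSucc_zero, h]
        by_cases hqp : q = p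
        · exact Or.inl ⟨a, by rw [hqp]⟩
        · exact Or.inr (Nat.Coprime.pow_left _ ((Nat.coprime_primes hq hp.out).mpr hqp))
      | succ j =>
        have h : (H' j.succ.castSucc).relIndex (H' j.succ.succ) =
            (H j.castSucc).relIndex (H j.succ) := by
          simp only [H', ← Fin.succ_castSucc, Fin.cons_succ, Subgroup.relIndex_comap]
          rw [Subgroup.map_comap_eq_self_of_surjective (QuotientGroup.mk'_surjective N)]
        rw [h]
        exact hfac j
  · haveI : Subsingleton G := not_nontrivial_iff_subsingleton.mp hG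
    exact ⟨0, fun _ => ⊥, rfl, Subsingleton.elim _ _, monotone_const, fun _ => inferInstance,
      fun i => Fin.elim0 i⟩

theorem isPSolvable_of_isSolvable (p : ℕ) [Fact p.Prime] (G : Type u) [Group G] [Finite G]
    [h : Group.IsSolvable G] : Cfsg.IsPSolvable p G :=
  isPSolvable_of_isSolvable_aux p _ G rfl h

end Cfsg.Lib.Blocks
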