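import Cfsg.Agent.Lib.Blocks.Galois
import Cfsg.Agent.Lib.Blocks.Modular

/-!
# Averages over the embeddings of the field of `2 ^ (n + 1)`-th roots of unity
-/

namespace Cfsg.Lib.Blocks.TwoPower

open Cfsg.Lib.Characters Finset
open scoped ComplexConjugate Classical

set_option linter.unusedSectionVars false
set_option linter.style.haveILetI false
set_option linter.style.longLine false

/-- The field of `2 ^ (n + 1)`-th roots of unity. -/
noncomputable abbrev field (n : ℕ) : IntermediateField ℚ ℂ := rootField (2 ^ (n + 1))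

theorem pow_pos' (n : ℕ) : 0 < 2 ^ (n + 1) := pow_pos two_pos _

instance finiteDimensional_field (n : ℕ) : FiniteDimensional ℚ (field n) :=
  finiteDimensional_rootField (pow_pos' n)

variable {n : ℕ}

/-- The average over all embeddings. -/
noncomputable def avg (n : ℕ) (x : ℂ) : ℂ :=
  if h : x ∈ field n then
    (Fintype.card (field n →ₐ[ℚ] ℂ) : ℂ)⁻¹ * ∑ σ : field n →ₐ[ℚ] ℂ, σ ⟨x, h⟩
  else 0

theorem card_ne_zero : (Fintype.card (field n →ₐ[ℚ] ℂ) : ℂ) ≠ 0 :=
  Nat.cast_ne_zero.mpr (Fintype.card_pos_iff.mpr ⟨(field n).val⟩).ne'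

theorem avg_add {x y : ℂ} (hx : x ∈ field n) (hy : y ∈ field n) :
    avg n (x + y) = avg n x + avg n y := by
  rw [avg, avg, avg, dif_pos (add_mem hx hy), dif_pos hx, dif_pos hy, ← mul_add,
    ← Finset.sum_add_distrib]
  congr 1
  exact Finset.sum_congr rfl fun σ _ => (map_add σ ⟨x, hx⟩ ⟨y, hy⟩)

theorem avg_intCast_mul (c : ℤ) {x : ℂ} (hx : x ∈ field n) : avg n ((c : ℂ) * x) = (c : ℂ) * avg n x := by
  rw [avg, avg, dif_pos (mul_mem (intCast_mem _ c) hx), dif_pos hx, Finset.mul_sum, Finset.mul_sum,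
    Finset.mul_sum]
  refine Finset.sum_congr rfl fun σ _ => ?_
  have h : (⟨(c : ℂ) * x, mul_mem (intCast_mem _ c) hx⟩ : field n) = (c : field n) * ⟨x, hx⟩ :=
    Subtype.ext (by push_cast; rfl)
  rw [h, map_mul, map_intCast]
  ring

theorem avg_intCast (c : ℤ) : avg n (c : ℂ) = c := by
  rw [avg, dif_pos (intCast_mem _ c)]
  have h : (⟨(c : ℂ), intCast_mem _ c⟩ : field n) = (c : field n) := Subtype.ext (by push_cast; rfl)
  simp only [h, map_intCast, Finset.sum_const, Finset.card_univ, nsmul_eq_mul]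
  rw [← mul_assoc, inv_mul_cancel₀ card_ne_zero, one_mul]

theorem avg_zero : avg n 0 = 0 := by simpa using avg_intCast (n := n) 0

theorem avg_sum {ι : Type*} (s : Finset ι) {f : ι → ℂ} (h : ∀ i ∈ s, f i ∈ field n) :
    avg n (∑ i ∈ s, f i) = ∑ i ∈ s, avg n (f i) := by
  induction s using Finset.induction_on with
  | empty => simp [avg_zero]
  | insert a s ha ih =>
    rw [Finset.sum_insert ha, Finset.sum_insert ha,
      avg_add (h a (Finset.mem_insert_self _ _)) (sum_mem fun i hi => h i (Finset.mem_insert_of_mem hi)),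
      ih fun i hi => h i (Finset.mem_insert_of_mem hi)]

theorem avg_conj {x : ℂ} (hx : x ∈ field n) : avg n (conj x) = conj (avg n x) := by
  rw [avg, avg, dif_pos (conj_mem_rootField hx), dif_pos hx, map_mul, map_inv₀, map_natCast, map_sum]
  exact congrArg _ (Finset.sum_congr rfl fun σ _ => algHom_conj (pow_pos' n) σ ⟨x, hx⟩)

theorem avg_root {ρ : ℂ} (hρ : ρ ^ 2 ^ (n + 1) = 1) (h2 : ρ ^ 2 ≠ 1) : avg n ρ = 0 := by
  have hmem : ρ ∈ field n := root_mem_rootField hρ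
  rw [avg, dif_pos hmem]
  refine mul_eq_zero_of_right _ ?_
  set r : field n := ⟨ρ, hmem⟩
  rw [← trace_eq_sum_embeddings (E := ℂ)]
  obtain ⟨i, -, hi⟩ := (Nat.dvd_prime_pow Nat.prime_two).mp (orderOf_dvd_of_pow_eq_one hρ)
  have hi2 : 2 ≤ i := by
    by_contra hlt
    refine h2 (orderOf_dvd_iff_pow_eq_one.mp ?_)
    rw [hi]
    exact dvd_trans (pow_dvd_pow 2 (by omega : i ≤ 1)) (by simp)
  obtain ⟨k, rfl⟩ : ∃ k, i = k + 2 := ⟨i - 2, by omega⟩
  have hprim : IsPrimitiveRoot r (2 ^ (k + 1 + 1)) := by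
    rw [← IsPrimitiveRoot.coe_submonoidClass_iff]
    exact IsPrimitiveRoot.iff_orderOf.mpr hi
  have hmin : minpoly ℚ r = Polynomial.X ^ 2 ^ (k + 1) + 1 := by
    rw [← Polynomial.cyclotomic_eq_minpoly_rat hprim (pow_pos two_pos _),
      Polynomial.cyclotomic_prime_pow_eq_geom_sum Nat.prime_two]
    simp [Finset.sum_range_succ, add_comm]
  rw [trace_eq_finrank_mul_minpoly_nextCoeff, hmin]
  have hdeg : (Polynomial.X ^ 2 ^ (k + 1) + 1 : Polynomial ℚ).natDegree = 2 ^ (k + 1) := by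
    rw [← Polynomial.C_1, Polynomial.natDegree_X_pow_add_C]
  have hk : 2 ≤ 2 ^ (k + 1) := by
    calc 2 = 2 ^ 1 := rfl
      _ ≤ 2 ^ (k + 1) := Nat.pow_le_pow_right two_pos (by omega)
  rw [Polynomial.nextCoeff_of_natDegree_pos (by rw [hdeg]; omega), hdeg, Polynomial.coeff_add,
    Polynomial.coeff_X_pow, Polynomial.coeff_one, if_neg (by omega), if_neg (by omega)]
  simp

theorem re_avg_mul_conj_nonneg {x : ℂ} (hx : x ∈ field n) : 0 ≤ (avg n (x * conj x)).re := by
  rw [avg, dif_pos (mul_mem hx (conj_mem_rootField hx)), ← Complex.ofReal_natCast, ← Complex.ofReal_inv,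
    Complex.re_ofReal_mul, Complex.re_sum]
  refine mul_nonneg (inv_nonneg.mpr (Nat.cast_nonneg _)) (Finset.sum_nonneg fun σ _ => ?_)
  have h : σ ⟨x * conj x, mul_mem hx (conj_mem_rootField hx)⟩ = σ ⟨x, hx⟩ * conj (σ ⟨x, hx⟩) := by
    rw [← algHom_conj (pow_pos' n) σ ⟨x, hx⟩, ← map_mul]
    rfl
  rw [h, Complex.mul_conj, Complex.ofReal_re]
  exact Complex.normSq_nonneg _

theorem re_avg_mul_conj_ge {x : ℂ} (hx : x ∈ field n) {m : ℕ} (hm : m ≠ 0) (hne : x ≠ 0)
    (hint : IsIntegral ℤ (x / (m : ℂ))) : ((m : ℝ)) ^ 2 ≤ (avg n (x * conj x)).re := by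
  have hm' : (m : ℂ) ≠ 0 := Nat.cast_ne_zero.mpr hm
  have hy : x / (m : ℂ) ∈ field n := div_mem hx (natCast_mem _ m)
  have h := sum_normSq_ge (pow_pos' n) hy hint (div_ne_zero hne hm')
  rw [avg, dif_pos (mul_mem hx (conj_mem_rootField hx)), ← Complex.ofReal_natCast, ← Complex.ofReal_inv,
    Complex.re_ofReal_mul, Complex.re_sum]
  have hterm : ∀ σ : field n →ₐ[ℚ] ℂ, (σ ⟨x * conj x, mul_mem hx (conj_mem_rootField hx)⟩).re
      = (m : ℝ) ^ 2 * Complex.normSq (σ ⟨x / (m : ℂ), hy⟩) := by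
    intro σ
    have h1 : σ ⟨x * conj x, mul_mem hx (conj_mem_rootField hx)⟩ = σ ⟨x, hx⟩ * conj (σ ⟨x, hx⟩) := by
      rw [← algHom_conj (pow_pos' n) σ ⟨x, hx⟩, ← map_mul]
      rfl
    have h2 : (⟨x, hx⟩ : field n) = (m : field n) * ⟨x / (m : ℂ), hy⟩ :=
      Subtype.ext (by push_cast; exact (mul_div_cancel₀ x hm').symm)
    rw [h1, Complex.mul_conj, Complex.ofReal_re, h2, map_mul, map_natCast, Complex.normSq_mul,
      Complex.normSq_natCast, pow_two]
  rw [Finset.sum_congr rfl fun σ _ => hterm σ, ← Finset.mul_sum]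
  have hc : (0 : ℝ) < Fintype.card (field n →ₐ[ℚ] ℂ) :=
    Nat.cast_pos.mpr (Fintype.card_pos_iff.mpr ⟨(field n).val⟩)
  rw [inv_mul_eq_div, le_div_iff₀ hc]
  exact mul_le_mul_of_nonneg_left h (sq_nonneg _)

/-- A relation `∑ xᵢ x̄ᵢ = q y` bounds the average of `y` from below. -/
theorem sum_sq_le_avg {ι : Type*} (s S : Finset ι) (hS : S ⊆ s) (x : ι → ℂ)
    (hmem : ∀ i ∈ s, x i ∈ field n) (m : ι → ℕ) (hm : ∀ i ∈ S, m i ≠ 0)
    (hne : ∀ i ∈ S, x i ≠ 0) (hint : ∀ i ∈ S, IsIntegral ℤ (x i / (m i : ℂ))) (q : ℕ) {y : ℂ}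
    (hy : y ∈ field n) (hsum : ∑ i ∈ s, x i * conj (x i) = (q : ℂ) * y) {a : ℤ}
    (ha : avg n y = (a : ℂ)) : (∑ i ∈ S, ((m i ^ 2 : ℕ) : ℤ)) ≤ (q : ℤ) * a := by
  have h := congrArg (fun z => (avg n z).re) hsum
  simp only [avg_sum s fun i hi => mul_mem (hmem i hi) (conj_mem_rootField (hmem i hi)),
    Complex.re_sum] at h
  rw [show ((q : ℂ)) = ((q : ℤ) : ℂ) by norm_num, avg_intCast_mul _ hy, ha, ← Int.cast_mul,
    Complex.intCast_re] at h
  have h1 : (∑ i ∈ S, ((m i : ℝ)) ^ 2) ≤ ∑ i ∈ s, (avg n (x i * conj (x i))).re :=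
    (Finset.sum_le_sum fun i hi => re_avg_mul_conj_ge (hmem i (hS hi)) (hm i hi) (hne i hi) (hint i hi)).trans
      (Finset.sum_le_sum_of_subset_of_nonneg hS fun i hi _ => re_avg_mul_conj_nonneg (hmem i hi))
  rw [h] at h1
  refine (@Int.cast_le ℝ _ _ _ _ _ _ _).mp ?_
  push_cast at h1 ⊢
  exact h1

variable {M : Ideal Cfsg.AlgInt} [M.IsPrime]

/-- The average of a real integral element is an integer congruent to it. -/
theorem exists_int_avg (hM : IsPModular 2 M) {y : ℂ} (hy : y ∈ field n) (hint : IsIntegral ℤ y)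
    (hreal : conj y = y) : ∃ a : ℤ, avg n y = (a : ℂ) ∧ red M y = (a : ResF M) := by
  set φ : ℕ := 2 ^ n with hφ
  have hN : 2 ^ (n + 1) = 2 * φ := by rw [hφ, pow_succ]; ring
  have hφpos : 0 < φ := pow_pos two_pos n
  obtain ⟨ζ, hζ⟩ : ∃ ζ : ℂ, IsPrimitiveRoot ζ (2 ^ (n + 1)) :=
    ⟨_, Complex.isPrimitiveRoot_exp _ (pow_pos' n).ne'⟩
  have hζmem : ζ ∈ field n := root_mem_rootField hζ.pow_eq_one
  haveI hcyc : IsCyclotomicExtension {2 ^ (n + 1)} ℚ (field n) := by
    have hset : {b : ℂ | ∃ m ∈ ({2 ^ (n + 1)} : Set ℕ), m ≠ 0 ∧ b ^ m = 1}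
        = {z : ℂ | z ^ 2 ^ (n + 1) = 1} := by
      ext b
      constructor
      · rintro ⟨m, rfl, -, h⟩; exact h
      · exact fun h => ⟨_, rfl, (pow_pos' n).ne', h⟩
    have h := IntermediateField.isCyclotomicExtension_adjoin_of_exists_isPrimitiveRoot
      (K := ℚ) (L := ℂ) ({2 ^ (n + 1)} : Set ℕ) (fun m hm _ => ⟨ζ, by rwa [Set.mem_singleton_iff.mp hm]⟩)
    rw [hset] at h
    exact h
  have hintK : IsIntegral ℤ (⟨y, hy⟩ : field n) :=
    (isIntegral_algHom_iff ((field n).val.restrictScalars ℤ) Subtype.val_injective).mp hint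
  set ζK : field n := ⟨ζ, hζmem⟩
  have hζK : IsPrimitiveRoot ζK (2 ^ (n + 1)) := IsPrimitiveRoot.coe_submonoidClass_iff.mp hζ
  haveI := Fact.mk Nat.prime_two
  haveI := IsCyclotomicExtension.Rat.isIntegralClosure_adjoin_singleton_of_prime_pow hζK
  obtain ⟨w, hw⟩ := (IsIntegralClosure.isIntegral_iff (A := Algebra.adjoin ℤ ({ζK} : Set (field n)))).mp hintK
  have hw2 : (w : field n) ∈ (Polynomial.aeval ζK : Polynomial ℤ →ₐ[ℤ] field n).range :=
    Algebra.adjoin_singleton_eq_range_aeval ℤ ζK ▸ w.2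
  obtain ⟨f₀, hf₀⟩ := hw2
  have hf₁ : Polynomial.aeval ζ f₀ = y := by
    have h1 : (Polynomial.aeval ζK f₀ : field n) = ⟨y, hy⟩ := by
      rw [← hw]; exact hf₀
    have h2 := congrArg (fun v : field n => (v : ℂ)) h1
    refine Eq.trans ?_ h2
    exact (Polynomial.aeval_algHom_apply ((field n).val.restrictScalars ℤ) ζK f₀)
  have hζφ : ζ ^ φ = -1 := by
    have h1 : (ζ ^ φ) ^ 2 = 1 := by rw [← pow_mul, mul_comm, ← hN, hζ.pow_eq_one]
    refine (sq_eq_one_iff.mp h1).resolve_left fun h => ?_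
    exact hζ.pow_ne_one_of_pos_of_lt hφpos.ne' (by omega) h
  -- reduce the degree below `φ`
  set g : Polynomial ℤ := Polynomial.X ^ φ + Polynomial.C 1 with hg
  have hgm : g.Monic := Polynomial.monic_X_pow_add_C 1 hφpos.ne'
  set f := f₀ %ₘ g with hfdef
  have hfy : Polynomial.aeval ζ f = y := by
    rw [hfdef, Polynomial.aeval_modByMonic_eq_self_of_root (by simp [hg, hζφ]), hf₁]
  have hgd : g.natDegree = φ := Polynomial.natDegree_X_pow_add_C
  have hfd : f.natDegree < φ := by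
    have h := Polynomial.natDegree_modByMonic_lt f₀ hgm (fun h => by
      rw [h, Polynomial.natDegree_one] at hgd; omega)
    rwa [hgd] at h
  have hyeq : y = ∑ i ∈ range φ, (f.coeff i : ℂ) * ζ ^ i := by
    rw [← hfy, Polynomial.aeval_eq_sum_range' hfd]
    simp [Algebra.smul_def]
  set a : ℤ := ∑ i ∈ range φ, f.coeff i with hadef
  refine ⟨a, ?_, ?_⟩
  swap
  · have hroot : ∀ i : ℕ, (ζ ^ i) ^ 2 ^ (n + 1) = 1 := fun i => by
      rw [← pow_mul, mul_comm, pow_mul, hζ.pow_eq_one, one_pow]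
    rw [hyeq, red_sum _ fun i _ => mul_mem (intCast_mem _ _) (root_mem_locRing (pow_pos' n) (hroot i)),
      hadef, Int.cast_sum]
    refine Finset.sum_congr rfl fun i _ => ?_
    rw [red_mul (intCast_mem _ _) (root_mem_locRing (pow_pos' n) (hroot i)), red_pPow_root hM (hroot i),
      red_intCast, mul_one]
  set η : ℂ := ζ⁻¹ with hη
  have hζ0 : ζ ≠ 0 := hζ.ne_zero (pow_pos' n).ne'
  have hηconj : conj ζ = η :=
    (Complex.inv_eq_conj (Complex.norm_eq_one_of_pow_eq_one hζ.pow_eq_one (pow_pos' n).ne')).symm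
  have hηmem : η ∈ field n := inv_mem hζmem
  have hηφ : η ^ φ = -1 := by rw [hη, inv_pow, hζφ, inv_neg, inv_one]
  set w' : ℂ := ∑ i ∈ range φ, η ^ i with hw'
  have hw'mem : w' ∈ field n := sum_mem fun i _ => pow_mem hηmem i
  have hw'2 : w' + conj w' = 2 := by
    have hne : η ≠ 1 := fun h => by rw [h, one_pow] at hηφ; norm_num at hηφ
    have hne' : ζ ≠ 1 := fun h => by rw [h, one_pow] at hζφ; norm_num at hζφ
    have hc : conj w' = ∑ i ∈ range φ, ζ ^ i := by
      rw [hw', map_sum]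
      refine Finset.sum_congr rfl fun i _ => ?_
      rw [map_pow, ← hηconj, Complex.conj_conj]
    rw [hc, hw', geom_sum_eq hne, geom_sum_eq hne', hηφ, hζφ, hη]
    have h1 := sub_ne_zero.mpr hne'
    have h2 : (1 : ℂ) - ζ ≠ 0 := sub_ne_zero.mpr hne'.symm
    field_simp
    ring
  have hyw : y * w' + conj (y * w') = (2 : ℤ) * y := by
    rw [map_mul, hreal, ← mul_add, hw'2, mul_comm]
    norm_num
  -- compute the average of `y * w'`
  have hkey : avg n (y * w') = (a : ℂ) := by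
    have hpm : ∀ i j : ℕ, ζ ^ i * η ^ j ∈ field n := fun i j => mul_mem (pow_mem hζmem i) (pow_mem hηmem j)
    have havg : ∀ i ∈ range φ, ∀ j ∈ range φ, avg n (ζ ^ i * η ^ j) = if i = j then 1 else 0 := by
      intro i hi j hj
      split_ifs with hij
      · rw [hij, hη, ← mul_pow, mul_inv_cancel₀ hζ0, one_pow]
        simpa using avg_intCast (n := n) 1
      · refine avg_root ?_ ?_
        · rw [mul_pow, ← pow_mul, ← pow_mul, mul_comm i, mul_comm j, pow_mul, pow_mul, hη, inv_pow,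
            hζ.pow_eq_one, inv_one, one_pow, one_pow, one_mul]
        · intro h
          rw [mul_pow, ← pow_mul, ← pow_mul, hη, inv_pow, mul_inv_eq_one₀ (pow_ne_zero _ hζ0)] at h
          rw [Finset.mem_range] at hi hj
          have := hζ.pow_inj (by omega) (by omega) h
          omega
    have hexp : y * w' = ∑ i ∈ range φ, ((f.coeff i : ℂ) * ∑ j ∈ range φ, ζ ^ i * η ^ j) := by
      rw [hyeq, hw', Finset.sum_mul]
      refine Finset.sum_congr rfl fun i _ => ?_
      rw [mul_assoc, Finset.mul_sum]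
    rw [hexp, avg_sum _ fun i _ => mul_mem (intCast_mem _ _) (sum_mem fun j _ => hpm i j), hadef, Int.cast_sum]
    refine Finset.sum_congr rfl fun i hi => ?_
    rw [avg_intCast_mul _ (sum_mem fun j _ => hpm i j), avg_sum _ fun j _ => hpm i j,
      Finset.sum_congr rfl fun j hj => havg i hi j hj, Finset.sum_ite_eq, if_pos hi, mul_one]
  have h2 := congrArg (avg n) hyw
  rw [avg_add (mul_mem hy hw'mem) (conj_mem_rootField (mul_mem hy hw'mem)),
    avg_conj (mul_mem hy hw'mem), avg_intCast_mul _ hy, hkey, map_intCast] at h2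
  push_cast at h2
  linear_combination -h2 / 2

end Cfsg.Lib.Blocks.TwoPower
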