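import Cfsg.Agent.Lib.Blocks.MajorSubsection
import Cfsg.Agent.Lib.Blocks.TwoPowerTrace

/-!
# Bounds on `2`-blocks from a subsection
-/

namespace Cfsg.Lib.Blocks.TwoPower

open Cfsg.Lib.Characters Finset Cfsg.Lib.Blocks
open scoped ComplexConjugate Classical

set_option linter.unusedSectionVars false
set_option linter.style.haveILetI false
set_option linter.style.longLine false

variable {G : Type*} [Group G] [Fintype G] {M : Ideal Cfsg.AlgInt} [M.IsPrime]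
variable {x : G} {H : Subgroup G} {n : ℕ}

theorem secCoeff_mem_field (hxn : x ^ 2 ^ (n + 1) = 1) (hH : H = Subgroup.centralizer ({x} : Set G))
    (χ : IrrCharacter G) (ξ : IrrCharacter H) : secCoeff x H χ ξ ∈ field n := by
  have hxH : x ∈ H := hH ▸ Subgroup.mem_centralizer_singleton_iff.mpr rfl
  set xi : H := ⟨x, hxH⟩⁻¹ with hxi
  have hcen : xi ∈ Subgroup.center H := by
    refine inv_mem (Subgroup.mem_center_iff.mpr fun c => Subtype.ext ?_)
    exact Subgroup.mem_centralizer_singleton_iff.mp (hH.le c.2)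
  obtain ⟨ω, hω, hmul⟩ := exists_central_root ξ hcen
  have hpow : xi ^ 2 ^ (n + 1) = 1 := by
    rw [hxi, inv_pow, inv_eq_one]
    exact Subtype.ext (by simpa using hxn)
  have hωN : ω ^ 2 ^ (n + 1) = 1 := by
    obtain ⟨k, hk⟩ := orderOf_dvd_of_pow_eq_one hpow
    rw [hk, pow_mul, hω, one_pow]
  obtain ⟨m, hm⟩ := exists_decomposition (isCharacter_restrict χ.2.isCharacter H)
  have hinner : classInner (fun c : H => (χ : G → ℂ) (c : G)) (ξ : H → ℂ) = (m ξ : ℂ) := by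
    rw [show (fun c : H => (χ : G → ℂ) (c : G)) = (∑ ψ : IrrCharacter H, (m ψ : ℂ) • ((ψ : H → ℂ) : H → ℂ)) from hm]
    exact classInner_sum_irr (fun ψ => (m ψ : ℂ)) ξ
  have he : secCoeff x H χ ξ = conj ω * (m ξ : ℂ) := by
    rw [← hinner, secCoeff, classInner, classInner, mul_left_comm (conj ω), Finset.mul_sum (a := conj ω)]
    congr 1
    refine Fintype.sum_equiv (Equiv.mulLeft (⟨x, hxH⟩ : H)) _ _ fun c => ?_
    simp only [Equiv.coe_mulLeft, Subgroup.coe_mul]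
    rw [mul_left_comm, ← map_mul, ← hmul, hxi, inv_mul_cancel_left]
  rw [he]
  exact mul_mem (conj_mem_rootField (root_mem_rootField hωN)) (natCast_mem _ _)

theorem contrib_mem_field (hM : IsPModular 2 M) [Fact (Nat.Prime 2)] (hxn : x ^ 2 ^ (n + 1) = 1)
    (hH : H = Subgroup.centralizer ({x} : Set G)) {b : Set (IrrCharacter H)} (hb : IsPBlock M b)
    (χ ψ : IrrCharacter G) : contrib 2 x H b χ ψ ∈ field n := by
  rw [contrib_eq hM x hb]
  refine sum_mem fun ξ _ => sum_mem fun ξ' _ => mul_mem (mul_mem (secCoeff_mem_field hxn hH χ ξ) ?_)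
    (intCast_mem _ _)
  refine secCoeff_mem_field (by rw [inv_pow, hxn, inv_one]) ?_ ψ ξ'
  rw [centralizer_inv_singleton, hH]

theorem pow_two_pow_succ_eq_one {k : ℕ} (hk : orderOf x = 2 ^ k) : x ^ 2 ^ (k + 1) = 1 := by
  rw [pow_succ, pow_mul, ← hk, pow_orderOf_eq_one, one_pow]

theorem odd_of_cast_ne (hM : IsPModular 2 M) {a : ℤ} (h : (a : ResF M) ≠ 0) : ¬ (2 : ℤ) ∣ a := fun hd =>
  h ((intCast_resF_eq_zero hM a).mpr (by simpa using hd))

theorem nat_card_subtype_eq (P : IrrCharacter G → Prop) [DecidablePred P] :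
    Nat.card {χ : IrrCharacter G // P χ} = (univ.filter P).card := by
  rw [Nat.card_eq_fintype_card, Fintype.card_subtype]

variable [Fact (Nat.Prime 2)] {b : Set (IrrCharacter H)} {B : Set (IrrCharacter G)}

/-- The diagonal averages. -/
theorem exists_diag (hM : IsPModular 2 M) (hxn : x ^ 2 ^ (n + 1) = 1)
    (hH : H = Subgroup.centralizer ({x} : Set G)) (hb : IsPBlock M b) :
    ∃ a : IrrCharacter G → ℤ, ∀ χ, avg n (contrib 2 x H b χ χ) = (a χ : ℂ) ∧
      red M (contrib 2 x H b χ χ) = (a χ : ResF M) := by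
  choose a ha using fun χ : IrrCharacter G => exists_int_avg hM (contrib_mem_field hM hxn hH hb χ χ)
    (isIntegral_contrib hM hH hb χ χ) (conj_contrib hM hH.le hb χ χ)
  exact ⟨a, ha⟩

variable {a : IrrCharacter G → ℤ}

theorem row_bound (hM : IsPModular 2 M) (hx : ∃ k : ℕ, orderOf x = 2 ^ k) (hxn : x ^ 2 ^ (n + 1) = 1)
    (hH : H = Subgroup.centralizer ({x} : Set G)) (hind : IsInducedBlock M H b B)
    (ha : ∀ χ, avg n (contrib 2 x H b χ χ) = (a χ : ℂ)) (χ : IrrCharacter G)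
    (S : Finset (IrrCharacter G)) (hS : ∀ ψ ∈ S, ψ ∈ B) (m : IrrCharacter G → ℕ) (hm : ∀ ψ ∈ S, m ψ ≠ 0)
    (hne : ∀ ψ ∈ S, contrib 2 x H b χ ψ ≠ 0)
    (hint : ∀ ψ ∈ S, IsIntegral ℤ (contrib 2 x H b χ ψ / (m ψ : ℂ))) :
    (∑ ψ ∈ S, ((m ψ ^ 2 : ℕ) : ℤ)) ≤ ((2 ^ blockDefect 2 b : ℕ) : ℤ) * a χ := by
  refine sum_sq_le_avg (univ.filter (· ∈ B)) S (fun ψ hψ => Finset.mem_filter.mpr ⟨Finset.mem_univ _, hS ψ hψ⟩)
    (fun ψ => contrib 2 x H b χ ψ) (fun ψ _ => contrib_mem_field hM hxn hH hind.1 χ ψ) m hm hne hint _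
    (contrib_mem_field hM hxn hH hind.1 χ χ) ?_ (ha χ)
  rw [← sum_contrib_mul_row hM hx hH hind χ χ]
  exact Finset.sum_congr rfl fun ψ _ => by rw [conj_contrib hM hH.le hind.1 χ ψ]

theorem trace_eq (hM : IsPModular 2 M) (hx : ∃ k : ℕ, orderOf x = 2 ^ k) (hxn : x ^ 2 ^ (n + 1) = 1)
    (hH : H = Subgroup.centralizer ({x} : Set G)) (hind : IsInducedBlock M H b B)
    (ha : ∀ χ, avg n (contrib 2 x H b χ χ) = (a χ : ℂ)) :
    ∑ χ ∈ univ.filter (· ∈ B), a χ = ((2 ^ blockDefect 2 b : ℕ) : ℤ) * (blockRank 2 b : ℤ) := by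
  have h := congrArg (avg n) (sum_contrib_self hM hx hH hind)
  rw [avg_sum _ fun χ _ => contrib_mem_field hM hxn hH hind.1 χ χ,
    show ((2 ^ blockDefect 2 b : ℕ) : ℂ) * (blockRank 2 b : ℂ)
      = ((((2 ^ blockDefect 2 b : ℕ) : ℤ) * (blockRank 2 b : ℤ) : ℤ) : ℂ) by push_cast; ring,
    avg_intCast, Finset.sum_congr rfl fun χ _ => ha χ] at h
  exact_mod_cast h

theorem diag_nonneg (hM : IsPModular 2 M) (hx : ∃ k : ℕ, orderOf x = 2 ^ k) (hxn : x ^ 2 ^ (n + 1) = 1)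
    (hH : H = Subgroup.centralizer ({x} : Set G)) (hind : IsInducedBlock M H b B)
    (ha : ∀ χ, avg n (contrib 2 x H b χ χ) = (a χ : ℂ)) (χ : IrrCharacter G) : 0 ≤ a χ := by
  have h := row_bound hM hx hxn hH hind ha χ ∅ (by simp) (fun _ => 1) (by simp) (by simp) (by simp)
  rw [Finset.sum_empty] at h
  exact nonneg_of_mul_nonneg_right h (by positivity)

/-- Height zero characters of a `2`-block, counted through any subsection. -/
theorem height_zero_count (hM : IsPModular 2 M) (hx : ∃ k : ℕ, orderOf x = 2 ^ k)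
    (hH : H = Subgroup.centralizer ({x} : Set G)) (hind : IsInducedBlock M H b B) :
    (Odd (Nat.sqrt (blockRank 2 b)) →
        Nat.card {χ : IrrCharacter G // χ ∈ B ∧ blockHeight 2 B (χ : G → ℂ) = 0}
          ≤ Nat.sqrt (blockRank 2 b) * 2 ^ blockDefect 2 b) ∧
      (¬ Odd (Nat.sqrt (blockRank 2 b)) →
        (Nat.sqrt (blockRank 2 b) + 1) *
            Nat.card {χ : IrrCharacter G // χ ∈ B ∧ blockHeight 2 B (χ : G → ℂ) = 0}
          ≤ blockRank 2 b * 2 ^ blockDefect 2 b) := by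
  obtain ⟨k, hk⟩ := hx
  have hxn := pow_two_pow_succ_eq_one hk
  obtain ⟨a, ha⟩ := exists_diag hM hxn hH hind.1
  have ha' := fun χ => (ha χ).1
  set F₀ := univ.filter (fun χ : IrrCharacter G => χ ∈ B ∧ blockHeight 2 B (χ : G → ℂ) = 0) with hF
  rw [show Nat.card {χ : IrrCharacter G // χ ∈ B ∧ blockHeight 2 B (χ : G → ℂ) = 0} = F₀.card from
    nat_card_subtype_eq _]
  set s : ℕ := Nat.sqrt (blockRank 2 b) with hs
  have hmem : ∀ χ ∈ F₀, χ ∈ B ∧ blockHeight 2 B (χ : G → ℂ) = 0 := fun χ h => (Finset.mem_filter.mp h).2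
  have hodd : ∀ χ ∈ F₀, ¬ (2 : ℤ) ∣ a χ := fun χ hχ => odd_of_cast_ne hM fun h0 =>
    red_contrib_ne_zero hM ⟨k, hk⟩ hH hind (hmem χ hχ).1 (hmem χ hχ).1 (hmem χ hχ).2 (hmem χ hχ).2
      (by rw [(ha χ).2, h0])
  have hrow : ∀ χ ∈ F₀, (F₀.card : ℤ) ≤ ((2 ^ blockDefect 2 b : ℕ) : ℤ) * a χ := by
    intro χ hχ
    have h := row_bound hM ⟨k, hk⟩ hxn hH hind ha' χ F₀ (fun ψ hψ => (hmem ψ hψ).1) (fun _ => 1)
      (fun _ _ => one_ne_zero)
      (fun ψ hψ => contrib_ne_zero hM ⟨k, hk⟩ hH hind (hmem χ hχ).1 (hmem ψ hψ).1 (hmem χ hχ).2 (hmem ψ hψ).2)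
      (fun ψ _ => by simpa using isIntegral_contrib hM hH hind.1 χ ψ)
    simpa using h
  have htr : ∑ χ ∈ F₀, a χ ≤ ((2 ^ blockDefect 2 b : ℕ) : ℤ) * (blockRank 2 b : ℤ) := by
    rw [← trace_eq hM ⟨k, hk⟩ hxn hH hind ha']
    exact Finset.sum_le_sum_of_subset_of_nonneg
      (fun χ hχ => Finset.mem_filter.mpr ⟨Finset.mem_univ _, (hmem χ hχ).1⟩)
      fun χ _ _ => diag_nonneg hM ⟨k, hk⟩ hxn hH hind ha' χ
  have hl1 : (s : ℤ) * s ≤ (blockRank 2 b : ℤ) := by exact_mod_cast Nat.sqrt_le (blockRank 2 b)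
  have hl2 : (blockRank 2 b : ℤ) ≤ (s : ℤ) * (s + 2) := by
    have h := Nat.lt_succ_sqrt (blockRank 2 b)
    rw [← hs] at h
    have h' : (blockRank 2 b : ℤ) < ((s : ℤ) + 1) * ((s : ℤ) + 1) := by exact_mod_cast h
    nlinarith
  set q : ℕ := 2 ^ blockDefect 2 b
  have hq : (0 : ℤ) ≤ (q : ℤ) := Nat.cast_nonneg _
  constructor
  · intro hso
    suffices (F₀.card : ℤ) ≤ (s : ℤ) * (q : ℤ) by exact_mod_cast this
    by_cases hex : ∃ χ ∈ F₀, a χ ≤ (s : ℤ)
    · obtain ⟨χ, hχ, h⟩ := hex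
      nlinarith [hrow χ hχ, mul_le_mul_of_nonneg_left h hq]
    · push Not at hex
      have hge : ∀ χ ∈ F₀, (s : ℤ) + 2 ≤ a χ := fun χ hχ => by
        have h1 := hex χ hχ
        have h2 := hodd χ hχ
        obtain ⟨j, hj⟩ := hso
        omega
      have h3 := (Finset.card_nsmul_le_sum F₀ a _ hge).trans htr
      rw [nsmul_eq_mul] at h3
      nlinarith [mul_le_mul_of_nonneg_left hl2 hq]
  · intro hse
    suffices ((s : ℤ) + 1) * (F₀.card : ℤ) ≤ (blockRank 2 b : ℤ) * (q : ℤ) by exact_mod_cast this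
    by_cases hex : ∃ χ ∈ F₀, a χ ≤ (s : ℤ) - 1
    · obtain ⟨χ, hχ, h⟩ := hex
      nlinarith [hrow χ hχ, mul_le_mul_of_nonneg_left h hq, mul_le_mul_of_nonneg_left hl1 hq]
    · push Not at hex
      have hge : ∀ χ ∈ F₀, (s : ℤ) + 1 ≤ a χ := fun χ hχ => by
        have h1 := hex χ hχ
        have h2 := hodd χ hχ
        obtain ⟨j, hj⟩ := Nat.not_odd_iff_even.mp hse
        omega
      have h3 := (Finset.card_nsmul_le_sum F₀ a _ hge).trans htr
      rw [nsmul_eq_mul] at h3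
      nlinarith

theorem diag_ge_of_height (hM : IsPModular 2 M) (hx : ∃ k : ℕ, orderOf x = 2 ^ k)
    (hxn : x ^ 2 ^ (n + 1) = 1) (hH : H = Subgroup.centralizer ({x} : Set G))
    (hind : IsInducedBlock M H b B) (hd : blockDefect 2 b = blockDefect 2 B)
    (ha : ∀ χ, avg n (contrib 2 x H b χ χ) = (a χ : ℂ)) {χ : IrrCharacter G} (hχ : χ ∈ B)
    (hh : 1 ≤ blockHeight 2 B (χ : G → ℂ)) :
    ((2 ^ (blockHeight 2 B (χ : G → ℂ) + 1) : ℕ) : ℤ) ≤ a χ ∧
      ((2 ^ (blockHeight 2 B (χ : G → ℂ) + 1) : ℕ) : ℤ) ∣ a χ := by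
  set h := blockHeight 2 B (χ : G → ℂ) with hhdef
  have hP : ((2 ^ h : ℕ) : ℂ) ≠ 0 := Nat.cast_ne_zero.mpr (pow_ne_zero _ two_ne_zero)
  set y := contrib 2 x H b χ χ / ((2 ^ h : ℕ) : ℂ) with hy
  have hymem : y ∈ field n := div_mem (contrib_mem_field hM hxn hH hind.1 χ χ) (natCast_mem _ _)
  obtain ⟨c, hc, hc'⟩ := exists_int_avg hM hymem (isIntegral_contrib_div hM hx hH hind.1 hd χ hχ)
    (by rw [hy, map_div₀, conj_contrib hM hH.le hind.1, map_natCast])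
  rw [hy, red_contrib_self_div hM hx hH hind hd hχ hh] at hc'
  obtain ⟨e, he⟩ : (2 : ℤ) ∣ c := by simpa using (intCast_resF_eq_zero hM c).mp hc'.symm
  have hac : a χ = ((2 ^ h : ℕ) : ℤ) * c := by
    have h1 : ((((2 ^ h : ℕ) : ℤ)) : ℂ) * y = contrib 2 x H b χ χ := by
      rw [Int.cast_natCast, hy, mul_div_cancel₀ _ hP]
    have h2 := ha χ
    rw [← h1, avg_intCast_mul _ hymem, hc, ← Int.cast_mul] at h2
    exact_mod_cast h2.symm
  obtain ⟨χ₀, hχ₀, hmin⟩ := exists_height_zero 2 (IsPBlock.nonempty hind.2.1)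
  have h0 := (blockHeight_eq_zero_iff 2 hχ₀).mpr hmin
  have hpos := row_bound hM hx hxn hH hind ha χ {χ₀} (by simpa using hχ₀) (fun _ => 1)
    (fun _ _ => one_ne_zero)
    (fun ψ hψ => by
      rw [Finset.mem_singleton.mp hψ]
      exact (contrib_ne_zero_of_major hM hx hH hind hd hχ₀ hχ h0).2)
    (fun ψ _ => by simpa using isIntegral_contrib hM hH hind.1 χ ψ)
  simp only [Finset.sum_singleton] at hpos
  have hc0 : 0 < e := by
    by_contra hle
    push Not at hle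
    rw [hac, he] at hpos
    have hnn : (0 : ℤ) ≤ ((2 ^ blockDefect 2 b : ℕ) : ℤ) * ((2 ^ h : ℕ) : ℤ) := by positivity
    push_cast at hpos hnn
    nlinarith
  rw [hac, he, pow_succ, Nat.cast_mul, ← mul_assoc]
  exact ⟨le_mul_of_one_le_right (by positivity) hc0, Dvd.intro _ rfl⟩

theorem sum_height_split (f : IrrCharacter G → ℤ) :
    ∑ χ ∈ univ.filter (· ∈ B), f χ
      = ∑ χ ∈ univ.filter (fun χ => χ ∈ B ∧ blockHeight 2 B (χ : G → ℂ) = 0), f χ
        + ∑ χ ∈ univ.filter (fun χ => χ ∈ B ∧ 1 ≤ blockHeight 2 B (χ : G → ℂ)), f χ := by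
  rw [← Finset.sum_filter_add_sum_filter_not (univ.filter (· ∈ B))
    (fun χ : IrrCharacter G => blockHeight 2 B (χ : G → ℂ) = 0), Finset.filter_filter, Finset.filter_filter]
  congr 2
  ext χ
  simp [Nat.one_le_iff_ne_zero]

/-- Brauer's bound for a major subsection with small regular rank. -/
theorem major_rank_le_three (hM : IsPModular 2 M) (hx : ∃ k : ℕ, orderOf x = 2 ^ k)
    (hH : H = Subgroup.centralizer ({x} : Set G)) (hind : IsInducedBlock M H b B)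
    (hd : blockDefect 2 b = blockDefect 2 B) (hl : blockRank 2 b ≤ 3) :
    3 * Nat.card B ≤ 3 * Nat.card {χ : IrrCharacter G // χ ∈ B ∧ blockHeight 2 B (χ : G → ℂ) = 0}
        + 2 * (∑ᶠ χ ∈ {χ : IrrCharacter G | χ ∈ B ∧ 1 ≤ blockHeight 2 B (χ : G → ℂ)},
          2 ^ blockHeight 2 B (χ : G → ℂ)) ∧
      3 * Nat.card {χ : IrrCharacter G // χ ∈ B ∧ blockHeight 2 B (χ : G → ℂ) = 0}
        + 2 * (∑ᶠ χ ∈ {χ : IrrCharacter G | χ ∈ B ∧ 1 ≤ blockHeight 2 B (χ : G → ℂ)},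
          2 ^ blockHeight 2 B (χ : G → ℂ)) ≤ 3 * 2 ^ blockDefect 2 B := by
  obtain ⟨k, hk⟩ := hx
  have hxn := pow_two_pow_succ_eq_one hk
  obtain ⟨a, ha⟩ := exists_diag hM hxn hH hind.1
  have ha' := fun χ => (ha χ).1
  rw [show Nat.card {χ : IrrCharacter G // χ ∈ B ∧ blockHeight 2 B (χ : G → ℂ) = 0}
        = (univ.filter fun χ : IrrCharacter G => χ ∈ B ∧ blockHeight 2 B (χ : G → ℂ) = 0).card from
      nat_card_subtype_eq _,
    show Nat.card B = (univ.filter (· ∈ B)).card from nat_card_subtype_eq (· ∈ B), finsum_mem_def, finsum_eq_sum_of_fintype]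
  simp only [Set.indicator_apply, Set.mem_ofPred_eq, ← Finset.sum_filter]
  set h : IrrCharacter G → ℕ := fun χ => blockHeight 2 B (χ : G → ℂ) with hh
  set F₀ := univ.filter (fun χ : IrrCharacter G => χ ∈ B ∧ h χ = 0) with hF₀
  set F₁ := univ.filter (fun χ : IrrCharacter G => χ ∈ B ∧ 1 ≤ h χ) with hF₁
  constructor
  · suffices 3 * ((univ.filter (· ∈ B)).card : ℤ) ≤ 3 * (F₀.card : ℤ) + 2 * ∑ χ ∈ F₁, (2 : ℤ) ^ h χ by
      exact_mod_cast this
    have h2 : ∀ χ ∈ F₁, (3 : ℤ) ≤ 2 * 2 ^ h χ := fun χ hχ => by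
      have h1 : (2 : ℤ) ^ 1 ≤ 2 ^ h χ := pow_le_pow_right₀ (by norm_num) (Finset.mem_filter.mp hχ).2.2
      linarith
    have h3 := Finset.card_nsmul_le_sum F₁ (fun χ => 2 * (2 : ℤ) ^ h χ) 3 h2
    rw [nsmul_eq_mul, ← Finset.mul_sum] at h3
    have h4 := sum_height_split (B := B) fun _ => (1 : ℤ)
    simp only [Finset.sum_const, nsmul_eq_mul, mul_one] at h4
    rw [← hF₀, ← hF₁] at h4
    linarith
  · rw [← hd]
    suffices 3 * (F₀.card : ℤ) + 2 * (∑ χ ∈ F₁, (2 : ℤ) ^ h χ) ≤ 3 * 2 ^ blockDefect 2 b by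
      exact_mod_cast this
    set q : ℤ := 2 ^ blockDefect 2 b with hq
    have hq0 : 0 ≤ q := by positivity
    have hqn : ((2 ^ blockDefect 2 b : ℕ) : ℤ) = q := by push_cast; rfl
    by_cases hex : ∃ χ₀ ∈ F₀, a χ₀ = 1
    · obtain ⟨χ₀, hχ₀, ha1⟩ := hex
      obtain ⟨hB₀, h0⟩ := (Finset.mem_filter.mp hχ₀).2
      have hr := row_bound hM ⟨k, hk⟩ hxn hH hind ha' χ₀ (univ.filter (· ∈ B))
        (fun ψ hψ => (Finset.mem_filter.mp hψ).2) (fun ψ => 2 ^ h ψ)
        (fun ψ _ => pow_ne_zero _ two_ne_zero)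
        (fun ψ hψ => (contrib_ne_zero_of_major hM ⟨k, hk⟩ hH hind hd hB₀ (Finset.mem_filter.mp hψ).2 h0).1)
        (fun ψ hψ => isIntegral_contrib_div hM ⟨k, hk⟩ hH hind.1 hd χ₀ (Finset.mem_filter.mp hψ).2)
      rw [ha1, mul_one, hqn, sum_height_split, ← hF₀, ← hF₁] at hr
      have e0 : ∀ χ ∈ F₀, (((2 ^ h χ) ^ 2 : ℕ) : ℤ) = 1 := fun χ hχ => by simp [(Finset.mem_filter.mp hχ).2.2]
      rw [Finset.sum_congr rfl e0, Finset.sum_const, nsmul_eq_mul, mul_one] at hr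
      have e1 : ∑ χ ∈ F₁, (2 * (2 : ℤ) ^ h χ) ≤ ∑ χ ∈ F₁, 3 * (((2 ^ h χ) ^ 2 : ℕ) : ℤ) :=
        Finset.sum_le_sum fun χ _ => by
          have h1 : (1 : ℤ) ≤ 2 ^ h χ := one_le_pow₀ (by norm_num)
          push_cast
          nlinarith
      rw [← Finset.mul_sum, ← Finset.mul_sum] at e1
      linarith
    · push Not at hex
      have hge : ∀ χ ∈ F₀, (3 : ℤ) ≤ a χ := fun χ hχ => by
        obtain ⟨hB₀, h0⟩ := (Finset.mem_filter.mp hχ).2
        have h1 : ¬ (2 : ℤ) ∣ a χ := odd_of_cast_ne hM fun hz =>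
          red_contrib_ne_zero hM ⟨k, hk⟩ hH hind hB₀ hB₀ h0 h0 (by rw [(ha χ).2, hz])
        have h2 := diag_nonneg hM ⟨k, hk⟩ hxn hH hind ha' χ
        have h3 := hex χ hχ
        omega
      have hge' : ∀ χ ∈ F₁, 2 * (2 : ℤ) ^ h χ ≤ a χ := fun χ hχ => by
        have h1 := (diag_ge_of_height hM ⟨k, hk⟩ hxn hH hind hd ha' (Finset.mem_filter.mp hχ).2.1
          (Finset.mem_filter.mp hχ).2.2).1
        push_cast at h1
        rw [pow_succ'] at h1
        exact h1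
      have htr := trace_eq hM ⟨k, hk⟩ hxn hH hind ha'
      rw [hqn, sum_height_split, ← hF₀, ← hF₁] at htr
      have h3 := Finset.card_nsmul_le_sum F₀ a _ hge
      rw [nsmul_eq_mul] at h3
      have h4 := Finset.sum_le_sum hge'
      rw [← Finset.mul_sum] at h4
      have h5 : q * (blockRank 2 b : ℤ) ≤ q * 3 := mul_le_mul_of_nonneg_left (by exact_mod_cast hl) hq0
      linarith

/-- Brauer's bound for a major subsection with `k - l` small. -/
theorem major_card_sub_rank_le_three (hM : IsPModular 2 M) (hx : ∃ k : ℕ, orderOf x = 2 ^ k)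
    (hH : H = Subgroup.centralizer ({x} : Set G)) (hind : IsInducedBlock M H b B)
    (hd : blockDefect 2 b = blockDefect 2 B) (hkl : Nat.card B ≤ blockRank 2 b + 3) :
    Nat.card B ≤ 2 ^ blockDefect 2 B := by
  obtain ⟨k, hk⟩ := hx
  have hxn := pow_two_pow_succ_eq_one hk
  obtain ⟨a, ha⟩ := exists_diag hM hxn hH hind.1
  have ha' := fun χ => (ha χ).1
  rw [show Nat.card B = (univ.filter (· ∈ B)).card from nat_card_subtype_eq (· ∈ B)] at hkl ⊢
  set F := univ.filter (fun χ : IrrCharacter G => χ ∈ B) with hF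
  rw [← hd]
  replace hkl : (F.card : ℤ) ≤ (blockRank 2 b : ℤ) + 3 := by exact_mod_cast hkl
  suffices (F.card : ℤ) ≤ (2 : ℤ) ^ blockDefect 2 b by exact_mod_cast this
  set q : ℤ := 2 ^ blockDefect 2 b with hq
  have hqn : ((2 ^ blockDefect 2 b : ℕ) : ℤ) = q := by push_cast; rfl
  have hq0 : 0 < q := by positivity
  obtain ⟨χ₀, hχ₀, hmin⟩ := exists_height_zero 2 (IsPBlock.nonempty hind.2.1)
  have h0 := (blockHeight_eq_zero_iff 2 hχ₀).mpr hmin
  have hodd : ∀ χ ∈ F, blockHeight 2 B (χ : G → ℂ) = 0 → ¬ (2 : ℤ) ∣ a χ := fun χ hχ hz =>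
    odd_of_cast_ne hM fun hz' => red_contrib_ne_zero hM ⟨k, hk⟩ hH hind (Finset.mem_filter.mp hχ).2
      (Finset.mem_filter.mp hχ).2 hz hz (by rw [(ha χ).2, hz'])
  -- the complementary projection
  set qc : ℂ := ((2 ^ blockDefect 2 b : ℕ) : ℂ) with hqc
  let N : IrrCharacter G → IrrCharacter G → ℂ := fun χ ψ =>
    (if ψ = χ then qc else 0) - contrib 2 x H b χ ψ
  have hNrow : ∀ χ ∈ F, ∀ S : Finset (IrrCharacter G), S ⊆ F → (∀ ψ ∈ S, N χ ψ ≠ 0) →
      (S.card : ℤ) ≤ q * (q - a χ) := by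
    intro χ hχ S hS hne
    have hmem : ∀ ψ, N χ ψ ∈ field k := fun ψ => sub_mem
      (by split_ifs <;> first | exact natCast_mem _ _ | exact zero_mem _)
      (contrib_mem_field hM hxn hH hind.1 χ ψ)
    have hint : ∀ ψ, IsIntegral ℤ (N χ ψ) := fun ψ => IsIntegral.sub
      (by split_ifs <;> first | exact isIntegral_natCast _ | exact isIntegral_zero)
      (isIntegral_contrib hM hH hind.1 χ ψ)
    have havg : avg k (qc - contrib 2 x H b χ χ) = ((q - a χ : ℤ) : ℂ) := by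
      rw [sub_eq_add_neg, show -contrib 2 x H b χ χ = ((-1 : ℤ) : ℂ) * contrib 2 x H b χ χ by push_cast; ring,
        show qc = ((q : ℤ) : ℂ) by rw [hqc, hq]; push_cast; rfl,
        avg_add (intCast_mem _ _) (mul_mem (intCast_mem _ _) (contrib_mem_field hM hxn hH hind.1 χ χ)),
        avg_intCast, avg_intCast_mul _ (contrib_mem_field hM hxn hH hind.1 χ χ), ha' χ]
      push_cast
      ring
    have h := sum_sq_le_avg F S hS (N χ) (fun ψ _ => hmem ψ) (fun _ => 1) (fun _ _ => one_ne_zero) hne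
      (fun ψ _ => by simpa using hint ψ) (2 ^ blockDefect 2 b)
      (sub_mem (natCast_mem _ _) (contrib_mem_field hM hxn hH hind.1 χ χ)) ?_ havg
    · simpa [hqn] using h
    · have hconj : ∀ ψ, conj (N χ ψ) = (if ψ = χ then qc else 0) - contrib 2 x H b ψ χ := fun ψ => by
        simp only [N, map_sub, conj_contrib hM hH.le hind.1 χ ψ]
        split_ifs <;> simp [hqc, map_pow, map_ofNat]
      have e : ∀ ψ, N χ ψ * conj (N χ ψ) = (if ψ = χ then qc * qc - qc * contrib 2 x H b χ χ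
          - qc * contrib 2 x H b χ χ else 0) + contrib 2 x H b χ ψ * contrib 2 x H b ψ χ := by
        intro ψ
        rw [hconj]
        simp only [N]
        split_ifs with hψ
        · subst hψ; ring
        · ring
      rw [Finset.sum_congr rfl fun ψ _ => e ψ, Finset.sum_add_distrib, Finset.sum_ite_eq', if_pos hχ,
        sum_contrib_mul_row hM ⟨k, hk⟩ hH hind χ χ, ← hqc]
      ring
  have hoff : ∀ χ ∈ F, ∀ ψ ∈ F, ψ ≠ χ → blockHeight 2 B (χ : G → ℂ) = 0 ∨ blockHeight 2 B (ψ : G → ℂ) = 0 →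
      N χ ψ ≠ 0 := by
    intro χ hχ ψ hψ hne hz
    simp only [N, if_neg hne, zero_sub, ne_eq, neg_eq_zero]
    rcases hz with hz | hz
    · exact (contrib_ne_zero_of_major hM ⟨k, hk⟩ hH hind hd (Finset.mem_filter.mp hχ).2
        (Finset.mem_filter.mp hψ).2 hz).1
    · exact (contrib_ne_zero_of_major hM ⟨k, hk⟩ hH hind hd (Finset.mem_filter.mp hψ).2
        (Finset.mem_filter.mp hχ).2 hz).2
  have hχ₀F : χ₀ ∈ F := Finset.mem_filter.mpr ⟨Finset.mem_univ _, hχ₀⟩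
  by_cases hd0 : blockDefect 2 b = 0
  · -- defect zero
    have hq1 : q = 1 := by rw [hq, hd0, pow_zero]
    have h1 := hNrow χ₀ hχ₀F ∅ (Finset.empty_subset _) (by simp)
    have h2 := diag_nonneg hM ⟨k, hk⟩ hxn hH hind ha' χ₀
    have h3 := hodd χ₀ hχ₀F h0
    simp only [Finset.card_empty, Nat.cast_zero, hq1, one_mul] at h1
    have hr := row_bound hM ⟨k, hk⟩ hxn hH hind ha' χ₀ F (fun ψ hψ => (Finset.mem_filter.mp hψ).2) (fun _ => 1)
      (fun _ _ => one_ne_zero)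
      (fun ψ hψ => (contrib_ne_zero_of_major hM ⟨k, hk⟩ hH hind hd hχ₀ (Finset.mem_filter.mp hψ).2 h0).1)
      (fun ψ _ => by simpa using isIntegral_contrib hM hH hind.1 χ₀ ψ)
    rw [show a χ₀ = 1 by omega, hqn, hq1] at hr
    rw [hq1]
    simpa using hr
  have hq2 : (2 : ℤ) ∣ q := by rw [hq]; exact dvd_pow_self 2 hd0
  have hdiag : ∀ χ ∈ F, blockHeight 2 B (χ : G → ℂ) = 0 → N χ χ ≠ 0 := by
    intro χ hχ hz hN0
    simp only [N, if_true, sub_eq_zero] at hN0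
    have h1 := red_contrib_ne_zero hM ⟨k, hk⟩ hH hind (Finset.mem_filter.mp hχ).2
      (Finset.mem_filter.mp hχ).2 hz hz
    rw [← hN0, hqc, red_natCast, Nat.cast_pow, red_p hM, zero_pow hd0] at h1
    exact h1 rfl
  by_cases hex : ∃ χ ∈ F, blockHeight 2 B (χ : G → ℂ) = 0 ∧ q - a χ = 1
  · obtain ⟨χ, hχ, hz, h1⟩ := hex
    have h := hNrow χ hχ F subset_rfl fun ψ hψ => by
      by_cases he : ψ = χ
      · rw [he]; exact hdiag χ hχ hz
      · exact hoff χ hχ ψ hψ he (Or.inl hz)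
    rwa [h1, mul_one] at h
  push Not at hex
  have hge : ∀ χ ∈ F, (3 : ℤ) ≤ q - a χ := by
    intro χ hχ
    rcases Nat.eq_zero_or_pos (blockHeight 2 B (χ : G → ℂ)) with hz | hz
    · have h1 := hNrow χ hχ {χ} (by simpa using hχ) (by simpa using hdiag χ hχ hz)
      simp only [Finset.card_singleton, Nat.cast_one] at h1
      have h2 : 0 < q - a χ := pos_of_mul_pos_right (lt_of_lt_of_le one_pos h1) hq0.le
      have h3 := hodd χ hχ hz
      have h4 := hex χ hχ hz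
      omega
    · have hne : χ₀ ≠ χ := fun he => by rw [← he, h0] at hz; exact lt_irrefl 0 hz
      have h1 := hNrow χ hχ {χ₀} (by simpa using hχ₀F)
        (by simpa using hoff χ hχ χ₀ hχ₀F hne (Or.inr h0))
      simp only [Finset.card_singleton, Nat.cast_one] at h1
      have h2 : 0 < q - a χ := pos_of_mul_pos_right (lt_of_lt_of_le one_pos h1) hq0.le
      obtain ⟨h3, h4⟩ := diag_ge_of_height hM ⟨k, hk⟩ hxn hH hind hd ha' (Finset.mem_filter.mp hχ).2 hz
      have hlt : blockHeight 2 B (χ : G → ℂ) + 1 ≤ blockDefect 2 b := by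
        by_contra hgt
        have h5 : (2 : ℤ) ^ blockDefect 2 b ≤ 2 ^ (blockHeight 2 B (χ : G → ℂ) + 1) :=
          pow_le_pow_right₀ (by norm_num) (by omega)
        push_cast at h3
        linarith
      have h5 : (4 : ℤ) ∣ q - a χ := by
        have h6 : (4 : ℤ) ∣ ((2 ^ (blockHeight 2 B (χ : G → ℂ) + 1) : ℕ) : ℤ) := by
          push_cast
          exact (show (4 : ℤ) = 2 ^ 2 by norm_num) ▸ pow_dvd_pow 2 (by omega)
        refine dvd_sub (h6.trans ?_) (h6.trans h4)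
        rw [hq]; push_cast
        exact pow_dvd_pow 2 hlt
      omega
  have htr := trace_eq hM ⟨k, hk⟩ hxn hH hind ha'
  rw [hqn] at htr
  have h6 := Finset.card_nsmul_le_sum F (fun χ => q - a χ) 3 hge
  rw [nsmul_eq_mul, Finset.sum_sub_distrib, Finset.sum_const, nsmul_eq_mul, htr] at h6
  nlinarith [mul_le_mul_of_nonneg_left hkl hq0.le]

end Cfsg.Lib.Blocks.TwoPower
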