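import Mathlib

/-!
# Split symmetric algebras with two-dimensional local centre
-/

set_option autoImplicit false
set_option linter.unusedSectionVars false
set_option linter.style.haveILetI false
set_option maxHeartbeats 800000

namespace Cfsg.Lib.Blocks.TwoDimCentre

open Module

variable {k : Type*} [Field k] [IsAlgClosed k] {A : Type*} [Ring A] [Algebra k A] [FiniteDimensional k A]

/-- The span of the ring commutators. -/
def comm (k : Type*) [Field k] (A : Type*) [Ring A] [Algebra k A] : Submodule k A :=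
  Submodule.span k (Set.range fun q : A × A => q.1 * q.2 - q.2 * q.1)

theorem mem_comm (a b : A) : a * b - b * a ∈ comm k A := Submodule.subset_span ⟨(a, b), rfl⟩

theorem comm_le_ker {V : Type*} [AddCommGroup V] [Module k V] (l : A →ₗ[k] V)
    (h : ∀ a b, l (a * b) = l (b * a)) : comm k A ≤ LinearMap.ker l := by
  rw [comm, Submodule.span_le]
  rintro _ ⟨⟨a, b⟩, rfl⟩
  simp [h a b]

theorem finrank_le_add_comm (t : A →ₗ[k] k) (htc : ∀ a b, t (a * b) = t (b * a))
    (ht : ∀ a, (∀ b, t (a * b) = 0) → a = 0) :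
    finrank k A ≤ finrank k (Subalgebra.center k A) + finrank k (comm k A) := by
  let Φ : A →ₗ[k] (comm k A →ₗ[k] k) :=
    { toFun := fun x => (t.comp (LinearMap.mulLeft k x)).comp (comm k A).subtype
      map_add' := fun x y => LinearMap.ext fun c => by simp [add_mul]
      map_smul' := fun r x => LinearMap.ext fun c => by simp }
  have hker : LinearMap.ker Φ ≤ (Subalgebra.center k A).toSubmodule := by
    intro x hx
    rw [Subalgebra.mem_toSubmodule, Subalgebra.mem_center_iff]
    intro a
    refine (sub_eq_zero.mp (ht _ fun b => ?_)).symm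
    have h := LinearMap.congr_fun hx ⟨a * b - b * a, mem_comm a b⟩
    simp only [Φ, LinearMap.coe_mk, AddHom.coe_mk, LinearMap.comp_apply, Submodule.coe_subtype,
      LinearMap.mulLeft_apply, LinearMap.zero_apply] at h
    rw [mul_sub, map_sub] at h
    rw [sub_mul, map_sub, mul_assoc x a b]
    have e : t (a * x * b) = t (x * (b * a)) := by rw [mul_assoc, htc, mul_assoc]
    rw [e]
    exact h
  have h1 := Φ.finrank_range_add_finrank_ker
  have h2 : finrank k (LinearMap.range Φ) ≤ finrank k (comm k A →ₗ[k] k) := Submodule.finrank_le _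
  have h3 : finrank k (comm k A →ₗ[k] k) = finrank k (comm k A) := Subspace.dual_finrank_eq
  have h4 : finrank k (LinearMap.ker Φ) ≤ finrank k (Subalgebra.center k A) :=
    Submodule.finrank_mono hker
  omega

/-- The semisimple quotient is a single matrix algebra. -/
theorem exists_simple_quotient [Nontrivial A] (t : A →ₗ[k] k) (htc : ∀ a b, t (a * b) = t (b * a))
    (ht : ∀ a, (∀ b, t (a * b) = 0) → a = 0) (hc : finrank k (Subalgebra.center k A) ≤ 2)
    {z : A} (hz : ∀ a, a * z = z * a) (hz0 : z ≠ 0) (hzn : IsNilpotent z) :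
    ∃ (m : ℕ) (φ : A →ₐ[k] Matrix (Fin m) (Fin m) k), 0 < m ∧ Function.Surjective φ ∧
      (∀ x, φ x = 0 → IsNilpotent x) ∧ ∃ N, LinearMap.ker φ.toLinearMap ^ (N + 1) = ⊥ := by
  haveI : IsArtinianRing A := IsArtinianRing.of_finite k A
  set J := Ring.jacobson A
  haveI hss : IsSemisimpleRing (A ⧸ J) := IsSemiprimaryRing.isSemisimpleRing
  haveI : FiniteDimensional k (A ⧸ J) :=
    Module.Finite.of_surjective (Ideal.Quotient.mkₐ k J).toLinearMap (Ideal.Quotient.mkₐ_surjective k J)
  obtain ⟨n, d, hd, ⟨e⟩⟩ := IsSemisimpleRing.exists_algEquiv_pi_matrix_of_isAlgClosed k (A ⧸ J)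
  let ψ : A →ₐ[k] Π i, Matrix (Fin (d i)) (Fin (d i)) k := e.toAlgHom.comp (Ideal.Quotient.mkₐ k J)
  have hψs : Function.Surjective ψ := e.surjective.comp (Ideal.Quotient.mkₐ_surjective k J)
  have hψ : ∀ x, ψ x = 0 → IsNilpotent x := by
    intro x hx
    have hxJ : x ∈ J := by
      have : e (Ideal.Quotient.mkₐ k J x) = e 0 := by rw [map_zero]; exact hx
      exact Ideal.Quotient.eq_zero_iff_mem.mp (e.injective this)
    obtain ⟨N, hN⟩ := IsSemiprimaryRing.isNilpotent (R := A)
    exact ⟨N, by
      have h : x ^ N ∈ J ^ N := Ideal.pow_mem_pow hxJ N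
      rwa [hN] at h⟩
  obtain ⟨N, hN⟩ := IsSemiprimaryRing.isNilpotent (R := A)
  have hpow : ∀ i, ((J.restrictScalars k : Submodule k A)) ^ (i + 1) ≤ ((J ^ (i + 1) : Ideal A).restrictScalars k) := by
    intro i
    induction i with
    | zero => rw [Nat.zero_add, pow_one, Submodule.pow_one]
    | succ i ih =>
      rw [pow_succ, Submodule.mul_le]
      intro u hu v hv
      show u * v ∈ (J ^ (i + 1 + 1) : Ideal A)
      rw [Submodule.pow_succ (n := i + 1)]
      exact Submodule.smul_mem_smul (ih hu) hv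
  have hkerN : LinearMap.ker ψ.toLinearMap ^ (N + 1) = ⊥ := by
    rw [eq_bot_iff]
    refine (pow_le_pow_left' (fun x hx => ?_) _).trans ((hpow N).trans ?_)
    · have : e (Ideal.Quotient.mkₐ k J x) = e 0 := by rw [map_zero]; exact hx
      exact Ideal.Quotient.eq_zero_iff_mem.mp (e.injective this)
    · rw [Submodule.pow_succ, hN]
      simp
  let tr : A →ₗ[k] (Fin n → k) :=
    LinearMap.pi fun i => (Matrix.traceLinearMap (Fin (d i)) k k).comp ((LinearMap.proj i).comp ψ.toLinearMap)
  have htr : ∀ a b, tr (a * b) = tr (b * a) := fun a b => funext fun i => by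
    simp only [tr, LinearMap.pi_apply, LinearMap.comp_apply, LinearMap.proj_apply,
      AlgHom.toLinearMap_apply, map_mul, Pi.mul_apply, Matrix.traceLinearMap_apply]
    exact Matrix.trace_mul_comm _ _
  have hsurj : Function.Surjective tr := by
    intro c
    obtain ⟨x, hx⟩ := hψs fun i =>
      haveI := hd i
      Matrix.single (0 : Fin (d i)) 0 (c i)
    refine ⟨x, funext fun i => ?_⟩
    haveI := hd i
    simp [tr, hx]
  have hle2 : n + finrank k (comm k A) ≤ finrank k A := by
    have h1 := tr.finrank_range_add_finrank_ker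
    rw [LinearMap.range_eq_top.mpr hsurj, finrank_top, Module.finrank_fin_fun] at h1
    have h2 := Submodule.finrank_mono (comm_le_ker tr htr)
    omega
  have hsum := finrank_le_add_comm t htc ht
  have hn0 : n ≠ 0 := by
    intro h
    subst h
    have h1 : ψ 1 = 0 := funext fun i => i.elim0
    obtain ⟨N, hN⟩ := hψ 1 h1
    rw [one_pow] at hN
    exact one_ne_zero hN
  rcases (show n = 1 ∨ n = 2 by omega) with rfl | rfl
  · haveI := hd 0
    refine ⟨d 0, (Pi.evalAlgHom k (fun i => Matrix (Fin (d i)) (Fin (d i)) k) 0).comp ψ,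
      Nat.pos_of_ne_zero (NeZero.ne _), (Function.surjective_eval (0 : Fin 1)).comp hψs, ?_⟩
    have hzero : ∀ x, ψ x 0 = 0 → ψ x = 0 := fun x hx => funext fun i => by
      obtain rfl : i = 0 := Subsingleton.elim _ _
      exact hx
    refine ⟨fun x hx => hψ x (hzero x hx), N, le_bot_iff.mp ?_⟩
    exact (pow_le_pow_left' (fun x hx => hzero x hx) _).trans hkerN.le
  · exfalso
    -- the commutators would contain the radical
    have hk : finrank k (LinearMap.ker tr) = finrank k (comm k A) := by
      have h1 := tr.finrank_range_add_finrank_ker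
      rw [LinearMap.range_eq_top.mpr hsurj, finrank_top, Module.finrank_fin_fun] at h1
      omega
    have heq : comm k A = LinearMap.ker tr :=
      Submodule.eq_of_le_of_finrank_eq (comm_le_ker tr htr) hk.symm
    have hψz : ψ z = 0 := by
      funext i
      haveI := hd i
      obtain ⟨N, hN⟩ := hzn
      have hcen : ∀ Y : Matrix (Fin (d i)) (Fin (d i)) k, Commute (ψ z i) Y := by
        intro Y
        obtain ⟨x, hx⟩ := hψs (Pi.single i Y)
        have h := congrFun (congrArg ψ (hz x)) i
        simp only [map_mul, hx, Pi.mul_apply, Pi.single_eq_same] at h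
        exact h.symm
      obtain ⟨c, hc⟩ := (Matrix.mem_range_scalar_iff_commute_single' (M := ψ z i)).mpr
        fun a b => (hcen _).symm
      have hp : (Matrix.scalar (Fin (d i)) c) ^ N = 0 := by
        rw [hc, ← Pi.pow_apply, ← map_pow, hN, map_zero, Pi.zero_apply]
      rw [← map_pow] at hp
      have hc0 : c ^ N = 0 := Matrix.scalar_inj.mp (hp.trans (map_zero _).symm)
      rw [Pi.zero_apply, ← hc, eq_zero_of_pow_eq_zero hc0, map_zero]
    apply hz0
    refine ht z fun b => ?_
    have hmem : z * b ∈ comm k A := by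
      rw [heq, LinearMap.mem_ker]
      funext i
      simp [tr, hψz]
    exact comm_le_ker t htc hmem

/-- The structure of such an algebra. -/
theorem structure_two [Nontrivial A] (t : A →ₗ[k] k) (htc : ∀ a b, t (a * b) = t (b * a))
    (ht : ∀ a, (∀ b, t (a * b) = 0) → a = 0) (hc : finrank k (Subalgebra.center k A) ≤ 2)
    {z : A} (hz : ∀ a, a * z = z * a) (hz0 : z ≠ 0) (hzn : IsNilpotent z) :
    ∃ (m : ℕ) (f : A), 0 < m ∧ IsIdempotentElem f ∧ finrank k A = 2 * m ^ 2 ∧
      finrank k (LinearMap.range (LinearMap.mulRight k f)) = 2 * m := by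
  classical
  obtain ⟨m, φ, hm, hφs, hnil, N, hN⟩ := exists_simple_quotient t htc ht hc hz hz0 hzn
  haveI : NeZero m := ⟨hm.ne'⟩
  set E : Matrix (Fin m) (Fin m) k := Matrix.single 0 0 1 with hE
  have hEE : IsIdempotentElem E := by
    show E * E = E
    rw [hE, Matrix.single_mul_single_same, mul_one]
  obtain ⟨f, hf, hfE⟩ := exists_isIdempotentElem_eq_of_ker_isNilpotent (φ : A →+* Matrix (Fin m) (Fin m) k)
    (fun x hx => hnil x hx) E (hφs E) hEE
  change φ f = E at hfE
  have hff : f * f = f := hf
  -- the ideal generated by `f` is everything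
  have hone : ∃ (ι : Type) (_ : Fintype ι) (a b : ι → A), ∑ i, a i * f * b i = 1 := by
    choose a ha using fun i : Fin m => hφs (Matrix.single i 0 (1 : k))
    choose b hb using fun i : Fin m => hφs (Matrix.single 0 i (1 : k))
    have h1 : φ (1 - ∑ i, a i * f * b i) = 0 := by
      rw [map_sub, map_one, map_sum, sub_eq_zero]
      have : ∀ i, φ (a i * f * b i) = Matrix.single i i (1 : k) := fun i => by
        rw [map_mul, map_mul, ha, hfE, hb, hE, Matrix.single_mul_single_same,
          Matrix.single_mul_single_same, mul_one, mul_one]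
      rw [Finset.sum_congr rfl fun i _ => this i, Matrix.sum_single_eq_diagonal]
      exact Matrix.diagonal_one.symm
    obtain ⟨u, hu⟩ := (hnil _ h1).isUnit_one_sub
    rw [sub_sub_cancel] at hu
    refine ⟨Fin m, inferInstance, a, fun i => b i * ((u⁻¹ : Aˣ) : A), ?_⟩
    simp only [← mul_assoc]
    rw [← Finset.sum_mul, ← hu, Units.mul_inv]
  obtain ⟨ι, _, a, b, hab⟩ := hone
  -- the corner
  let Fmap : A →ₗ[k] A := (LinearMap.mulLeft k f).comp (LinearMap.mulRight k f)
  set A₀ := LinearMap.range Fmap with hA₀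
  have hFm : ∀ x, Fmap x = f * x * f := fun x => by simp [Fmap, mul_assoc]
  have hmem₀ : ∀ {x}, x ∈ A₀ ↔ f * x * f = x := by
    intro x
    refine ⟨?_, fun h => ⟨x, (hFm x).trans h⟩⟩
    rintro ⟨y, rfl⟩
    rw [hFm]
    calc f * (f * y * f) * f = (f * f) * y * (f * f) := by simp only [mul_assoc]
      _ = f * y * f := by rw [hff]
  have hmul₀ : ∀ {x y}, x ∈ A₀ → y ∈ A₀ → x * y ∈ A₀ := by
    intro x y hx hy
    rw [hmem₀] at hx hy ⊢
    rw [← hx, ← hy]
    calc f * (f * x * f * (f * y * f)) * f = (f * f) * x * (f * f) * y * (f * f) := by simp only [mul_assoc]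
      _ = f * x * f * (f * y * f) := by
          rw [show f * x * f * (f * y * f) = f * x * (f * f) * y * f by simp only [mul_assoc], hff]
  set J₀ := A₀ ⊓ LinearMap.ker φ.toLinearMap with hJ₀
  set J₀2 : Submodule k A := J₀ * J₀ with hJ₀2
  -- `A₀ = k f + J₀`
  have hdec : ∀ x ∈ A₀, ∃ c : k, x - c • f ∈ J₀ := by
    intro x hx
    refine ⟨φ x 0 0, A₀.sub_mem hx (A₀.smul_mem _ (hmem₀.mpr (by rw [hff, hff]))), ?_⟩
    show φ (x - φ x 0 0 • f) = 0
    rw [map_sub, map_smul, hfE]
    conv_lhs => arg 1; rw [← hmem₀.mp hx, map_mul, map_mul, hfE, hE, Matrix.single_mul_mul_single]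
    simp [hE, Matrix.smul_single]
  have hfid : ∀ {x}, x ∈ A₀ → f * x = x ∧ x * f = x := by
    intro x hx
    rw [hmem₀] at hx
    constructor
    · conv_rhs => rw [← hx]
      conv_lhs => rw [← hx]
      simp only [← mul_assoc, hff]
    · conv_rhs => rw [← hx]
      conv_lhs => rw [← hx]
      simp only [mul_assoc, hff]
  have hcomm₀ : ∀ x ∈ A₀, ∀ y ∈ A₀, x * y - y * x ∈ J₀2 := by
    intro x hx y hy
    obtain ⟨c, hc'⟩ := hdec x hx
    obtain ⟨c', hc''⟩ := hdec y hy
    have : x * y - y * x = (x - c • f) * (y - c' • f) - (y - c' • f) * (x - c • f) := by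
      simp only [sub_mul, mul_sub, smul_mul_assoc, mul_smul_comm, (hfid hx).1, (hfid hx).2,
        (hfid hy).1, (hfid hy).2, hff, smul_smul, mul_comm c c']
      module
    rw [this]
    exact J₀2.sub_mem (Submodule.mul_mem_mul hc' hc'') (Submodule.mul_mem_mul hc'' hc')
  -- the trace map onto the corner
  let τ : A →ₗ[k] A := ∑ i, (LinearMap.mulLeft k (f * b i)).comp (LinearMap.mulRight k (a i * f))
  have hτ : ∀ x, τ x = ∑ i, f * b i * x * (a i * f) := fun x => by
    simp [τ, mul_assoc]
  have hbound : ∀ S : Submodule k A, (∀ x ∈ A₀, ∀ y ∈ A₀, x * y - y * x ∈ S) →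
      finrank k (A₀.map S.mkQ) ≤ 2 := by
    intro S hS
    set q := S.mkQ
    have hpq : ∀ x y, q (f * x * f * (f * y * f)) = q (f * y * f * (f * x * f)) := fun x y =>
      (Submodule.Quotient.eq _).mpr (hS _ ⟨x, hFm x⟩ _ ⟨y, hFm y⟩)
    have hkey : ∀ x y, τ (x * y) = ∑ i, ∑ j, f * (b i * x * a j) * f * (f * (b j * y * a i) * f) := by
      intro x y
      rw [hτ]
      refine Finset.sum_congr rfl fun i _ => ?_
      conv_lhs => rw [show x * y = x * 1 * y by rw [mul_one], ← hab]
      simp only [Finset.mul_sum, Finset.sum_mul]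
      refine Finset.sum_congr rfl fun j _ => ?_
      rw [show f * (b i * x * a j) * f * (f * (b j * y * a i) * f)
        = f * b i * x * a j * (f * f) * b j * y * a i * f by simp only [mul_assoc], hff]
      simp only [mul_assoc]
    have hqτ : comm k A ≤ LinearMap.ker (q.comp τ) := by
      refine comm_le_ker _ fun x y => ?_
      simp only [LinearMap.comp_apply, hkey, map_sum]
      rw [Finset.sum_comm]
      exact Finset.sum_congr rfl fun i _ => Finset.sum_congr rfl fun j _ => hpq _ _
    have hτid : ∀ x ∈ A₀, q (τ x) = q x := by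
      intro x hx
      rw [hτ, map_sum]
      have h1 : ∀ i, q (f * b i * x * (a i * f)) = q (x * (f * a i * f * (f * b i * f))) := by
        intro i
        calc q (f * b i * x * (a i * f))
            = q (f * b i * f * (f * (x * (f * a i * f)) * f)) := by
              congr 1
              rw [(hfid (hmul₀ hx ⟨a i, hFm _⟩)).1, (hfid (hmul₀ hx ⟨a i, hFm _⟩)).2]
              calc f * b i * x * (a i * f) = f * b i * (f * x * f) * (a i * f) := by rw [hmem₀.mp hx]
                _ = f * b i * f * (x * (f * a i * f)) := by simp only [mul_assoc]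
          _ = q (f * (x * (f * a i * f)) * f * (f * b i * f)) := hpq _ _
          _ = _ := by
              rw [(hfid (hmul₀ hx ⟨a i, hFm _⟩)).1, (hfid (hmul₀ hx ⟨a i, hFm _⟩)).2, mul_assoc]
      rw [Finset.sum_congr rfl fun i _ => h1 i, ← map_sum, ← Finset.mul_sum]
      congr 1
      have h2 : ∑ i, f * a i * f * (f * b i * f) = f := by
        calc _ = f * (∑ i, a i * f * b i) * f := by
              rw [Finset.mul_sum, Finset.sum_mul]
              refine Finset.sum_congr rfl fun i _ => ?_
              rw [show f * a i * f * (f * b i * f) = f * a i * (f * f) * b i * f by simp only [mul_assoc], hff]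
              simp only [mul_assoc]
          _ = f := by rw [hab, mul_one, hff]
      rw [h2]
      exact (hfid hx).2
    have hle : A₀.map q ≤ LinearMap.range (q.comp τ) := by
      rintro _ ⟨x, hx, rfl⟩
      exact ⟨x, hτid x hx⟩
    have h1 := (q.comp τ).finrank_range_add_finrank_ker
    have h2 := Submodule.finrank_mono hqτ
    have h3 := Submodule.finrank_mono hle
    have h4 := finrank_le_add_comm t htc ht
    omega
  -- `J₀` is one-generated modulo its square
  have hJ₀A : J₀ ≤ A₀ := inf_le_left
  have hJ₀2le : J₀2 ≤ J₀ := by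
    rw [hJ₀2, Submodule.mul_le]
    intro x hx y hy
    exact ⟨hmul₀ hx.1 hy.1, by
      rw [SetLike.mem_coe, LinearMap.mem_ker, AlgHom.toLinearMap_apply, map_mul,
        show φ x = 0 from hx.2, zero_mul]⟩
  have hquot := hbound J₀2 hcomm₀
  set q := J₀2.mkQ
  obtain ⟨x₁, hx₁, hgen⟩ : ∃ x ∈ J₀, J₀ ≤ Submodule.span k {x} ⊔ J₀2 := by
    have hle : J₀.map q ≤ A₀.map q := Submodule.map_mono hJ₀A
    have hfq : q f ∈ A₀.map q := ⟨f, hmem₀.mpr (by rw [hff, hff]), rfl⟩
    have hfJ : q f ∉ J₀.map q := by
      rintro ⟨y, hy, hyq⟩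
      have h1 : y - f ∈ J₀ := hJ₀2le ((Submodule.Quotient.eq _).mp hyq)
      have h2 : f ∈ J₀ := by simpa using J₀.sub_mem hy h1
      have h3 : φ f = 0 := h2.2
      rw [hfE, hE] at h3
      simpa using congrFun (congrFun h3 0) 0
    have hlt : finrank k (J₀.map q) < finrank k (A₀.map q) :=
      Submodule.finrank_lt_finrank_of_lt (lt_of_le_not_ge hle fun h => hfJ (h hfq))
    obtain ⟨⟨_, x, hx, rfl⟩, hv⟩ := finrank_le_one_iff.mp (show finrank k (J₀.map q) ≤ 1 by omega)
    refine ⟨x, hx, fun y hy => ?_⟩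
    obtain ⟨c, hc'⟩ := hv ⟨q y, y, hy, rfl⟩
    have hc2 : c • q x = q y := congrArg Subtype.val hc'
    rw [← map_smul] at hc2
    have h1 : c • x - y ∈ J₀2 := (Submodule.Quotient.eq _).mp hc2
    rw [show y = c • x - (c • x - y) by abel]
    exact sub_mem (Submodule.mem_sup_left (Submodule.smul_mem _ _ (Submodule.mem_span_singleton_self x)))
      (Submodule.mem_sup_right h1)
  -- so `A₀` is commutative
  have hxpow : ∀ i, x₁ ^ (i + 1) ∈ J₀ ^ (i + 1) := fun i => Submodule.pow_mem_pow _ hx₁ _
  have hstep : ∀ i, J₀ ^ (i + 1) ≤ Submodule.span k {x₁ ^ (i + 1)} ⊔ J₀ ^ (i + 2) := by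
    intro i
    induction i with
    | zero => simpa [pow_two] using hgen
    | succ i ih =>
      calc J₀ ^ (i + 1 + 1) = J₀ ^ (i + 1) * J₀ := pow_succ _ _
        _ ≤ (Submodule.span k {x₁ ^ (i + 1)} ⊔ J₀ ^ (i + 2)) * J₀ := mul_le_mul_left ih _
        _ ≤ _ := by
          rw [Submodule.sup_mul, ← pow_succ]
          refine sup_le ?_ le_sup_right
          refine (mul_le_mul_right hgen _).trans ?_
          rw [Submodule.mul_sup, Submodule.span_mul_span, Set.singleton_mul_singleton, ← pow_succ]
          refine sup_le_sup_left ?_ _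
          calc Submodule.span k {x₁ ^ (i + 1)} * J₀2 ≤ J₀ ^ (i + 1) * (J₀ * J₀) :=
                mul_le_mul_left (Submodule.span_le.mpr (Set.singleton_subset_iff.mpr (hxpow i))) _
            _ = _ := by rw [← mul_assoc, ← pow_succ, ← pow_succ]
  set P := Algebra.adjoin k ({x₁} : Set A) with hP
  have hpowN : J₀ ^ (N + 1) = ⊥ := le_bot_iff.mp ((pow_le_pow_left' inf_le_right _).trans hN.le)
  have hJ₀P : ∀ j i, N + 1 ≤ i + 1 + j → J₀ ^ (i + 1) ≤ P.toSubmodule := by
    intro j
    induction j with
    | zero =>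
      intro i hi
      refine le_trans ?_ bot_le
      rw [show i + 1 = (N + 1) + (i - N) by omega, pow_add, hpowN, Submodule.bot_mul]
    | succ j ih =>
      intro i hi
      refine (hstep i).trans (sup_le (Submodule.span_le.mpr (Set.singleton_subset_iff.mpr ?_)) (ih (i + 1) (by omega)))
      exact P.pow_mem (Algebra.self_mem_adjoin_singleton k x₁) _
  have hJP : ∀ u ∈ J₀, u ∈ P := fun u hu =>
    hJ₀P (N + 1) 0 (by omega) (by rwa [Nat.zero_add, pow_one])
  have hcomm0 : ∀ x ∈ A₀, ∀ y ∈ A₀, x * y - y * x ∈ (⊥ : Submodule k A) := by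
    intro x hx y hy
    obtain ⟨c, hc'⟩ := hdec x hx
    obtain ⟨c', hc''⟩ := hdec y hy
    have h : (x - c • f) * (y - c' • f) = (y - c' • f) * (x - c • f) := by
      have m1 := hJP _ hc'
      have m2 := hJP _ hc''
      rw [hP, Algebra.adjoin_singleton_eq_range_aeval] at m1 m2
      obtain ⟨P1, hP1⟩ := m1
      obtain ⟨P2, hP2⟩ := m2
      rw [← hP1, ← hP2]
      show Polynomial.aeval x₁ P1 * Polynomial.aeval x₁ P2 = Polynomial.aeval x₁ P2 * Polynomial.aeval x₁ P1
      rw [← map_mul, ← map_mul, mul_comm]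
    rw [Submodule.mem_bot]
    have e : x * y - y * x = (x - c • f) * (y - c' • f) - (y - c' • f) * (x - c • f) := by
      simp only [sub_mul, mul_sub, smul_mul_assoc, mul_smul_comm, (hfid hx).1, (hfid hx).2,
        (hfid hy).1, (hfid hy).2, hff, smul_smul, mul_comm c c']
      module
    rw [e, h, sub_self]
  have hA₀2 : finrank k A₀ ≤ 2 := by
    have h := hbound ⊥ hcomm0
    rwa [← (Submodule.equivMapOfInjective _ (LinearMap.ker_eq_bot.mp (Submodule.ker_mkQ _)) A₀).finrank_eq] at h
  have hfA₀ : f ∈ A₀ := hmem₀.mpr (by rw [hff, hff])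
  have hfnJ : f ∉ J₀ := fun h => by
    have h3 : φ f = 0 := h.2
    rw [hfE, hE] at h3
    simpa using congrFun (congrFun h3 0) 0
  have hJ₀1 : finrank k J₀ ≤ 1 := by
    have := Submodule.finrank_lt_finrank_of_lt (lt_of_le_not_ge hJ₀A fun h => hfnJ (h hfA₀))
    omega
  have hsq : ∀ u ∈ J₀, ∀ v ∈ J₀, u * v = 0 := by
    intro u hu v hv
    by_contra huv
    have hmem : u * v ∈ J₀2 := Submodule.mul_mem_mul hu hv
    have h1 : 1 ≤ finrank k J₀2 := Submodule.one_le_finrank_iff.mpr fun hb => huv (by rwa [hb, Submodule.mem_bot] at hmem)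
    have heq : J₀2 = J₀ := Submodule.eq_of_le_of_finrank_le hJ₀2le (by omega)
    have hall : ∀ i, J₀ ^ (i + 1) = J₀ := by
      intro i
      induction i with
      | zero => rw [Nat.zero_add, pow_one]
      | succ i ih => rw [pow_succ, ih]; exact heq
    have hb : J₀ = ⊥ := (hall N).symm.trans hpowN
    rw [heq, hb, Submodule.mem_bot] at hmem
    exact huv hmem
  -- dimensions
  set I := LinearMap.ker φ.toLinearMap with hI
  have hImem : ∀ {x}, x ∈ I ↔ φ x = 0 := Iff.rfl
  set X := LinearMap.range (LinearMap.mulRight k f) with hX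
  have hXmem : ∀ {x}, x ∈ X ↔ x * f = x := by
    intro x
    refine ⟨?_, fun h => ⟨x, h⟩⟩
    rintro ⟨y, rfl⟩
    show y * f * f = y * f
    rw [mul_assoc, hff]
  set K := X ⊓ I with hK
  have hyJ : ∀ y ∈ K, ∀ i, f * b i * y ∈ J₀ := by
    intro y hy i
    have hy1 : y * f = y := hXmem.mp hy.1
    refine ⟨⟨b i * y, ?_⟩, ?_⟩
    · rw [hFm]
      calc f * (b i * y) * f = f * b i * (y * f) := by simp only [mul_assoc]
        _ = _ := by rw [hy1]
    · show φ (f * b i * y) = 0
      rw [map_mul, hImem.mp hy.2, mul_zero]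
  have hysum : ∀ y, y = ∑ i, a i * (f * b i * y) := by
    intro y
    conv_lhs => rw [← one_mul y, ← hab, Finset.sum_mul]
    simp only [mul_assoc]
  have hKJ : ∀ y ∈ K, ∀ v ∈ J₀, y * v = 0 := by
    intro y hy v hv
    rw [hysum y, Finset.sum_mul]
    exact Finset.sum_eq_zero fun i _ => by rw [mul_assoc, hsq _ (hyJ y hy i) _ hv, mul_zero]
  -- images of `X`
  have hXdim : finrank k X = m + finrank k K := by
    let g := φ.toLinearMap.domRestrict X
    have hr : LinearMap.range g = LinearMap.range
        (({ toFun := fun c => Matrix.of fun i j => if j = 0 then c i else 0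
            map_add' := fun c c' => by ext i j; by_cases h : j = 0 <;> simp [h]
            map_smul' := fun r c => by ext i j; by_cases h : j = 0 <;> simp [h] } :
          (Fin m → k) →ₗ[k] Matrix (Fin m) (Fin m) k)) := by
      apply le_antisymm
      · rintro _ ⟨⟨x, hx⟩, rfl⟩
        refine ⟨fun i => φ x i 0, ?_⟩
        show _ = φ x
        ext i j
        show (if j = 0 then φ x i 0 else 0) = φ x i j
        split_ifs with h
        · rw [h]
        · rw [← hXmem.mp hx, map_mul, hfE, hE, Matrix.mul_single_apply_of_ne (hbj := h)]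
      · rintro _ ⟨c, rfl⟩
        obtain ⟨x, hx⟩ := hφs (Matrix.of fun i j => if j = 0 then c i else 0)
        refine ⟨⟨x * f, x, rfl⟩, ?_⟩
        show φ (x * f) = Matrix.of fun i j => if j = 0 then c i else 0
        rw [map_mul, hx, hfE, hE]
        ext i j
        by_cases h : j = 0
        · subst h; simp
        · rw [Matrix.mul_single_apply_of_ne (hbj := h)]; simp [h]
    have h1 := g.finrank_range_add_finrank_ker
    rw [hr, LinearMap.finrank_range_of_inj, Module.finrank_fin_fun] at h1
    · have h2 : finrank k (LinearMap.ker g) = finrank k K := by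
        rw [LinearMap.ker_domRestrict]
        refine LinearEquiv.finrank_eq ?_
        exact (LinearEquiv.ofEq _ (K.comap X.subtype) (by
            ext ⟨w, hw⟩
            exact ⟨fun h => ⟨hw, h⟩, fun h => h.2⟩)).trans
          (Submodule.comapSubtypeEquivOfLe (inf_le_left : K ≤ X))
      omega
    · intro c c' h
      funext i
      simpa using congrFun (congrFun h i) 0
  have hKle : finrank k K ≤ m := by
    let ρ := (LinearMap.mulRight k x₁).domRestrict X
    have hJspan : ∀ v ∈ J₀, ∃ c : k, v = c • x₁ := by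
      intro v hv
      have hbot : J₀2 = ⊥ := eq_bot_iff.mpr (Submodule.mul_le.mpr fun u hu w hw => by simp [hsq u hu w hw])
      have h := hgen hv
      rw [hbot, sup_bot_eq, Submodule.mem_span_singleton] at h
      obtain ⟨c, rfl⟩ := h
      exact ⟨c, rfl⟩
    have h1 : K ≤ LinearMap.range ρ := by
      intro y hy
      choose c hc using fun i => hJspan _ (hyJ y hy i)
      refine ⟨⟨(∑ i, c i • a i) * f, _, rfl⟩, ?_⟩
      show (∑ i, c i • a i) * f * x₁ = y
      rw [mul_assoc, (hfid hx₁.1).1, Finset.sum_mul]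
      conv_rhs => rw [hysum y]
      exact Finset.sum_congr rfl fun i _ => by rw [hc i, smul_mul_assoc, mul_smul_comm]
    have h2 : finrank k K ≤ finrank k (LinearMap.ker ρ) :=
      LinearMap.finrank_le_finrank_of_injective (f := LinearMap.codRestrict (LinearMap.ker ρ)
        (Submodule.inclusion (inf_le_left : K ≤ X)) fun y => hKJ _ y.2 _ hx₁) fun u v h => by
          have := congrArg (fun w : LinearMap.ker ρ => ((w : X) : A)) h
          exact Subtype.ext this
    have h3 := ρ.finrank_range_add_finrank_ker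
    have h4 := Submodule.finrank_mono h1
    omega
  choose w hw using fun c : Fin m => hφs (Matrix.single 0 c (1 : k))
  have hfw : ∀ c, φ (f * w c) = Matrix.single 0 c (1 : k) := fun c => by
    rw [map_mul, hfE, hw, hE, Matrix.single_mul_single_same, mul_one]
  have hKI : ∀ y ∈ K, ∀ v ∈ I, y * v = 0 := by
    intro y hy v hv
    rw [← hXmem.mp hy.1, mul_assoc]
    have e : f * v = ∑ i, f * v * a i * f * b i := by
      conv_lhs => rw [← mul_one (f * v), ← hab, Finset.mul_sum]
      simp only [mul_assoc]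
    rw [e, Finset.mul_sum]
    refine Finset.sum_eq_zero fun i _ => ?_
    rw [← mul_assoc, hKJ y hy _ ⟨⟨v * a i, by rw [hFm]; simp only [mul_assoc]⟩, by
      show φ (f * v * a i * f) = 0
      simp only [map_mul, hImem.mp hv, mul_zero, zero_mul]⟩, zero_mul]
  let Ψ : (Fin m → K) →ₗ[k] A :=
    ∑ c, (LinearMap.mulRight k (f * w c)).comp (K.subtype.comp (LinearMap.proj c))
  have hΨ : ∀ y : Fin m → K, Ψ y = ∑ c, (y c : A) * (f * w c) := fun y => by simp [Ψ, mul_assoc]
  have hIle : I ≤ LinearMap.range Ψ := by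
    intro y hy
    have hcoef : ∀ i, f * b i - ∑ c, φ (f * b i) 0 c • (f * w c) ∈ I := by
      intro i
      rw [hImem, map_sub, map_sum, sub_eq_zero]
      simp only [map_smul, hfw, Matrix.smul_single, smul_eq_mul, mul_one]
      ext r s
      rw [Matrix.sum_apply, Finset.sum_eq_single s (fun c _ hc => Matrix.single_apply_of_col_ne _ _ hc _)
        (by simp)]
      by_cases hr : r = 0
      · subst hr; simp
      · rw [map_mul, hfE, hE, Matrix.single_mul_apply_of_ne _ _ _ _ _ hr]
        simp [Ne.symm hr]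
    have hyK : ∀ i, y * a i * f ∈ K := fun i => ⟨⟨y * a i, rfl⟩, by
      show φ (y * a i * f) = 0
      simp [map_mul, hImem.mp hy]⟩
    refine ⟨fun c => ∑ i, φ (f * b i) 0 c • ⟨_, hyK i⟩, ?_⟩
    rw [hΨ]
    calc ∑ c, ((∑ i, φ (f * b i) 0 c • (⟨_, hyK i⟩ : K) : K) : A) * (f * w c)
        = ∑ i, y * a i * f * (∑ c, φ (f * b i) 0 c • (f * w c)) := by
          simp only [Submodule.coe_sum, Submodule.coe_smul, Finset.sum_mul, Finset.mul_sum,
            smul_mul_assoc, mul_smul_comm]
          exact Finset.sum_comm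
      _ = ∑ i, y * a i * f * (f * b i) := by
          refine Finset.sum_congr rfl fun i _ => ?_
          have h := hKI _ (hyK i) _ (hcoef i)
          rw [mul_sub, sub_eq_zero] at h
          exact h.symm
      _ = y * (∑ i, a i * f * b i) := by
          rw [Finset.mul_sum]
          refine Finset.sum_congr rfl fun i _ => ?_
          rw [show y * a i * f * (f * b i) = y * a i * (f * f) * b i by simp only [mul_assoc], hff]
          simp only [mul_assoc]
      _ = y := by rw [hab, mul_one]
  have hIK : finrank k I ≤ m * finrank k K := by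
    have h1 := Submodule.finrank_mono hIle
    have h2 := LinearMap.finrank_range_le Ψ
    rw [Module.finrank_pi_fintype, Finset.sum_const, Finset.card_univ, Fintype.card_fin, smul_eq_mul] at h2
    omega
  have hAdim : finrank k A = m ^ 2 + finrank k I := by
    have h1 := φ.toLinearMap.finrank_range_add_finrank_ker
    rw [LinearMap.range_eq_top.mpr hφs, finrank_top, Module.finrank_matrix, Module.finrank_self,
      Fintype.card_fin, ← hI] at h1
    rw [sq]
    omega
  have hII : ∀ u ∈ I, ∀ v ∈ I, u * v = 0 := by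
    intro u hu v hv
    obtain ⟨y, rfl⟩ := hIle hu
    rw [hΨ, Finset.sum_mul]
    refine Finset.sum_eq_zero fun c _ => ?_
    rw [mul_assoc]
    exact hKI _ (y c).2 _ (by rw [hImem, map_mul, hImem.mp hv, mul_zero])
  let Φ : A →ₗ[k] (I →ₗ[k] k) :=
    { toFun := fun x => (t.comp (LinearMap.mulLeft k x)).comp I.subtype
      map_add' := fun x y => LinearMap.ext fun c => by simp [add_mul]
      map_smul' := fun r x => LinearMap.ext fun c => by simp }
  have hzI : z ∈ I := by
    rw [hImem]
    obtain ⟨c, hc⟩ := (Matrix.mem_range_scalar_iff_commute_single' (M := φ z)).mpr fun i j => by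
      obtain ⟨x, hx⟩ := hφs (Matrix.single i j 1)
      show _ = _
      rw [← hx, ← map_mul, ← map_mul, hz x]
    obtain ⟨L, hL⟩ := hzn
    have h1 : (Matrix.scalar (Fin m) c) ^ L = 0 := by rw [hc, ← map_pow, hL, map_zero]
    rw [← map_pow] at h1
    rw [← hc, eq_zero_of_pow_eq_zero (Matrix.scalar_inj.mp (h1.trans (map_zero _).symm)), map_zero]
  have hkerI : LinearMap.ker Φ ≤ I := by
    intro x hx
    rw [hImem]
    by_contra hne
    obtain ⟨r, s, hrs⟩ : ∃ r s, φ x r s ≠ 0 := by
      by_contra hh
      push Not at hh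
      exact hne (Matrix.ext hh)
    have hideal : ∀ u v, ∀ i : I, t (u * x * v * i) = 0 := by
      intro u v i
      have hmem : v * (i : A) * u ∈ I := by rw [hImem, map_mul, map_mul, hImem.mp i.2, mul_zero, zero_mul]
      have h := LinearMap.congr_fun hx ⟨_, hmem⟩
      simp only [Φ, LinearMap.coe_mk, AddHom.coe_mk, LinearMap.comp_apply, Submodule.coe_subtype,
        LinearMap.mulLeft_apply, LinearMap.zero_apply] at h
      rw [show u * x * v * (i : A) = u * (x * (v * (i : A))) by simp only [mul_assoc], htc]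
      rw [show x * (v * (i : A)) * u = x * (v * (i : A) * u) by simp only [mul_assoc]]
      exact h
    obtain ⟨u, hu⟩ := hφs (Matrix.single 0 r (1 : k))
    obtain ⟨v, hv⟩ := hφs (Matrix.single s 0 (1 : k))
    set g := f * (u * x * v) * f with hg
    have hg0 : g ∈ A₀ := ⟨_, hFm _⟩
    obtain ⟨c, hc'⟩ := hdec g hg0
    have hc0 : c ≠ 0 := by
      intro h
      rw [h, zero_smul, sub_zero] at hc'
      have h3 : φ g = 0 := hc'.2
      apply hrs
      have := congrFun (congrFun h3 0) 0
      simpa [hg, map_mul, hfE, hu, hv, hE, Matrix.mul_apply, Matrix.single_apply] using this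
    have hgf : ∃ w', g * w' = f := by
      refine ⟨(c * c)⁻¹ • (c • f - (g - c • f)), ?_⟩
      have e : g * (c • f - (g - c • f)) = (c * c) • f := by
        conv_lhs => arg 1; rw [show g = c • f + (g - c • f) by abel]
        rw [mul_sub, add_mul, add_mul, hsq _ hc' _ hc', smul_mul_smul_comm, hff, smul_mul_assoc,
          mul_smul_comm, (hfid (hJ₀A hc')).1, (hfid (hJ₀A hc')).2]
        abel
      rw [mul_smul_comm, e, smul_smul, inv_mul_cancel₀ (mul_ne_zero hc0 hc0), one_smul]
    obtain ⟨w', hw'⟩ := hgf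
    have hall : ∀ i : I, t (i : A) = 0 := by
      intro i
      rw [← one_mul (i : A), ← hab, Finset.sum_mul, map_sum]
      refine Finset.sum_eq_zero fun j _ => ?_
      rw [← hw', hg]
      have := hideal (a j * f * u) (v * f * w' * b j) i
      simpa only [mul_assoc] using this
    exact hz0 (ht z fun b => hall ⟨z * b, by rw [hImem, map_mul, hImem.mp hzI, zero_mul]⟩)
  have hΦ := Φ.finrank_range_add_finrank_ker
  have h5 : finrank k (LinearMap.range Φ) ≤ finrank k I :=
    (Submodule.finrank_le _).trans_eq Subspace.dual_finrank_eq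
  have h6 := Submodule.finrank_mono hkerI
  have hIm : m ^ 2 ≤ finrank k I := by omega
  have hmK : m * finrank k K ≤ m * m := Nat.mul_le_mul le_rfl hKle
  have hKm : finrank k K = m := by
    refine le_antisymm hKle ?_
    refine Nat.le_of_mul_le_mul_left ?_ hm
    rw [← sq]; omega
  refine ⟨m, f, hm, hf, ?_, ?_⟩
  · rw [hKm] at hIK
    rw [hAdim]
    have : m * m = m ^ 2 := (sq m).symm
    omega
  · rw [hXdim, hKm]; omega

end Cfsg.Lib.Blocks.TwoDimCentre
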