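import Mathlib
import Cfsg.Agent.Lib.Blocks.TwoDimCentre
import Cfsg.Agent.Lib.Blocks.Heights
import Cfsg.Agent.Lib.Blocks.DefectZero
import Cfsg.Agent.Lib.Blocks.SumSquares

/-!
# Blocks with two irreducible characters
-/

set_option autoImplicit false
set_option linter.unusedSectionVars false
set_option linter.style.haveILetI false
set_option maxHeartbeats 800000

namespace Cfsg.Lib.Blocks.TwoChar

open Cfsg.Lib.Blocks Cfsg.Lib.Characters Finset Module
open scoped ComplexConjugate Classical

universe u

variable {M : Ideal Cfsg.AlgInt} [M.IsPrime]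

/-- Every root of a monic polynomial over the local ring lies in it. -/
theorem mem_locRing_of_root {q : Polynomial (locRing M)} (hq : q.Monic) {z : ℂ}
    (hz : q.eval₂ (locRing M).subtype z = 0) : z ∈ locRing M := by
  choose a b hb hab using fun i => mem_locRing M |>.mp (q.coeff i).2
  set d : Cfsg.AlgInt := ∏ i ∈ range (q.natDegree + 1), b i with hd
  have hdM : d ∉ M := by
    intro h
    obtain ⟨i, -, hi⟩ := (Ideal.IsPrime.prod_mem_iff).mp h
    exact hb i hi
  have hd0 := algInt_coe_ne_zero M hdM
  by_cases hn : q.natDegree = 0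
  · rw [hq.natDegree_eq_zero.mp hn, Polynomial.eval₂_one] at hz
    exact absurd hz one_ne_zero
  have hint : IsIntegral ℤ ((d : ℂ) * z) := by
    set Q := (q.map (locRing M).subtype).scaleRoots (d : ℂ) with hQ
    have hQm : Q.Monic := (Polynomial.monic_scaleRoots_iff _).mpr (hq.map _)
    have hQd : Q.natDegree = q.natDegree := by
      rw [hQ, Polynomial.natDegree_scaleRoots, hq.natDegree_map]
    refine IsIntegral.of_aeval_monic_of_isIntegral_coeff hQm (by rw [hQd]; exact hn) ?_ ?_
    · rw [hQ, Polynomial.scaleRoots_eval_mul, Polynomial.eval_map, hz, mul_zero]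
      exact isIntegral_zero
    · intro i
      by_cases hi : i < q.natDegree
      swap
      · rcases eq_or_lt_of_le (not_lt.mp hi) with h | h
        · rw [show i = Q.natDegree from h.symm.trans hQd.symm, hQm.coeff_natDegree]; exact isIntegral_one
        · rw [Polynomial.coeff_eq_zero_of_natDegree_lt (hQd ▸ h)]; exact isIntegral_zero
      rw [hQ, Polynomial.coeff_scaleRoots, Polynomial.coeff_map, hq.natDegree_map,
        show q.natDegree - i = (q.natDegree - i - 1) + 1 by omega, pow_succ', Subring.coe_subtype, ← hab i,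
        ← mul_assoc]
      refine IsIntegral.mul ?_ ((d : Cfsg.AlgInt).2.pow _)
      obtain ⟨e, he⟩ : b i ∣ d := Finset.dvd_prod_of_mem b (Finset.mem_range.mpr (by omega))
      have hbi := algInt_coe_ne_zero M (hb i)
      have : (a i : ℂ) / (b i : ℂ) * (d : ℂ) = ((a i * e : Cfsg.AlgInt) : ℂ) := by
        rw [he]; push_cast; field_simp
      rw [this]
      exact (a i * e).2
  exact ⟨⟨_, hint⟩, d, hdM, mul_div_cancel_left₀ z hd0⟩

instance isAlgClosed_resF : IsAlgClosed (ResF M) := by
  refine IsAlgClosed.of_exists_root _ fun P hP _ => ?_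
  obtain ⟨q, hq, -, hqm⟩ := Polynomial.lifts_and_natDegree_eq_and_monic
    (f := IsLocalRing.residue (locRing M)) (p := P)
    ((Polynomial.lifts_iff_coeff_lifts _).mpr fun n => IsLocalRing.residue_surjective _) hP
  have hdeg : (q.map (locRing M).subtype).degree ≠ 0 ∨ q.natDegree = 0 := by
    by_cases h : q.natDegree = 0
    · exact Or.inr h
    · left
      rw [hqm.degree_map, Polynomial.degree_eq_natDegree hqm.ne_zero]
      exact_mod_cast h
  rcases hdeg with hdeg | hdeg
  · obtain ⟨z, hz⟩ := IsAlgClosed.exists_root (q.map (locRing M).subtype) hdeg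
    rw [Polynomial.IsRoot, Polynomial.eval_map] at hz
    have hzl := mem_locRing_of_root hqm hz
    refine ⟨IsLocalRing.residue _ ⟨z, hzl⟩, ?_⟩
    rw [← hq, Polynomial.eval_map, Polynomial.eval₂_hom]
    have : q.eval ⟨z, hzl⟩ = 0 := by
      apply Subtype.ext
      show (locRing M).subtype (q.eval ⟨z, hzl⟩) = 0
      rw [← Polynomial.eval₂_at_apply]
      exact hz
    rw [this, map_zero]
  · exfalso
    have h1 : P = 1 := by rw [← hq, hqm.natDegree_eq_zero.mp hdeg, Polynomial.map_one]
    subst h1
    rename_i hirr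
    exact hirr.not_isUnit isUnit_one

section Rank

variable {n : Type*} [Fintype n]

/-- Vectors with independent reductions are independent. -/
theorem linearIndependent_of_red {r : ℕ} (v : Fin r → n → ℂ) (hv : ∀ i j, v i j ∈ locRing M)
    (h : LinearIndependent (ResF M) fun i j => red M (v i j)) : LinearIndependent ℂ v := by
  classical
  let V : (Fin r → ResF M) →ₗ[ResF M] (n → ResF M) := Fintype.linearCombination (ResF M) fun i j => red M (v i j)
  obtain ⟨W, hW⟩ := V.exists_leftInverse_of_injective (LinearMap.ker_eq_bot.mpr h.fintypeLinearCombination_injective)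
  choose w hwm hw using fun (i : Fin r) (j : n) => exists_lift_res M (W (Pi.single j 1) i)
  let A : Matrix (Fin r) (Fin r) (locRing M) := fun i l =>
    ⟨∑ j, w i j * v l j, sum_mem fun j _ => mul_mem (hwm i j) (hv l j)⟩
  have hA : A.map (IsLocalRing.residue (locRing M)) = 1 := by
    ext i l
    rw [Matrix.map_apply, ← red_mk]
    show red M (∑ j, w i j * v l j) = _
    rw [red_sum _ fun j _ => mul_mem (hwm i j) (hv l j)]
    have h1 : (W.comp V) (Pi.single l 1) i = (1 : Matrix (Fin r) (Fin r) (ResF M)) i l := by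
      rw [hW, LinearMap.id_apply, Matrix.one_apply, Pi.single_apply]
    rw [← h1, LinearMap.comp_apply]
    have h2 : V (Pi.single l 1) = fun j => red M (v l j) := by
      simp [V, Fintype.linearCombination_apply_single]
    rw [h2]
    conv_rhs => rw [pi_eq_sum_univ' (fun j => red M (v l j))]
    rw [map_sum, Finset.sum_apply]
    refine Finset.sum_congr rfl fun j _ => ?_
    rw [map_smul, Pi.smul_apply, smul_eq_mul, red_mul (hwm i j) (hv l j), hw i j, mul_comm]
  have hdet : (A.det : ℂ) ≠ 0 := by
    intro h0
    have h1 : A.det = 0 := Subtype.ext h0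
    have h2 := congrArg Matrix.det hA
    rw [← RingHom.mapMatrix_apply, ← RingHom.map_det, h1, map_zero, Matrix.det_one] at h2
    exact zero_ne_one h2
  rw [Fintype.linearIndependent_iff]
  intro c hc
  have hmul : (A.map (locRing M).subtype).mulVec c = 0 := by
    funext i
    show ∑ l, (∑ j, w i j * v l j) * c l = 0
    simp only [Finset.sum_mul]
    rw [Finset.sum_comm]
    refine Finset.sum_eq_zero fun j _ => ?_
    have := congrFun hc j
    simp only [Finset.sum_apply, Pi.smul_apply, smul_eq_mul, Pi.zero_apply] at this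
    calc ∑ l, w i j * v l j * c l = w i j * ∑ l, c l * v l j := by
          rw [Finset.mul_sum]; exact Finset.sum_congr rfl fun l _ => by ring
      _ = 0 := by rw [this, mul_zero]
  have hdet' : (A.map (locRing M).subtype).det ≠ 0 := by
    rw [← RingHom.mapMatrix_apply, ← RingHom.map_det]; exact hdet
  exact congrFun (Matrix.eq_zero_of_mulVec_eq_zero hdet' hmul)

/-- An idempotent keeps its rank on reduction. -/
theorem rank_red (f : (n → ℂ) →ₗ[ℂ] (n → ℂ)) (g : (n → ResF M) →ₗ[ResF M] (n → ResF M))
    (hloc : ∀ φ : n → ℂ, (∀ i, φ i ∈ locRing M) → ∀ i, f φ i ∈ locRing M)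
    (hred : ∀ φ : n → ℂ, (∀ i, φ i ∈ locRing M) → ∀ i, red M (f φ i) = g (fun j => red M (φ j)) i)
    (hidem : ∀ φ, f (f φ) = f φ) :
    finrank (ResF M) (LinearMap.range g) = finrank ℂ (LinearMap.range f) := by
  classical
  have hg : ∀ φ, g (g φ) = g φ := by
    intro φ
    choose ψ hψm hψ using fun i => exists_lift_res M (φ i)
    have e : φ = fun j => red M (ψ j) := funext fun j => (hψ j).symm
    have e2 : g φ = fun j => red M (f ψ j) := by rw [e]; exact funext fun i => (hred ψ hψm i).symm
    rw [e2]
    funext i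
    rw [← hred _ (hloc ψ hψm) i, hidem]
  have main : ∀ (F : (n → ℂ) →ₗ[ℂ] (n → ℂ)) (H : (n → ResF M) →ₗ[ResF M] (n → ResF M)),
      (∀ φ : n → ℂ, (∀ i, φ i ∈ locRing M) → ∀ i, F φ i ∈ locRing M) →
      (∀ φ : n → ℂ, (∀ i, φ i ∈ locRing M) → ∀ i, red M (F φ i) = H (fun j => red M (φ j)) i) →
      (∀ φ, H (H φ) = H φ) → finrank (ResF M) (LinearMap.range H) ≤ finrank ℂ (LinearMap.range F) := by
    intro F H hF hFH hH
    set b := finBasis (ResF M) (LinearMap.range H)
    choose ψ hψm hψ using fun i j => exists_lift_res M ((b i : n → ResF M) j)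
    have hred' : (fun i j => red M (F (ψ i) j)) = fun i => (b i : n → ResF M) := by
      funext i j
      rw [hFH _ (hψm i) j, show (fun l => red M (ψ i l)) = (b i : n → ResF M) from funext (hψ i)]
      obtain ⟨y, hy⟩ := (b i).2
      rw [← hy, hH]
    have hbi : LinearIndependent (ResF M) fun i => (b i : n → ResF M) :=
      b.linearIndependent.map' (LinearMap.range H).subtype (Submodule.ker_subtype _)
    rw [← hred'] at hbi
    have hli := linearIndependent_of_red (M := M) (fun i => F (ψ i)) (fun i => hF (ψ i) (hψm i)) hbi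
    have h2 : LinearIndependent ℂ (fun i => (⟨F (ψ i), LinearMap.mem_range_self F (ψ i)⟩ : LinearMap.range F)) :=
      LinearIndependent.of_comp (LinearMap.range F).subtype hli
    have h3 := h2.fintype_card_le_finrank
    rwa [Fintype.card_fin] at h3
  have h1 := main f g hloc hred hg
  have h2 := main (LinearMap.id - f) (LinearMap.id - g) (fun φ hφ i => sub_mem (hφ i) (hloc φ hφ i))
    (fun φ hφ i => by
      show red M (φ i - f φ i) = _
      rw [red_sub (hφ i) (hloc φ hφ i), hred φ hφ i]
      rfl) (fun φ => by simp [hg])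
  have hk1 : LinearMap.range (LinearMap.id - g) = LinearMap.ker g := by
    ext φ
    exact ⟨fun ⟨x, hx⟩ => by rw [← hx, LinearMap.mem_ker]; simp [hg],
      fun h => ⟨φ, by simp [LinearMap.mem_ker.mp h]⟩⟩
  have hk2 : LinearMap.range (LinearMap.id - f) = LinearMap.ker f := by
    ext φ
    exact ⟨fun ⟨x, hx⟩ => by rw [← hx, LinearMap.mem_ker]; simp [hidem],
      fun h => ⟨φ, by simp [LinearMap.mem_ker.mp h]⟩⟩
  rw [hk1, hk2] at h2
  have h3 := g.finrank_range_add_finrank_ker
  have h4 := f.finrank_range_add_finrank_ker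
  rw [Module.finrank_pi] at h3 h4
  omega

theorem finrank_range_eq_trace (f : (n → ℂ) →ₗ[ℂ] (n → ℂ)) (hidem : ∀ φ, f (f φ) = f φ) :
    (finrank ℂ (LinearMap.range f) : ℂ) = ∑ i, f (Pi.single i 1) i := by
  classical
  have hproj : LinearMap.IsProj (LinearMap.range f) f :=
    ⟨fun φ => ⟨φ, rfl⟩, fun φ ⟨x, hx⟩ => by rw [← hx, hidem]⟩
  rw [← hproj.trace, LinearMap.trace_eq_matrix_trace ℂ (Pi.basisFun ℂ n)]
  refine Finset.sum_congr rfl fun i _ => ?_
  simp [LinearMap.toMatrix_apply]

end Rank

variable {G : Type u} [Group G] [Fintype G] {p : ℕ} [hp : Fact p.Prime]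

/-- Left multiplication on coefficient vectors. -/
noncomputable def mulMap {R : Type*} [CommRing R] (E : MonoidAlgebra R G) : (G → R) →ₗ[R] (G → R) where
  toFun φ := fun g => (E * gOfFun φ).coeff g
  map_add' φ ψ := funext fun g => by simp [gr_mul_apply, mul_add, Finset.sum_add_distrib]
  map_smul' c φ := funext fun g => by simp [gr_mul_apply, Finset.mul_sum, mul_left_comm]

/-- Multiplication on the centre, in class coordinates. -/
noncomputable def classMap {R : Type*} [CommRing R] (E : MonoidAlgebra R G) :
    (ConjClasses G → R) →ₗ[R] (ConjClasses G → R) where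
  toFun φ := fun C => (E * gOfFun (fun g => φ (ConjClasses.mk g))).coeff (cOut C)
  map_add' φ ψ := funext fun g => by simp [gr_mul_apply, mul_add, Finset.sum_add_distrib]
  map_smul' c φ := funext fun g => by simp [gr_mul_apply, Finset.mul_sum, mul_left_comm]

theorem gOfFun_coeff {R : Type*} [CommRing R] (x : MonoidAlgebra R G) : gOfFun (fun g => x.coeff g) = x :=
  gr_ext fun g => by simp

theorem isClassElt_ofClasses {R : Type*} [CommRing R] (φ : ConjClasses G → R) :
    IsClassElt (gOfFun fun g => φ (ConjClasses.mk g)) :=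
  isClassElt_gOfFun fun g a => congrArg φ (ConjClasses.mk_eq_mk_iff_isConj.mpr (isConj_iff.mpr ⟨g, rfl⟩).symm)

theorem gOfFun_classes {R : Type*} [CommRing R] {x : MonoidAlgebra R G} (hx : IsClassElt x) :
    gOfFun (fun g => x.coeff (cOut (ConjClasses.mk g))) = x :=
  gr_ext fun g => by simp [hx.eq_of_isConj (out_isConj g)]

variable {B : Set (IrrCharacter G)}

theorem blockE_sq (B : Set (IrrCharacter G)) : blockE B * blockE B = blockE B :=
  ext_omega ((isClassElt_blockE B).mul (isClassElt_blockE B)) (isClassElt_blockE B) fun χ => by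
    rw [omega_mul χ (isClassElt_blockE B) (isClassElt_blockE B), omega_blockE]
    split_ifs <;> simp

theorem finrank_mulMap (hB : IsPBlock M B) :
    finrank (ResF M) (LinearMap.range (mulMap (bIdem M B)))
      = ∑ χ ∈ univ.filter (· ∈ B), charDegree (χ : G → ℂ) ^ 2 := by
  set E := blockE B
  have hE : ∀ g, E.coeff g ∈ locRing M := fun g => by rw [coeff_blockE]; exact blockCoeff_mem_locRing hB g
  have hidem : ∀ φ, mulMap E (mulMap E φ) = mulMap E φ := by
    intro φ
    show (fun g => (E * gOfFun (fun h => (E * gOfFun φ).coeff h)).coeff g) = fun g => (E * gOfFun φ).coeff g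
    rw [gOfFun_coeff, ← mul_assoc, blockE_sq]
  rw [rank_red (mulMap E) (mulMap (bIdem M B)) ?_ ?_ hidem]
  · have h := finrank_range_eq_trace (mulMap E) hidem
    have hd : ∀ i : G, mulMap E (Pi.single i 1) i = E.coeff 1 := by
      intro i
      show (E * gOfFun (Pi.single i 1)).coeff i = _
      rw [gr_mul_apply', Finset.sum_eq_single i]
      · simp
      · intro b _ hb; simp [hb]
      · simp
    rw [Finset.sum_congr rfl fun i _ => hd i, Finset.sum_const, Finset.card_univ, nsmul_eq_mul,
      coeff_blockE, blockCoeff_eq, ← Nat.card_eq_fintype_card, ← mul_assoc,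
      mul_inv_cancel₀ (Nat.cast_ne_zero.mpr Nat.card_pos.ne'), one_mul, ← Finset.sum_filter] at h
    rw [← @Nat.cast_inj ℂ, h, Nat.cast_sum]
    refine Finset.sum_congr rfl fun χ _ => ?_
    rw [← coe_charDegree χ, Complex.conj_natCast, Nat.cast_pow, sq]
  · intro φ hφ g
    show (E * gOfFun φ).coeff g ∈ _
    rw [gr_mul_apply]
    exact sum_mem fun a _ => mul_mem (hE a) (by simpa using hφ _)
  · intro φ hφ g
    show red M ((E * gOfFun φ).coeff g) = (bIdem M B * gOfFun (fun j => red M (φ j))).coeff g
    rw [gr_mul_apply, gr_mul_apply, red_sum _ fun a _ => mul_mem (hE a) (by simpa using hφ _)]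
    refine Finset.sum_congr rfl fun a _ => ?_
    rw [red_mul (hE a) (by simpa using hφ _), coeff_bIdem, coeff_blockE]
    simp

theorem finrank_classMap (hB : IsPBlock M B) :
    finrank (ResF M) (LinearMap.range (classMap (bIdem M B))) = (univ.filter (· ∈ B)).card := by
  set E := blockE B
  have hE : ∀ g, E.coeff g ∈ locRing M := fun g => by rw [coeff_blockE]; exact blockCoeff_mem_locRing hB g
  have hidem : ∀ φ, classMap E (classMap E φ) = classMap E φ := by
    intro φ
    set y := E * gOfFun (fun g => φ (ConjClasses.mk g)) with hy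
    show (fun C => (E * gOfFun (fun g => y.coeff (cOut (ConjClasses.mk g)))).coeff (cOut C)) = fun C => y.coeff (cOut C)
    rw [gOfFun_classes (x := y) ((isClassElt_blockE B).mul (isClassElt_ofClasses φ)), hy, ← mul_assoc, blockE_sq]
  rw [rank_red (classMap E) (classMap (bIdem M B)) ?_ ?_ hidem]
  · have h := finrank_range_eq_trace (classMap E) hidem
    have hd : ∀ C : ConjClasses G, classMap E (Pi.single C 1) C
        = (Nat.card G : ℂ)⁻¹ * ∑ χ ∈ univ.filter (· ∈ B),
            ((Subgroup.centralizer ({cOut C} : Set G)).index : ℂ) *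
              ((χ : G → ℂ) (cOut C) * conj ((χ : G → ℂ) (cOut C))) := by
      intro C
      set x := gOfFun (fun g => (Pi.single C (1 : ℂ) : ConjClasses G → ℂ) (ConjClasses.mk g)) with hx
      have hxc : IsClassElt x := isClassElt_ofClasses _
      have hω : ∀ χ : IrrCharacter G, omega χ x = centralChar (χ : G → ℂ) (cOut C) := by
        intro χ
        rw [omega_eq_sum_classes χ hxc, Finset.sum_eq_single C]
        · simp [hx, mk_cOut]
        · intro D _ hD; simp [hx, mk_cOut, hD]
        · simp
      show (E * x).coeff (cOut C) = _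
      rw [coeff_eq_sum_omega ((isClassElt_blockE B).mul hxc), Finset.sum_filter]
      congr 1
      refine Finset.sum_congr rfl fun χ _ => ?_
      rw [omega_mul χ (isClassElt_blockE B) hxc, omega_blockE, hω]
      split_ifs
      · rw [centralChar]
        field_simp [χ.2.one_ne_zero]
      · simp
    replace h := h.trans (Finset.sum_congr rfl fun C _ => (by convert hd C))
    rw [← Finset.mul_sum, Finset.sum_comm] at h
    rw [← @Nat.cast_inj ℂ, h, Finset.card_eq_sum_ones, Nat.cast_sum, Finset.mul_sum]
    refine Finset.sum_congr rfl fun χ _ => ?_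
    rw [← sum_classes (fun g => (χ : G → ℂ) g * conj ((χ : G → ℂ) g)) fun a b hab => by
      rw [char_eq_of_isConj χ hab], Nat.cast_one]
    exact classInner_irr_self χ.2
  · intro φ hφ C
    show (E * gOfFun _).coeff _ ∈ _
    rw [gr_mul_apply]
    exact sum_mem fun a _ => mul_mem (hE a) (by simpa using hφ _)
  · intro φ hφ C
    show red M ((E * gOfFun _).coeff _) = (bIdem M B * gOfFun (fun g => red M (φ (ConjClasses.mk g)))).coeff (cOut C)
    rw [gr_mul_apply, gr_mul_apply, red_sum _ fun a _ => mul_mem (hE a) (by simpa using hφ _)]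
    refine Finset.sum_congr rfl fun a _ => ?_
    rw [red_mul (hE a) (by simpa using hφ _), coeff_bIdem, coeff_blockE]
    simp

/-- A direct summand of the regular module is free over a `p`-subgroup. -/
theorem card_dvd_finrank {k : Type*} [Field k] [CharP k p] {P : Subgroup G} (hP : IsPGroup p P)
    (f : MonoidAlgebra k G) (hf : f * f = f) :
    Nat.card P ∣ finrank k (LinearMap.range (LinearMap.mulRight k f)) := by
  classical
  let L : G → MonoidAlgebra k G →ₗ[k] MonoidAlgebra k G :=
    fun u => LinearMap.mulLeft k (MonoidAlgebra.single u 1)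
  let Fix : Submodule k (MonoidAlgebra k G) := ⨅ u : P, LinearMap.ker (L (u : G) - LinearMap.id)
  have hFix : ∀ x, x ∈ Fix ↔ ∀ u : P, MonoidAlgebra.single (u : G) 1 * x = x := fun x => by
    simp [Fix, L, sub_eq_zero]
  haveI : FiniteDimensional k (MonoidAlgebra k G) := Module.Finite.of_basis (MonoidAlgebra.basis G k)
  -- a stable subspace embeds in a sum of copies of its fixed part
  have hemb : ∀ X : Submodule k (MonoidAlgebra k G), (∀ u : P, ∀ x ∈ X, MonoidAlgebra.single (u : G) 1 * x ∈ X) →
      finrank k X ≤ Nat.card P * finrank k ↥(X ⊓ Fix) := by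
    intro X hX
    obtain ⟨π, hπ⟩ := (X ⊓ Fix).subtype.exists_leftInverse_of_injective (Submodule.ker_subtype _)
    let Φ : X →ₗ[k] (P → ↥(X ⊓ Fix)) := LinearMap.pi fun u => π.comp ((L (u : G)).comp X.subtype)
    have hinj : Function.Injective Φ := by
      rw [← LinearMap.ker_eq_bot, eq_bot_iff]
      rintro ⟨x, hx⟩ hker
      rw [Submodule.mem_bot]
      by_contra hne
      replace hne : x ≠ 0 := fun h => hne (Subtype.ext h)
      haveI : CharP k p := inferInstance
      -- a finite `p`-set inside the orbit's prime-field span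
      let S : Set (MonoidAlgebra k G) := Set.range fun u : P => MonoidAlgebra.single (u : G) 1 * x
      let T : AddSubgroup (MonoidAlgebra k G) := AddSubgroup.closure S
      have hTfin : (T : Set (MonoidAlgebra k G)).Finite := by
        have hle : (T : Set (MonoidAlgebra k G)) ⊆
            Set.range fun c : P → Fin p => ∑ u : P, (c u : ℕ) • (MonoidAlgebra.single (u : G) 1 * x) := by
          intro y hy
          have hp0 : ∀ z : MonoidAlgebra k G, p • z = 0 := fun z => by
            rw [← Nat.cast_smul_eq_nsmul k, CharP.cast_eq_zero, zero_smul]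
          obtain ⟨c, rfl⟩ : ∃ c : P → ℤ, ∑ u : P, c u • (MonoidAlgebra.single (u : G) 1 * x) = y := by
            have hy' : y ∈ Submodule.span ℤ S := by rw [← Submodule.mem_toAddSubgroup, Submodule.span_int_eq_addSubgroupClosure]; exact hy
            exact (Submodule.mem_span_range_iff_exists_fun ℤ).mp hy'
          refine ⟨fun u => ⟨(c u % p).toNat, ?_⟩, ?_⟩
          · have := Int.emod_lt_of_pos (c u) (Int.natCast_pos.mpr hp.out.pos)
            have := Int.emod_nonneg (c u) (Int.natCast_ne_zero.mpr hp.out.ne_zero)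
            omega
          · refine Finset.sum_congr rfl fun u _ => ?_
            rw [← natCast_zsmul, Int.toNat_of_nonneg (Int.emod_nonneg _ (Int.natCast_ne_zero.mpr hp.out.ne_zero))]
            conv_rhs => rw [← Int.emod_add_mul_ediv (c u) p, add_smul, mul_smul, natCast_zsmul, hp0, add_zero]
        exact (Set.finite_range _).subset hle
      haveI : Finite T := hTfin
      have hTX : ∀ y ∈ T, y ∈ X := fun y hy =>
        (AddSubgroup.closure_le (K := X.toAddSubgroup)).mpr (by rintro _ ⟨u, rfl⟩; exact hX u x hx) hy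
      have hTst : ∀ (u : P), ∀ y ∈ T, MonoidAlgebra.single (u : G) 1 * y ∈ T := by
        intro u y hy
        induction hy using AddSubgroup.closure_induction with
        | mem y hy =>
          obtain ⟨v, rfl⟩ := hy
          refine AddSubgroup.subset_closure ⟨u * v, ?_⟩
          show MonoidAlgebra.single ((u * v : P) : G) (1 : k) * x = _
          rw [← mul_assoc, MonoidAlgebra.single_mul_single, mul_one, Subgroup.coe_mul]
        | zero => rw [mul_zero]; exact zero_mem _
        | add a b _ _ ha hb => rw [mul_add]; exact add_mem ha hb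
        | neg a _ ha => rw [mul_neg]; exact neg_mem ha
      letI : MulAction P T :=
        { smul := fun u y => ⟨MonoidAlgebra.single (u : G) 1 * y.1, hTst u y y.2⟩
          one_smul := fun y => Subtype.ext (by
            show MonoidAlgebra.single ((1 : P) : G) (1 : k) * y.1 = y.1
            rw [OneMemClass.coe_one, ← MonoidAlgebra.one_def, one_mul])
          mul_smul := fun u v y => Subtype.ext (by
            show MonoidAlgebra.single ((u * v : P) : G) (1 : k) * y.1 = _
            rw [Subgroup.coe_mul, show MonoidAlgebra.single ((u : G) * v) (1 : k)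
              = MonoidAlgebra.single (u : G) 1 * MonoidAlgebra.single (v : G) 1 by
                rw [MonoidAlgebra.single_mul_single, mul_one], mul_assoc]
            rfl) }
      have hxT : x ∈ T := AddSubgroup.subset_closure ⟨1, by simp [← MonoidAlgebra.one_def]⟩
      have hdvd : p ∣ Nat.card T := by
        have h1 : (p : ℕ) • (⟨x, hxT⟩ : T) = 0 := Subtype.ext (by
          show p • x = 0
          rw [← Nat.cast_smul_eq_nsmul k, CharP.cast_eq_zero, zero_smul])
        have h2 : addOrderOf (⟨x, hxT⟩ : T) = p :=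
          ((Nat.dvd_prime hp.out).mp (addOrderOf_dvd_of_nsmul_eq_zero h1)).resolve_left fun h =>
            hne (congrArg Subtype.val (AddMonoid.addOrderOf_eq_one_iff.mp h))
        exact h2 ▸ addOrderOf_dvd_natCard _
      have h0 : (0 : T) ∈ MulAction.fixedPoints P T := fun u => Subtype.ext (mul_zero _)
      obtain ⟨v, hv, hv0⟩ := hP.exists_fixed_point_of_prime_dvd_card_of_fixed_point T hdvd h0
      have hvF : (v : MonoidAlgebra k G) ∈ X ⊓ Fix :=
        ⟨hTX _ v.2, (hFix _).mpr fun u => congrArg Subtype.val (hv u)⟩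
      have hzero : ∀ y ∈ T, π y = 0 := by
        intro y hy
        induction hy using AddSubgroup.closure_induction with
        | mem y hy => obtain ⟨u, rfl⟩ := hy; exact congrFun hker u
        | zero => exact map_zero π
        | add a b _ _ ha hb => rw [map_add, ha, hb, add_zero]
        | neg a _ ha => rw [map_neg, ha, neg_zero]
      have h3 : π (v : MonoidAlgebra k G) = ⟨v, hvF⟩ := LinearMap.congr_fun hπ ⟨v, hvF⟩
      rw [hzero _ v.2] at h3
      exact hv0 (Subtype.ext (congrArg (fun w : ↥(X ⊓ Fix) => (w : MonoidAlgebra k G)) h3))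
    have := LinearMap.finrank_le_finrank_of_injective hinj
    rwa [Module.finrank_pi_fintype, Finset.sum_const, Finset.card_univ, smul_eq_mul,
      ← Nat.card_eq_fintype_card] at this
  set X := LinearMap.range (LinearMap.mulRight k f) with hX
  set Y := LinearMap.range (LinearMap.mulRight k (1 - f)) with hY
  have hXs : ∀ (f' : MonoidAlgebra k G) (u : P), ∀ x ∈ LinearMap.range (LinearMap.mulRight k f'),
      MonoidAlgebra.single (u : G) 1 * x ∈ LinearMap.range (LinearMap.mulRight k f') := by
    rintro f' u _ ⟨y, rfl⟩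
    exact ⟨MonoidAlgebra.single (u : G) 1 * y, mul_assoc _ _ _⟩
  have h1 := hemb X (hXs f)
  have h2 := hemb Y (hXs (1 - f))
  have htop : X ⊔ Y = ⊤ := eq_top_iff.mpr fun x _ => Submodule.mem_sup.mpr
    ⟨x * f, ⟨x, rfl⟩, x * (1 - f), ⟨x, rfl⟩, by rw [← mul_add, add_sub_cancel, mul_one]⟩
  have hbot : X ⊓ Y = ⊥ := by
    rw [eq_bot_iff]
    rintro _ ⟨⟨x, rfl⟩, ⟨y, hy⟩⟩
    have hy' : y * (1 - f) = x * f := hy
    show x * f = 0
    calc x * f = x * f * f := by rw [mul_assoc, hf]
      _ = y * (1 - f) * f := by rw [hy']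
      _ = 0 := by rw [mul_assoc, sub_mul, one_mul, hf, sub_self, mul_zero]
  have hXY := Submodule.finrank_sup_add_finrank_inf_eq X Y
  rw [htop, hbot, finrank_top, finrank_bot, add_zero,
    Module.finrank_eq_card_basis (MonoidAlgebra.basis G k), ← Nat.card_eq_fintype_card] at hXY
  have hsum : finrank k ↥(X ⊓ Fix) + finrank k ↥(Y ⊓ Fix) ≤ P.index := by
    have h3 := Submodule.finrank_sup_add_finrank_inf_eq (X ⊓ Fix) (Y ⊓ Fix)
    rw [show (X ⊓ Fix) ⊓ (Y ⊓ Fix) = ⊥ from le_bot_iff.mp ((inf_le_inf inf_le_left inf_le_left).trans hbot.le),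
      finrank_bot, add_zero] at h3
    rw [← h3]
    let ev : ↥((X ⊓ Fix) ⊔ (Y ⊓ Fix)) →ₗ[k] (G ⧸ P → k) :=
      { toFun := fun x q => (x : MonoidAlgebra k G).coeff (q.out)⁻¹
        map_add' := fun x y => funext fun q => by simp
        map_smul' := fun c x => funext fun q => by simp }
    have hev : Function.Injective ev := by
      rw [← LinearMap.ker_eq_bot, eq_bot_iff]
      rintro ⟨x, hx⟩ hker
      refine Subtype.ext (gr_ext fun g => ?_)
      have hxF : x ∈ Fix := (sup_le inf_le_right inf_le_right : (X ⊓ Fix) ⊔ (Y ⊓ Fix) ≤ Fix) hx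
      obtain ⟨u, hu⟩ : ∃ u : P, ((QuotientGroup.mk g⁻¹ : G ⧸ P).out)⁻¹ = (u : G) * g := by
        obtain ⟨u, hu⟩ := QuotientGroup.mk_out_eq_mul P g⁻¹
        exact ⟨u⁻¹, by rw [hu]; simp⟩
      have h4 := congrFun hker (QuotientGroup.mk g⁻¹)
      simp only [ev, LinearMap.coe_mk, AddHom.coe_mk, Pi.zero_apply, hu] at h4
      have h5 := congrArg (fun z : MonoidAlgebra k G => z.coeff ((u : G) * g)) ((hFix x).mp hxF u)
      simp only [gr_mul_apply, MonoidAlgebra.coeff_single, Finsupp.single_apply] at h5
      rw [Finset.sum_eq_single (u : G)] at h5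
      · simpa [h4] using h5
      · intro b _ hb; simp [Ne.symm hb]
      · simp
    have := LinearMap.finrank_le_finrank_of_injective hev
    rwa [Module.finrank_pi, ← Nat.card_eq_fintype_card, ← Subgroup.index] at this
  have h5 := Nat.mul_le_mul (le_refl (Nat.card P)) hsum
  rw [Nat.mul_add, Subgroup.card_mul_index] at h5
  exact ⟨finrank k ↥(X ⊓ Fix), by omega⟩

theorem card_defect_two (hM : IsPModular p M) (hB : IsPBlock M B) {D : Subgroup G}
    (hD : IsDefectGroup p M B D) (hk : Nat.card B = 2) : Nat.card D = 2 := by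
  haveI : CharP (ResF M) p := charP_resF hM
  set e := bIdem M B with he
  have hidem : IsIdempotentElem e := bIdem_sq hB
  have hec : IsClassElt e := isClassElt_bIdem B
  have hcard : (univ.filter (· ∈ B)).card = 2 := by
    rw [← hk, Nat.card_eq_fintype_card, Fintype.card_subtype]
  obtain ⟨χ₀, hχ₀⟩ := IsPBlock.nonempty hB
  -- the block algebra
  let C := hidem.Corner
  have hmemC : ∀ {x}, e * x = x → x ∈ NonUnitalRing.corner e := fun {x} h =>
    ⟨x, by show e * x * e = x; rw [h, ← h, mul_assoc, ← hec.mul_comm x, ← mul_assoc, hidem.eq]⟩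
  have hCe : ∀ x : C, e * x.1 = x.1 := fun x =>
    ((Subsemigroup.mem_corner_iff hidem).mp x.2).1
  letI algC : Algebra (ResF M) C := RingHom.toAlgebra'
    { toFun := fun c => ⟨c • e, hmemC (by rw [mul_smul_comm, hidem.eq])⟩
      map_one' := Subtype.ext (one_smul _ e)
      map_mul' := fun a b => Subtype.ext (by
        show (a * b) • e = (a • e) * (b • e)
        rw [smul_mul_smul_comm, hidem.eq])
      map_zero' := Subtype.ext (zero_smul _ e)
      map_add' := fun a b => Subtype.ext (add_smul a b e) }
    fun c x => Subtype.ext (by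
      show (c • e) * x.1 = x.1 * (c • e)
      exact (hec.smul c).mul_comm _)
  let ι : C →ₗ[ResF M] MonoidAlgebra (ResF M) G :=
    { toFun := fun x => x.1
      map_add' := fun x y => rfl
      map_smul' := fun c x => by
        show (c • e) * x.1 = c • x.1
        rw [smul_mul_assoc, hCe x] }
  have hι : Function.Injective ι := fun x y h => Subtype.ext h
  have hsm : ∀ (c : ResF M) (x : C) (g : G), ((c • e) * x.1).coeff g = c * x.1.coeff g := fun c x g => by
    rw [smul_mul_assoc, hCe x, gr_smul_apply]
  haveI : FiniteDimensional (ResF M) (MonoidAlgebra (ResF M) G) :=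
    Module.Finite.of_basis (MonoidAlgebra.basis G _)
  haveI : FiniteDimensional (ResF M) C := FiniteDimensional.of_injective ι hι
  haveI : Nontrivial C := ⟨0, 1, fun h => by
    have h1 : (0 : MonoidAlgebra (ResF M) G) = e := congrArg Subtype.val h
    have h2 := lam_bIdem (M := M) hB χ₀
    rw [← he, ← h1, lam_zero, if_pos hχ₀] at h2
    exact zero_ne_one h2⟩
  -- dimensions
  have hdimC : finrank (ResF M) C = ∑ χ ∈ univ.filter (· ∈ B), charDegree (χ : G → ℂ) ^ 2 := by
    rw [← finrank_mulMap hB]
    let σ : C →ₗ[ResF M] LinearMap.range (mulMap e) :=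
      { toFun := fun x => ⟨fun g => x.1.coeff g, ⟨fun g => x.1.coeff g, by
          show (fun g => (e * gOfFun (fun h => x.1.coeff h)).coeff g) = _
          rw [gOfFun_coeff, hCe x]⟩⟩
        map_add' := fun x y => Subtype.ext (funext fun g => by
          show (x.1 + y.1).coeff g = _
          simp)
        map_smul' := fun c x => Subtype.ext (funext fun g => by
          show ((c • e) * x.1).coeff g = _
          exact hsm c x g) }
    refine LinearEquiv.finrank_eq (LinearEquiv.ofBijective σ ⟨fun x y h => Subtype.ext (gr_ext fun g =>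
      congrFun (congrArg Subtype.val h) g), ?_⟩)
    rintro ⟨_, φ, rfl⟩
    exact ⟨⟨e * gOfFun φ, hmemC (by rw [← mul_assoc, hidem.eq])⟩, rfl⟩
  have hdimZ : finrank (ResF M) (Subalgebra.center (ResF M) C) ≤ 2 := by
    rw [← hcard, ← finrank_classMap hB]
    have hcl : ∀ x : Subalgebra.center (ResF M) C, IsClassElt (x.1.1) := by
      intro x
      rw [isClassElt_iff_of_commute]
      intro y
      have hy : e * (e * y) = e * y := by rw [← mul_assoc, hidem.eq]
      have h := congrArg Subtype.val (Subalgebra.mem_center_iff.mp x.2 ⟨e * y, hmemC hy⟩)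
      change e * y * x.1.1 = x.1.1 * (e * y) at h
      rw [mul_assoc, hec.mul_comm (y * x.1.1), mul_assoc, ← hec.mul_comm x.1.1, hCe] at h
      rw [show x.1.1 * (e * y) = e * x.1.1 * y by rw [← mul_assoc, hec.mul_comm x.1.1], hCe] at h
      exact h.symm
    let σ : Subalgebra.center (ResF M) C →ₗ[ResF M] LinearMap.range (classMap e) :=
      { toFun := fun x => ⟨fun D => x.1.1.coeff (cOut D), ⟨fun D => x.1.1.coeff (cOut D), by
          show (fun D => (e * gOfFun (fun g => x.1.1.coeff (cOut (ConjClasses.mk g)))).coeff (cOut D)) = _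
          rw [gOfFun_classes (hcl x), hCe]⟩⟩
        map_add' := fun x y => Subtype.ext (funext fun g => by
          show (x.1.1 + y.1.1).coeff _ = _
          simp)
        map_smul' := fun c x => Subtype.ext (funext fun g => by
          show ((c • e) * x.1.1).coeff _ = _
          exact hsm c x.1 _) }
    refine LinearMap.finrank_le_finrank_of_injective (f := σ) fun x y h => Subtype.ext (Subtype.ext (gr_ext fun g => ?_))
    have h1 := congrFun (congrArg Subtype.val h) (ConjClasses.mk g)
    rw [← (hcl x).eq_of_isConj (out_isConj g), ← (hcl y).eq_of_isConj (out_isConj g)]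
    exact h1
  -- a nilpotent central element
  obtain ⟨z, hzc, hz0, hzn⟩ : ∃ z : C, (∀ a, a * z = z * a) ∧ z ≠ 0 ∧ IsNilpotent z := by
    by_contra hcon
    have hsub : LinearMap.range (classMap e) ≤
        Submodule.span (ResF M) {(fun D : ConjClasses G => e.coeff (cOut D))} := by
      rintro _ ⟨φ, rfl⟩
      set x := e * gOfFun (fun g => φ (ConjClasses.mk g)) with hx
      have hxc : IsClassElt x := hec.mul (isClassElt_ofClasses φ)
      have hex : e * x = x := by rw [hx, ← mul_assoc, hidem.eq]
      set z := x - lam M χ₀ x • e with hzdef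
      have hez : e * z = z := by rw [hzdef, mul_sub, hex, mul_smul_comm, hidem.eq]
      have hzcl : IsClassElt z := hxc.sub (hec.smul _)
      have hzl : ∀ ψ, lam M ψ z = 0 := by
        intro ψ
        rw [← hez, lam_mul M ψ hec hzcl, lam_bIdem hB]
        split_ifs with hψ
        · rw [one_mul, hzdef, lam_sub, lam_smul, lam_bIdem hB, if_pos hψ, mul_one,
            lam_eq_of_sameBlock M (IsPBlock.sameBlock hB hχ₀ hψ), sub_self]
        · rw [zero_mul]
      obtain ⟨N, hN⟩ := isNilpotent_of_lam_eq_zero (x := ⟨z, hzcl⟩) hzl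
      have hN' : z ^ N = 0 := by simpa using congrArg Subtype.val hN
      have hz : z = 0 := by
        by_contra hne
        let zc : C := ⟨z, hmemC hez⟩
        refine hcon ⟨zc, fun a => Subtype.ext (hzcl.mul_comm a.1).symm,
          fun h => hne (congrArg Subtype.val h), N + 1, Subtype.ext ?_⟩
        have hpow : ∀ i, (zc ^ (i + 1)).1 = z ^ (i + 1) := by
          intro i
          induction i with
          | zero => rw [pow_one, pow_one]
          | succ i ih => rw [pow_succ, pow_succ z (i + 1), ← ih]; rfl
        rw [hpow, pow_succ, hN', zero_mul]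
        rfl
      rw [Submodule.mem_span_singleton]
      refine ⟨lam M χ₀ x, funext fun D => ?_⟩
      show lam M χ₀ x * e.coeff (cOut D) = x.coeff (cOut D)
      rw [hzdef, sub_eq_zero] at hz
      conv_rhs => rw [hz]
      simp
    have h1 := Submodule.finrank_mono hsub
    rw [finrank_classMap hB, hcard] at h1
    have h2 : finrank (ResF M) (Submodule.span (ResF M)
        {(fun D : ConjClasses G => e.coeff (cOut D))}) ≤ 1 := by
      refine (finrank_span_le_card _).trans ?_
      simp
    omega
  -- the symmetrising form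
  let t : C →ₗ[ResF M] ResF M :=
    { toFun := fun x => x.1.coeff 1
      map_add' := fun x y => by show (x.1 + y.1).coeff 1 = _; simp
      map_smul' := fun c x => by
        show ((c • e) * x.1).coeff 1 = _
        rw [smul_mul_assoc, hCe x]; simp }
  have htc : ∀ a b, t (a * b) = t (b * a) := by
    intro a b
    show (a.1 * b.1).coeff 1 = (b.1 * a.1).coeff 1
    rw [gr_mul_apply, gr_mul_apply']
    exact Finset.sum_congr rfl fun g _ => by simp [mul_comm]
  have htn : ∀ a, (∀ b, t (a * b) = 0) → a = 0 := by
    intro a ha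
    refine Subtype.ext (gr_ext fun g => ?_)
    have h : (a.1 * (e * MonoidAlgebra.single g⁻¹ 1)).coeff 1 = 0 :=
      ha ⟨_, hmemC (by rw [← mul_assoc, hidem.eq])⟩
    rw [← mul_assoc, ← hec.mul_comm a.1, hCe, gr_mul_apply, Finset.sum_eq_single g] at h
    · show a.1.coeff g = (0 : MonoidAlgebra (ResF M) G).coeff g
      simpa using h
    · intro b _ hb; simp [Ne.symm hb]
    · simp
  obtain ⟨m, f, hm, hf, hA, hAf⟩ := TwoDimCentre.structure_two t htc htn hdimZ hzc hz0 hzn
  obtain ⟨P⟩ : Nonempty (Sylow p G) := inferInstance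
  have hff : f.1 * f.1 = f.1 := congrArg Subtype.val hf.eq
  have hfr : LinearMap.range (LinearMap.mulRight (ResF M) f.1)
      = (LinearMap.range (LinearMap.mulRight (ResF M) f)).map ι := by
    apply le_antisymm
    · rintro _ ⟨y, rfl⟩
      refine ⟨⟨e * y, hmemC (by rw [← mul_assoc, hidem.eq])⟩ * f, ⟨_, rfl⟩, ?_⟩
      show e * y * f.1 = y * f.1
      rw [hec.mul_comm y, mul_assoc, hCe]
    · rintro _ ⟨_, ⟨y, rfl⟩, rfl⟩
      exact ⟨y.1, rfl⟩
  have hdvd := card_dvd_finrank (p := p) P.isPGroup' f.1 hff
  rw [hfr, ← (Submodule.equivMapOfInjective ι hι _).finrank_eq, hAf, P.card_eq_multiplicity,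
    hp.out.pow_dvd_iff_le_factorization (by omega),
    Nat.factorization_mul two_ne_zero hm.ne', Finsupp.add_apply] at hdvd
  -- compare with the degrees
  rw [hA] at hdimC
  have hd0 : blockDefect p B ≠ 0 := by
    intro h
    obtain ⟨χ, hχ⟩ := IsPBlock.nonempty hB
    have hv : (Nat.card G).factorization p ≤ (charDegree (χ : G → ℂ)).factorization p := by
      refine le_trans ?_ (inf_le_factorization p hχ)
      unfold blockDefect at h
      omega
    have h1 := blockOf_eq_singleton hM χ (le_antisymm (charDegree_factorization_le χ) hv)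
    rw [← IsPBlock.eq_blockOf hB hχ] at h1
    rw [h1] at hk
    simp at hk
  have h2 : (2 : ℕ).factorization p = if p = 2 then 1 else 0 := by
    rw [Nat.Prime.factorization Nat.prime_two, Finsupp.single_apply]
    simp [eq_comm]
  rw [card_defectGroup hM hB hD]
  have hexact : ((2 * m ^ 2 : ℕ)).factorization p = 2 * (Nat.card G).factorization p - blockDefect p B := by
    rw [hdimC]
    exact factorization_sum_sq hM hB
  rw [Nat.factorization_mul two_ne_zero (pow_ne_zero 2 hm.ne'), Finsupp.add_apply,
    Nat.factorization_pow, Finsupp.smul_apply, smul_eq_mul] at hexact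
  have hda : blockDefect p B ≤ (Nat.card G).factorization p := Nat.sub_le _ _
  by_cases hp2 : p = 2
  · rw [if_pos hp2] at h2
    have : blockDefect p B = 1 := by omega
    rw [this, hp2, pow_one]
  · rw [if_neg hp2] at h2
    omega

end Cfsg.Lib.Blocks.TwoChar
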