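import Cfsg.Agent.Lib.Characters.Degree
import Cfsg.Agent.Lib.Blocks.DefectZero
import Cfsg.Agent.Lib.Invol.OrderFormula
import Cfsg.Agent.Lib.Solv.Frobenius
import Cfsg.Prelude.Def_Blocks
import Mathlib.GroupTheory.SchurZassenhaus

/-!
# Gagola characters

An irreducible character that is non-zero on exactly two classes, with support `N`:
`N = O_p(G)` holds precisely when `G` is a doubly transitive Frobenius group with kernel `N`.
-/

set_option autoImplicit false
open scoped ComplexConjugate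
open Cfsg Cfsg.Lib.Characters Subgroup

universe u

namespace Cfsg.Lib.Blocks

variable {G : Type u} [Group G]

/-- The numerical data carried by a Gagola character. -/
structure GagolaData (χ : G → ℂ) (N : Subgroup G) (p m : ℕ) : Prop where
  irr : IsIrrCharacter G χ
  m_pos : 0 < m
  pgroup : IsPGroup p N
  two_le : 2 ≤ Nat.card N
  trans : ∀ x ∈ N, ∀ y ∈ N, x ≠ 1 → y ≠ 1 → IsConj x y
  card_eq : Nat.card G = Nat.card N * ((Nat.card N - 1) * m ^ 2)
  value : ∀ g : G, (g ∉ N → χ g = 0) ∧ (g ∈ N → g ≠ 1 → χ g = -(m : ℂ)) ∧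
    χ 1 = (m : ℂ) * (Nat.card N - 1 : ℕ)

theorem exists_gagolaData [Finite G] (hG : 2 < Nat.card G) (χ : IrrCharacter G)
    (hχ : Nat.card {C : ConjClasses G // ∃ g ∈ C.carrier, (χ : G → ℂ) g ≠ 0} = 2)
    (p : ℕ) (N : Subgroup G) [hNn : N.Normal]
    (hN : ∀ g : G, g ∈ N ↔ (χ : G → ℂ) g ≠ 0) (hNp : IsPGroup p N) (hN1 : N ≠ ⊥) :
    ∃ m, GagolaData (χ : G → ℂ) N p m := by
  classical
  haveI := Fintype.ofFinite G
  have trans : ∀ x ∈ N, ∀ y ∈ N, x ≠ 1 → y ≠ 1 → IsConj x y := by
    intro x hx y hy hx1 hy1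
    let S := {C : ConjClasses G // ∃ g ∈ C.carrier, (χ : G → ℂ) g ≠ 0}
    let mkS : (z : G) → z ∈ N → S := fun z hz =>
      ⟨ConjClasses.mk z, z, ConjClasses.mem_carrier_mk, (hN z).1 hz⟩
    by_contra hne
    haveI : Fintype S := Fintype.ofFinite S
    have h3 : ({mkS 1 N.one_mem, mkS x hx, mkS y hy} : Finset S).card = 3 := by
      refine Finset.card_eq_three.2 ⟨_, _, _, ?_, ?_, ?_, rfl⟩
      · intro h
        exact hx1 (isConj_one_right.1 (ConjClasses.mk_eq_mk_iff_isConj.1 (congrArg Subtype.val h)))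
      · intro h
        exact hy1 (isConj_one_right.1 (ConjClasses.mk_eq_mk_iff_isConj.1 (congrArg Subtype.val h)))
      · intro h
        exact hne (ConjClasses.mk_eq_mk_iff_isConj.1 (congrArg Subtype.val h))
    have h4 := Finset.card_le_univ ({mkS 1 N.one_mem, mkS x hx, mkS y hy} : Finset S)
    rw [h3, ← Nat.card_eq_fintype_card] at h4
    change 3 ≤ Nat.card {C : ConjClasses G // ∃ g ∈ C.carrier, (χ : G → ℂ) g ≠ 0} at h4
    omega
  have hn2 : 2 ≤ Nat.card N := by
    haveI := (Subgroup.nontrivial_iff_ne_bot N).2 hN1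
    exact Finite.one_lt_card
  have hd : (χ : G → ℂ) 1 = (charDegree (χ : G → ℂ) : ℕ) := by
    obtain ⟨d, -, hd⟩ := χ.2.exists_degree_pos
    rw [charDegree_eq hd, hd]
  generalize charDegree (χ : G → ℂ) = d at hd
  obtain ⟨x, hxN, hx1⟩ : ∃ x ∈ N, x ≠ 1 := by
    by_contra h
    push Not at h
    exact hN1 ((Subgroup.eq_bot_iff_forall N).2 h)
  set c := (χ : G → ℂ) x with hc
  have hval : ∀ g : G, (g ∉ N → (χ : G → ℂ) g = 0) ∧ (g ∈ N → g ≠ 1 → (χ : G → ℂ) g = c) := by
    refine fun g => ⟨fun hg => by_contra fun h => hg ((hN g).2 h), fun hg hg1 => ?_⟩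
    exact (isClassFunction_iff_isConj.mp χ.2.isClassFunction x g (trans x hxN g hg hx1 hg1)).symm
  have hshape : ∀ g : G, (χ : G → ℂ) g = (if g = 1 then (d : ℂ) - c else 0) + (if g ∈ N then c else 0) := by
    intro g
    by_cases hg1 : g = 1
    · subst hg1; simp [hd, N.one_mem]
    · by_cases hg : g ∈ N
      · simp [hg1, hg, (hval g).2 hg hg1]
      · simp [hg1, hg, (hval g).1 hg]
  have hcount : (Finset.univ.filter (· ∈ N)).card = Nat.card N := by
    rw [Nat.card_eq_fintype_card, Fintype.card_subtype]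
  -- the trivial character is a different one
  have hne : (χ : G → ℂ) ≠ fun _ => 1 := by
    intro h1
    have hNtop : N = ⊤ := by
      rw [Subgroup.eq_top_iff']
      intro g
      rw [hN g, h1]
      exact one_ne_zero
    have hall : ∀ y : G, y ≠ 1 → IsConj x y := fun y hy =>
      trans x hxN y (hNtop ▸ mem_top y) hx1 hy
    have hle : Nat.card G - 1 = Nat.card {y : G // IsConj x y} := by
      have e : {y : G // IsConj x y} ≃ {y : G // y ≠ 1} :=
        Equiv.subtypeEquivRight fun y => ⟨fun h e => hx1 (by subst e; exact isConj_one_left.1 h),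
          hall y⟩
      rw [Nat.card_congr e, Nat.card_eq_fintype_card, Nat.card_eq_fintype_card,
        Fintype.card_subtype_compl, Fintype.card_subtype_eq]
    rw [card_conj_eq_index x] at hle
    have hdvd : Nat.card G - 1 ∣ Nat.card G := hle ▸ Subgroup.index_dvd_card _
    have h2 : Nat.card G - 1 ∣ 1 := by
      have := Nat.dvd_sub hdvd (dvd_refl (Nat.card G - 1))
      rwa [show Nat.card G - (Nat.card G - 1) = 1 by omega] at this
    have := Nat.le_of_dvd one_pos h2
    omega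
  have horth := classInner_irr_ne χ.2 isIrrCharacter_one hne
  have hG0 : (Nat.card G : ℂ) ≠ 0 := Nat.cast_ne_zero.2 Nat.card_pos.ne'
  rw [classInner, mul_eq_zero, inv_eq_zero, or_iff_right hG0] at horth
  simp only [map_one, mul_one] at horth
  rw [Finset.sum_congr rfl fun g _ => hshape g, Finset.sum_add_distrib, Finset.sum_ite_eq',
    ← Finset.sum_filter, Finset.sum_const, nsmul_eq_mul] at horth
  simp only [Finset.mem_univ, if_true, hcount] at horth
  have hn : ((Nat.card N - 1 : ℕ) : ℂ) = (Nat.card N : ℂ) - 1 := by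
    rw [Nat.cast_sub (by omega), Nat.cast_one]
  have hn0 : ((Nat.card N - 1 : ℕ) : ℂ) ≠ 0 := Nat.cast_ne_zero.2 (by omega)
  have hcd : (d : ℂ) / ((Nat.card N - 1 : ℕ) : ℂ) = -c := by
    rw [div_eq_iff hn0, hn]
    linear_combination horth
  obtain ⟨m, hm⟩ := dvd_of_isIntegral_div (a := d) (b := Nat.card N - 1) (by omega)
    (hcd ▸ (char_isIntegral χ.2.isCharacter x).neg)
  have hcm : c = -(m : ℂ) := by
    have : -c = (m : ℂ) := by
      rw [← hcd, hm, Nat.cast_mul, mul_div_cancel_left₀ _ hn0]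
    linear_combination -this
  have hm0 : 0 < m := by
    rcases Nat.eq_zero_or_pos m with h0 | h0
    · exfalso
      rw [h0, mul_zero] at hm
      exact χ.2.one_ne_zero (by rw [hd, hm, Nat.cast_zero])
    · exact h0
  have hnorm := classInner_irr_self χ.2
  rw [classInner, inv_mul_eq_iff_eq_mul₀ hG0, mul_one] at hnorm
  have hshape2 : ∀ g : G, (χ : G → ℂ) g * conj ((χ : G → ℂ) g) =
      (if g = 1 then (d : ℂ) * d - (m : ℂ) * m else 0) + (if g ∈ N then (m : ℂ) * m else 0) := by
    intro g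
    by_cases hg1 : g = 1
    · subst hg1; simp [hd, N.one_mem]
    · by_cases hg : g ∈ N
      · simp [hg1, hg, (hval g).2 hg hg1, hcm]
      · simp [hg1, hg, (hval g).1 hg]
  rw [Finset.sum_congr rfl fun g _ => hshape2 g, Finset.sum_add_distrib, Finset.sum_ite_eq',
    ← Finset.sum_filter, Finset.sum_const, nsmul_eq_mul] at hnorm
  simp only [Finset.mem_univ, if_true, hcount] at hnorm
  refine ⟨m, ⟨χ.2, hm0, hNp, hn2, trans, ?_, fun g => ⟨(hval g).1, fun h h1 => ((hval g).2 h h1).trans hcm, ?_⟩⟩⟩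
  · have : ((Nat.card G : ℕ) : ℂ) = ((Nat.card N * ((Nat.card N - 1) * m ^ 2) : ℕ) : ℂ) := by
      rw [← hnorm, hm]
      push_cast
      rw [hn]
      ring
    exact_mod_cast this
  · rw [hd, hm, Nat.cast_mul, mul_comm]

section
variable {χ : G → ℂ} {N : Subgroup G} {p m : ℕ} (hD : GagolaData χ N p m)
include hD

theorem GagolaData.sum_eq [Finite G] {S : Subgroup G} [Fintype S] [DecidablePred (· ∈ N)]
    (ψ : S → ℂ) :
    ∑ s : S, χ s * conj (ψ s) =
      (m : ℂ) * Nat.card N * conj (ψ 1) -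
        (m : ℂ) * ∑ s ∈ Finset.univ.filter (fun s : S => (s : G) ∈ N), conj (ψ s) := by
  classical
  have hshape : ∀ s : S, χ s * conj (ψ s) =
      (if s = 1 then (m : ℂ) * Nat.card N * conj (ψ 1) else 0) -
        (if (s : G) ∈ N then (m : ℂ) * conj (ψ s) else 0) := by
    intro s
    obtain ⟨h0, h1, h2⟩ := hD.value (s : G)
    by_cases hs : s = 1
    · subst hs
      rw [if_pos rfl, if_pos (by simp), OneMemClass.coe_one, h2,
        Nat.cast_sub (by have := hD.two_le; omega), Nat.cast_one]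
      ring
    · have hs' : (s : G) ≠ 1 := fun h => hs (Subtype.ext h)
      by_cases hsN : (s : G) ∈ N
      · rw [if_neg hs, if_pos hsN, h1 hsN hs']; ring
      · rw [if_neg hs, if_neg hsN, h0 hsN]; ring
  rw [Finset.sum_congr rfl fun s _ => hshape s, Finset.sum_sub_distrib, Finset.sum_ite_eq',
    ← Finset.sum_filter, ← Finset.mul_sum]
  simp

theorem GagolaData.exists_card_pow [Finite G] [hp : Fact p.Prime] :
    ∃ k, Nat.card N = p ^ k ∧ 0 < k := by
  obtain ⟨k, hk⟩ := IsPGroup.iff_card.1 hD.pgroup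
  refine ⟨k, hk, Nat.pos_of_ne_zero fun h => ?_⟩
  have := hD.two_le
  rw [hk, h, pow_zero] at this
  omega

theorem GagolaData.eq_pow_of_prime_dvd [Finite G] [hp : Fact p.Prime] {q : ℕ} (hq : q.Prime)
    (hqm : q ∣ m) : q = p := by
  classical
  haveI := Fintype.ofFinite G
  haveI : Fact q.Prime := ⟨hq⟩
  by_contra hne
  obtain ⟨Q⟩ : Nonempty (Sylow q G) := inferInstance
  have hQN : ∀ g ∈ (Q : Subgroup G), g ∈ N → g = 1 := by
    intro g hgQ hgN
    obtain ⟨a, ha⟩ := hD.pgroup ⟨g, hgN⟩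
    obtain ⟨b, hb⟩ := Q.2 ⟨g, hgQ⟩
    have ha' : g ^ p ^ a = 1 := congrArg Subtype.val ha
    have hb' : g ^ q ^ b = 1 := congrArg Subtype.val hb
    have := pow_gcd_eq_one.2 ⟨hb', ha'⟩
    rwa [Nat.Coprime.pow b a ((Nat.coprime_primes hq hp.out).2 hne), pow_one] at this
  obtain ⟨k, hk⟩ := classInner_nat (isCharacter_restrict hD.irr.isCharacter (Q : Subgroup G))
    (isCharacter_one (G := (Q : Subgroup G)))
  have hfil : Finset.univ.filter (fun s : (Q : Subgroup G) => (s : G) ∈ N) = {1} := by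
    ext s
    simp only [Finset.mem_filter, Finset.mem_univ, true_and, Finset.mem_singleton]
    exact ⟨fun h => Subtype.ext (hQN _ s.2 h), fun h => by rw [h]; exact N.one_mem⟩
  have hQ0 : (Nat.card (Q : Subgroup G) : ℂ) ≠ 0 := Nat.cast_ne_zero.2 Nat.card_pos.ne'
  rw [classInner, inv_mul_eq_iff_eq_mul₀ hQ0, hD.sum_eq (fun _ => (1 : ℂ)), hfil,
    Finset.sum_singleton, map_one, mul_one, mul_one] at hk
  have hk' : m * (Nat.card N - 1) = Nat.card (Q : Subgroup G) * k := by
    have h2 : ((m * (Nat.card N - 1) : ℕ) : ℂ) = ((Nat.card (Q : Subgroup G) * k : ℕ) : ℂ) := by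
      push_cast [Nat.cast_sub (show 1 ≤ Nat.card N by have := hD.two_le; omega)]
      linear_combination hk
    exact_mod_cast h2
  have hdvd : q ^ (Nat.card G).factorization q ∣ m * (Nat.card N - 1) :=
    Q.card_eq_multiplicity ▸ ⟨k, hk'⟩
  have hm0 : m ≠ 0 := hD.m_pos.ne'
  have hn0 : Nat.card N - 1 ≠ 0 := by have := hD.two_le; omega
  have h3 := (hq.pow_dvd_iff_le_factorization (mul_ne_zero hm0 hn0)).1 hdvd
  rw [hD.card_eq, Nat.factorization_mul Nat.card_pos.ne' (mul_ne_zero hn0 (pow_ne_zero 2 hm0)),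
    Nat.factorization_mul hn0 (pow_ne_zero 2 hm0), Nat.factorization_pow,
    Nat.factorization_mul hm0 hn0] at h3
  simp only [Finsupp.add_apply, Finsupp.smul_apply, smul_eq_mul] at h3
  have := hq.factorization_pos_of_dvd hm0 hqm
  omega

theorem GagolaData.card_centralizer [Finite G] [hNn : N.Normal] {x : G} (hx : x ∈ N) (hx1 : x ≠ 1) :
    Nat.card (centralizer ({x} : Set G)) = Nat.card N * m ^ 2 := by
  classical
  have hidx : (centralizer ({x} : Set G)).index = Nat.card N - 1 := by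
    rw [← card_conj_eq_index]
    have e : {y : G // IsConj x y} ≃ {v : N // v ≠ 1} :=
      { toFun := fun y => ⟨⟨y.1, by
          obtain ⟨g, hg⟩ := isConj_iff.1 y.2
          exact hg ▸ hNn.conj_mem x hx g⟩, fun h => hx1 (by
          have h1 : y.1 = 1 := congrArg Subtype.val h
          exact isConj_one_left.1 (h1 ▸ y.2))⟩
        invFun := fun v => ⟨v.1.1, hD.trans x hx v.1 v.1.2 hx1 fun h => v.2 (Subtype.ext h)⟩
        left_inv := fun y => rfl
        right_inv := fun v => rfl }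
    haveI := Fintype.ofFinite N
    rw [Nat.card_congr e, Nat.card_eq_fintype_card, Fintype.card_subtype_compl,
      Fintype.card_subtype_eq, Nat.card_eq_fintype_card]
  have h := Subgroup.card_mul_index (centralizer ({x} : Set G))
  rw [hidx, hD.card_eq] at h
  have hn0 : Nat.card N - 1 ≠ 0 := by have := hD.two_le; omega
  exact Nat.eq_of_mul_eq_mul_right (Nat.pos_of_ne_zero hn0) (h.trans (by ring))

theorem GagolaData.isPGroup_centralizer [Finite G] [hp : Fact p.Prime] [N.Normal] {x : G}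
    (hx : x ∈ N) (hx1 : x ≠ 1) : IsPGroup p (centralizer ({x} : Set G)) := by
  obtain ⟨k, hk, -⟩ := hD.exists_card_pow
  obtain ⟨j, hj⟩ : ∃ j, m = p ^ j :=
    ⟨_, Nat.eq_prime_pow_of_unique_prime_dvd hD.m_pos.ne' fun {q} hq hd => hD.eq_pow_of_prime_dvd hq hd⟩
  refine IsPGroup.of_card (n := k + j * 2) ?_
  rw [hD.card_centralizer hx hx1, hk, hj, ← pow_mul, ← pow_add]

theorem GagolaData.commute [Finite G] [hp : Fact p.Prime] [hNn : N.Normal] {v w : G}
    (hv : v ∈ N) (hw : w ∈ N) : v * w = w * v := by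
  have hn := hD.two_le
  haveI : Nontrivial N := Finite.one_lt_card_iff_nontrivial.1 hn
  haveI := hD.pgroup.center_nontrivial
  obtain ⟨z, hz⟩ := exists_ne (1 : center N)
  have hz1 : ((z : N) : G) ≠ 1 := fun h => hz (Subtype.ext (Subtype.ext h))
  rcases eq_or_ne v 1 with rfl | hv1
  · simp
  obtain ⟨g, hg⟩ := isConj_iff.1 (hD.trans _ (z : N).2 v hv hz1 hv1)
  have hw' : g⁻¹ * w * g ∈ N := by simpa using hNn.conj_mem w hw g⁻¹
  have hc : g⁻¹ * w * g * ((z : N) : G) = ((z : N) : G) * (g⁻¹ * w * g) :=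
    congrArg Subtype.val (Subgroup.mem_center_iff.1 z.2 ⟨g⁻¹ * w * g, hw'⟩)
  calc v * w = g * (((z : N) : G) * (g⁻¹ * w * g)) * g⁻¹ := by rw [← hg]; group
    _ = g * (g⁻¹ * w * g * ((z : N) : G)) * g⁻¹ := by rw [hc]
    _ = w * v := by rw [← hg]; group

theorem GagolaData.pow_prime [Finite G] [hp : Fact p.Prime] [N.Normal] {v : G} (hv : v ∈ N) :
    v ^ p = 1 := by
  obtain ⟨k, hk, hk0⟩ := hD.exists_card_pow
  obtain ⟨z, hz⟩ := exists_prime_orderOf_dvd_card' (G := N) p (hk ▸ dvd_pow_self p hk0.ne')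
  rcases eq_or_ne v 1 with rfl | hv1
  · simp
  have hz1 : (z : G) ≠ 1 := fun h => by
    rw [Subtype.ext h (a2 := (1 : N)), orderOf_one] at hz
    exact hp.out.one_lt.ne hz
  obtain ⟨g, hg⟩ := isConj_iff.1 (hD.trans _ z.2 v hv hz1 hv1)
  have h1 : (z : G) ^ p = 1 := by
    have := pow_orderOf_eq_one z
    rw [hz] at this
    exact congrArg Subtype.val this
  rw [← hg, conj_pow, h1, mul_one, mul_inv_cancel]

/-- The crucial obstruction: no element of `P ∖ N` is central modulo `[N, P]`. -/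
theorem GagolaData.false_of_central_mod [Finite G] [hp : Fact p.Prime] [hNn : N.Normal]
    (P : Subgroup G) (hPp : IsPGroup p P) (hNP : N ≤ P) (hPc : Nat.card P = Nat.card N * m ^ 2)
    {x₀ : G} (hxP : x₀ ∈ P) (hxN : x₀ ∉ N)
    (hlift : ∀ y ∈ P, ∃ v ∈ N, Commute x₀ (v⁻¹ * y)) : False := by
  classical
  haveI := Fintype.ofFinite G
  set N' := N.subgroupOf P with hN'
  haveI : N'.Normal := hNn.subgroupOf P
  set K := ⁅N', (⊤ : Subgroup P)⁆ with hK
  have hKN : K ≤ N' := commutator_le_left _ _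
  have hcard' : Nat.card N' = Nat.card N := Nat.card_congr (subgroupOfEquivOfLe hNP).toEquiv
  obtain ⟨v₀, hv₀N, hv₀K⟩ : ∃ v₀ ∈ N', v₀ ∉ K := by
    by_contra h
    push Not at h
    have hle : N' ≤ K := h
    haveI : Group.IsNilpotent P := hPp.isNilpotent
    obtain ⟨c, hc⟩ := Subgroup.nilpotent_iff_lowerCentralSeries.1 ‹Group.IsNilpotent P›
    have hall : ∀ i, N' ≤ Subgroup.lowerCentralSeries (⊤ : Subgroup P) i := by
      intro i
      induction i with
      | zero => simp
      | succ i ih => exact hle.trans (commutator_mono ih le_rfl)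
    have hb : N' = ⊥ := le_bot_iff.1 (hc ▸ hall c)
    rw [hb, Subgroup.card_bot] at hcard'
    have := hD.two_le
    omega
  let f := QuotientGroup.mk' K
  have hf : Function.Surjective f := QuotientGroup.mk'_surjective K
  have hfv : f v₀ ≠ 1 := fun h => hv₀K ((QuotientGroup.eq_one_iff _).1 h)
  obtain ⟨μ, hμ⟩ : ∃ μ : IrrCharacter (P ⧸ K), (μ : P ⧸ K → ℂ) (f v₀) ≠ (μ : P ⧸ K → ℂ) 1 := by
    by_contra h
    push Not at h
    exact hfv (isConj_one_left.1 ((isConj_iff_forall_irr _ _).2 h))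
  have hcenN : ∀ v ∈ N', f v ∈ center (P ⧸ K) := by
    intro v hv
    rw [Subgroup.mem_center_iff]
    intro q
    obtain ⟨y, rfl⟩ := hf q
    have h1 : v * y * v⁻¹ * y⁻¹ ∈ K := commutator_mem_commutator hv (mem_top y)
    have h2 : f (v * y * v⁻¹ * y⁻¹) = 1 := (QuotientGroup.eq_one_iff _).2 h1
    rw [map_mul, map_mul, map_mul, map_inv, map_inv] at h2
    have h3 := mul_inv_eq_one.1 h2
    rw [mul_inv_eq_iff_eq_mul] at h3
    exact h3.symm
  have hcenx : f ⟨x₀, hxP⟩ ∈ center (P ⧸ K) := by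
    rw [Subgroup.mem_center_iff]
    intro q
    obtain ⟨y, rfl⟩ := hf q
    obtain ⟨v, hv, hcm⟩ := hlift y.1 y.2
    let v' : P := ⟨v, hNP hv⟩
    have hcm' : Commute (⟨x₀, hxP⟩ : P) (v'⁻¹ * y) := Subtype.ext hcm
    have hsplit : f y = f v' * f (v'⁻¹ * y) := by rw [← map_mul, mul_inv_cancel_left]
    rw [hsplit]
    exact Commute.mul_left (Subgroup.mem_center_iff.1 (hcenN v' hv) (f ⟨x₀, hxP⟩)).symm
      (hcm'.map f).symm
  obtain ⟨e, hρ⟩ := μ.2
  obtain ⟨ρ, hirr, hρμ⟩ := hρ
  have hμ1 : (μ : P ⧸ K → ℂ) 1 = (e : ℂ) := by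
    rw [← hρμ, Representation.char_one]; simp
  have he0 : e ≠ 0 := fun h => μ.2.one_ne_zero (by rw [hμ1, h, Nat.cast_zero])
  obtain ⟨ω, hω⟩ := schur_scalar ρ (ρ (f v₀)) fun q => by
    rw [← map_mul, ← map_mul, Subgroup.mem_center_iff.1 (hcenN v₀ hv₀N) q]
  have htrans : ∀ q, (μ : P ⧸ K → ℂ) (f v₀ * q) = ω * (μ : P ⧸ K → ℂ) q := by
    intro q
    rw [← hρμ, Representation.character, Representation.character, map_mul, hω, smul_mul_assoc,
      Module.End.mul_eq_comp, LinearMap.id_comp, map_smul, smul_eq_mul]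
  have hω1 : ω ≠ 1 := by
    intro h
    refine hμ ?_
    have := htrans 1
    rwa [mul_one, h, one_mul] at this
  let ψ : P → ℂ := fun s => (μ : P ⧸ K → ℂ) (f s)
  have hψ : IsIrrCharacter P ψ := isIrrCharacter_comp_surjective μ.2 f hf
  have hψ1 : ψ 1 = (e : ℂ) := by simp only [ψ, map_one, hμ1]
  set T := Finset.univ.filter (fun s : P => (s : G) ∈ N) with hT
  have hsum0 : ∑ s ∈ T, ψ s = 0 := by
    have h1 : ∑ s ∈ T, ψ (v₀ * s) = ∑ s ∈ T, ψ s := by
      refine Finset.sum_bij' (fun s _ => v₀ * s) (fun s _ => v₀⁻¹ * s) ?_ ?_ ?_ ?_ ?_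
      · intro s hs
        simp only [hT, Finset.mem_filter, Finset.mem_univ, true_and, coe_mul] at hs ⊢
        exact N.mul_mem hv₀N hs
      · intro s hs
        simp only [hT, Finset.mem_filter, Finset.mem_univ, true_and, coe_mul] at hs ⊢
        exact N.mul_mem (N.inv_mem hv₀N) hs
      · intro s _; simp
      · intro s _; simp
      · intro s _; rfl
    have h2 : ∑ s ∈ T, ψ (v₀ * s) = ω * ∑ s ∈ T, ψ s := by
      rw [Finset.mul_sum]
      exact Finset.sum_congr rfl fun s _ => by simp only [ψ, map_mul]; exact htrans _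
    have h3 : (ω - 1) * ∑ s ∈ T, ψ s = 0 := by linear_combination h1 - h2
    exact (mul_eq_zero.1 h3).resolve_left (sub_ne_zero.2 hω1)
  obtain ⟨k, hk⟩ := classInner_nat (isCharacter_restrict hD.irr.isCharacter P) hψ.isCharacter
  have hP0 : (Nat.card P : ℂ) ≠ 0 := Nat.cast_ne_zero.2 Nat.card_pos.ne'
  rw [classInner, inv_mul_eq_iff_eq_mul₀ hP0, hD.sum_eq ψ, hψ1, map_natCast, ← map_sum, ← hT,
    hsum0, map_zero, mul_zero, sub_zero] at hk
  have hk' : m * Nat.card N * e = Nat.card N * m ^ 2 * k := by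
    rw [← hPc]
    exact_mod_cast hk
  have hme : m ≤ e := by
    have he : e = m * k := by
      have : (Nat.card N * m) * e = (Nat.card N * m) * (m * k) := by
        calc (Nat.card N * m) * e = m * Nat.card N * e := by ring
          _ = Nat.card N * m ^ 2 * k := hk'
          _ = _ := by ring
      exact Nat.eq_of_mul_eq_mul_left (Nat.mul_pos Nat.card_pos hD.m_pos) this
    rw [he]
    exact Nat.le_mul_of_pos_right _ (Nat.pos_of_ne_zero fun h => he0 (by rw [he, h, mul_zero]))
  -- the norm is too big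
  have hnormP := classInner_irr_self hψ
  rw [classInner, inv_mul_eq_iff_eq_mul₀ hP0, mul_one] at hnormP
  have hsq : ∑ s : P, ‖ψ s‖ ^ 2 = (Nat.card P : ℝ) := by
    have h : ((∑ s : P, ‖ψ s‖ ^ 2 : ℝ) : ℂ) = (Nat.card P : ℂ) := by
      rw [← hnormP]
      push_cast
      exact Finset.sum_congr rfl fun s _ => (Complex.mul_conj' _).symm
    exact_mod_cast h
  have hmu1 : (μ : P ⧸ K → ℂ) 1 = ((e : ℕ) : ℂ) := hμ1
  have hbig : ∀ s ∈ insert (⟨x₀, hxP⟩ : P) T, ‖ψ s‖ ^ 2 = (e : ℝ) ^ 2 := by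
    intro s hs
    have hcen : f s ∈ center (P ⧸ K) := by
      rcases Finset.mem_insert.1 hs with rfl | hs
      · exact hcenx
      · exact hcenN s (by
          simpa only [hT, hN', Subgroup.mem_subgroupOf, Finset.mem_filter, Finset.mem_univ, true_and] using hs)
    simp only [ψ, norm_eq_of_mem_center μ.2 hmu1 hcen]
  have hle := Finset.sum_le_univ_sum_of_nonneg (f := fun s : P => ‖ψ s‖ ^ 2)
    (s := insert (⟨x₀, hxP⟩ : P) T) (fun s => by positivity)
  rw [Finset.sum_congr rfl hbig, Finset.sum_const, nsmul_eq_mul, hsq, Finset.card_insert_of_notMem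
    (by simp [hT, hxN])] at hle
  have hTc : T.card = Nat.card N := by
    rw [← hcard', Nat.card_eq_fintype_card, Fintype.card_subtype]
    congr 1
  rw [hTc, hPc] at hle
  push_cast at hle
  have h1 : (m : ℝ) ≤ e := by exact_mod_cast hme
  have h2 : (1 : ℝ) ≤ m := by exact_mod_cast hD.m_pos
  nlinarith [pow_le_pow_left₀ (by positivity : (0 : ℝ) ≤ m) h1 2]

theorem GagolaData.centralizer_eq [Finite G] [hp : Fact p.Prime] [hNn : N.Normal]
    (hcore : N = pCore p G) : centralizer (N : Set G) = N := by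
  refine le_antisymm ?_ fun v hv => mem_centralizer_iff.2 fun w hw => hD.commute hw hv
  obtain ⟨x, hx, hx1⟩ : ∃ x ∈ N, x ≠ 1 := by
    by_contra h
    push Not at h
    have := hD.two_le
    rw [(Subgroup.eq_bot_iff_forall N).2 h, Subgroup.card_bot] at this
    omega
  have hle : centralizer (N : Set G) ≤ centralizer ({x} : Set G) :=
    centralizer_le (Set.singleton_subset_iff.2 hx)
  have hnor : (centralizer (N : Set G)).Normal := inferInstance
  refine le_trans ?_ hcore.ge
  exact le_sSup ⟨hnor, (hD.isPGroup_centralizer hx hx1).to_le hle⟩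

/-- An element of order prime to `p` outside `N` fixes no non-trivial element of `N`. -/
theorem GagolaData.eq_one_of_fixed [Finite G] [hp : Fact p.Prime] [hNn : N.Normal] {g v : G}
    (hg : ∀ k, g ^ p ^ k ≠ 1) (hv : v ∈ N) (h : g * v * g⁻¹ = v) : v = 1 := by
  by_contra hv1
  obtain ⟨k, hk⟩ := hD.isPGroup_centralizer hv hv1
    ⟨g, mem_centralizer_singleton_iff.2 (mul_inv_eq_iff_eq_mul.1 h)⟩
  exact hg k (congrArg Subtype.val hk)

theorem GagolaData.false_of_core [Finite G] [hp : Fact p.Prime] [hNn : N.Normal]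
    (hcore : N = pCore p G) (hm : 2 ≤ m) : False := by
  classical
  obtain ⟨v₁, hv₁, hv₁1⟩ : ∃ x ∈ N, x ≠ 1 := by
    by_contra h
    push Not at h
    have := hD.two_le
    rw [(Subgroup.eq_bot_iff_forall N).2 h, Subgroup.card_bot] at this
    omega
  set P := centralizer ({v₁} : Set G) with hPdef
  have hPp : IsPGroup p P := hD.isPGroup_centralizer hv₁ hv₁1
  have hPc : Nat.card P = Nat.card N * m ^ 2 := hD.card_centralizer hv₁ hv₁1
  have hNP : N ≤ P := fun v hv => mem_centralizer_singleton_iff.2 (hD.commute hv hv₁)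
  haveI : (N.subgroupOf P).Normal := hNn.subgroupOf P
  haveI : Nontrivial (P ⧸ N.subgroupOf P) := by
    apply Finite.one_lt_card_iff_nontrivial.1
    have h1 := Subgroup.card_eq_card_quotient_mul_card_subgroup (N.subgroupOf P)
    rw [hPc, Nat.card_congr (subgroupOfEquivOfLe hNP).toEquiv, mul_comm] at h1
    rw [← Nat.eq_of_mul_eq_mul_right Nat.card_pos h1]
    nlinarith
  have hQp : IsPGroup p (P ⧸ N.subgroupOf P) := hPp.to_quotient _
  haveI := hQp.center_nontrivial
  obtain ⟨j, hj⟩ := IsPGroup.iff_card.1 (hQp.to_subgroup (center (P ⧸ N.subgroupOf P)))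
  have hj0 : j ≠ 0 := fun h => by
    have := Finite.one_lt_card (α := center (P ⧸ N.subgroupOf P))
    rw [hj, h, pow_zero] at this
    omega
  obtain ⟨z, hz⟩ := exists_prime_orderOf_dvd_card' (G := center (P ⧸ N.subgroupOf P)) p
    (hj ▸ dvd_pow_self p hj0)
  obtain ⟨x, hxz⟩ := QuotientGroup.mk'_surjective (N.subgroupOf P) z.1
  have hxN : (x : G) ∉ N := by
    intro h
    have h1 : z = 1 := Subtype.ext (hxz.symm.trans ((QuotientGroup.eq_one_iff x).2 h))
    rw [h1, orderOf_one] at hz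
    exact hp.out.one_lt.ne hz
  have hxp : (x : G) ^ p ∈ N := by
    have h1 : QuotientGroup.mk' (N.subgroupOf P) (x ^ p) = 1 := by
      rw [map_pow, hxz]
      have := congrArg Subtype.val (pow_orderOf_eq_one z)
      rwa [hz] at this
    exact Subgroup.mem_subgroupOf.1 ((QuotientGroup.eq_one_iff (x ^ p)).1 h1)
  have hxcomm : ∀ y ∈ P, (x : G) * y * (x : G)⁻¹ * y⁻¹ ∈ N := by
    intro y hy
    have h1 : QuotientGroup.mk' (N.subgroupOf P) (x * ⟨y, hy⟩ * x⁻¹ * (⟨y, hy⟩ : P)⁻¹) = 1 := by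
      have hc := Subgroup.mem_center_iff.1 z.2 (QuotientGroup.mk' _ ⟨y, hy⟩)
      rw [map_mul, map_mul, map_mul, map_inv, map_inv, hxz, ← hc]
      group
    exact Subgroup.mem_subgroupOf.1 ((QuotientGroup.eq_one_iff (x * (⟨y, hy⟩ : P) * x⁻¹ * (⟨y, hy⟩ : P)⁻¹)).1 h1)
  let φ : G →* MulAut N := MulAut.conjNormal
  have hφ : ∀ (g : G) (v : N), ((φ g v : N) : G) = g * v * g⁻¹ := fun g v => MulAut.conjNormal_apply g v
  have hφN : ∀ g ∈ N, φ g = 1 := by
    intro g hg
    refine MulEquiv.ext fun v => Subtype.ext ?_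
    rw [hφ, hD.commute hg v.2, mul_inv_cancel_right]
    rfl
  have hexp : ∀ v : N, v ^ p = 1 := fun v => Subtype.ext (hD.pow_prime v.2)
  rcases hp.out.eq_two_or_odd' with hp2 | hodd
  · -- characteristic two
    subst hp2
    have hO : ∀ M : Subgroup (G ⧸ N), M.Normal → IsPGroup 2 M → QuotientGroup.mk' N (x : G) ∉ M := by
      intro M hM hM2 hmem
      have h1 : (M.comap (QuotientGroup.mk' N)) ≤ pCore 2 G :=
        le_sSup ⟨hM.comap _, hM2.comap_of_ker_isPGroup _ (by
          rw [QuotientGroup.ker_mk']; exact hD.pgroup)⟩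
      exact hxN (hcore.ge (h1 (Subgroup.mem_comap.2 hmem)))
    have hord : orderOf (QuotientGroup.mk' N (x : G)) = 2 :=
      orderOf_eq_prime (by rw [← map_pow]; exact (QuotientGroup.eq_one_iff _).2 hxp)
        fun h => hxN ((QuotientGroup.eq_one_iff _).1 h)
    obtain ⟨h, hh1, hhodd, hinv⟩ := Cfsg.Lib.Invol.exists_inverted_odd hord hO
    obtain ⟨r, rfl⟩ := QuotientGroup.mk'_surjective N h
    set o := orderOf (QuotientGroup.mk' N r) with ho
    have hr : ∀ k, r ^ 2 ^ k ≠ 1 := by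
      intro k hk
      apply hh1
      have h2 : o ∣ 2 ^ k := orderOf_dvd_of_pow_eq_one (by rw [← map_pow, hk, map_one])
      have h3 : o = 1 :=
        Nat.eq_one_of_dvd_coprimes (Nat.Coprime.pow_left k (Nat.coprime_two_left.2 hhodd)) h2 dvd_rfl
      exact orderOf_eq_one_iff.1 h3
    have hro : φ r ^ o = 1 := by
      rw [← map_pow]
      exact hφN _ ((QuotientGroup.eq_one_iff _).1
        (show QuotientGroup.mk' N (r ^ o) = 1 by rw [map_pow]; exact pow_orderOf_eq_one _))
    have hxr : φ (x : G) * φ r * (φ (x : G))⁻¹ = (φ r)⁻¹ := by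
      have h1 : (x : G) * r * (x : G)⁻¹ * r ∈ N := by
        refine (QuotientGroup.eq_one_iff _).1 ?_
        show QuotientGroup.mk' N ((x : G) * r * (x : G)⁻¹ * r) = 1
        rw [map_mul, map_mul, map_mul, map_inv, hinv, inv_mul_cancel]
      have h2 := hφN _ h1
      rw [map_mul, map_mul, map_mul, map_inv] at h2
      exact eq_inv_of_mul_eq_one_left h2
    letI : CommGroup N := { (inferInstance : Group N) with
      mul_comm := fun a b => Subtype.ext (hD.commute a.2 b.2) }
    -- fixed points of `x` are norms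
    have hnormx : ∀ v : N, φ (x : G) v = v → ∃ w : N, w * φ (x : G) w = v := by
      intro v hv
      obtain ⟨k, hk⟩ := hhodd
      let F : ℕ → N := fun i => (φ r ^ i) v
      have htot : ∏ i ∈ Finset.range o, F i = 1 := by
        refine Subtype.ext (hD.eq_one_of_fixed hr (Subtype.mem _) ?_)
        rw [← hφ]
        congr 1
        rw [map_prod]
        have h0 : F o = F 0 := by simp only [F, hro, pow_zero]
        have e : ∀ i, φ r (F i) = F (i + 1) := fun i => by
          simp only [F, pow_succ']; rfl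
        simp only [e]
        have h1 := Finset.prod_range_succ F o
        have h2 := Finset.prod_range_succ' F o
        rw [h1, h0] at h2
        exact (mul_right_cancel h2).symm
      refine ⟨∏ i ∈ Finset.range k, F (i + 1), ?_⟩
      have hx' : ∀ i, φ (x : G) (F i) = ((φ r)⁻¹ ^ i) v := by
        intro i
        have e : φ (x : G) * φ r ^ i = (φ r)⁻¹ ^ i * φ (x : G) := by
          rw [← hxr, conj_pow, inv_mul_cancel_right]
        have e2 := DFunLike.congr_fun e v
        simp only [MulAut.mul_apply, hv] at e2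
        exact e2
      have hrefl : ∏ i ∈ Finset.range k, φ (x : G) (F (i + 1)) =
          ∏ i ∈ Finset.range k, F (k + 1 + i) := by
        rw [← Finset.prod_range_reflect (fun i => F (k + 1 + i)) k]
        refine Finset.prod_congr rfl fun i hi => ?_
        rw [hx']
        have hi' := Finset.mem_range.1 hi
        have e3 : (φ r)⁻¹ ^ (i + 1) = φ r ^ (k + 1 + (k - 1 - i)) := by
          rw [inv_pow, inv_eq_iff_mul_eq_one, ← pow_add,
            show i + 1 + (k + 1 + (k - 1 - i)) = o by omega, hro]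
        simp only [F, e3]
      rw [map_prod, hrefl]
      have hsplit : F 0 * ((∏ i ∈ Finset.range k, F (i + 1)) * ∏ i ∈ Finset.range k, F (k + 1 + i)) = 1 := by
        rw [← htot, hk, two_mul, Finset.prod_range_succ', Finset.prod_range_add, mul_comm]
        congr 1
        congr 1
        exact Finset.prod_congr rfl fun i _ => by rw [add_right_comm]
      have hvv : v⁻¹ = v := inv_eq_of_mul_eq_one_right (by rw [← pow_two]; exact hexp v)
      rw [eq_inv_of_mul_eq_one_right hsplit]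
      simpa [F] using hvv
    have hxx : φ (x : G) * φ (x : G) = 1 := by
      rw [← map_mul, ← pow_two]
      exact hφN _ hxp
    have hsqN : ∀ v : N, (v : G) * v = 1 := fun v => by
      rw [← pow_two]; exact hD.pow_prime v.2
    have hconj : ∀ v : N, (x : G)⁻¹ * v * x = (φ (x : G) v : N) := by
      intro v
      have h1 := DFunLike.congr_fun hxx v
      simp only [MulAut.mul_apply, MulAut.one_apply] at h1
      conv_lhs => rw [← h1, hφ]
      group
    have hsq : φ (x : G) ⟨(x : G) ^ 2, hxp⟩ = ⟨(x : G) ^ 2, hxp⟩ := Subtype.ext (by rw [hφ]; group)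
    obtain ⟨w, hw⟩ := hnormx _ hsq
    have hw' : (w : G) * (φ (x : G) w : N) = (x : G) ^ 2 := congrArg Subtype.val hw
    set x₀ := (x : G) * w with hx₀
    have hx₀sq : x₀ * x₀ = 1 := by
      calc x₀ * x₀ = (x : G) ^ 2 * ((x : G)⁻¹ * w * x) * w := by rw [hx₀, pow_two]; group
        _ = (x : G) ^ 2 * ((w : G) * (φ (x : G) w : N)) := by
          rw [hconj, mul_assoc, hD.commute (Subtype.mem _) w.2]
        _ = 1 := by rw [hw', ← hsqN ⟨_, hxp⟩]
    have hφ₀ : φ x₀ = φ (x : G) := by rw [hx₀, map_mul, hφN _ w.2, mul_one]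
    have hx₀N : x₀ ∉ N := fun h => hxN ((N.mul_mem_cancel_right w.2).1 h)
    refine hD.false_of_central_mod P hPp hNP hPc (x₀ := x₀) (P.mul_mem x.2 (hNP w.2)) hx₀N
      fun y hy => ?_
    have hv : x₀⁻¹ * (y * x₀ * y⁻¹) ∈ N := by
      have e : x₀⁻¹ * (y * x₀ * y⁻¹) =
          (w : G)⁻¹ * ((x : G)⁻¹ * ((x : G) * y * (x : G)⁻¹ * y⁻¹)⁻¹ * (x : G)) *
            (y * w * y⁻¹) := by rw [hx₀]; group
      rw [e]
      exact N.mul_mem (N.mul_mem (N.inv_mem w.2)
        (by simpa using hNn.conj_mem _ (N.inv_mem (hxcomm y hy)) (x : G)⁻¹))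
        (hNn.conj_mem _ w.2 y)
    set v : N := ⟨x₀⁻¹ * (y * x₀ * y⁻¹), hv⟩ with hvdef
    have hy0 : y * x₀ * y⁻¹ = x₀ * v := by rw [hvdef, mul_inv_cancel_left]
    have hfix : φ (x : G) v = v := by
      refine Subtype.ext ?_
      rw [← hφ₀, hφ]
      have h2 : (x₀ * v) * (x₀ * v) = 1 := by
        rw [← hy0, show y * x₀ * y⁻¹ * (y * x₀ * y⁻¹) = y * (x₀ * x₀) * y⁻¹ by group, hx₀sq]
        group
      calc x₀ * v * x₀⁻¹ = x₀ * v * x₀ := by rw [inv_eq_of_mul_eq_one_right hx₀sq]
        _ = (x₀ * v) * (x₀ * v) * (v : G)⁻¹ := by group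
        _ = v := by rw [h2, one_mul, inv_eq_of_mul_eq_one_right (hsqN v)]
    obtain ⟨u, hu⟩ := hnormx v hfix
    refine ⟨u, u.2, ?_⟩
    have hu' : (u : G) * (φ (x : G) u : N) = v := congrArg Subtype.val hu
    have hux : (u : G) * x₀ * (u : G)⁻¹ = y * x₀ * y⁻¹ := by
      rw [hy0, ← hu', ← hφ₀, hφ, inv_eq_of_mul_eq_one_right (hsqN u),
        hD.commute u.2 (hNn.conj_mem _ u.2 x₀), inv_eq_of_mul_eq_one_right hx₀sq]
      calc (u : G) * x₀ * u = x₀ * x₀ * (u : G) * x₀ * u := by rw [hx₀sq, one_mul]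
        _ = _ := by group
    show x₀ * ((u : G)⁻¹ * y) = (u : G)⁻¹ * y * x₀
    calc x₀ * ((u : G)⁻¹ * y) = (u : G)⁻¹ * ((u : G) * x₀ * (u : G)⁻¹) * y := by group
      _ = (u : G)⁻¹ * (y * x₀ * y⁻¹) * y := by rw [hux]
      _ = _ := by group
  · -- odd characteristic: an involution splits the extension
    obtain ⟨k, hk, hk0⟩ := hD.exists_card_pow
    have hnodd : Odd (Nat.card N) := hk ▸ hodd.pow
    have heven : 2 ∣ Nat.card G := by
      rw [hD.card_eq]
      exact (((Nat.Odd.sub_odd hnodd odd_one).two_dvd).mul_right _).mul_left _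
    haveI : Fact (2 : ℕ).Prime := ⟨Nat.prime_two⟩
    obtain ⟨t, ht⟩ := exists_prime_orderOf_dvd_card' (G := G) 2 heven
    have ht2 : t * t = 1 := by rw [← pow_two, ← ht, pow_orderOf_eq_one]
    have htinv : t⁻¹ = t := inv_eq_of_mul_eq_one_right ht2
    have htp : ∀ k, t ^ p ^ k ≠ 1 := by
      intro k h
      have h1 := orderOf_dvd_of_pow_eq_one h
      rw [ht] at h1
      have := (Nat.prime_dvd_prime_iff_eq Nat.prime_two hp.out).1 (Nat.prime_two.dvd_of_dvd_pow h1)
      subst this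
      exact absurd hodd (by decide)
    have hinv : ∀ v ∈ N, t * v * t = v⁻¹ := by
      intro v hv
      have hu : t * v * t ∈ N := by simpa [htinv] using hNn.conj_mem v hv t
      have h1 : v * (t * v * t) = 1 := by
        refine hD.eq_one_of_fixed htp (N.mul_mem hv hu) ?_
        rw [htinv, hD.commute hv hu]
        calc t * (t * v * t * v) * t = (t * t) * v * (t * v * t) := by group
          _ = v * (t * v * t) := by rw [ht2, one_mul]
          _ = _ := hD.commute hv hu
      exact eq_inv_of_mul_eq_one_right h1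
    have hsplit : ∀ y : G, ∃ v ∈ N, Commute t (v⁻¹ * y) := by
      intro y
      have hs : y * t * y⁻¹ * t ∈ N := by
        suffices y * t * y⁻¹ * t ∈ centralizer (N : Set G) by rwa [hD.centralizer_eq hcore] at this
        rw [mem_centralizer_iff]
        intro w hw
        have h1 := hinv _ (hNn.conj_mem _ (hinv w hw ▸ N.inv_mem hw : t * w * t ∈ N) y⁻¹)
        rw [inv_inv, hinv w hw] at h1
        have h2 : (y * t * y⁻¹ * t) * w * (y * t * y⁻¹ * t)⁻¹ = w := by
          calc (y * t * y⁻¹ * t) * w * (y * t * y⁻¹ * t)⁻¹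
              = y * (t * (y⁻¹ * (t * w * t⁻¹) * y) * t⁻¹) * y⁻¹ := by group
            _ = y * (t * (y⁻¹ * w⁻¹ * y) * t) * y⁻¹ := by rw [htinv, hinv w hw]
            _ = y * (y⁻¹ * w⁻¹ * y)⁻¹ * y⁻¹ := by rw [h1]
            _ = w := by group
        exact (mul_inv_eq_iff_eq_mul.1 h2).symm
      set s := y * t * y⁻¹ * t with hsdef
      obtain ⟨a, ha⟩ := hnodd
      have hvN : s ^ (a + 1) ∈ N := N.pow_mem hs _
      refine ⟨s ^ (a + 1), hvN, ?_⟩
      have hs1 : s ^ Nat.card N = 1 := by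
        exact congrArg Subtype.val (pow_card_eq_one' (x := (⟨s, hs⟩ : N)))
      have hvt : s ^ (a + 1) * t * (s ^ (a + 1))⁻¹ = y * t * y⁻¹ := by
        have h1 : t * (s ^ (a + 1))⁻¹ = s ^ (a + 1) * t := by
          conv_lhs => rw [← hinv _ hvN]
          rw [← mul_assoc, ← mul_assoc, ht2, one_mul]
        rw [mul_assoc, h1, ← mul_assoc, ← pow_add, show a + 1 + (a + 1) = 2 * a + 1 + 1 by ring,
          ← ha, pow_succ, hs1, one_mul, hsdef, mul_assoc, ht2, mul_one]
      show t * ((s ^ (a + 1))⁻¹ * y) = (s ^ (a + 1))⁻¹ * y * t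
      calc t * ((s ^ (a + 1))⁻¹ * y)
          = (s ^ (a + 1))⁻¹ * (s ^ (a + 1) * t * (s ^ (a + 1))⁻¹) * y := by group
        _ = (s ^ (a + 1))⁻¹ * (y * t * y⁻¹) * y := by rw [hvt]
        _ = _ := by group
    obtain ⟨v, hv, hvx⟩ := hsplit (x : G)
    set x₀ := v⁻¹ * (x : G) with hx₀
    have hx₀N : x₀ ∉ N := fun h => hxN ((N.mul_mem_cancel_left (N.inv_mem hv)).1 h)
    refine hD.false_of_central_mod P hPp hNP hPc (x₀ := x₀) (P.mul_mem (P.inv_mem (hNP hv)) x.2) hx₀N
      fun y hy => ?_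
    obtain ⟨u, hu, huy⟩ := hsplit y
    refine ⟨u, hu, ?_⟩
    set y₀ := u⁻¹ * y
    have hc : x₀ * y₀ * x₀⁻¹ * y₀⁻¹ ∈ N := by
      let π := QuotientGroup.mk' N
      have e : ∀ a ∈ N, π a = 1 := fun a ha => (QuotientGroup.eq_one_iff a).2 ha
      refine (QuotientGroup.eq_one_iff _).1 ?_
      show π (x₀ * y₀ * x₀⁻¹ * y₀⁻¹) = 1
      have h1 := e _ (hxcomm y hy)
      simp only [x₀, y₀, map_mul, map_inv, e v hv, e u hu, inv_one, one_mul] at h1 ⊢
      exact h1
    have hfix : t * (x₀ * y₀ * x₀⁻¹ * y₀⁻¹) * t⁻¹ = x₀ * y₀ * x₀⁻¹ * y₀⁻¹ :=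
      mul_inv_eq_iff_eq_mul.2 (((hvx.mul_right huy).mul_right hvx.inv_right).mul_right huy.inv_right)
    have h1 := hD.eq_one_of_fixed htp hc hfix
    rw [mul_inv_eq_one, mul_inv_eq_iff_eq_mul] at h1
    exact h1

theorem GagolaData.eq_core_of_one [Finite G] [hp : Fact p.Prime] [hNn : N.Normal]
    (hm : m = 1) : N = pCore p G := by
  have hle : N ≤ pCore p G := le_sSup ⟨hNn, hD.pgroup⟩
  refine Subgroup.eq_of_le_of_card_ge hle ?_
  obtain ⟨k, hk, hk0⟩ := hD.exists_card_pow
  obtain ⟨j, hj⟩ := IsPGroup.iff_card.1 (Cfsg.Lib.Solv.isPGroup_pCore (G := G) p)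
  have h1 := Subgroup.card_subgroup_dvd_card (pCore p G)
  rw [hD.card_eq, hm, one_pow, mul_one, hj] at h1
  have hcop : Nat.Coprime (p ^ j) (Nat.card N - 1) := by
    refine Nat.Coprime.pow_left j (hp.out.coprime_iff_not_dvd.2 fun h => ?_)
    have h2 : p ∣ Nat.card N := hk ▸ dvd_pow_self p (by omega)
    have := Nat.dvd_sub h2 h
    rw [show Nat.card N - (Nat.card N - 1) = 1 by have := hD.two_le; omega] at this
    exact hp.out.one_lt.ne' (Nat.dvd_one.1 this)
  rw [hj]
  exact Nat.le_of_dvd Nat.card_pos (hcop.dvd_of_dvd_mul_right h1)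

theorem GagolaData.exists_complement [Finite G] [hp : Fact p.Prime] [hNn : N.Normal]
    (hG : 2 < Nat.card G) (hm : m = 1) :
    ∃ H : Subgroup G, IsFrobeniusComplement H ∧ frobeniusKernel H = (N : Set G) ∧
      Nat.card H + 1 = Nat.card N := by
  have hn := hD.two_le
  have hidx : N.index = Nat.card N - 1 := by
    have h := Subgroup.card_mul_index N
    rw [hD.card_eq, hm, one_pow, mul_one] at h
    exact Nat.eq_of_mul_eq_mul_left Nat.card_pos h
  have hcop : (Nat.card N).Coprime N.index := by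
    have h1 : Nat.card N = Nat.card N - 1 + 1 := by omega
    rw [hidx, h1, Nat.add_sub_cancel]
    simp
  obtain ⟨H, hc⟩ := Subgroup.exists_right_complement'_of_coprime hcop
  have hH : Nat.card H = Nat.card N - 1 := by rw [← hidx, hc.symm.index_eq_card]
  have hN1 : N ≠ ⊥ := fun h => by
    have h' : Nat.card N = 1 := by rw [h, Subgroup.card_bot]
    omega
  have hH1 : H ≠ ⊥ := fun h => by
    have h' : Nat.card H = 1 := by rw [h, Subgroup.card_bot]
    have := hD.card_eq
    rw [hm, show Nat.card N = 2 by omega] at this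
    omega
  have hF := Cfsg.Lib.Solv.isFrobeniusComplement_of_fpf hc hN1 hH1 fun h hh hh1 => by
    rw [Subgroup.eq_bot_iff_forall]
    intro v hv
    by_contra hv1
    have hle : N ≤ centralizer ({v} : Set G) := fun w hw =>
      mem_centralizer_singleton_iff.2 (hD.commute hw hv.1)
    have heq : N = centralizer ({v} : Set G) := Subgroup.eq_of_le_of_card_ge hle (by
      rw [hD.card_centralizer hv.1 hv1, hm, one_pow, mul_one])
    have hhN : h ∈ N := heq ▸ mem_centralizer_singleton_iff.2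
      (mem_centralizer_singleton_iff.1 hv.2).symm
    exact hh1 (Subgroup.disjoint_def.1 hc.disjoint hhN hh)
  exact ⟨H, hF, (Cfsg.Lib.Solv.eq_frobeniusKernel hF N hc).symm, by omega⟩

theorem GagolaData.one_of_complement [Finite G] {H : Subgroup G}
    (hF : IsFrobeniusComplement H) (hker : frobeniusKernel H = (N : Set G))
    (hcard : Nat.card H + 1 = Nat.card N) : m = 1 := by
  have hn := hD.two_le
  have h1 : H.index = Nat.card N := by
    rw [← Cfsg.Lib.Solv.card_frobeniusKernel hF, hker]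
    rfl
  have h := Subgroup.card_mul_index H
  rw [h1, hD.card_eq, show Nat.card H = Nat.card N - 1 by omega, mul_comm] at h
  have h2 := Nat.eq_of_mul_eq_mul_left Nat.card_pos h
  have h3 : (Nat.card N - 1) * 1 = (Nat.card N - 1) * m ^ 2 := by rw [mul_one]; exact h2
  exact (Nat.pow_eq_one.1 (Nat.eq_of_mul_eq_mul_left (by omega) h3).symm).resolve_right two_ne_zero

/-- Gagola's criterion. -/
theorem GagolaData.core_iff [Finite G] [hp : Fact p.Prime] [hNn : N.Normal] (hG : 2 < Nat.card G) :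
    N = pCore p G ↔ ∃ H : Subgroup G, IsFrobeniusComplement H ∧ frobeniusKernel H = (N : Set G) ∧
      Nat.card H + 1 = Nat.card N := by
  refine ⟨fun h => ?_, fun ⟨H, hF, hk, hc⟩ => hD.eq_core_of_one (hD.one_of_complement hF hk hc)⟩
  refine hD.exists_complement hG ?_
  by_contra hm
  exact hD.false_of_core h (by have := hD.m_pos; omega)

end

end Cfsg.Lib.Blocks
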