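import Cfsg.Agent.Lib.Blocks.TwoClasses
import Cfsg.Agent.Lib.Blocks.InflationBijection
import Cfsg.Agent.Lib.Characters.Normal

/-!
# Basic structure of characters supported on two classes
-/

set_option autoImplicit false
open scoped ComplexConjugate
open Cfsg Cfsg.Lib.Characters Subgroup

universe u

namespace Cfsg.Lib.Blocks

variable {G : Type u} [Group G] [Finite G]

/-- The structure of a two-class character: its support is a minimal normal subgroup lying in the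
kernel of all other irreducible characters. -/
structure TwoClassData (χ : IrrCharacter G) (N : Subgroup G) : Prop where
  normal : N.Normal
  ne_bot : N ≠ ⊥
  mem_iff : ∀ g : G, g ∈ N ↔ (χ : G → ℂ) g ≠ 0
  trans : ∀ x ∈ N, ∀ y ∈ N, x ≠ 1 → y ≠ 1 → IsConj x y
  ker : ∀ ψ : IrrCharacter G, ψ ≠ χ → ∀ n ∈ N, (ψ : G → ℂ) n = (ψ : G → ℂ) 1
  faithful : ∀ g : G, (χ : G → ℂ) g = (χ : G → ℂ) 1 → g = 1
  le_normal : ∀ K : Subgroup G, K.Normal → K ≠ ⊥ → N ≤ K

theorem exists_twoClassData (hG : 2 < Nat.card G) (χ : IrrCharacter G)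
    (hχ : Nat.card {C : ConjClasses G // ∃ g ∈ C.carrier, (χ : G → ℂ) g ≠ 0} = 2) :
    ∃ N : Subgroup G, TwoClassData χ N := by
  classical
  haveI := Fintype.ofFinite G
  obtain ⟨d, hd0, hd⟩ := χ.2.exists_degree_pos
  have hd1 : (χ : G → ℂ) 1 ≠ 0 := χ.2.one_ne_zero
  obtain ⟨x, hx0, hx1, hall⟩ : ∃ x : G, (χ : G → ℂ) x ≠ 0 ∧ x ≠ 1 ∧
      ∀ g : G, (χ : G → ℂ) g ≠ 0 → g = 1 ∨ IsConj x g := by
    obtain ⟨a, b, hab, huniv⟩ := Nat.card_eq_two_iff.1 hχ
    let one' : {C : ConjClasses G // ∃ g ∈ C.carrier, (χ : G → ℂ) g ≠ 0} :=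
      ⟨ConjClasses.mk 1, 1, ConjClasses.mem_carrier_mk, hd1⟩
    obtain ⟨o, ho, hcases⟩ : ∃ o : {C : ConjClasses G // ∃ g ∈ C.carrier, (χ : G → ℂ) g ≠ 0},
        o ≠ one' ∧ ∀ z, z = one' ∨ z = o := by
      have hz : ∀ z, z = a ∨ z = b := fun z => by
        have := huniv.ge (Set.mem_univ z)
        simpa using this
      rcases hz one' with h | h
      · exact ⟨b, h ▸ hab.symm, fun z => h ▸ hz z⟩
      · exact ⟨a, h ▸ hab, fun z => h ▸ (hz z).symm⟩
    obtain ⟨⟨C, x, hxC, hx0⟩, rfl⟩ : ∃ o' : {C : ConjClasses G // ∃ g ∈ C.carrier, (χ : G → ℂ) g ≠ 0}, o' = o :=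
      ⟨o, rfl⟩
    rw [ConjClasses.mem_carrier_iff_mk_eq] at hxC
    refine ⟨x, hx0, fun h => ho (Subtype.ext ?_), fun g hg => ?_⟩
    · rw [h] at hxC
      exact hxC.symm
    rcases hcases ⟨ConjClasses.mk g, g, ConjClasses.mem_carrier_mk, hg⟩ with h | h
    · exact Or.inl (isConj_one_left.1 (ConjClasses.mk_eq_mk_iff_isConj.1 (congrArg Subtype.val h)))
    · refine Or.inr (ConjClasses.mk_eq_mk_iff_isConj.1 ?_)
      rw [hxC]
      exact (congrArg Subtype.val h).symm
  set k := Nat.card {y : G // IsConj x y} with hk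
  have hsum : ∀ f : G → ℂ, IsClassFunction G f →
      ∑ g : G, f g * conj ((χ : G → ℂ) g) = f 1 * (d : ℂ) + (k : ℂ) * (f x * conj ((χ : G → ℂ) x)) := by
    intro f hf
    have hsh : ∀ g : G, f g * conj ((χ : G → ℂ) g) = (if g = 1 then f 1 * (d : ℂ) else 0) +
        (if IsConj x g then f x * conj ((χ : G → ℂ) x) else 0) := by
      intro g
      by_cases hg1 : g = 1
      · subst hg1
        rw [if_pos rfl, if_neg (fun h => hx1 (isConj_one_left.1 h)), hd, map_natCast, add_zero]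
      · by_cases hg : IsConj x g
        · rw [if_neg hg1, if_pos hg, zero_add,
            ← isClassFunction_iff_isConj.mp hf x g hg,
            ← isClassFunction_iff_isConj.mp χ.2.isClassFunction x g hg]
        · have h0 : (χ : G → ℂ) g = 0 := by
            by_contra h
            exact (hall g h).elim hg1 hg
          rw [if_neg hg1, if_neg hg, h0, map_zero, mul_zero, add_zero]
    rw [Finset.sum_congr rfl fun g _ => hsh g, Finset.sum_add_distrib, Finset.sum_ite_eq',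
      if_pos (Finset.mem_univ _), ← Finset.sum_filter, Finset.sum_const, nsmul_eq_mul, hk,
      Nat.card_eq_fintype_card, Fintype.card_subtype]
  have horth : ∀ ψ : IrrCharacter G, ψ ≠ χ →
      (ψ : G → ℂ) 1 * (d : ℂ) + (k : ℂ) * ((ψ : G → ℂ) x * conj ((χ : G → ℂ) x)) = 0 := by
    intro ψ hψ
    have h := classInner_irr_ne ψ.2 χ.2 fun e => hψ (Subtype.ext e)
    rw [classInner, mul_eq_zero, inv_eq_zero, or_iff_right (Nat.cast_ne_zero.2 Nat.card_pos.ne'),
      hsum _ ψ.2.isClassFunction] at h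
    exact h
  let one : IrrCharacter G := ⟨fun _ => 1, isIrrCharacter_one⟩
  have hne : one ≠ χ := by
    intro h
    have hv : ∀ g : G, (χ : G → ℂ) g = 1 := fun g => by rw [← h]
    have e : {y : G // IsConj x y} ≃ {y : G // y ≠ 1} :=
      Equiv.subtypeEquivRight fun y => ⟨fun h e => hx1 (by subst e; exact isConj_one_left.1 h),
        fun hy => (hall y (by rw [hv]; exact one_ne_zero)).resolve_left hy⟩
    have hle := card_conj_eq_index x
    rw [Nat.card_congr e, Nat.card_eq_fintype_card, Fintype.card_subtype_compl,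
      Fintype.card_subtype_eq, ← Nat.card_eq_fintype_card] at hle
    have hdvd : Nat.card G - 1 ∣ Nat.card G := hle ▸ Subgroup.index_dvd_card _
    have h2 : Nat.card G - 1 ∣ 1 := by
      have := Nat.dvd_sub hdvd (dvd_refl (Nat.card G - 1))
      rwa [show Nat.card G - (Nat.card G - 1) = 1 by omega] at this
    have := Nat.le_of_dvd one_pos h2
    omega
  have h1 : (d : ℂ) + (k : ℂ) * conj ((χ : G → ℂ) x) = 0 := by simpa [one] using horth one hne
  have hkx : ∀ ψ : IrrCharacter G, ψ ≠ χ → (ψ : G → ℂ) x = (ψ : G → ℂ) 1 := by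
    intro ψ hψ
    refine mul_right_cancel₀ (Nat.cast_ne_zero.2 hd0.ne' : (d : ℂ) ≠ 0) ?_
    linear_combination (ψ : G → ℂ) x * h1 - horth ψ hψ
  let N : Subgroup G := ⨅ ψ : {ψ : IrrCharacter G // ψ ≠ χ}, charKer ψ.1.2.isCharacter
  haveI hNn : N.Normal := Subgroup.normal_iInf_normal fun ψ => charKer_normal ψ.1.2.isCharacter
  have hxN : x ∈ N := Subgroup.mem_iInf.2 fun ψ => (mem_charKer _).2 (hkx ψ.1 ψ.2)
  have hker : ∀ ψ : IrrCharacter G, ψ ≠ χ → ∀ n ∈ N, (ψ : G → ℂ) n = (ψ : G → ℂ) 1 := fun ψ hψ n hn =>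
    (mem_charKer _).1 (Subgroup.mem_iInf.1 hn ⟨ψ, hψ⟩)
  have hmem : ∀ g : G, g ∈ N ↔ (χ : G → ℂ) g ≠ 0 := by
    intro g
    refine ⟨fun hg h0 => ?_, fun hg => ?_⟩
    · have hg1 : g ≠ 1 := fun h => hd1 (h ▸ h0)
      have hreg := sum_degree_mul_irr g
      rw [if_neg hg1, ← Finset.add_sum_erase _ _ (Finset.mem_univ χ), h0, mul_zero, zero_add] at hreg
      choose e he using fun ψ : IrrCharacter G => exists_degree ψ.2.isCharacter
      have h2 : ((∑ ψ ∈ Finset.univ.erase χ, e ψ * e ψ : ℕ) : ℂ) = ((0 : ℕ) : ℂ) := by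
        rw [Nat.cast_sum, Nat.cast_zero, ← hreg]
        refine Finset.sum_congr rfl fun ψ hψ => ?_
        rw [hker ψ (Finset.ne_of_mem_erase hψ) g hg, he, Nat.cast_mul]
      have h3 := (Finset.sum_eq_zero_iff.1 (Nat.cast_inj.1 h2)) one
        (Finset.mem_erase.2 ⟨hne, Finset.mem_univ _⟩)
      have h4 := he one
      rw [Nat.mul_eq_zero.1 h3 |>.elim id id, Nat.cast_zero] at h4
      exact one_ne_zero (α := ℂ) h4
    · rcases hall g hg with rfl | h
      · exact N.one_mem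
      · obtain ⟨c, hc⟩ := isConj_iff.1 h
        exact hc ▸ hNn.conj_mem _ hxN c
  have htrans : ∀ a ∈ N, ∀ b ∈ N, a ≠ 1 → b ≠ 1 → IsConj a b := fun a ha b hb ha1 hb1 =>
    ((hall a ((hmem a).1 ha)).resolve_left ha1).symm.trans ((hall b ((hmem b).1 hb)).resolve_left hb1)
  have hfaith : ∀ g : G, (χ : G → ℂ) g = (χ : G → ℂ) 1 → g = 1 := by
    intro g hg
    by_contra hg1
    have hcg := (hall g (hg ▸ hd1)).resolve_left hg1
    rw [← isClassFunction_iff_isConj.mp χ.2.isClassFunction x g hcg, hd] at hg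
    rw [hg, map_natCast] at h1
    have h5 : ((d + k * d : ℕ) : ℂ) = ((0 : ℕ) : ℂ) := by push_cast; exact h1
    have h6 := Nat.cast_inj.1 h5
    omega
  refine ⟨N, hNn, fun h => hx1 ((Subgroup.mem_bot).1 (h ▸ hxN)), hmem, htrans, hker, hfaith, ?_⟩
  intro K hK hK1
  obtain ⟨m, hm, hm1⟩ := (Subgroup.bot_or_exists_ne_one K).resolve_left hK1
  by_contra hNK
  have hint : ∀ g ∈ K, g ∈ N → g = 1 := by
    intro g hgK hgN
    by_contra hg1
    apply hNK
    intro n hn
    rcases eq_or_ne n 1 with rfl | hn1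
    · exact K.one_mem
    · obtain ⟨c, hc⟩ := isConj_iff.1 (htrans g hgN n hn hg1 hn1)
      exact hc ▸ hK.conj_mem g hgK c
  have hmN : m ∉ N := fun h => hm1 (hint m hm h)
  have hxK : x ∉ K := fun h => hx1 (hint x h hxN)
  have hnc : ¬ IsConj (x * m) m := by
    intro h
    obtain ⟨c, hc⟩ := isConj_iff.1 h.symm
    have := K.mul_mem (hc ▸ hK.conj_mem m hm c : x * m ∈ K) (K.inv_mem hm)
    rw [mul_inv_cancel_right] at this
    exact hxK this
  have hcol := column_orthogonality (x * m) m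
  rw [if_neg hnc] at hcol
  have hm0 : (χ : G → ℂ) m = 0 := not_not.1 fun h => hmN ((hmem m).2 h)
  have hcol2 := column_orthogonality m m
  rw [if_pos (IsConj.refl m)] at hcol2
  rw [Finset.sum_congr rfl fun (ψ : IrrCharacter G) _ =>
    show (ψ : G → ℂ) (x * m) * conj ((ψ : G → ℂ) m) = (ψ : G → ℂ) m * conj ((ψ : G → ℂ) m) by
      by_cases hψ : ψ = χ
      · subst hψ; rw [hm0, map_zero, mul_zero, mul_zero]
      · rw [char_mul_ker ψ.2.isCharacter (hkx ψ hψ)], hcol2] at hcol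
  exact Nat.card_pos.ne' (Nat.cast_eq_zero.1 hcol)

theorem TwoClassData.exists_prime {χ : IrrCharacter G} {N : Subgroup G} (h : TwoClassData χ N) :
    ∃ p : ℕ, p.Prime ∧ IsPGroup p N ∧ ∀ v ∈ N, v ^ p = 1 := by
  haveI := (Subgroup.nontrivial_iff_ne_bot N).2 h.ne_bot
  have hn : Nat.card N ≠ 1 := Finite.one_lt_card.ne'
  obtain ⟨p, hp, hpd⟩ := Nat.exists_prime_and_dvd hn
  haveI : Fact p.Prime := ⟨hp⟩
  obtain ⟨z, hz⟩ := exists_prime_orderOf_dvd_card' (G := N) p hpd
  have hz1 : (z : G) ≠ 1 := fun e => by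
    rw [Subtype.ext e (a2 := (1 : N)), orderOf_one] at hz
    exact hp.one_lt.ne hz
  have hpow : ∀ v ∈ N, v ^ p = 1 := by
    intro v hv
    rcases eq_or_ne v 1 with rfl | hv1
    · simp
    obtain ⟨g, hg⟩ := isConj_iff.1 (h.trans _ z.2 v hv hz1 hv1)
    have h1 : (z : G) ^ p = 1 := by
      have := pow_orderOf_eq_one z
      rw [hz] at this
      exact congrArg Subtype.val this
    rw [← hg, conj_pow, h1, mul_one, mul_inv_cancel]
  exact ⟨p, hp, fun v => ⟨1, by rw [pow_one]; exact Subtype.ext (hpow v v.2)⟩, hpow⟩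

end Cfsg.Lib.Blocks
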